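import Cfsg.Agent.H3.AH1

set_option autoImplicit false
set_option linter.unusedSectionVars false
set_option maxHeartbeats 400000

/-! The case of a semiregular family: all involutions at a point commute. -/

namespace CfsgSE

open Subgroup CfsgH5 CfsgH6 CfsgFT CfsgSZ CfsgSZ.PS

universe u

variable {G Ω : Type u} [Group G] [Finite G] [MulAction G Ω]
  {a b c d e : Ω} {X Y R P V : Subgroup G} {u s t x y z j k g : G} {p q : ℕ} {A : Ω → Subgroup G}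

/-- (CQ) -/
theorem ah_cq (hp : p.Prime) (h2 : p ≠ 2) (hP : IsPGroup p P) (hV : V ≠ ⊥) (hn : Nrm P V)
    (hd : ∀ x ∈ P, x ∈ C V ∨ V ⊓ C1 x = ⊥) : D P ≤ C V := by
  by_cases h0 : P ≤ C V
  · exact (D_le P).trans h0
  obtain ⟨x0, x1, x2⟩ := SetLike.not_le_iff_exists.1 h0
  have x3 := (hd x0 x1).resolve_left x2
  have nK : Nrm P (P ⊓ C V) := (Nrm.self P).inf hn.C
  have nV : Nrm V (P ⊓ C V) := nrm_of_le_C (le_C_comm.1 inf_le_right)
  have KV : P ⊓ C V ⊓ V = ⊥ := by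
    by_contra f
    refine inf_C_ne_bot_of_isPGroup hp (A := zpowers x0) (hP.to_le (inf_le_left.trans inf_le_left))
      (hP.to_le (zpowers_le.2 x1)) ((nK.inf hn).mono (zpowers_le.2 x1)) f ?_
    rw [C_zpowers, eq_bot_iff, ← x3]
    exact inf_le_inf_right _ inf_le_right
  have sr : SemiReg (quo (P ⊓ C V) V) (quo (P ⊓ C V) P) := fun w hw w1 => by
    obtain ⟨x, y1, y2, rfl⟩ := mem_img'.1 hw
    have y3 := (hd x y1).resolve_left fun f => w1 (qm_eq_one.2 ⟨y1, f⟩)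
    rw [eq_bot_iff]
    rintro _ ⟨v0, v1⟩
    obtain ⟨v, v2, v3, rfl⟩ := mem_img'.1 v0
    have e := mem_C1.1 v1
    rw [← map_mul, ← map_mul, qm_eq_iff] at e
    have e1 : (v * x)⁻¹ * (x * v) ∈ P ⊓ C V ⊓ V := ⟨e, by
      have := mul_mem (hn.conj' y1 (inv_mem v2)) v2
      rwa [show x⁻¹ * v⁻¹ * x * v = (v * x)⁻¹ * (x * v) by group] at this⟩
    rw [KV, mem_bot, inv_mul_eq_one] at e1
    have e2 : v ∈ V ⊓ C1 x := ⟨v2, mem_C1.2 e1⟩
    rw [y3, mem_bot] at e2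
    subst e2
    exact mem_bot.2 (map_one _)
  have cyc := sr.isCyclic_of_nilpotent (hn.quo _)
    (fun f => hV (by rw [← KV]; exact (inf_eq_right.2 ((quo_eq_bot nV).1 f)).symm))
    (pt_odd_of_isPGroup hp h2 (isPGroup_quo _ hP)) (nilpotent_of_isPGroup hp (isPGroup_quo _ hP))
  exact ((ab_quo_iff nK).1 (ab_of_isCyclic cyc)).trans inf_le_right

theorem ah_elt {r r' : G} (hr : Iv r) (hc : r' * r = r * r') (rn : r ∈ N Y)
    (hn : ¬ ∃ x ∈ Y, x ≠ 1 ∧ r' * x * r'⁻¹ = x ∧ r * x * r⁻¹ = x⁻¹) : Y ⊓ C1 r' ≤ C1 r := by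
  intro g hg
  by_contra f
  refine hn ⟨g * r * g⁻¹ * r, pt_comm_mem hr.sq rn hg.1, fun e => f (mem_C1_iff_conj.2 ?_), ?_,
    pt_inv_comm hr.sq g⟩
  · rw [eq_inv_of_mul_eq_one_left e, hr.inv]
  · have a1 : r ∈ C1 r' := mem_C1.2 hc.symm
    exact mem_C1_iff_conj'.1 (mul_mem (mul_mem (mul_mem hg.2 a1) (inv_mem hg.2)) a1)

namespace SE
variable (S : SE G Ω) (h : AH Ω q A)
  (four : ∃ s t : G, Iv s ∧ Iv t ∧ s ≠ t ∧ s * t = t * s)
include S h four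

theorem ah_two (hp : p.Prime) (h2 : p ≠ 2) (hY : IsPGroup p Y) (h1 : Y ≤ St G e)
    (h3 : Y ≤ St G b) (hb : b ≠ e) (hs : Iv s) (ht : Iv t) (s1 : s • e = e) (hne : t ≠ s)
    (hc : t * s = s * t) (sn : s ∈ N Y) (tn : t ∈ N Y) (x1 : x ∈ Y) (y1 : y ∈ Y) (x2 : x ≠ 1)
    (y2 : y ≠ 1) (x3 : s * x * s⁻¹ = x) (x4 : t * x * t⁻¹ = x⁻¹) (y3 : t * y * t⁻¹ = y)
    (y4 : s * y * s⁻¹ = y⁻¹) : False := by
  have t1 : t • e = e := S.smul_eq hs s1 hc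
  have ho := pt_odd_of_isPGroup hp h2 hY
  have xC := S.inv_mem_C h hb (h1 x1) (h3 x1) ht t1 x4
  have yC := S.inv_mem_C h hb (h1 y1) (h3 y1) hs s1 y4
  have z1 : ∀ c : Ω, Y ≤ St G c → x * y * x⁻¹ * y⁻¹ ∈ C (A c) := fun c hc' =>
    ah_cq (P := Y ⊓ C (A e)) hp h2 hY.to_inf_left (h.ne c)
      (nrm_of_le_N fun w hw => h.nrm (hc' hw.1))
      (fun w hw => or_iff_not_imp_right.2 fun f => S.di h hw.2 f)
      (commutator_mem_commutator (g₁ := x) (g₂ := y) ⟨x1, xC⟩ ⟨y1, yC⟩)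
  have zY : x * y * x⁻¹ * y⁻¹ ∈ Y := mul_mem (mul_mem (mul_mem x1 y1) (inv_mem x1)) (inv_mem y1)
  have z2 : ∀ r : G, Iv r → r • e = e → r ∈ N Y → ∀ w ∈ Y, r * w * r⁻¹ = w⁻¹ →
      r ∈ C1 (x * y * x⁻¹ * y⁻¹) ∧ w ∈ C1 (x * y * x⁻¹ * y⁻¹) := fun r r1 r2 r3 w w1 w2 => by
    have r4 := S.moves r1 r2 hb
    have r5 := le_St_smul h3 r3
    have f : ∀ i : G, Iv i → i • b = r • b → i ∈ C1 (x * y * x⁻¹ * y⁻¹) := fun i i1 i2 =>
      S.m0s h four r4 (h3 zY) (r5 zY) (z1 b h3) (z1 _ r5) i1 i2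
    exact ⟨f r r1 rfl, (mul_mem_cancel_left (f r r1 rfl)).1
      (f _ (r1.mul_of_inv (pt_odd_mem ho w1) w2) (by rw [mul_smul, show w • b = b from h3 w1]))⟩
  obtain ⟨a1, a2⟩ := z2 s hs s1 sn y y1 y4
  have z3 : x * y * x⁻¹ * y⁻¹ = 1 := by
    refine pt_eq_one (pt_odd_mem ho zY) ?_
    have b1 := mem_C1_iff_conj.1 a1
    have b2 := mem_C1_iff_conj.1 (inv_mem a2)
    have b3 : s * (x * y * x⁻¹ * y⁻¹) * s⁻¹ = x * y⁻¹ * x⁻¹ * y := by
      calc _ = (s * x * s⁻¹) * (s * y * s⁻¹) * (s * x * s⁻¹)⁻¹ * (s * y * s⁻¹)⁻¹ := by group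
        _ = _ := by rw [x3, y4, inv_inv]
    nth_rw 1 [← b1, b3]
    nth_rw 1 [← b2]
    group
  have xy : x * y = y * x := by
    calc x * y = x * y * x⁻¹ * y⁻¹ * (y * x) := by group
      _ = _ := by rw [z3, one_mul]
  have ab : Ab (zpowers x ⊔ zpowers y) := by
    have a : zpowers x ≤ C (zpowers y) := by rw [C_zpowers, zpowers_le, mem_C1]; exact xy
    exact sup_le (le_C_sup (ab_zpowers x) a) (le_C_sup (le_C_comm.1 a) (ab_zpowers y))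
  have BY : zpowers x ⊔ zpowers y ≤ Y := sup_le (zpowers_le.2 x1) (zpowers_le.2 y1)
  have hst := hs.mul ht hc hne
  have i1 : t * s * x * (t * s)⁻¹ = x⁻¹ := by
    calc _ = t * (s * x * s⁻¹) * t⁻¹ := by group
      _ = _ := by rw [x3, x4]
  have i2 : t * s * y * (t * s)⁻¹ = y⁻¹ := by
    calc _ = t * (s * y * s⁻¹) * t⁻¹ := by group
      _ = (t * y * t⁻¹)⁻¹ := by rw [y4]; group
      _ = _ := by rw [y3]
  have inv : ∀ w ∈ zpowers x ⊔ zpowers y, t * s * w * (t * s)⁻¹ = w⁻¹ := fun w hw => by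
    have n : Nrm (zpowers x) (zpowers y) :=
      nrm_of_le_C (by rw [C_zpowers, zpowers_le, mem_C1]; exact xy)
    obtain ⟨v1, v2, v3, v4, rfl⟩ := (mem_sup_nrm n).1 hw
    have cm : v1 * v3 = v3 * v1 := ab.comm (mem_sup_left v2) (mem_sup_right v4)
    calc _ = (t * s * v1 * (t * s)⁻¹) * (t * s * v3 * (t * s)⁻¹) := by group
      _ = _ := by rw [pt_inv_zp i1 v2, pt_inv_zp i2 v4, cm]; group
  have sr : SemiReg (A b) (zpowers x ⊔ zpowers y) := fun w hw w1 =>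
    S.fpf h four hb (h1 (BY hw)) (h3 (BY hw)) hst (by rw [mul_smul, s1, t1]) (inv w hw) w1
  have cyc := sr.isCyclic_of_ab (nrm_of_le_N fun w hw => h.nrm (h3 (BY hw))) (h.ne b) ab
  obtain ⟨w, w1, w2⟩ := ah_ex (inf_ne_bot_of_isCyclic hp cyc (hY.to_le BY) le_sup_left le_sup_right
    (by simpa using x2) (by simpa using y2))
  have w3 : s ∈ C1 w := mem_C1_comm.1 ((zpowers_le (H := C1 s)).2
    (mem_C1_comm.1 (mem_C1_iff_conj.2 x3)) w1.1)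
  have w4 := pt_inv_zp y4 w1.2
  rw [mem_C1_iff_conj.1 w3] at w4
  exact w2 (pt_eq_one (pt_odd_mem ho (BY (mem_sup_left w1.1)))
    (by nth_rw 2 [w4]; exact mul_inv_cancel w))

/-- (NV) -/
theorem ah_nv (hp : p.Prime) (h2 : p ≠ 2) (hY : IsPGroup p Y) (h1 : Y ≤ St G e)
    (h3 : Y ≤ St G b) (hb : b ≠ e) (hs : Iv s) (ht : Iv t) (s1 : s • e = e) (hne : t ≠ s)
    (hc : t * s = s * t) (sn : s ∈ N Y) (tn : t ∈ N Y) (n1 : ¬ Y ≤ C1 s) (n2 : ¬ Y ≤ C1 t)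
    (n3 : ¬ Y ≤ C1 (t * s)) : False := by
  have t1 : t • e = e := S.smul_eq hs s1 hc
  have ho := pt_odd_of_isPGroup hp h2 hY
  have hst := hs.mul ht hc hne
  have f := elAb_four hs ht hc
  have l : Ln (zpowers t ⊔ zpowers s) t s :=
    ⟨mem_sup_left (mem_zpowers t), mem_sup_right (mem_zpowers s), ht.ne, hs.ne, hne⟩
  have gen : ∀ K : Subgroup G, Y ⊓ C1 t ≤ K → Y ⊓ C1 s ≤ K → Y ⊓ C1 (t * s) ≤ K → Y ≤ K :=
    fun K => l.gen f ((nrm_N Y).mono (sup_le (zpowers_le.2 tn) (zpowers_le.2 sn))) ho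
  have c1 : t * s * s = s * (t * s) := by rw [← mul_assoc, ← hc]
  have c2 : t * s * t = t * (t * s) := by rw [mul_assoc, ← hc]
  have m1 : ∀ g, g ∈ C1 s → g ∈ C1 t → g ∈ C1 (t * s) := fun g a1 a2 =>
    mem_C1_comm.1 (mul_mem (mem_C1_comm.1 a2) (mem_C1_comm.1 a1))
  have m2 : ∀ g, g ∈ C1 s → g ∈ C1 (t * s) → g ∈ C1 t := fun g a1 a2 =>
    mem_C1_comm.1 ((mul_mem_cancel_right (mem_C1_comm.1 a1)).1 (mem_C1_comm.1 a2))
  have q1 : t * s ≠ s := fun e => ht.ne (mul_eq_right.1 e)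
  have q2 : t * s ≠ t := fun e => hs.ne (mul_eq_left.1 e)
  by_cases p1 : ∃ x ∈ Y, x ≠ 1 ∧ s * x * s⁻¹ = x ∧ t * x * t⁻¹ = x⁻¹ <;>
  by_cases p2 : ∃ x ∈ Y, x ≠ 1 ∧ t * x * t⁻¹ = x ∧ s * x * s⁻¹ = x⁻¹
  · obtain ⟨x, x1, x2, x3, x4⟩ := p1
    obtain ⟨y, y1, y2, y3, y4⟩ := p2
    exact S.ah_two h four hp h2 hY h1 h3 hb hs ht s1 hne hc sn tn x1 y1 x2 y2 x3 x4 y3 y4
  all_goals by_cases p3 : ∃ x ∈ Y, x ≠ 1 ∧ t * s * x * (t * s)⁻¹ = x ∧ s * x * s⁻¹ = x⁻¹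
  · obtain ⟨x, x1, x2, x3, x4⟩ := p1
    obtain ⟨y, y1, y2, y3, y4⟩ := p3
    refine S.ah_two h four hp h2 hY h1 h3 hb hs hst s1 q1 c1 sn (mul_mem tn sn) x1 y1 x2 y2 x3 ?_
      y3 y4
    calc _ = t * (s * x * s⁻¹) * t⁻¹ := by group
      _ = _ := by rw [x3, x4]
  · exact n1 (gen _ (ah_elt hs hc sn p2) inf_le_right (ah_elt hs c1 sn p3))
  · obtain ⟨x, x1, x2, x3, x4⟩ := p2
    obtain ⟨y, y1, y2, y3, y4⟩ := p3
    refine S.ah_two h four hp h2 hY h1 h3 hb ht hst t1 q2 c2 tn (mul_mem tn sn) x1 y1 x2 y2 x3 ?_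
      y3 ?_
    · calc _ = t * (s * x * s⁻¹) * t⁻¹ := by group
        _ = (t * x * t⁻¹)⁻¹ := by rw [x4]; group
        _ = _ := by rw [x3]
    · rw [← inv_inj, inv_inv]
      nth_rw 2 [← y3]
      calc _ = t * y⁻¹ * t⁻¹ := by group
        _ = _ := by rw [← y4]; group
  · have a1 := ah_elt ht hc.symm tn p1
    exact n2 (gen _ inf_le_right a1 fun g hg => m2 g (ah_elt hs c1 sn p3 hg) hg.2)
  · have a1 := ah_elt ht hc.symm tn p1
    exact n3 (gen _ (fun g hg => m1 g (ah_elt hs hc sn p2 hg) hg.2)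
      (fun g hg => m1 g hg.2 (a1 hg)) inf_le_right)
  · exact n1 (gen _ (ah_elt hs hc sn p2) inf_le_right (ah_elt hs c1 sn p3))

/-- (3): a maximal `p`-subgroup fixing three points is centralised by an involution. -/
theorem ah_three (hp : p.Prime) (h2 : p ≠ 2)
    (F2 : ∀ (b c : Ω) (R : Subgroup G), b ≠ c → SylIn p R (St G b ⊓ St G c) → Fix2 R b c)
    (hY : MaxF3 Ω p Y) : ∃ y, ∃ e : Ω, Iv y ∧ y • e = e ∧ Y ≤ C1 y := by
  have := Fact.mk hp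
  obtain ⟨y, e, hy, yn, ye, Ye⟩ := S.step1 hp h2 hY
  refine ⟨y, e, hy, ye, ?_⟩
  by_contra hn
  have ho := pt_odd_of_isPGroup hp h2 hY.grp
  obtain ⟨b, hb, Yb⟩ := hY.fix.exists_ne e
  have big : ∀ c d : Ω, c ≠ d → Y ≤ St G c → Y ≤ St G d →
      ∃ P ≤ N Y, IsPGroup p P ∧ Fix2 P c d := fun c d hcd Yc Yd => by
    obtain ⟨R, r1, r2⟩ := exists_sylIn_ge (le_inf Yc Yd) hY.grp
    have r3 := F2 c d R hcd r2
    have r4 : Y < R := lt_of_le_of_ne r1 fun f => by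
      obtain ⟨a1, a2, a3, n1, n2, n3, f1, f2, f3⟩ := hY.fix
      rw [f] at f1 f2 f3
      rcases r3.only _ f1 with e1 | e1 <;> rcases r3.only _ f2 with e2 | e2 <;>
        rcases r3.only _ f3 with e3 | e3 <;>
        first
          | exact n1 (e1.trans e2.symm)
          | exact n2 (e1.trans e3.symm)
          | exact n3 (e2.trans e3.symm)
    have r5 := lt_inf_N_of_nilpotent (nilpotent_of_isPGroup hp r2.isPGroup) r4
    have r6 := r2.isPGroup.to_le (inf_le_left (b := N Y))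
    exact ⟨_, inf_le_right, r6, (fix2_or_fix3 hcd (inf_le_left.trans r3.l)
      (inf_le_left.trans r3.r)).resolve_right fun f => r5.ne' (hY.max _ r6 f r5.le)⟩
  have nl : ¬ N Y ≤ St G e := fun f => by
    obtain ⟨P, p1, -, p3⟩ := big b (y • b) (S.moves hy ye hb).symm Yb (le_St_smul Yb yn)
    exact (p3.only e (p1.trans f)).elim (fun i => hb i.symm) fun i => S.moves' hy ye hb i.symm
  have nc : ∀ v ∈ N Y, Iv v → ¬ Y ≤ C1 v := fun v v1 v2 f => by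
    obtain ⟨g, g1, g2⟩ := S.conj_of_not_le hy yn ye nl v2 hy v1 yn
    refine hn ?_
    rw [← g2, ← cj_C1, ← CfsgFT.mem_N.1 g1]
    exact cj_mono f
  have hz := brauer_suzuki yn hy.ne hy.sq fun v v1 v2 c => by
    by_contra! f
    have v3 : Iv v := ⟨v2, f.1⟩
    exact S.ah_nv h four hp h2 hY.grp Ye Yb hb hy v3 ye f.2 c.symm.eq yn v1 hn (nc v v1 v3)
      (nc _ (mul_mem v1 yn) (hy.mul v3 c.symm.eq f.2))
  obtain ⟨P, p1, p2, p3⟩ := big e b hb.symm Ye Yb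
  have n : Nrm P (Opc 2 (N Y)) := (nrm_Opi _ _).mono p1
  have o : Odd (Nat.card ↥(Opc 2 (N Y) ⊔ P)) := Nat.coprime_two_right.1
    (coprime_sup_left (.inr n) (Nat.coprime_two_right.2 (odd_Opc _))
      (Nat.coprime_two_right.2 (pt_odd_of_isPGroup hp h2 p2)))
  have y1 := pt_nrm_of_zstar hz yn hy.sq p1
  have y2 : y ∈ N ((Opc 2 (N Y) ⊔ P) ⊓ St G e) := by
    rw [CfsgFT.mem_N, cj_inf, CfsgFT.mem_N.1 y1, cj_St, ye]
  obtain ⟨P1, s1, s2⟩ := exists_sylIn_ge (le_inf (le_sup_right (a := Opc 2 (N Y))) p3.l) p2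
  obtain ⟨g, hg, f⟩ := pt_exists_conj hy.sq y2 (o.of_dvd_nat (card_dvd_of_le inf_le_left)) hp s2
  have g1 : (g * y * g⁻¹) • e = e :=
    (mul_mem (mul_mem hg.2 (show y ∈ St G e from ye)) (inv_mem hg.2) : _ ∈ St G e)
  rcases (p3.of_le hp h2 s1 s2.isPGroup).cases f with i | i
  · exact S.moves (hy.conj g) g1 hb i.2
  · exact hb (i.1.symm.trans g1)

/-- the involutions at a point commute. -/
theorem ah_comm
    (F2 : ∀ p : ℕ, p.Prime → ∀ (a : Ω) (s : G), Iv s → s • a = a → p ∣ (C1 s).relIndex (St G a) →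
      ∀ (b c : Ω) (R : Subgroup G), b ≠ c → SylIn p R (St G b ⊓ St G c) → Fix2 R b c)
    (two : ∀ a b c : Ω, b ≠ a → c ≠ a → ∃ g ∈ St G a, g • b = c)
    (pts : ∀ a : Ω, ∃ b, b ≠ a) :
    ∀ (a : Ω) (s t : G), Iv s → Iv t → s • a = a → t • a = a → s * t = t * s := by
  intro a s t hs ht s1 t1
  obtain ⟨b, hb⟩ := pts a
  have nC : NormalIn (St G a ⊓ C (A a)) (St G a) :=
    ⟨inf_le_left, (Nrm.self _).inf (nrm_of_le_N fun g hg => h.nrmC hg)⟩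
  suffices f : (C1 s).relIndex (St G a ⊓ C (A a)) = 1 from
    (mem_C1.1 (relIndex_eq_one.1 f ⟨t1, h.cen a t ht t1⟩)).symm
  by_contra f
  obtain ⟨p, hp, hd⟩ := Nat.exists_prime_and_dvd f
  have := Fact.mk hp
  have hm : p ∣ (C1 s).relIndex (St G a) :=
    hd.trans (relIndex_dvd_of_normalIn (S.C1_le hs s1) nC)
  have h2 : p ≠ 2 := fun e => (Nat.not_even_iff_odd.2 (S.odd_m hb.symm hs s1))
    (even_iff_two_dvd.2 (e ▸ hm))
  have F := F2 p hp a s hs s1 hm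
  obtain ⟨R, r1⟩ := exists_sylIn p (St G a ⊓ St G b)
  have r2 := F a b R hb.symm r1
  have r3 : SylIn p (R ⊓ (St G a ⊓ C (A a))) (St G a ⊓ C (A a)) :=
    ((r2.sylIn hp h2 r1).of_le r2.l le_top).inf_nrm nC.1 nC.2
  generalize hX : R ⊓ (St G a ⊓ C (A a)) = X at r3
  have Xb : X ≤ St G b := by rw [← hX]; exact inf_le_left.trans r2.r
  have Xa : X ≤ St G a := r3.le.trans inf_le_left
  have XC : X ≤ C (A a) := r3.le.trans inf_le_right
  obtain ⟨x, x1, x2⟩ := ah_ex (h.ne a)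
  have x3 : x • b ≠ b := fun e => x2 (h.sr a b x x1 e hb)
  have x4 : x • b ≠ a := fun e => hb (MulAction.injective x (e.trans (h.le a x1).symm))
  have f3 : Fix3 Ω X := ⟨a, b, x • b, hb.symm, x4.symm, x3.symm, Xa, Xb,
    le_St_smul Xb (C_le_N X (le_C_comm.1 XC x1))⟩
  obtain ⟨Y, y1, y2⟩ := f3.exists_max r3.isPGroup
  obtain ⟨y, e, hy, ye, Yy⟩ := S.ah_three h four hp h2 F y2
  have Xy : X ≤ C1 y := y1.trans Yy
  have key : ∃ z, Iv z ∧ z • a = a ∧ X ≤ C1 z := by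
    by_cases he : e = a
    · exact ⟨y, hy, he ▸ ye, Xy⟩
    have Xe : X ≤ St G e := Xy.trans (S.C1_le hy ye)
    have a1 : y • a ≠ a := S.moves hy ye (Ne.symm he)
    have yN : y ∈ N X := C_le_N X (mem_C.2 fun w hw => mem_C1.1 (Xy hw))
    have a2 : X ≤ St G (y • a) := le_St_smul Xa yN
    have a3 : X ≤ C (A (y • a)) := fun w hw => by
      have := h.conjC (XC hw) y
      rwa [mem_C1_iff_conj'.1 (Xy hw)] at this
    obtain ⟨g, g1, g2⟩ := two a e (y • a) he a1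
    have b1 : SylIn p X (St G a ⊓ C (A a) ⊓ St G (y • a)) :=
      r3.of_le (le_inf r3.le a2) inf_le_left
    have b2 : SylIn p (cj g X) (St G a ⊓ C (A a) ⊓ St G (y • a)) := by
      have := r3.cjj g
      rw [nC.2.cj_eq g1] at this
      exact this.of_le (le_inf this.le (by rw [← g2, ← cj_St]; exact cj_mono Xe)) inf_le_left
    obtain ⟨k, k1, k2⟩ := b2.conj b1
    have b3 : X ≤ C (A e) := by
      have b4 : cj (k * g) X ≤ cj (k * g) (C (A e)) := by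
        rw [cj_C, h.cjj, mul_smul, g2, show k • y • a = y • a from k1.2, ← cj_cj, k2]
        exact a3
      have b6 := cj_mono (g := (k * g)⁻¹) b4
      rwa [cj_inv_cj, cj_inv_cj] at b6
    obtain ⟨j, hj, j1⟩ := S.exists_J (Ne.symm he)
    have b5 : X ≤ C1 j := fun w hw => mem_C1_comm.1
      (S.m0s h four he (Xa hw) (Xe hw) (XC hw) (b3 hw) hj j1)
    refine ⟨j * y * j⁻¹, hy.conj j, ?_, fun w hw => mem_C1_comm.1 (mul_mem (mul_mem
      (mem_C1_comm.1 (b5 hw)) (mem_C1_comm.1 (Xy hw))) (inv_mem (mem_C1_comm.1 (b5 hw))))⟩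
    rw [← swap_back hj.sq j1]
    exact conj_smul ye j
  obtain ⟨z, hz, z1, z2⟩ := key
  obtain ⟨g, g1, g2⟩ := S.conj_D hb.symm hz hs z1 s1
  have c1 := r3.cjj g
  rw [nC.2.cj_eq g1.1] at c1
  have c2 : cj g X ≤ C1 s := by rw [← g2, ← cj_C1]; exact cj_mono z2
  exact c1.not_dvd_relIndex (hd.trans (relIndex_dvd_of_le_left _ c2))

end SE

end CfsgSE
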