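import Cfsg.Agent.H9.SE1
import Cfsg.Agent.L.Q4B0

set_option autoImplicit false
set_option linter.unusedSectionVars false
set_option maxHeartbeats 400000

/-! Strongly embedded subgroup with a semiregular normal subgroup centralised by the involutions
of the point stabiliser: basic facts. -/

namespace CfsgSE

open Subgroup CfsgH5 CfsgH6 CfsgFT CfsgSZ CfsgSZ.PS

universe u

/-- an equivariant semiregular family centralised by the involutions at the point. -/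
structure AH {G : Type u} [Group G] (Ω : Type u) [MulAction G Ω] (q : ℕ) (A : Ω → Subgroup G) :
    Prop where
  prime : q.Prime
  ab : ∀ a, ElAb q (A a)
  ne : ∀ a, A a ≠ ⊥
  cjj : ∀ (g : G) (a : Ω), cj g (A a) = A (g • a)
  le : ∀ a, A a ≤ St G a
  sr : ∀ (a b : Ω) (x : G), x ∈ A a → x • b = b → b ≠ a → x = 1
  cen : ∀ (a : Ω) (s : G), Iv s → s • a = a → s ∈ C (A a)

variable {G Ω : Type u} [Group G] [Finite G] [MulAction G Ω]
  {a b c d e : Ω} {X Y R P : Subgroup G} {u s t x y z j k g : G} {p q : ℕ} {A : Ω → Subgroup G}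

theorem ah_ex {K : Subgroup G} (h : K ≠ ⊥) : ∃ x ∈ K, x ≠ 1 := by
  by_contra! f
  exact h (eq_bot_iff.2 fun x hx => mem_bot.2 (f x hx))

theorem AH.nrm (h : AH Ω q A) (hg : g • a = a) : g ∈ N (A a) := by
  rw [CfsgFT.mem_N, h.cjj, hg]

theorem AH.nrmC (h : AH Ω q A) (hg : g • a = a) : g ∈ N (C (A a)) := by
  rw [CfsgFT.mem_N, cj_C, h.cjj, hg]

theorem AH.conjC (h : AH Ω q A) (hx : x ∈ C (A a)) (g : G) : g * x * g⁻¹ ∈ C (A (g • a)) := by
  rw [← h.cjj, ← cj_C]; exact mem_cj'.2 ⟨x, hx, rfl⟩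

theorem AH.not_le (h : AH Ω q A) (hb : b ≠ a) : ¬ A a ≤ St G b := fun f =>
  let ⟨x, h1, h2⟩ := ah_ex (h.ne a); h2 (h.sr a b x h1 (f h1) hb)

namespace SE
variable (S : SE G Ω) (h : AH Ω q A)
include S h

/-- (OL) -/
theorem ol (ha : A a ⊓ X ≠ ⊥) (hc : A c ⊓ X ≠ ⊥) : c ∈ Orb X a := by
  by_contra hn
  have := S.finite
  obtain ⟨x, x1, x2⟩ := ah_ex ha
  obtain ⟨y, y1, y2⟩ := ah_ex hc
  have f : ∀ w ∈ X, w ^ q = 1 →
      (Orb X a).ncard ≡ {z | z ∈ Orb X a ∧ w • z = z}.ncard [MOD q] := fun w w1 w2 =>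
    CfsgL.Q4B.ncard_modEq h.prime _ (w • ·) (fun _ hz => smul_mem_Orb hz w1)
      fun z _ => by rw [smul_iterate, w2]; exact one_smul G z
  have f1 := f x x1.2 ((h.ab a).2 x x1.1)
  have f2 := f y y1.2 ((h.ab c).2 y y1.1)
  have e1 : {z | z ∈ Orb X a ∧ x • z = z} = {a} := by
    ext z
    refine ⟨fun hz => ?_, fun hz => ?_⟩
    · by_contra n
      exact x2 (h.sr a z x x1.1 hz.2 n)
    · rw [Set.mem_singleton_iff.1 hz]; exact ⟨self_mem_Orb _ _, h.le a x1.1⟩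
  have e2 : {z | z ∈ Orb X a ∧ y • z = z} = ∅ := by
    ext z
    refine ⟨fun hz => y2 (h.sr c z y y1.1 hz.2 fun n => hn (n ▸ hz.1)), fun hz => hz.elim⟩
  rw [e1, Set.ncard_singleton] at f1
  rw [e2, Set.ncard_empty] at f2
  have := (Nat.modEq_zero_iff_dvd.1 (f1.symm.trans f2))
  exact h.prime.one_lt.ne' (Nat.dvd_one.1 this)

/-- (DI) -/
theorem di (hx : x ∈ C (A a)) (hc : A c ⊓ C1 x ≠ ⊥) : x ∈ C (A c) := by
  have a1 : A a ≤ C1 x := fun w hw => mem_C1.2 (mem_C.1 hx w hw)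
  obtain ⟨g, g1, rfl⟩ := S.ol h (a := a) (by rw [inf_eq_left.2 a1]; exact h.ne a) hc
  have := h.conjC hx g
  rwa [mem_C1_iff_conj.1 g1] at this

omit h in
theorem ah_four (four : ∃ s t : G, Iv s ∧ Iv t ∧ s ≠ t ∧ s * t = t * s) (hcd : c ≠ d)
    (hj : Iv j) : ∃ t, Iv t ∧ t ≠ j ∧ t * j = j * t := by
  obtain ⟨s, t, s1, t1, n, e⟩ := four
  obtain ⟨g, rfl⟩ := S.exists_conj hcd s1 hj
  refine ⟨g * t * g⁻¹, t1.conj g, fun f => n ?_, ?_⟩
  · exact (mul_left_cancel (mul_right_cancel f)).symm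
  · calc _ = g * (t * s) * g⁻¹ := by group
      _ = _ := by rw [← e]; group

variable (four : ∃ s t : G, Iv s ∧ Iv t ∧ s ≠ t ∧ s * t = t * s)
include four

/-- (M0): `J` centralises `C(A c) ⊓ C(A d) ⊓ D`. -/
theorem m0 (hj : Iv j) (hc : j • c ≠ c) (x1 : x • c = c) (x2 : x • j • c = j • c)
    (x3 : x ∈ C (A c)) (x4 : x ∈ C (A (j • c))) : j ∈ C1 x := by
  set M := St G c ⊓ St G (j • c) ⊓ (C (A c) ⊓ C (A (j • c))) with hM
  have xM : x ∈ M := ⟨⟨x1, x2⟩, x3, x4⟩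
  suffices f : j ∈ C M from mem_C1.2 (mem_C.1 f x xM).symm
  have jj : j • j • c = c := swap_back hj.sq rfl
  have jN : j ∈ N M := by
    rw [CfsgFT.mem_N, hM, cj_inf, cj_inf, cj_inf, cj_St, cj_St, cj_C, cj_C, h.cjj, h.cjj, jj,
      inf_comm (St G c), inf_comm (C (A c))]
  have DN : St G c ⊓ St G (j • c) ≤ N M := fun g hg => by
    rw [CfsgFT.mem_N, hM, cj_inf, cj_inf, cj_inf, cj_St, cj_St, cj_C, cj_C, h.cjj, h.cjj,
      show g • c = c from hg.1, show g • j • c = j • c from hg.2]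
  have Ac : A c ≤ C M := le_C_comm.1 (inf_le_right.trans inf_le_left)
  have Ad : A (j • c) ≤ C M := le_C_comm.1 (inf_le_right.trans inf_le_right)
  have jC : j ∈ N (C M) := by rw [CfsgFT.mem_N, cj_C, CfsgFT.mem_N.1 jN]
  have ev : ¬ Odd (Nat.card (C M)) := fun o => by
    have := S.finite
    have n1 : ∀ s ∈ N M, Iv s → s • c ≠ c := fun s s1 s2 s3 => by
      obtain ⟨t, t1, t2, t3⟩ := S.ah_four four hc s2
      obtain ⟨g, g1, rfl⟩ := S.conj_D hc.symm s2 t1 s3 (S.smul_eq s2 s3 t3)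
      exact h.not_le hc.symm (Ad.trans (S.le_St o s2 ((nrm_N_C M).le_N s1) s3
        ((nrm_N_C M).le_N (mul_mem (mul_mem (DN g1) s1) (inv_mem (DN g1)))) t1 t2 t3))
    obtain ⟨g, g1, g2⟩ := S.ol h (a := c) (c := j • c) (X := C M)
      (by rw [inf_eq_left.2 Ac]; exact h.ne _) (by rw [inf_eq_left.2 Ad]; exact h.ne _)
    have f := CfsgL.Q4B.ncard_modEq Nat.prime_two (Orb (C M) c) (j • ·)
      (fun w ⟨r, r1, r2⟩ => ⟨j * r * j⁻¹ * g, mul_mem (conj_mem_of_mem_N jC r1) g1, by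
        rw [mul_smul, g2, ← r2, mul_smul, mul_smul, inv_smul_smul]⟩)
      fun w _ => by rw [smul_iterate, _root_.sq, hj.sq]; exact one_smul G w
    have e1 : {w | w ∈ Orb (C M) c ∧ j • w = w} = ∅ := by
      ext w
      refine ⟨fun ⟨⟨r, r1, r2⟩, w2⟩ => ?_, fun hz => hz.elim⟩
      refine n1 (r⁻¹ * j * r⁻¹⁻¹) (mul_mem (mul_mem (inv_mem (C_le_N M r1)) jN)
        (inv_mem (inv_mem (C_le_N M r1)))) (hj.conj _) ?_
      rw [inv_inv, mul_smul, mul_smul, r2, w2, ← r2, inv_smul_smul]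
    rw [e1, Set.ncard_empty, ncard_Orb] at f
    have o2 : Odd ((St G c).relIndex (C M)) := o.of_dvd_nat (relIndex_dvd_card _ _)
    exact (Nat.not_even_iff_odd.2 o2) (even_iff_two_dvd.2 (Nat.modEq_zero_iff_dvd.1 f))
  obtain ⟨z, z1, z2⟩ := exists_iv ev
  obtain ⟨e, he⟩ := S.ex j hj
  have ne : e ≠ c := fun f => hc (f ▸ he)
  obtain ⟨g, g1, g2⟩ := S.conj_of_not_le (X := N M) hj jN he
    (fun f => h.not_le ne ((Ac.trans (C_le_N M)).trans f)) z2 hj (C_le_N M z1) jN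
  rw [← g2]
  exact conj_mem_of_mem_N (by rw [CfsgFT.mem_N, cj_C, CfsgFT.mem_N.1 g1]) z1

/-- (M0s): an element of `M0` centralising an involution at `c` centralises one at `d`. -/
theorem m0s (hcd : d ≠ c) (x1 : x • c = c) (x2 : x • d = d) (x3 : x ∈ C (A c))
    (x4 : x ∈ C (A d)) (hj : Iv j) (j1 : j • c = d) : j ∈ C1 x := by
  subst j1
  exact S.m0 h four hj hcd x1 x2 x3 x4

/-- (M0x) -/
theorem m0x (hcd : d ≠ c) (x1 : x • c = c) (x2 : x • d = d) (x3 : x ∈ C (A c))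
    (x4 : x ∈ C (A d)) (hs : Iv s) (s1 : s • c = c) (s2 : s * x * s⁻¹ = x⁻¹) : x = 1 := by
  obtain ⟨j, hj, rfl⟩ := S.exists_J hcd.symm
  have jx := S.m0 h four hj hcd x1 x2 x3 x4
  have cN : C1 x ≤ N (zpowers x) := by rw [← C_zpowers]; exact C_le_N _
  have sN : s ∈ N (zpowers x) := by rw [CfsgFT.mem_N, cj_zpowers, s2, zpowers_inv]
  obtain ⟨g, g1, g2⟩ := S.conj_of_not_le (X := N (zpowers x)) hs sN s1
    (fun f => hcd (f (cN jx))) hj hs (cN jx) sN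
  have s3 : s ∈ C1 x := by
    rw [← g2, ← C_zpowers]
    exact conj_mem_of_mem_N (by rw [CfsgFT.mem_N, cj_C, CfsgFT.mem_N.1 g1]) (by rwa [C_zpowers])
  rw [mem_C1_iff_conj.1 s3] at s2
  exact pt_eq_one (S.odd_of_fix x1 x2 hcd.symm) (by nth_rw 2 [s2]; exact mul_inv_cancel x)

omit four in
theorem inv_mem_C (hb : b ≠ e) (x1 : x • e = e) (x2 : x • b = b) (hs : Iv s) (s1 : s • e = e)
    (s2 : s * x * s⁻¹ = x⁻¹) : x ∈ C (A e) :=
  (mul_mem_cancel_left (h.cen e s hs s1)).1 (h.cen e _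
    (hs.mul_of_inv (S.odd_of_fix x1 x2 hb.symm) s2) (by rw [mul_smul, x1, s1]))

/-- an element inverted by an involution at `e` is fixed point free on `A b`. -/
theorem fpf (hb : b ≠ e) (x1 : x • e = e) (x2 : x • b = b) (hs : Iv s) (s1 : s • e = e)
    (s2 : s * x * s⁻¹ = x⁻¹) (n : x ≠ 1) : A b ⊓ C1 x = ⊥ := by
  by_contra f
  have a1 := S.inv_mem_C h hb x1 x2 hs s1 s2
  exact n (S.m0x h four hb x1 x2 a1 (S.di h a1 f) hs s1 s2)

end SE

end CfsgSE
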