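import Mathlib
import Cfsg.Agent.H3.ZassPSL2
import Cfsg.Agent.H3.PGL2Rec
import Cfsg.Agent.H7.PSL2Spec

/-!
# Zassenhaus groups of degree `18`
-/

set_option autoImplicit false

namespace CfsgH3

open Cfsg MulAction OnePoint
open scoped MatrixGroups

variable {G Ω : Type*} [Group G] [MulAction G Ω]

/-- the subgroup generated by the Frobenius kernels of the point stabilizers is simple -/
theorem zass_exists_simple [Finite G] [Finite Ω] (hZ : IsZassenhausGroup G Ω) :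
    ∃ N : Subgroup G, N.Normal ∧ IsSimpleGroup N ∧ IsZassenhausGroup N Ω := by
  have := hZ.1
  have Z := zt_of_zassenhaus hZ
  obtain ⟨g, hg, a, b, hab, h1, h2⟩ := hZ.2.2.2.1
  obtain ⟨c, hca, hcb⟩ := exists_third_point hg h1 h2
  let N : Subgroup G := ⨆ x, Z.K x
  have hN : N.Normal := ⟨fun n hn g => by
    have h3 : N ≤ N.comap (MulAut.conj g).toMonoidHom :=
      iSup_le fun x k hk => (le_iSup Z.K (g • x)) (Z.K_conj hk g)
    exact h3 hn⟩
  have hb : N ≠ ⊥ := fun h => Z.K_ne_bot hab.symm hca hcb.symm (eq_bot_iff.2 (h ▸ le_iSup Z.K a))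
  have hZN := zass_normal hZ N hb
  have : Nontrivial N := (Subgroup.nontrivial_iff_ne_bot N).2 hb
  refine ⟨N, hN, ⟨fun M hM => ?_⟩, hZN⟩
  by_cases hM0 : M = ⊥
  · exact Or.inl hM0
  right
  have h3 : N ≤ M.map N.subtype := iSup_le fun x k hk =>
    ⟨⟨k, le_iSup Z.K x hk⟩, zass_K_le_normal hZN M hM0 x (by
      rw [Zt.mem_K] at hk ⊢
      exact ⟨hk.1, hk.2.imp_left fun h => Subtype.ext h⟩), rfl⟩
  rw [eq_top_iff]
  intro n _
  obtain ⟨m, hm, e⟩ := h3 n.2
  rwa [← (Subtype.ext e : m = n)]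

theorem Zt.st2_dvd_of_prime [Finite G] (Z : Zt G Ω) {a b : Ω} (hb : b ≠ a) {p : ℕ} (hp : p.Prime)
    (hK : Nat.card (Z.K a) = p) : Nat.card (st2 G a b) ∣ p - 1 ∧ IsCyclic (st2 G a b) := by
  have := Fact.mk hp
  have hcyc : IsCyclic (Z.K a) := isCyclic_of_prime_card hK
  have hle : st2 G a b ≤ Subgroup.normalizer (Z.K a : Set G) := by
    intro h hh
    refine Subgroup.mem_normalizer_iff.2 fun k => ⟨fun hk => Z.K_conj_of_fix hk hh.1, fun hk => ?_⟩
    have := Z.K_conj_of_fix hk (Subgroup.inv_mem _ hh).1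
    simpa [mul_assoc] using this
  let φ : st2 G a b →* MulAut (Z.K a) := (Z.K a).normalizerMonoidHom.comp (Subgroup.inclusion hle)
  have : Nontrivial (Z.K a) := Finite.one_lt_card_iff_nontrivial.1 (hK ▸ hp.one_lt)
  obtain ⟨k, hk⟩ := exists_ne (1 : Z.K a)
  have hφ : Function.Injective φ := (injective_iff_map_eq_one _).2 fun h hh => by
    by_contra h1
    have h2 := congrArg Subtype.val (DFunLike.congr_fun hh k)
    exact hk (Subtype.ext (Z.eq_one_of_commute (x := h) h.2.1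
      (Z.not_mem_K hb h.2.2 fun e => h1 (Subtype.ext e)) k.2 (mul_inv_eq_iff_eq_mul.1 h2)))
  refine ⟨?_, ?_⟩
  · have := Subgroup.card_dvd_of_injective φ hφ
    rwa [IsCyclic.card_mulAut, hK, Nat.totient_prime hp] at this
  · have e := IsCyclic.mulAutMulEquiv (Z.K a)
    rw [hK] at e
    exact isCyclic_of_injective (e.toMonoidHom.comp φ) (e.injective.comp hφ)

theorem Zt.card_eq [Finite G] [Finite Ω] (Z : Zt G Ω) {a b : Ω} (hb : b ≠ a) :
    Nat.card G = Nat.card Ω * (Nat.card (Z.K a) * Nat.card (st2 G a b)) := by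
  rw [← (stabilizer G a).index_mul_card, Z.index_stabilizer, Z.card_stabilizer hb]

theorem Zt.zassenhaus_of_two_primes [Finite G] [Finite Ω] [FaithfulSMul G Ω] (Z : Zt G Ω)
    {p q : ℕ} (hp : p.Prime) (hq : q.Prime) (hpq : p ≠ q) (hp' : p ∣ Nat.card Ω)
    (hq' : q ∣ Nat.card Ω) [Nonempty Ω] : IsZassenhausGroup G Ω := by
  have key : ∀ N : Subgroup G, N.Normal → (∀ a b : Ω, ∃ n ∈ N, n • a = b) →
      (∀ a : Ω, ∀ n ∈ N, n • a = a → n = 1) → False := by
    intro N hN htr hreg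
    obtain ⟨a⟩ := ‹Nonempty Ω›
    obtain ⟨-, -, r, hr, h⟩ := regular_normal_elementary (Ω := Ω) ⊤ N
      (fun hab hcd => (Z.two hab hcd).imp fun g hg => ⟨trivial, hg⟩)
      (fun g _ m hm => hN.conj_mem m hm g) a (hreg a)
    have hc : Nat.card N = Nat.card Ω := Nat.card_congr (Equiv.ofBijective (fun n => (n : G) • a)
      ⟨fun x y e => Subtype.ext (inv_mul_eq_one.1 (hreg a _ (mul_mem (inv_mem x.2) y.2) (by
        simp only at e
        rw [mul_smul, ← e, inv_smul_smul]))), fun b => by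
          obtain ⟨n, hn, e⟩ := htr a b
          exact ⟨⟨n, hn⟩, e⟩⟩)
    have h2 : ∀ s : ℕ, s.Prime → s ∣ Nat.card Ω → s = r := fun s hs hd => by
      have := Fact.mk hs
      obtain ⟨x, hx⟩ := exists_prime_orderOf_dvd_card' (G := N) s (hc ▸ hd)
      have h3 : orderOf x ∣ r := orderOf_dvd_of_pow_eq_one (Subtype.ext (h x x.2))
      rw [hx] at h3
      exact (Nat.prime_dvd_prime_iff_eq hs hr).1 h3
    exact hpq ((h2 p hp hp').trans (h2 q hq hq').symm)
  refine ⟨inferInstance, is_two_pretransitive_iff.2 Z.two, Z.three, ?_, fun N hN htr => ?_⟩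
  · by_contra hcon
    push Not at hcon
    obtain ⟨K, hK, hK'⟩ := frobenius_perm (⊤ : Subgroup G) (Set.univ : Set Ω)
      (fun a _ b _ => (Z.trans a b).imp fun g hg => ⟨trivial, hg⟩) (fun _ _ _ _ => trivial)
      (fun g _ a _ b _ hab h1 h2 => by_contra fun h => hcon g h a b hab h1 h2)
    refine key K ⟨fun n hn g => ?_⟩ (fun a b => hK' a trivial b trivial) fun a n hn h => ?_
    · rw [hK] at hn ⊢
      refine ⟨trivial, hn.2.imp (by rintro rfl; simp) fun h a _ e => h (g⁻¹ • a) trivial ?_⟩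
      rwa [mul_smul, mul_smul, smul_eq_iff_eq_inv_smul] at e
    · exact ((hK n).1 hn).2.resolve_right fun h' => h' a trivial h
  · by_contra hcon
    push Not at hcon
    refine key N hN (fun a b => ?_) fun a n hn h => ?_
    · obtain ⟨n, e⟩ := htr.exists_smul_eq a b
      exact ⟨n, n.2, e⟩
    · have : (⟨n, hn⟩ : N) ∈ stabilizer N a := h
      rw [hcon a] at this
      exact congrArg Subtype.val this

theorem pow_seventeen : ∀ m : Fin 16, (∀ x : ZMod 17, x ≠ 0 → x ≠ 1 →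
    1 - (1 - (1 - x ^ m.val) ^ m.val) ^ m.val = x) → ∀ x : ZMod 17, x ≠ 0 → x ^ m.val * x = 1 := by
  decide +kernel

theorem pow_seventeen' {F : Type*} [Field F] [Fintype F] (hF : Fintype.card F = 17) (τ : F → F)
    (m : ℕ) (hτ : ∀ x, x ≠ 0 → τ x = x ^ m) (h1 : ∀ x, x ≠ 0 → x ≠ 1 → τ x ≠ 1)
    (h : ∀ x, x ≠ 0 → x ≠ 1 → 1 - τ (1 - τ (1 - τ x)) = x) {x : F} (hx : x ≠ 0) : τ x = x⁻¹ := by
  have : Fact (Nat.Prime 17) := ⟨by norm_num⟩
  let e : ZMod 17 ≃+* F := ZMod.ringEquivOfPrime F (by norm_num) hF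
  have hτ' : ∀ x, x ≠ 0 → τ x = x ^ (m % 16) := fun x hx => by
    have h2 := FiniteField.pow_card_sub_one_eq_one x hx
    rw [hF] at h2
    rw [hτ x hx, ← Nat.mod_add_div m 16, pow_add, pow_mul, h2, one_pow, mul_one, Nat.mod_add_div]
  have h0 : ∀ x, x ≠ 0 → x ≠ 1 → 1 - τ x ≠ 0 ∧ 1 - τ x ≠ 1 := fun x hx hx1 =>
    ⟨sub_ne_zero.2 (h1 x hx hx1).symm, by rw [hτ x hx]; simpa using fun h => absurd h hx⟩
  have h2 := pow_seventeen ⟨m % 16, Nat.mod_lt _ (by norm_num)⟩ (fun y hy hy1 => by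
    have hy' : e y ≠ 0 := by simpa using hy
    have hy1' : e y ≠ 1 := by simpa using hy1
    have h3 := h _ hy' hy1'
    have h4 := h0 _ hy' hy1'
    have h5 := h0 _ h4.1 h4.2
    rw [hτ' _ h5.1, hτ' _ h4.1, hτ' _ hy'] at h3
    apply e.injective
    simpa using h3) (e.symm x) (by simpa using hx)
  have h3 := congrArg e h2
  simp only [map_mul, map_pow, RingEquiv.apply_symm_apply, map_one] at h3
  rw [hτ' x hx]
  exact eq_inv_of_mul_eq_one_left h3

theorem Zt.pgl_of_eighteen [Finite G] [Finite Ω] (Z : Zt G Ω) (hΩ : Nat.card Ω = 18) {a b : Ω}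
    (hb : b ≠ a) (hd : Nat.card (st2 G a b) = 16) (F : Type*) [Field F] [Fintype F]
    (hF : Fintype.card F = 17) :
    Nonempty (G ≃* GL (Fin 2) F ⧸ Subgroup.center (GL (Fin 2) F)) := by
  classical
  have hK : Nat.card (Z.K a) = 17 := by have := Z.card_K hb; omega
  have : Fact (Nat.Prime 17) := ⟨by norm_num⟩
  have hKc : IsCyclic (Z.K a) := isCyclic_of_prime_card hK
  obtain ⟨-, hcyc⟩ := Z.st2_dvd_of_prime hb (by norm_num) hK
  obtain ⟨c, hca, hcb⟩ : ∃ c, c ≠ a ∧ c ≠ b := by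
    by_contra hcon
    push Not at hcon
    have h1 : (Set.univ : Set Ω) ⊆ {a, b} := fun x _ => by
      by_cases h : x = a
      · exact Or.inl h
      · exact Or.inr (hcon x h)
    have h2 := Set.ncard_le_ncard h1
    rw [Set.ncard_univ, hΩ] at h2
    have h3 := Set.ncard_insert_le a ({b} : Set Ω)
    rw [Set.ncard_singleton] at h3
    omega
  obtain ⟨E, _, _, P, μ, P1, P2, P3, hμ, hT, hD⟩ := Z.exists_coords hb hca hcb
    (fun x hx y hy =>
      congrArg Subtype.val (hKc.isMulCommutative.is_comm.comm (⟨x, hx⟩ : Z.K a) ⟨y, hy⟩))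
    (fun x hx y hy =>
      congrArg Subtype.val (hcyc.isMulCommutative.is_comm.comm (⟨x, hx⟩ : st2 G a b) ⟨y, hy⟩))
    (Z.irreducible_of_card hb (by omega))
  have hE : Fintype.card E = 17 := by
    have := Nat.card_congr P
    have h2 : Nat.card (OnePoint E) = Nat.card E + 1 := Finite.card_option
    rw [← Nat.card_eq_fintype_card]
    omega
  suffices h : Nonempty (G ≃* GL (Fin 2) E ⧸ Subgroup.center (GL (Fin 2) E)) from
    h.map fun e => e.trans (quotCenterCongr (glCongr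
      (FiniteField.ringEquivOfCardEq (hE.trans hF.symm))))
  have hsurj : ∀ x : E, x ≠ 0 → ∃ h, μ h = x := by
    have h1 : Function.Bijective μ.toHomUnits :=
      (Nat.bijective_iff_injective_and_card _).2 ⟨fun x y e => hμ (congrArg Units.val e), by
        rw [hd, Nat.card_units, Nat.card_eq_fintype_card, hE]⟩
    intro x hx
    obtain ⟨h, e⟩ := h1.2 (Units.mk0 x hx)
    exact ⟨h, congrArg Units.val e⟩
  have hμ0 : ∀ h, μ h ≠ 0 := fun h => (μ.toHomUnits h).ne_zero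
  have hPi : ∀ {x y : E}, P x = P y → x = y := fun h => OnePoint.coe_injective (P.injective h)
  have haff : ∀ u v : E, u ≠ 0 → ∃ g : G, g • a = a ∧ ∀ x : E, g • P x = P (u * x + v : E) := by
    intro u v hu
    obtain ⟨k, hk, h1⟩ := hT v
    obtain ⟨h, rfl⟩ := hsurj u hu
    exact ⟨k * h, by rw [mul_smul, h.2.1, Z.K_fix hk], fun x => by rw [mul_smul, hD, h1]⟩
  obtain ⟨t, hta, htb, htc⟩ : ∃ t : G, t • a = b ∧ t • b = a ∧ t • c = c := by
    obtain ⟨g, h1, h2⟩ := Z.two hb.symm hb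
    obtain ⟨y, hy⟩ := P.surjective (g • c)
    have hy1 : y ≠ ∞ := by
      rintro rfl
      rw [P1, ← h2, smul_left_cancel_iff] at hy
      exact hcb hy.symm
    obtain ⟨y, rfl⟩ := OnePoint.ne_infty_iff_exists.1 hy1
    have hy2 : y ≠ 0 := by
      rintro rfl
      rw [P2, ← h1, smul_left_cancel_iff] at hy
      exact hca hy.symm
    obtain ⟨h, hh⟩ := hsurj y⁻¹ (inv_ne_zero hy2)
    refine ⟨h * g, by rw [mul_smul, h1, h.2.2], by rw [mul_smul, h2, h.2.1], ?_⟩
    rw [mul_smul, ← hy, hD, hh, inv_mul_cancel₀ hy2, P3]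
  obtain ⟨h₀, hh₀⟩ := hcyc.exists_monoid_generator
  obtain ⟨m, hm⟩ := hh₀ ⟨_, conj_mem_st2 hta htb h₀.2⟩
  have hτ : ∀ x : E, x ≠ 0 → t • P x = P (x ^ m : E) := by
    intro x hx
    obtain ⟨h, rfl⟩ := hsurj x hx
    obtain ⟨k, rfl⟩ := hh₀ h
    have h1 : t * (h₀ ^ k : st2 G a b) = ((h₀ ^ m) ^ k : st2 G a b) * t := by
      simp only at hm
      rw [hm]
      simp only [SubmonoidClass.coe_pow, conj_pow, inv_mul_cancel_right]
    have h2 := hD (h₀ ^ k) 1
    rw [mul_one] at h2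
    simp only
    rw [← h2, ← mul_smul, h1, mul_smul, P3, htc, ← P3, hD, mul_one, ← map_pow, ← pow_mul,
      ← pow_mul, mul_comm]
  obtain ⟨s, hsa, hs⟩ := haff (-1) 1 (by simp)
  have hsb : s • b = c := by rw [← P2, hs, ← P3]; simp
  have hsc : s • c = b := by rw [← P3, hs, ← P2]; simp
  have hst : (s * t) ^ 3 = 1 := Z.three _ a b c hb.symm hcb.symm hca.symm
    (by simp [pow_succ, mul_smul, hta, htb, htc, hsa, hsb, hsc])
    (by simp [pow_succ, mul_smul, hta, htb, htc, hsa, hsb, hsc])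
    (by simp [pow_succ, mul_smul, hta, htb, htc, hsa, hsb, hsc])
  have h1 : ∀ x : E, x ≠ 0 → x ≠ 1 → x ^ m ≠ 1 := fun x hx hx1 h => by
    have h2 := hτ x hx
    rw [h, P3, ← htc, smul_left_cancel_iff, ← P3] at h2
    exact hx1 (hPi h2)
  have h0 : ∀ x : E, x ≠ 0 → x ≠ 1 → 1 - x ^ m ≠ 0 ∧ 1 - x ^ m ≠ 1 := fun x hx hx1 =>
    ⟨sub_ne_zero.2 (h1 x hx hx1).symm, by simpa using fun h => absurd h hx⟩
  have hst' : ∀ x : E, x ≠ 0 → (s * t) • P x = P (1 - x ^ m : E) := fun x hx => by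
    rw [mul_smul, hτ x hx, hs]; congr 2; ring
  have hinv : ∀ x : E, x ≠ 0 → x ^ m = x⁻¹ := fun x hx =>
    pow_seventeen' hE (fun x => x ^ m) m (fun _ _ => rfl) h1 (fun x hx hx1 => by
      have h3 := h0 x hx hx1
      have h4 := h0 _ h3.1 h3.2
      apply hPi
      rw [← hst' _ h4.1, ← hst' _ h3.1, ← hst' _ hx, ← mul_smul, ← mul_smul, ← pow_three',
        hst, one_smul]) hx
  let Ψ : G →* Equiv.Perm (OnePoint E) :=
    (Equiv.permCongrHom P.symm).toMonoidHom.comp (toPermHom G Ω)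
  have hΨ : ∀ g x y, Ψ g x = y ↔ g • P x = P y := fun g x y => by
    change P.symm (g • P x) = y ↔ _
    rw [Equiv.symm_apply_eq]
  refine pgl2_recognition Ψ (fun u v hu => ?_) ⟨t, ?_, ?_, fun x hx => ?_⟩ fun g h1 h2 h3 => ?_
  · obtain ⟨g, h1, h2⟩ := haff u v hu
    exact ⟨g, (hΨ _ _ _).2 (by rw [P1, h1]), fun x => (hΨ _ _ _).2 (h2 x)⟩
  · rw [hΨ, P1, P2, hta]
  · rw [hΨ, P1, P2, htb]
  · rw [hΨ, hτ x hx, hinv x hx]
  · rw [hΨ] at h1 h2 h3
    rw [P1] at h1
    rw [P2] at h2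
    rw [P3] at h3
    exact Z.three g a b c hb.symm hcb.symm hca.symm h1 h2 h3

theorem Zt.eighteen [Finite G] [Finite Ω] [FaithfulSMul G Ω] (Z : Zt G Ω) (hΩ : Nat.card Ω = 18)
    {a b : Ω} (hb : b ≠ a) (F : Type*) [Field F] [Fintype F] (hF : Fintype.card F = 17) :
    (Nat.card (st2 G a b) = 8 ∨ Nat.card (st2 G a b) = 16) ∧ (∃ x : G, orderOf x = 9) ∧
      (Nonempty (G ≃* PSL(2, F)) ∨
        Nonempty (G ≃* GL (Fin 2) F ⧸ Subgroup.center (GL (Fin 2) F))) := by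
  have : Nonempty Ω := ⟨a⟩
  have hZ := Z.zassenhaus_of_two_primes Nat.prime_two Nat.prime_three (by norm_num)
    (by rw [hΩ]; norm_num) (by rw [hΩ]; norm_num)
  obtain ⟨N, hN, hs, hZN⟩ := zass_exists_simple hZ
  have ZN := zt_of_zassenhaus hZN
  have hK : Nat.card (Z.K a) = 17 := by have := Z.card_K hb; omega
  have hKN : Nat.card (ZN.K a) = 17 := by have := ZN.card_K hb; omega
  obtain ⟨hd, -⟩ := Z.st2_dvd_of_prime hb (by norm_num) hK
  obtain ⟨hdN, -⟩ := ZN.st2_dvd_of_prime hb (by norm_num) hKN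
  have he : Even (Nat.card (st2 N a b)) := by
    obtain ⟨g, hg, h1, h2⟩ := ZN.exists_fix_two hZN.2.2.2.1 hb.symm
    have : Nontrivial (st2 N a b) := ⟨⟨g, h1, h2⟩, 1, fun h => hg (congrArg Subtype.val h)⟩
    have h3 : 1 < Nat.card (st2 N a b) := Finite.one_lt_card
    obtain ⟨k, -, hk⟩ := (Nat.dvd_prime_pow Nat.prime_two (m := 4)).1 hdN
    rw [hk] at h3 ⊢
    rcases k with _ | k
    · simp at h3
    · exact ⟨2 ^ k, by ring⟩
  obtain ⟨h8, -⟩ := zass_even_case hZN hb.symm he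
  obtain ⟨E, _, _, hE, ⟨e⟩⟩ := zass_even_psl2' hZN hb.symm he
  have hE' : Fintype.card E = 17 := by omega
  have h1 := Z.card_eq hb
  have h2 := ZN.card_eq hb
  have h3 := N.card_mul_index
  rw [h1, h2, hK, hKN, hΩ, show Nat.card (st2 N a b) = 8 by omega] at h3
  have h4 : Nat.card (st2 G a b) = 8 ∨ Nat.card (st2 G a b) = 16 := by
    have h5 := Nat.le_of_dvd (by norm_num) hd
    have h6 : N.index ≠ 0 := Subgroup.index_ne_zero_of_finite
    omega
  refine ⟨h4, ?_, ?_⟩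
  · obtain ⟨g, hg⟩ := CfsgH7.exists_psl2_orderOf_of_dvd (F := E) 9 (by norm_num)
      (Or.inr (by rw [hE']; norm_num))
    exact ⟨e.symm g, by rw [Subgroup.orderOf_coe, MulEquiv.orderOf_eq, hg]; rfl⟩
  · rcases h4 with h4 | h4
    · left
      have h5 : N = ⊤ := by rw [← Subgroup.index_eq_one]; omega
      subst h5
      exact ⟨Subgroup.topEquiv.symm.trans (e.trans (quotCenterCongr (slCongr
        (FiniteField.ringEquivOfCardEq (hE'.trans hF.symm)))))⟩
    · exact Or.inr (Z.pgl_of_eighteen hΩ hb h4 F hF)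

end CfsgH3
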