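import Cfsg.Agent.H3.JG
import Cfsg.Agent.FT.CBase6

/-! S3403 (JB), part 1: groups with the order and the element orders of `J₁`. -/

set_option autoImplicit false

namespace CfsgJ

open CfsgH5 CfsgH6 CfsgFT Subgroup

universe u

variable {G : Type u} [Group G] [Finite G]

namespace JT

theorem syl_mod {p : ℕ} (hp : p.Prime) {S M : Subgroup G} (h : SylIn p S M) :
    Nat.card ↥(M ⊓ N S) * (N S).relIndex M = Nat.card M ∧ (N S).relIndex M % p = 1 := by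
  have := Fact.mk hp
  refine ⟨by rw [inf_comm, card_inf_mul_relIndex], ?_⟩
  have e := card_sylow_modEq_one p M
  rw [h.toSylow.card_eq_index_normalizer] at e
  rw [relIndex, subgroupOf_normalizer_eq h.le]
  exact Eq.trans e (Nat.mod_eq_of_lt hp.one_lt)

theorem syl_zpowers {p m : ℕ} (hp : p.Prime) {x : G} {M : Subgroup G} (hx : x ∈ M)
    (ho : orderOf x = p) (hM : Nat.card M = p * m) (hm : ¬ p ∣ m) : SylIn p (zpowers x) M := by
  have := Fact.mk hp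
  refine sylIn_of_not_dvd (zpowers_le.2 hx) (.of_card (n := 1) (by rw [Nat.card_zpowers, ho, pow_one])) ?_
  rwa [relIndex_eq_of_mul (zpowers_le.2 hx) (by rw [Nat.card_zpowers, ho, hM])]

theorem ord_mul {a b : G} (h : a * b = b * a) {m n : ℕ} (ha : orderOf a = m) (hb : orderOf b = n)
    (hc : m.Coprime n) : orderOf (a * b) = m * n := by
  rw [Commute.orderOf_mul_eq_mul_orderOf_of_coprime h (by rwa [ha, hb]), ha, hb]

theorem inv_sq {s : G} (h : orderOf s = 2) : s * s = 1 := by rw [← sq, ← h, pow_orderOf_eq_one]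

theorem inv_ne {s : G} (h : orderOf s = 2) : s ≠ 1 := fun e => by
  rw [e, orderOf_one] at h; omega

theorem inv_ord {s : G} (h : s * s = 1) (h1 : s ≠ 1) : orderOf s = 2 :=
  orderOf_eq_prime (by rwa [sq]) h1

theorem ord_conj (g x : G) : orderOf (g * x * g⁻¹) = orderOf x :=
  (MulAut.conj g).orderOf_eq x

theorem mem_zp2 {z a : G} (o : orderOf z = 2) : a ∈ zpowers z ↔ a = 1 ∨ a = z := by
  classical
  rw [mem_zpowers_iff_mem_range_orderOf, o]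
  simp [Finset.range_add_one, or_comm, eq_comm]

theorem card_four {z s : G} (oz : orderOf z = 2) (os : orderOf s = 2) (e : s ≠ z)
    (e1 : s * z = z * s) : Nat.card ↥(zpowers z ⊔ zpowers s) = 4 := by
  rw [card_sup_of_inf_eq_bot (Or.inl (nrm_of_le_C (zpowers_le.2 (by
    rw [C_zpowers]; exact mem_C1.2 e1.symm)))), Nat.card_zpowers, Nat.card_zpowers, oz, os]
  refine eq_bot_iff.2 fun a ha => ?_
  rcases (mem_zp2 oz).1 ha.1 with f | f
  · exact f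
  · exact ((mem_zp2 os).1 ha.2).resolve_right fun k => e (k.symm.trans f)

theorem mem_four {z s v : G} (oz : orderOf z = 2) (os : orderOf s = 2) (e1 : s * z = z * s)
    (hv : v ∈ zpowers z ⊔ zpowers s) : v = 1 ∨ v = z ∨ v = s ∨ v = s * z := by
  obtain ⟨a, ha, b, hb, rfl⟩ := Nrm.exists_mul_of_mem_sup (nrm_of_le_C (zpowers_le.2 (by
    rw [C_zpowers]; exact mem_C1.2 e1.symm))) hv
  rcases (mem_zp2 oz).1 ha with rfl | rfl <;> rcases (mem_zp2 os).1 hb with rfl | rfl <;> simp [e1]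

theorem not_burn {p : ℕ} (hp : p.Prime) {S L : Subgroup G} (hL : ⁅L, L⁆ = L) (h : SylIn p S L)
    (h0 : S ≠ ⊥) : ¬ L ⊓ N S ≤ C S := fun e => by
  have := h.inf_D_eq_bot_of_le_C hp e
  rw [show D L = L from hL, inf_eq_left.2 h.le] at this
  exact h0 this

theorem card_C1_conj {L : Subgroup G} {g : G} (hg : g ∈ L) (x : G) :
    Nat.card ↥(L ⊓ C1 (g * x * g⁻¹)) = Nat.card ↥(L ⊓ C1 x) := by
  rw [← cj_C1, ← card_cj g (L ⊓ C1 x), cj_inf, cj_self hg]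

end JT

open JT

/-- order, element orders, perfect -/
structure JB (L : Subgroup G) : Prop where
  card : Nat.card L = 175560
  ord : ∀ g ∈ L, orderOf g ∈ [1, 2, 3, 5, 6, 7, 10, 11, 15, 19]
  perf : ⁅L, L⁆ = L
  ten : ∃ t ∈ L, ∃ z ∈ L, orderOf t = 5 ∧ orderOf z = 2 ∧ z * t = t * z

namespace JB

variable {L : Subgroup G}

theorem sq1 (h : JB L) {x : G} (hx : x ∈ L) {k : ℕ} (e : x ^ 2 ^ k = 1) : x * x = 1 := by
  have h1 := h.ord x hx
  obtain ⟨j, -, h2⟩ := (Nat.dvd_prime_pow Nat.prime_two).1 (orderOf_dvd_of_pow_eq_one e)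
  rw [← sq, ← orderOf_dvd_iff_pow_eq_one, h2]
  rw [h2] at h1
  rcases j with _ | _ | j
  · norm_num
  · norm_num
  · simp only [List.mem_cons, List.not_mem_nil, or_false, pow_succ] at h1
    omega

theorem no30 (h : JB L) {a b c : G} (ha : a ∈ L) (hb : b ∈ L) (hc : c ∈ L) (o1 : orderOf a = 2)
    (o2 : orderOf b = 3) (o3 : orderOf c = 5) (e1 : a * b = b * a) (e2 : a * c = c * a)
    (e3 : b * c = c * b) : False := by
  have := h.ord _ (mul_mem (mul_mem ha hb) hc)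
  rw [ord_mul (Commute.mul_left e2 e3 :) (ord_mul e1 o1 o2 (by norm_num)) o3 (by norm_num)] at this
  simp at this

theorem c_dvd (h : JB L) {x : G} (hx : x ∈ L) (ho : orderOf x = 2 ∨ orderOf x = 3 ∨ orderOf x = 5) :
    Nat.card ↥(L ⊓ C1 x) ∣ 120 := by
  refine Nat.Coprime.dvd_of_dvd_mul_right (n := 1463) ?_
    ((card_dvd_of_le' inf_le_left).trans (h.card.trans (show _ = 120 * 1463 by norm_num)).dvd)
  refine Nat.Coprime.symm (Nat.coprime_of_dvd fun r hr h1 h2 => ?_)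
  obtain ⟨y, hy, e⟩ := exists_mem_orderOf_eq hr h2
  have h3 : r = 7 ∨ r = 11 ∨ r = 19 := by
    rw [show 1463 = 7 * 11 * 19 from rfl, hr.dvd_mul, hr.dvd_mul,
      Nat.prime_dvd_prime_iff_eq hr (by norm_num), Nat.prime_dvd_prime_iff_eq hr (by norm_num),
      Nat.prime_dvd_prime_iff_eq hr (by norm_num)] at h1
    tauto
  have := h.ord _ (mul_mem hy.1 hx)
  rcases ho with ho | ho | ho <;> rcases h3 with rfl | rfl | rfl <;>
    rw [ord_mul (mem_C1.1 hy.2) e ho (by norm_num)] at this <;> simp at this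

theorem conj_zp (h : JB L) {p m : ℕ} (hp : p.Prime) (hm : 175560 = p * m) (hm' : ¬ p ∣ m) {a b : G}
    (ha : a ∈ L) (hb : b ∈ L) (o1 : orderOf a = p) (o2 : orderOf b = p) :
    ∃ g ∈ L, zpowers (g * a * g⁻¹) = zpowers b := by
  have := Fact.mk hp
  obtain ⟨g, hg, e⟩ := (syl_zpowers hp ha o1 (h.card.trans hm) hm').conj
    (syl_zpowers hp hb o2 (h.card.trans hm) hm')
  exact ⟨g, hg, by rw [← e, cj_zpowers]⟩

theorem exz (h : JB L) {t : G} (ht : t ∈ L) (o : orderOf t = 5) :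
    ∃ z ∈ L, orderOf z = 2 ∧ z * t = t * z := by
  obtain ⟨s, hs, z, hz, o1, o2, e⟩ := h.ten
  obtain ⟨g, hg, e1⟩ := h.conj_zp (m := 35112) Nat.prime_five rfl (by norm_num) hs ht o1 o
  refine ⟨g * z * g⁻¹, mul_mem (mul_mem hg hz) (inv_mem hg), by rwa [ord_conj], mem_C1.1 ?_⟩
  rw [← C_zpowers, ← e1, C_zpowers, ← cj_C1]
  exact conj_mem_cj.2 (mem_C1.2 e)

theorem c5 (h : JB L) {t : G} (ht : t ∈ L) (o : orderOf t = 5) :
    Nat.card ↥(L ⊓ C1 t) = 30 ∧ Nat.card ↥(L ⊓ N (zpowers t)) = 60 := by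
  obtain ⟨z, hz, o2, e⟩ := h.exz ht o
  have S := syl_zpowers (m := 35112) Nat.prime_five ht o h.card (by norm_num)
  obtain ⟨e1, e2⟩ := syl_mod Nat.prime_five S
  have e3 := h.c_dvd ht (by simp [o])
  have e4 := orderOf_dvd_card' (X := L ⊓ C1 t) (mul_mem ⟨hz, mem_C1.2 e⟩ ⟨ht, self_mem_C1 t⟩)
  rw [ord_mul e o2 o (by norm_num)] at e4
  have e5 := relIndex_C_dvd_of_prime_card Nat.prime_five (A := L ⊓ N (zpowers t))
    (by rw [Nat.card_zpowers, o]) (nrm_of_le_N inf_le_right)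
  have e6 := card_inf_mul_relIndex (C (zpowers t)) (L ⊓ N (zpowers t))
  have e7 : (C (zpowers t)).relIndex (L ⊓ N (zpowers t)) ≠ 1 := fun f =>
    not_burn Nat.prime_five h.perf S (by
      rw [← one_lt_card, Nat.card_zpowers, o]; norm_num) (relIndex_eq_one.1 f)
  rw [inf_left_comm, inf_eq_left.2 (C_le_N _), C_zpowers] at e6
  rw [C_zpowers] at e5 e7
  rw [← e6, h.card] at e1
  rw [← e6]
  clear e6
  generalize Nat.card ↥(L ⊓ C1 t) = c at *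
  generalize (C1 t).relIndex _ = k at *
  generalize (N (zpowers t)).relIndex L = m at *
  have := Nat.le_of_dvd (by norm_num) e5
  obtain ⟨d, rfl⟩ := e4
  have : d ≤ 12 := by have := Nat.le_of_dvd (by norm_num) e3; omega
  interval_cases k <;> interval_cases d <;> omega

theorem ex3 (h : JB L) {t : G} (ht : t ∈ L) (o : orderOf t = 5) :
    ∃ u ∈ L, orderOf u = 3 ∧ u * t = t * u := by
  obtain ⟨u, hu, e⟩ := exists_mem_orderOf_eq (X := L ⊓ C1 t) Nat.prime_three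
    (by rw [(h.c5 ht o).1]; norm_num)
  exact ⟨u, hu.1, e, mem_C1.1 hu.2⟩

theorem three (h : JB L) {u : G} (hu : u ∈ L) (o : orderOf u = 3) :
    ∃ t ∈ L, orderOf t = 5 ∧ t * u = u * t := by
  obtain ⟨t, ht, -, -, o1, -⟩ := h.ten
  obtain ⟨v, hv, o2, e⟩ := h.ex3 ht o1
  obtain ⟨g, hg, e1⟩ := h.conj_zp (m := 58520) Nat.prime_three rfl (by norm_num) hv hu o2 o
  refine ⟨g * t * g⁻¹, mul_mem (mul_mem hg ht) (inv_mem hg), by rwa [ord_conj], mem_C1.1 ?_⟩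
  rw [← C_zpowers, ← e1, C_zpowers, ← cj_C1]
  exact conj_mem_cj.2 (mem_C1.2 e.symm)

theorem c3 (h : JB L) {u : G} (hu : u ∈ L) (o : orderOf u = 3) : ¬ 4 ∣ Nat.card ↥(L ⊓ C1 u) := by
  intro h4
  obtain ⟨t, ht, o1, e⟩ := h.three hu o
  obtain ⟨z, hz, o2, e0⟩ := h.exz ht o1
  have e3 := h.c_dvd hu (by simp [o])
  have t1 : t ∈ L ⊓ C1 u := ⟨ht, mem_C1.2 e⟩
  have e4 := orderOf_dvd_card' t1
  have e5 := orderOf_dvd_card' (X := L ⊓ C1 u ⊓ N (zpowers t))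
    ⟨⟨hu, self_mem_C1 u⟩, C_le_N _ (by rw [C_zpowers]; exact mem_C1.2 e.symm)⟩
  rw [o1] at e4
  obtain ⟨m, hm⟩ := e4
  have hm' : m ∣ 24 := Nat.dvd_of_mul_dvd_mul_left (by norm_num : 0 < 5) (hm ▸ e3)
  obtain ⟨e1, e2⟩ := syl_mod Nat.prime_five (syl_zpowers Nat.prime_five t1 o1 hm fun f => by
    have := f.trans hm'; omega)
  have e6 : L ⊓ C1 u ⊓ N (zpowers t) ≠ L ⊓ N (zpowers t) := fun f => by
    have : z ∈ L ⊓ C1 u ⊓ N (zpowers t) :=
      f ▸ ⟨hz, C_le_N _ (by rw [C_zpowers]; exact mem_C1.2 e0)⟩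
    exact h.no30 hz hu ht o2 o o1 (mem_C1.1 this.1.2) e0 e.symm
  have e7 : L ⊓ C1 u ⊓ N (zpowers t) ≤ L ⊓ N (zpowers t) := inf_le_inf_right _ inf_le_left
  have e8 := card_dvd_of_le' e7
  have e9 := fun f => e6 (eq_of_le_of_card_eq e7 f)
  rw [(h.c5 ht o1).2] at e8 e9
  rw [hm] at h4 e1
  rw [o] at e5
  generalize Nat.card ↥(L ⊓ C1 u ⊓ N (zpowers t)) = a at *
  generalize (N (zpowers t)).relIndex _ = k at *
  have := Nat.le_of_dvd (by norm_num) hm'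
  obtain ⟨d, rfl⟩ := e5
  have : d ≤ 20 := by have := Nat.le_of_dvd (by norm_num) e8; omega
  have := Nat.pos_of_dvd_of_pos hm' (by norm_num)
  have := Nat.pos_of_dvd_of_pos e8 (by norm_num)
  interval_cases m <;> interval_cases d <;> first | omega | exact e9 rfl | norm_num at e8

theorem syl2 (h : JB L) {S : Subgroup G} (hS : SylIn 2 S L) :
    Nat.card S = 8 ∧ (∀ x ∈ S, x * x = 1) ∧ Ab S := by
  have e : ∀ x ∈ S, x * x = 1 := fun x hx => by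
    obtain ⟨k, hk⟩ := hS.isPGroup ⟨x, hx⟩
    exact h.sq1 (hS.le hx) (congrArg Subtype.val hk)
  refine ⟨?_, e, ab_iff.2 fun x hx y hy => ?_⟩
  · rw [hS.card_eq_pow Nat.prime_two, h.card]
    decide +kernel
  · rw [← mul_inv_eq_one, mul_inv_rev, inv_eq_of_mul_eq_one_right (e x hx),
      inv_eq_of_mul_eq_one_right (e y hy), ← mul_assoc, mul_assoc _ x y]
    exact e _ (mul_mem hx hy)

theorem exS (h : JB L) {X : Subgroup G} (hX : X ≤ L) (e : ∀ x ∈ X, x * x = 1) :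
    ∃ S, X ≤ S ∧ SylIn 2 S L :=
  exists_sylIn_ge hX fun x => ⟨1, Subtype.ext (by simpa [sq] using e x.1 x.2)⟩

theorem exS1 (h : JB L) {z : G} (hz : z ∈ L) (o : orderOf z = 2) : ∃ S, z ∈ S ∧ SylIn 2 S L := by
  obtain ⟨S, h1, h2⟩ := exists_sylIn_ge (p := 2) (zpowers_le.2 hz)
    (isPGroup_zpowers (k := 1) (by rw [pow_one, ← o, pow_orderOf_eq_one]))
  exact ⟨S, h1 (mem_zpowers z), h2⟩

theorem cls (h : JB L) {s s' : G} (hs : s ∈ L) (hs' : s' ∈ L) (o : orderOf s = 2)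
    (o' : orderOf s' = 2) : ∃ g ∈ L, g * s * g⁻¹ = s' := by
  have := Fact.mk Nat.prime_two
  obtain ⟨S, s1, hS⟩ := h.exS1 hs o
  obtain ⟨S', s2, hS'⟩ := h.exS1 hs' o'
  obtain ⟨g, hg, rfl⟩ := hS.conj hS'
  obtain ⟨s', s3, rfl⟩ := mem_cj'.1 s2
  rw [ord_conj] at o'
  obtain ⟨c8, -, ab⟩ := h.syl2 hS
  have h0 : S ⊓ C (L ⊓ N S) = ⊥ := by
    have := (hS.dp_of_ab Nat.prime_two ab).2.1
    rwa [show D L = L from h.perf, inf_eq_left.2 hS.le, ← inf_assoc, inf_idem] at this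
  let O := fun x : G => clSupp {x} (L ⊓ N S)
  let I := (S : Set G) \ {1}
  have mO : ∀ {x y}, y ∈ O x ↔ ∃ g ∈ L ⊓ N S, y = g * x * g⁻¹ := by simp [O, clSupp]
  have O1 : ∀ x ∈ I, O x ⊆ I := fun x hx y hy => by
    obtain ⟨g, hg, rfl⟩ := mO.1 hy
    exact ⟨conj_mem_of_mem_N hg.2 hx.1, fun e => hx.2 (by simpa using e)⟩
  have O2 : ∀ x ∈ I, 3 ≤ (O x).ncard ∧ (O x).ncard % 2 = 1 := fun x hx => by
    have e1 : ¬ 2 ∣ (O x).ncard := fun f => by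
      rw [ncard_class] at f
      exact (hS.of_le (le_inf hS.le (le_N S)) inf_le_left).not_dvd_relIndex
        (f.trans (relIndex_dvd_of_le_left _ (le_C1_iff.2 (ab hx.1))))
    have e2 : (O x).ncard ≠ 1 := fun f => by
      rw [ncard_class, relIndex_eq_one, le_C1_iff] at f
      exact hx.2 (mem_bot.1 (h0 ▸ ⟨hx.1, f⟩))
    omega
  have O3 : ∀ x y, y ∉ O x → Disjoint (O x) (O y) := fun x y f => Set.disjoint_left.2 fun w h1 h2 => by
    obtain ⟨a, ha, rfl⟩ := mO.1 h1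
    obtain ⟨b, hb, e⟩ := mO.1 h2
    exact f (mO.2 ⟨b⁻¹ * a, mul_mem (inv_mem hb) ha, by
      rw [show b⁻¹ * a * x * (b⁻¹ * a)⁻¹ = b⁻¹ * (a * x * a⁻¹) * b by group, e]; group⟩)
  have I7 : I.ncard = 7 := by
    rw [Set.ncard_diff_singleton_of_mem S.one_mem, ← Nat.card_coe_set_eq]
    exact congrArg (· - 1) c8
  have i1 : s ∈ I := ⟨s1, inv_ne o⟩
  have i2 : s' ∈ I := ⟨s3, inv_ne o'⟩
  by_cases e : s' ∈ O s
  · obtain ⟨a, ha, rfl⟩ := mO.1 e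
    exact ⟨g * a, mul_mem hg ha.1, by group⟩
  have u1 := Set.union_subset (O1 s i1) (O1 s' i2)
  have u2 := Set.ncard_union_eq (O3 s s' e)
  have u3 := Set.ncard_le_ncard u1
  have := O2 s i1
  have := O2 s' i2
  obtain ⟨w, w1, w2⟩ := Set.exists_mem_notMem_of_ncard_lt_ncard (s := O s ∪ O s') (t := I) (by omega)
  have u4 := Set.ncard_le_ncard (Set.union_subset u1 (O1 w w1))
  rw [Set.ncard_union_eq (Set.disjoint_union_left.2
    ⟨O3 _ _ fun f => w2 (Or.inl f), O3 _ _ fun f => w2 (Or.inr f)⟩)] at u4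
  have := O2 w w1
  omega

theorem cz (h : JB L) {z : G} (hz : z ∈ L) (o : orderOf z = 2) :
    Nat.card ↥(L ⊓ C1 z) = 120 := by
  obtain ⟨t, ht, z, hz', o1, o2, e⟩ := h.ten
  obtain ⟨g, hg, rfl⟩ := h.cls hz' hz o2 o
  rw [card_C1_conj hg]
  obtain ⟨S, s1, hS⟩ := h.exS1 hz' o2
  obtain ⟨c8, -, ab⟩ := h.syl2 hS
  have e3 := h.c_dvd hz' (by simp [o2])
  have e4 := card_dvd_of_le' (le_inf hS.le (le_C1_iff.2 (ab s1)))
  have t1 : t ∈ L ⊓ C1 z := ⟨ht, mem_C1.2 e.symm⟩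
  obtain ⟨m, hm⟩ := orderOf_dvd_card' t1
  rw [o1] at hm
  have hm' : m ∣ 24 := Nat.dvd_of_mul_dvd_mul_left (by norm_num : 0 < 5) (hm ▸ e3)
  obtain ⟨e1, e2⟩ := syl_mod Nat.prime_five (syl_zpowers Nat.prime_five t1 o1 hm fun f => by
    have := f.trans hm'; omega)
  have e8 := card_dvd_of_le' (inf_le_inf_right (N (zpowers t)) (inf_le_left : L ⊓ C1 z ≤ L))
  have e9 := orderOf_dvd_card' (X := L ⊓ C1 z ⊓ N (zpowers t)) ⟨t1, le_N _ (mem_zpowers t)⟩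
  rw [(h.c5 ht o1).2] at e8
  rw [hm, c8] at e4
  rw [hm] at e1 ⊢
  rw [o1] at e9
  generalize Nat.card ↥(L ⊓ C1 z ⊓ N (zpowers t)) = a at *
  generalize (N (zpowers t)).relIndex _ = k at *
  have := Nat.le_of_dvd (by norm_num) hm'
  obtain ⟨d, rfl⟩ := e9
  have : d ≤ 12 := by have := Nat.le_of_dvd (by norm_num) e8; omega
  interval_cases m <;> interval_cases d <;> first | omega | norm_num at e8

theorem ntz (h : JB L) {t z : G} (ht : t ∈ L) (hz : z ∈ L) (o1 : orderOf t = 5)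
    (o2 : orderOf z = 2) (e : z * t = t * z) : Nat.card ↥(L ⊓ C1 z ⊓ N (zpowers t)) = 20 := by
  have t1 : t ∈ L ⊓ C1 z := ⟨ht, mem_C1.2 e.symm⟩
  obtain ⟨e1, e2⟩ := syl_mod Nat.prime_five
    (syl_zpowers (m := 24) Nat.prime_five t1 o1 (h.cz hz o2) (by norm_num))
  have e8 := card_dvd_of_le' (inf_le_inf_right (N (zpowers t)) (inf_le_left : L ⊓ C1 z ≤ L))
  have e9 := orderOf_dvd_card' (X := L ⊓ C1 z ⊓ N (zpowers t)) ⟨t1, le_N _ (mem_zpowers t)⟩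
  rw [(h.c5 ht o1).2] at e8
  rw [h.cz hz o2] at e1
  rw [o1] at e9
  generalize Nat.card ↥(L ⊓ C1 z ⊓ N (zpowers t)) = a at *
  generalize (N (zpowers t)).relIndex _ = k at *
  obtain ⟨d, rfl⟩ := e9
  have : d ≤ 12 := by have := Nat.le_of_dvd (by norm_num) e8; omega
  interval_cases d <;> omega

theorem ctz (h : JB L) {t z : G} (ht : t ∈ L) (hz : z ∈ L) (o1 : orderOf t = 5)
    (o2 : orderOf z = 2) (e : z * t = t * z) : L ⊓ C1 t ⊓ C1 z = zpowers (t * z) := by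
  have e1 : zpowers (t * z) ≤ L ⊓ C1 t ⊓ C1 z := zpowers_le.2 (mul_mem
    ⟨⟨ht, self_mem_C1 t⟩, mem_C1.2 e.symm⟩ ⟨⟨hz, mem_C1.2 e⟩, self_mem_C1 z⟩)
  have e2 := card_dvd_of_le' e1
  have e3 := card_dvd_of_le' (inf_le_left : L ⊓ C1 t ⊓ C1 z ≤ _)
  have e4 : ¬ 3 ∣ Nat.card ↥(L ⊓ C1 t ⊓ C1 z) := fun f => by
    obtain ⟨u, hu, o⟩ := exists_mem_orderOf_eq Nat.prime_three f
    exact h.no30 hz hu.1.1 ht o2 o o1 (mem_C1.1 hu.2).symm e (mem_C1.1 hu.1.2)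
  refine (eq_of_le_of_card_eq e1 ?_).symm
  rw [(h.c5 ht o1).1] at e3
  rw [Nat.card_zpowers, ord_mul e.symm o1 o2 (by norm_num)] at e2 ⊢
  obtain ⟨d, hd⟩ := e2
  rw [hd] at e3 e4 ⊢
  have : d ≤ 3 := by have := Nat.le_of_dvd (by norm_num) e3; omega
  interval_cases d <;> omega

theorem nt (h : JB L) {t g : G} (ht : t ∈ L) (o : orderOf t = 5) (hg : g ∈ L)
    (e : g ∈ N (zpowers t)) : g * t * g⁻¹ = t ∨ g * t * g⁻¹ = t⁻¹ := by
  classical
  have e1 : (L ⊓ C1 t).relIndex (L ⊓ N (zpowers t)) = 2 := relIndex_eq_of_mul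
    (inf_le_inf_left _ (C_zpowers t ▸ C_le_N _)) (by rw [(h.c5 ht o).1, (h.c5 ht o).2])
  have e2 : g ^ 2 ∈ L ⊓ C1 t := sq_mem_of_index_two e1 ⟨g, hg, e⟩
  have e3 := conj_mem_of_mem_N e (mem_zpowers t)
  rw [mem_zpowers_iff_mem_range_orderOf, o] at e3
  obtain ⟨k, hk, e3⟩ := Finset.mem_image.1 e3
  have e4 : t ^ (k * k) = t ^ 1 := by
    rw [pow_mul, e3, conj_pow, e3, pow_one]
    exact (by rw [sq]; group : _ = _).trans (mem_C1_iff_conj.1 e2.2)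
  rw [pow_eq_pow_iff_modEq, o] at e4
  rw [← e3, eq_inv_iff_mul_eq_one, ← pow_succ, ← orderOf_dvd_iff_pow_eq_one, o]
  have := Finset.mem_range.1 hk
  interval_cases k
  · exact absurd e4 (by decide)
  · exact Or.inl (pow_one t)
  · exact absurd e4 (by decide)
  · exact absurd e4 (by decide)
  · exact Or.inr dvd_rfl

theorem exs (h : JB L) {t z : G} (ht : t ∈ L) (hz : z ∈ L) (o1 : orderOf t = 5)
    (o2 : orderOf z = 2) (e : z * t = t * z) :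
    ∃ s ∈ L, orderOf s = 2 ∧ s ≠ z ∧ s * z = z * s ∧ s * t * s⁻¹ = t⁻¹ := by
  obtain ⟨S, hS⟩ := exists_sylIn 2 (L ⊓ C1 z ⊓ N (zpowers t))
  have c4 : Nat.card S = 4 := by
    rw [hS.card_eq_pow Nat.prime_two, h.ntz ht hz o1 o2 e]; decide +kernel
  have : ¬ S ≤ L ⊓ C1 t := fun f => by
    have := card_dvd_of_le' f
    rw [c4, (h.c5 ht o1).1] at this
    omega
  obtain ⟨s, s1, s2⟩ := SetLike.not_le_iff_exists.1 this
  obtain ⟨⟨s3, s4⟩, s5⟩ := hS.le s1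
  obtain ⟨k, hk⟩ := hS.isPGroup ⟨s, s1⟩
  refine ⟨s, s3, inv_ord (h.sq1 s3 (congrArg Subtype.val hk)) fun f => s2 (f ▸ one_mem _),
    fun f => s2 ⟨s3, mem_C1.2 (f ▸ e)⟩, mem_C1.1 s4,
    (h.nt ht o1 s3 s5).resolve_left fun f => s2 ⟨s3, mem_C1_iff_conj.2 f⟩⟩

/-- the centraliser of a four-group -/
theorem cv (h : JB L) {z s : G} (oz : orderOf z = 2) (os : orderOf s = 2) (e : s ≠ z)
    {S : Subgroup G} (hS : SylIn 2 S L) (h1 : z ∈ S) (h2 : s ∈ S) : L ⊓ C1 z ⊓ C1 s = S := by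
  obtain ⟨c8, e2, ab⟩ := h.syl2 hS
  have e1 : S ≤ L ⊓ C1 z ⊓ C1 s :=
    le_inf (le_inf hS.le (le_C1_iff.2 (ab h1))) (le_C1_iff.2 (ab h2))
  have v := (card_four oz os e (ab.comm h2 h1)).symm.dvd
  have v2 : ∀ x ∈ L ⊓ C1 z ⊓ C1 s, 4 ∣ Nat.card ↥(L ⊓ C1 x) := fun x hx =>
    v.trans (card_dvd_of_le' (sup_le (zpowers_le.2 ⟨hS.le h1, mem_C1_comm.1 hx.1.2⟩)
      (zpowers_le.2 ⟨hS.le h2, mem_C1_comm.1 hx.2⟩)))
  refine hS.eq_of_le (inf_le_left.trans inf_le_left) ?_ e1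
  have e3 := card_dvd_of_le' (inf_le_left : L ⊓ C1 z ⊓ C1 s ≤ _)
  rw [h.cz (hS.le h1) oz] at e3
  refine .of_card (n := 3) (Nat.dvd_antisymm (Nat.Coprime.dvd_of_dvd_mul_right (n := 15) ?_ e3)
    (c8.symm.dvd.trans (card_dvd_of_le' e1)))
  refine Nat.Coprime.symm (Nat.coprime_of_dvd fun r hr h1 h2 => ?_)
  obtain ⟨y, hy, o⟩ := exists_mem_orderOf_eq hr h2
  rw [show 15 = 3 * 5 from rfl, hr.dvd_mul, Nat.prime_dvd_prime_iff_eq hr (by norm_num),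
    Nat.prime_dvd_prime_iff_eq hr (by norm_num)] at h1
  rcases h1 with rfl | rfl
  · exact h.c3 hy.1.1 o (v2 y hy)
  · have := v2 y hy
    rw [(h.c5 hy.1.1 o).1] at this
    omega

theorem exS2 (h : JB L) {z s : G} (hz : z ∈ L) (hs : s ∈ L) (oz : orderOf z = 2)
    (os : orderOf s = 2) (e : s * z = z * s) : ∃ S, SylIn 2 S L ∧ z ∈ S ∧ s ∈ S := by
  have p : ∀ {x : G}, orderOf x = 2 → IsPGroup 2 (zpowers x) := fun o =>
    isPGroup_zpowers (k := 1) (by rw [pow_one, ← o, pow_orderOf_eq_one])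
  obtain ⟨S, h1, h2⟩ := exists_sylIn_ge (sup_le (zpowers_le.2 hz) (zpowers_le.2 hs))
    (Nrm.isPGroup_sup (nrm_of_le_C (zpowers_le.2 (by rw [C_zpowers]; exact mem_C1.2 e.symm)))
      (p oz) (p os))
  exact ⟨S, h2, h1 (mem_sup_left (mem_zpowers z)), h1 (mem_sup_right (mem_zpowers s))⟩

/-- `s` is not conjugate to `s z` in `C_L(z)` -/
theorem nsz (h : JB L) {z s x : G} (hz : z ∈ L) (hs : s ∈ L) (oz : orderOf z = 2)
    (os : orderOf s = 2) (e : s * z = z * s) (e0 : s ≠ z) (hx : x ∈ L ⊓ C1 z) :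
    x * s * x⁻¹ ≠ s * z := fun f => by
  obtain ⟨S, hS, h1, h2⟩ := h.exS2 hz hs oz os e
  have e1 : x * x ∈ S := by
    rw [← h.cv oz os e0 hS h1 h2]
    refine ⟨mul_mem hx hx, mem_C1_iff_conj.2 ?_⟩
    rw [show x * x * s * (x * x)⁻¹ = x * (x * s * x⁻¹) * x⁻¹ by group, f,
      show x * (s * z) * x⁻¹ = x * s * x⁻¹ * (x * z * x⁻¹) by group, f, mem_C1_iff_conj.1 hx.2,
      mul_assoc, inv_sq oz, mul_one]
  have e2 := h.sq1 hx.1 (k := 2) (by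
    rw [← (h.syl2 hS).2.1 _ e1, ← sq, ← sq, ← pow_mul]; rfl)
  have e3 : x * s * (x * s) = z := by
    rw [inv_eq_of_mul_eq_one_right e2] at f
    rw [← mul_assoc, f, e, mul_assoc, inv_sq os, mul_one]
  have e4 := h.sq1 (mul_mem hx.1 hs) (k := 2) (by
    rw [← inv_sq oz, ← e3, ← sq, ← sq, ← pow_mul]; rfl)
  exact inv_ne oz (e3.symm.trans e4)

theorem exg (h : JB L) {z : G} (oz : orderOf z = 2) {S : Subgroup G} (hS : SylIn 2 S L)
    (hz : z ∈ S) : ∃ g ∈ L ⊓ C1 z ⊓ N S, g ∉ S := by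
  by_contra! f
  have := Fact.mk Nat.prime_five
  have ab := (h.syl2 hS).2.2
  have hS' := hS.of_le (le_inf hS.le (le_C1_iff.2 (ab hz))) inf_le_left
  have e := (hS'.sdp_of_le_C Nat.prime_two fun g hg => ab (f g hg))
  have e1 := e.card
  rw [h.cz (hS.le hz) oz, (h.syl2 hS).1] at e1
  obtain ⟨t, ht, o⟩ := exists_mem_orderOf_eq (X := Opc 2 (L ⊓ C1 z)) Nat.prime_five (by omega)
  have T := syl_zpowers (m := 3) Nat.prime_five ht o (by omega) (by norm_num)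
  obtain ⟨e2, e3⟩ := syl_mod Nat.prime_five T
  have e4 : (N (zpowers t)).relIndex (Opc 2 (L ⊓ C1 z)) = 1 := by
    have := (Dvd.intro_left _ e2).trans (show Nat.card (Opc 2 (L ⊓ C1 z)) = 15 by omega).dvd
    have := Nat.le_of_dvd (by norm_num) this
    generalize (N (zpowers t)).relIndex _ = k at *
    interval_cases k <;> omega
  have e5 : L ⊓ C1 z ≤ L ⊓ N (zpowers t) := fun x hx => ⟨hx.1, mem_N.2 (by
    have T' := T.cjj x
    rw [e.normalIn.2.cj_eq hx] at T'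
    exact T.eq_of_nrm Nat.prime_five T' (nrm_of_le_N (T'.le.trans (relIndex_eq_one.1 e4))))⟩
  have := card_dvd_of_le' e5
  rw [h.cz (hS.le hz) oz, (h.c5 (e.left_le ht).1 o).2] at this
  omega

theorem clsz (h : JB L) {z s s' : G} (hz : z ∈ L) (hs : s ∈ L) (hs' : s' ∈ L) (oz : orderOf z = 2)
    (os : orderOf s = 2) (os' : orderOf s' = 2) (e : s * z = z * s) (e' : s' * z = z * s')
    (n : s ≠ z) (n' : s' ≠ z) :
    ∃ g ∈ L, g * z = z * g ∧ (g * s * g⁻¹ = s' ∨ g * s * g⁻¹ = s' * z) := by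
  have := Fact.mk Nat.prime_two
  obtain ⟨S, hS, z1, s1⟩ := h.exS2 hz hs oz os e
  obtain ⟨S', hS', z2, s2⟩ := h.exS2 hz hs' oz os' e'
  obtain ⟨c8, sq, ab⟩ := h.syl2 hS
  obtain ⟨x, hx, rfl⟩ := (hS.of_le (le_inf hS.le (le_C1_iff.2 (ab z1))) inf_le_left).conj
    (hS'.of_le (le_inf hS'.le (le_C1_iff.2 ((h.syl2 hS').2.2 z2))) inf_le_left)
  obtain ⟨v, v1, rfl⟩ := mem_cj'.1 s2
  have xz := mem_C1_iff_conj.1 hx.2
  suffices ∃ g ∈ L ⊓ C1 z, g * s * g⁻¹ = v ∨ g * s * g⁻¹ = v * z by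
    obtain ⟨g, hg, k⟩ := this
    refine ⟨x * g, mul_mem hx.1 hg.1, mem_C1.1 (mul_mem hx.2 hg.2), k.imp (fun k => ?_) fun k => ?_⟩
    · rw [← k]; group
    · rw [← xz, show x * g * s * (x * g)⁻¹ = x * (g * s * g⁻¹) * x⁻¹ by group, k]; group
  have v2 : v ≠ 1 := fun f => inv_ne os' (by rw [f, mul_one, mul_inv_cancel])
  have v3 : v ≠ z := fun f => n' (by rw [f, xz])
  obtain ⟨g, ⟨hg, g1⟩, g2⟩ := h.exg oz hS z1
  have gz := mem_C1_iff_conj.1 hg.2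
  have mv : ∀ a ∈ S, a ≠ 1 → a ≠ z → g * a * g⁻¹ ≠ a ∧ g * a * g⁻¹ ≠ a * z := fun a ha a1 a2 =>
    ⟨fun f => g2 (h.cv oz (inv_ord (sq a ha) a1) a2 hS z1 ha ▸ ⟨hg, mem_C1_iff_conj.2 f⟩),
      h.nsz hz (hS.le ha) oz (inv_ord (sq a ha) a1) (ab.comm ha z1) a2 hg⟩
  have nz : ∀ a : G, a ≠ 1 → a ≠ z → g * a * g⁻¹ ≠ 1 ∧ g * a * g⁻¹ ≠ z := fun a a1 a2 =>
    ⟨by simpa using a1, fun f => a2 (by simpa using f.trans gz.symm)⟩
  have hV : zpowers z ⊔ zpowers s ≤ S := sup_le (zpowers_le.2 z1) (zpowers_le.2 s1)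
  have i2 := relIndex_eq_of_mul (n := 2) hV (by rw [card_four oz os n e, c8])
  have mul : ∀ a ∈ S, ∀ b ∈ S, a ∉ zpowers z ⊔ zpowers s → b ∉ zpowers z ⊔ zpowers s →
      a = b ∨ a = b * z ∨ a = b * s ∨ a = b * s * z := fun a ha b hb a1 b1 => by
    have := mem_four oz os e ((mul_mem_iff_of_index_two i2 (a := ⟨b, hb⟩) (b := ⟨a, ha⟩)).2
      (iff_of_false b1 a1))
    have k : a = b * (b * a) := by rw [← mul_assoc, sq b hb, one_mul]
    rcases this with f | f | f | f <;> rw [show b * a = _ from f] at k <;> simp [k, mul_assoc]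
  by_cases v4 : v ∈ zpowers z ⊔ zpowers s
  · refine ⟨1, one_mem _, ?_⟩
    rcases mem_four oz os e v4 with f | f | f | f
    exacts [absurd f v2, absurd f v3, Or.inl (by simp [f]),
      Or.inr (by simp [f, mul_assoc, inv_sq oz])]
  obtain ⟨a1, a2⟩ := mv s s1 (inv_ne os) n
  obtain ⟨a3, a4⟩ := nz s (inv_ne os) n
  have a5 := conj_mem_of_mem_N g1 s1
  have a6 : g * s * g⁻¹ ∉ zpowers z ⊔ zpowers s := fun f => by
    rcases mem_four oz os e f with f | f | f | f <;> contradiction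
  have gg : g * g * s * (g * g)⁻¹ = g * (g * s * g⁻¹) * g⁻¹ := by group
  have gm : g * (g * s * g⁻¹ * s) * g⁻¹ = g * (g * s * g⁻¹) * g⁻¹ * (g * s * g⁻¹) := by group
  generalize hb : g * s * g⁻¹ = b at a1 a2 a3 a4 a5 a6 gg gm
  obtain ⟨b1, b2⟩ := mv b a5 a3 a4
  obtain ⟨b3, b4⟩ := nz b a3 a4
  have b5 := conj_mem_of_mem_N g1 a5
  obtain ⟨c1, c2⟩ := mv (b * s) (mul_mem a5 s1)
    (fun f => a1 (by rw [← mul_one b, ← sq s s1, ← mul_assoc, f, one_mul]))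
    (fun f => a2 (by rw [← mul_one b, ← sq s s1, ← mul_assoc, f, e]))
  rw [gm] at c1 c2
  have b6 : g * b * g⁻¹ ∉ zpowers z ⊔ zpowers s := fun f => by
    rcases mem_four oz os e f with f | f | f | f
    exacts [b3 f, b4 f, c1 (by rw [f, ab.comm s1 a5]),
      c2 (by rw [f, ab.comm (mul_mem s1 z1) a5, mul_assoc])]
  have zz : ∀ a : G, a * z * z = a := fun a => by rw [mul_assoc, inv_sq oz, mul_one]
  rcases mul v v1 b a5 v4 a6 with f | f | f | f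
  · exact ⟨g, hg, Or.inl (hb.trans f.symm)⟩
  · exact ⟨g, hg, Or.inr (by rw [hb, f, zz])⟩
  all_goals
    refine ⟨g * g, mul_mem hg hg, ?_⟩
    rcases mul _ b5 b a5 b6 a6 with k | k | k | k
    · exact absurd k b1
    · exact absurd k b2
    all_goals rw [gg, k, f]; simp [zz]

theorem ninv (h : JB L) {z : G} (hz : z ∈ L) (oz : orderOf z = 2) :
    {s | s ∈ L ∧ orderOf s = 2 ∧ s * z = z * s ∧ s ≠ z}.ncard = 30 := by
  obtain ⟨S, z1, hS⟩ := h.exS1 hz oz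
  obtain ⟨c8, sq, ab⟩ := h.syl2 hS
  have : ¬ S ≤ zpowers z := fun f => by
    have := card_dvd_of_le' f
    rw [c8, Nat.card_zpowers, oz] at this
    omega
  obtain ⟨s, s1, s2⟩ := SetLike.not_le_iff_exists.1 this
  rw [mem_zp2 oz, not_or] at s2
  have os := inv_ord (sq s s1) s2.1
  have e1 := card_class_mul (L ⊓ C1 z) s
  rw [h.cv oz os s2.2 hS z1 s1, c8, h.cz hz oz] at e1
  have mO : ∀ {y}, y ∈ clSupp {s} (L ⊓ C1 z) ↔ ∃ g ∈ L ⊓ C1 z, y = g * s * g⁻¹ := by simp [clSupp]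
  have a : ∀ y ∈ clSupp {s} (L ⊓ C1 z), y ∈ L ∧ orderOf y = 2 ∧ y * z = z * y ∧ y ≠ z := by
    intro y hy
    obtain ⟨g, hg, rfl⟩ := mO.1 hy
    have s3 : s ∈ L ⊓ C1 z := ⟨hS.le s1, mem_C1.2 (ab.comm s1 z1)⟩
    have := mul_mem (mul_mem hg s3) (inv_mem hg)
    exact ⟨this.1, by rwa [ord_conj], mem_C1.1 this.2,
      fun f => s2.2 (by simpa using f.trans (mem_C1_iff_conj.1 hg.2).symm)⟩
  have zz : ∀ a : G, a * z * z = a := fun a => by rw [mul_assoc, inv_sq oz, mul_one]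
  rw [show {s | s ∈ L ∧ orderOf s = 2 ∧ s * z = z * s ∧ s ≠ z} =
      clSupp {s} (L ⊓ C1 z) ∪ (· * z) '' clSupp {s} (L ⊓ C1 z) from ?_, Set.ncard_union_eq,
    Set.ncard_image_of_injective _ (mul_left_injective z)]
  · omega
  · refine Set.disjoint_left.2 ?_
    rintro _ h1 ⟨y, h2, rfl⟩
    obtain ⟨y1, y2, y3, y4⟩ := a y h2
    obtain ⟨g, hg, e2⟩ := mO.1 h1
    obtain ⟨k, hk, e3⟩ := mO.1 h2
    refine h.nsz hz y1 oz y2 y3 y4 (mul_mem hg (inv_mem hk)) (Eq.trans ?_ (Eq.symm e2))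
    rw [e3]; group
  · refine Set.Subset.antisymm (fun y ⟨y1, y2, y3, y4⟩ => ?_) (Set.union_subset a ?_)
    · obtain ⟨g, g1, g2, f | f⟩ := h.clsz hz (hS.le s1) y1 oz os y2 (ab.comm s1 z1) y3 s2.2 y4
      · exact Or.inl (mO.2 ⟨g, ⟨g1, mem_C1.2 g2⟩, f.symm⟩)
      · exact Or.inr ⟨_, mO.2 ⟨g, ⟨g1, mem_C1.2 g2⟩, f.symm⟩, zz y⟩
    · rintro _ ⟨y, h2, rfl⟩
      obtain ⟨y1, y2, y3, y4⟩ := a y h2
      refine ⟨mul_mem y1 hz, inv_ord ?_ fun f => y4 ?_, by rw [← mul_assoc, ← y3],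
        fun f => inv_ne y2 (by simpa using f)⟩
      · rw [mul_assoc, ← mul_assoc z, ← y3, zz, inv_sq y2]
      · rw [← zz y, show y * z = 1 from f, one_mul]

end JB

end CfsgJ
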