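import Cfsg.Agent.H3.JB1

/-! S3403 (JB), part 2: the points on a line of type `B`. -/

set_option autoImplicit false

namespace CfsgJ

open CfsgH5 CfsgH6 CfsgFT Subgroup JT
open scoped commutatorElement

universe u

variable {G Ω : Type u} [Group G] [Finite G] [MulAction G Ω] {P : Ω → Subgroup G}
  {L : Subgroup G}

namespace Geo

theorem bcen (h : Geo G Ω P) (hB : TyB L) {i : Ω} (hi : P i ≤ L) : L ⊓ C (P i) = P i := by
  obtain ⟨x, -, o, e⟩ := h.exP i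
  have := Fact.mk (by norm_num : Nat.Prime 11)
  have hx : x ∈ P i := e ▸ mem_zpowers x
  have S := syl_zpowers (m := 15960) (by norm_num) (hi hx) o hB.1 (by norm_num)
  rw [← e] at S
  refine S.eq_of_le inf_le_left (isPGroup_of_coprime_eq_one this.out fun g hg c => ?_)
    (le_inf hi (h.ab i))
  have h1 := hB.2 _ (mul_mem hg.1 (hi hx))
  rw [ord_mul (mem_C.1 hg.2 x hx).symm rfl o c] at h1
  rw [← orderOf_eq_one_iff]
  simp only [List.mem_cons, List.not_mem_nil, or_false] at h1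
  omega

theorem bsyl (h : Geo G Ω P) (hB : TyB L) {i : Ω} (hi : P i ≤ L) : SylIn 11 (P i) L := by
  obtain ⟨x, -, o, e⟩ := h.exP i
  exact e ▸ syl_zpowers (m := 15960) (by norm_num) (hi (e ▸ mem_zpowers x)) o hB.1 (by norm_num)

theorem btr (h : Geo G Ω P) (hB : TyB L) {i j : Ω} (hi : P i ≤ L) (hj : P j ≤ L) :
    ∃ g ∈ L, g • i = j := by
  have := Fact.mk (by norm_num : Nat.Prime 11)
  obtain ⟨g, hg, e⟩ := (h.bsyl hB hi).conj (h.bsyl hB hj)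
  exact ⟨g, hg, h.inj (by rw [h.smul, e])⟩

theorem bstab (h : Geo G Ω P) (hB : TyB L) {i : Ω} (hi : P i ≤ L) :
    Nat.card ↥(L ⊓ N (P i)) = 110 := by
  obtain ⟨e1, e2⟩ := syl_mod (by norm_num) (h.bsyl hB hi)
  have e5 := relIndex_C_dvd_of_prime_card (by norm_num) (A := L ⊓ N (P i)) (h.card i)
    (nrm_of_le_N inf_le_right)
  have e6 := card_inf_mul_relIndex (C (P i)) (L ⊓ N (P i))
  rw [inf_left_comm, inf_eq_left.2 (C_le_N _), h.bcen hB hi, h.card] at e6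
  rw [← e6, hB.1] at e1
  rw [← e6]
  generalize (C (P i)).relIndex _ = k at *
  have := Nat.le_of_dvd (by norm_num) e5
  interval_cases k <;> omega

theorem btor (h : Geo G Ω P) (hB : TyB L) {i : Ω} (hi : P i ≤ L) : ∃ y ∈ L, orderOf y = 10 ∧
    y • i = i ∧ ∀ g ∈ L, g • i = i → ∃ p ∈ P i, ∃ k : ℕ, g = p * y ^ k := by
  have e := isCyclic_quo_C_of_prime_card (A := L ⊓ N (P i)) (X := P i) (by rw [h.card]; norm_num)
    (nrm_of_le_N inf_le_right)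
  rw [inf_assoc, inf_eq_right.2 (C_le_N _), h.bcen hB hi,
    isCyclic_quo_iff (nrm_of_le_N inf_le_right)] at e
  obtain ⟨y, hy, e⟩ := e
  have n : Nrm (zpowers y) (P i) := nrm_zpowers_iff.2 hy.2
  have e1 := (card_dvd_of_le' e).trans (card_sup_dvd (Or.inr n))
  rw [h.bstab hB hi, h.card, Nat.card_zpowers] at e1
  have e2 := hB.2 y hy.1
  refine ⟨y, hy.1, ?_, h.fix_iff.2 hy.2, fun g hg f => ?_⟩
  · simp only [List.mem_cons, List.not_mem_nil, or_false] at e2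
    omega
  · have := inv_mem (e ⟨hg, h.fix_iff.1 f⟩)
    rw [sup_comm] at this
    obtain ⟨a, ha, p, hp, e3⟩ := Nrm.exists_mul_of_mem_sup n this
    obtain ⟨k, hk⟩ := mem_powers_iff_mem_zpowers.2 (inv_mem ha)
    exact ⟨p⁻¹, inv_mem hp, k, by rw [show y ^ k = a⁻¹ from hk, ← mul_inv_rev, ← e3, inv_inv]⟩

theorem bnC (h : Geo G Ω P) (hB : TyB L) {i : Ω} (hi : P i ≤ L) {t : G} (ht : t ∈ L)
    (h1 : orderOf t ≠ 1) (h2 : orderOf t ≠ 11) : t ∉ C (P i) := fun e =>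
  h2 (h.order (h.bcen hB hi ▸ ⟨ht, e⟩ : t ∈ P i) fun f => h1 (by rw [f, orderOf_one]))

theorem jb (h : Geo G Ω P) (hL : Line P L) (hB : TyB L) : JB L := by
  obtain ⟨i, j, -, e⟩ := id hL
  have k : ∀ k, P k ≤ L → P k ≤ ⁅L, L⁆ := fun k hk => by
    obtain ⟨y, h1, h2, h3, -⟩ := h.btor hB hk
    refine (le_or_inf_eq_bot_of_prime_card (by rw [h.card]; norm_num) _).resolve_right fun f => ?_
    refine h.bnC hB hk h1 (by omega) (by omega) (mem_C.2 fun x hx => ?_)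
    have : ⁅y, x⁆ ∈ P k ⊓ ⁅L, L⁆ := mem_inf.2 ⟨mul_mem (conj_mem_of_mem_N (h.fix_iff.1 h3) hx)
      (inv_mem hx), commutator_mem_commutator h1 (hk hx)⟩
    exact (commutatorElement_eq_one_iff_mul_comm.1 (mem_bot.1 (f ▸ this))).symm
  obtain ⟨y, h1, h2, -⟩ := h.btor hB (e ▸ le_sup_left : P i ≤ L)
  refine ⟨hB.1, hB.2, le_antisymm (commutator_le_self L) (e.le.trans (sup_le
    (k i (e ▸ le_sup_left)) (k j (e ▸ le_sup_right)))), y ^ 2, pow_mem h1 _, y ^ 5, pow_mem h1 _,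
    by rw [orderOf_pow, h2]; rfl, by rw [orderOf_pow, h2]; rfl, pow_mul_comm ..⟩

theorem inverts (h : Geo G Ω P) {s : G} {i : Ω} (h1 : s * s = 1) (h2 : s • i = i)
    (h3 : s ∉ C (P i)) : ∀ x ∈ P i, s * x * s⁻¹ = x⁻¹ := fun x hx => by
  obtain ⟨n, hn⟩ := h.sc_ex h2
  have e := h.sc_unique (Sc.mul (fun _ => h.pow11) hn hn) (h1 ▸ sc_one_iff.2 (one_mem _))
  have e1 : n ≠ 1 := fun f => h3 (sc_one_iff.1 (f ▸ hn))
  have : n = 10 := by clear hn; revert n; decide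
  rw [hn x hx, this, eq_inv_iff_mul_eq_one, ← pow_succ]
  exact h.pow11 hx

theorem bclsP (h : Geo G Ω P) (hB : TyB L) {i : Ω} (hi : P i ≤ L) {s s' : G} (hs : s ∈ L)
    (hs' : s' ∈ L) (o : orderOf s = 2) (o' : orderOf s' = 2) (f : s • i = i) (f' : s' • i = i) :
    ∃ p ∈ P i, p * s * p⁻¹ = s' := by
  have e := h.inverts (inv_sq o) f (h.bnC hB hi hs (by omega) (by omega))
  have e' := h.inverts (inv_sq o') f' (h.bnC hB hi hs' (by omega) (by omega))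
  have hp : s' * s⁻¹ ∈ P i := h.bcen hB hi ▸ mem_inf.2 ⟨mul_mem hs' (inv_mem hs), mem_C.2 fun x hx => by
    have := e _ (conj_mem_of_mem_N (inv_mem (h.fix_iff.1 f)) hx)
    have k := e' _ (conj_mem_of_mem_N (inv_mem (h.fix_iff.1 f)) hx)
    rw [← this] at k
    rw [← mul_inv_eq_iff_eq_mul.1 (show s' * s⁻¹ * x * (s' * s⁻¹)⁻¹ = x from ?_)]
    rw [show s' * s⁻¹ * x * (s' * s⁻¹)⁻¹ = s' * (s⁻¹ * x * s⁻¹⁻¹) * s'⁻¹ by group, k]; group⟩
  refine ⟨_, pow_mem hp 6, ?_⟩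
  have k := h.pow11 hp
  generalize hq : s' * s⁻¹ = p at *
  rw [← e _ (pow_mem hp 6), ← inv_mul_eq_one.1 (show (p * s)⁻¹ * s' = 1 by rw [← hq]; group),
    show p ^ 6 * s * (s * p ^ 6 * s⁻¹) = p ^ 6 * (s * s) * p ^ 6 * s⁻¹ by group, inv_sq o,
    inv_eq_of_mul_eq_one_right (inv_sq o), mul_one, ← pow_add, pow_succ, k, one_mul]

theorem bsyl5 (h : Geo G Ω P) (hB : TyB L) {i : Ω} (hi : P i ≤ L) {s t : G} (hs : s ∈ L)
    (ht : t ∈ L) (o : orderOf s = 5) (o' : orderOf t = 5) (f : s • i = i) (f' : t • i = i) :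
    ∃ g ∈ L, g • i = i ∧ zpowers (g * s * g⁻¹) = zpowers t := by
  have := Fact.mk Nat.prime_five
  obtain ⟨g, hg, e⟩ := (syl_zpowers (m := 22) Nat.prime_five (mem_inf.2 ⟨hs, h.fix_iff.1 f⟩) o (h.bstab hB hi)
    (by norm_num)).conj (syl_zpowers (m := 22) Nat.prime_five (mem_inf.2 ⟨ht, h.fix_iff.1 f'⟩) o'
      (h.bstab hB hi) (by norm_num))
  exact ⟨g, hg.1, h.fix_iff.2 hg.2, by rw [← e, cj_zpowers]⟩

theorem bzt (h : Geo G Ω P) (hB : TyB L) {t : G} (ht : t ∈ L) (o : orderOf t = 5) {i : Ω}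
    (hi : P i ≤ L) (f : t • i = i) : ∃ z ∈ L, orderOf z = 2 ∧ z • i = i ∧ z * t = t * z := by
  obtain ⟨y, h1, h2, h3, -⟩ := h.btor hB hi
  have h4 : y ∈ MulAction.stabilizer G i := h3
  obtain ⟨g, g1, g2, e⟩ := h.bsyl5 hB hi (pow_mem h1 2) ht (by rw [orderOf_pow, h2]; rfl) o
    (pow_mem h4 2) f
  have g3 : g ∈ MulAction.stabilizer G i := g2
  refine ⟨g * y ^ 5 * g⁻¹, mul_mem (mul_mem g1 (pow_mem h1 _)) (inv_mem g1),
    by rw [ord_conj, orderOf_pow, h2]; rfl, mul_mem (mul_mem g3 (pow_mem h4 _)) (inv_mem g3),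
    mem_C1.1 ?_⟩
  rw [← C_zpowers, ← e, C_zpowers, ← cj_C1]
  exact conj_mem_cj.2 (mem_C1.2 (pow_mul_comm ..))

theorem btz (h : Geo G Ω P) (hB : TyB L) {z : G} (hz : z ∈ L) (o : orderOf z = 2) {i : Ω}
    (hi : P i ≤ L) (f : z • i = i) : ∃ t ∈ L, orderOf t = 5 ∧ t • i = i ∧ z * t = t * z := by
  obtain ⟨y, h1, h2, h3, -⟩ := h.btor hB hi
  have h4 : y ∈ MulAction.stabilizer G i := h3
  obtain ⟨g, g1, rfl⟩ := h.bclsP hB hi (pow_mem h1 5) hz (by rw [orderOf_pow, h2]; rfl) o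
    (pow_mem h4 5) f
  have g3 : g ∈ MulAction.stabilizer G i := h.fix_P g1
  refine ⟨g * y ^ 2 * g⁻¹, mul_mem (mul_mem (hi g1) (pow_mem h1 _)) (inv_mem (hi g1)),
    by rw [ord_conj, orderOf_pow, h2]; rfl, mul_mem (mul_mem g3 (pow_mem h4 _)) (inv_mem g3), ?_⟩
  group

theorem conj_fix {g s : G} {i : Ω} (f : s • i = i) : (g * s * g⁻¹) • g • i = g • i := by
  rw [mul_smul, inv_smul_smul, mul_smul, f]

theorem btrz (h : Geo G Ω P) (hB : TyB L) {z : G} (hz : z ∈ L) (o : orderOf z = 2) {i j : Ω}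
    (hi : P i ≤ L) (hj : P j ≤ L) (f : z • i = i) (f' : z • j = j) :
    ∃ g ∈ L, g * z = z * g ∧ g • i = j := by
  obtain ⟨g, hg, rfl⟩ := h.btr hB hi hj
  obtain ⟨p, hp, e⟩ := h.bclsP hB hj (mul_mem (mul_mem hg hz) (inv_mem hg)) hz (by rwa [ord_conj])
    o (conj_fix f) f'
  refine ⟨p * g, mul_mem (hj hp) hg, ?_, by rw [mul_smul, h.fix_P hp]⟩
  rw [← mul_inv_eq_iff_eq_mul]
  exact Eq.trans (by group) e

/-- the centraliser of `t` or `z` in the stabiliser of a point -/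
theorem bc10 (h : Geo G Ω P) (hB : TyB L) {t z x : G} (ht : t ∈ L) (hz : z ∈ L)
    (o1 : orderOf t = 5) (o2 : orderOf z = 2) (e : z * t = t * z) {i : Ω} (hi : P i ≤ L)
    (f1 : t • i = i) (f2 : z • i = i) (hx : x = t ∨ x = z) :
    Nat.card ↥(MulAction.stabilizer G i ⊓ (L ⊓ C1 x)) = 10 := by
  have e1 := orderOf_dvd_card' (X := MulAction.stabilizer G i ⊓ (L ⊓ C1 x)) (x := t * z)
    ⟨by change (t * z) • i = i; rw [mul_smul, f2, f1], mul_mem ht hz, mem_C1.2 (by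
      rcases hx with rfl | rfl
      · rw [mul_assoc, e]
      · rw [← e, mul_assoc, ← e])⟩
  have e2 := card_dvd_of_le' (show MulAction.stabilizer G i ⊓ (L ⊓ C1 x) ≤ L ⊓ N (P i) from
    fun g hg => ⟨hg.2.1, h.fix_iff.1 hg.1⟩)
  have e3 : ¬ 11 ∣ Nat.card ↥(MulAction.stabilizer G i ⊓ (L ⊓ C1 x)) := fun f => by
    obtain ⟨p, hp, o⟩ := exists_mem_orderOf_eq (by norm_num) f
    rcases hx with rfl | rfl
    · have := hB.2 _ (mul_mem hp.2.1 ht)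
      rw [ord_mul (mem_C1.1 hp.2.2) o o1 (by norm_num)] at this
      simp at this
    · have := hB.2 _ (mul_mem hp.2.1 hz)
      rw [ord_mul (mem_C1.1 hp.2.2) o o2 (by norm_num)] at this
      simp at this
  rw [ord_mul e.symm o1 o2 (by norm_num)] at e1
  rw [h.bstab hB hi] at e2
  obtain ⟨d, hd⟩ := e1
  rw [hd] at e2 e3 ⊢
  have : d ≤ 11 := by have := Nat.le_of_dvd (by norm_num) e2; omega
  interval_cases d <;> omega

theorem bfixz (h : Geo G Ω P) (hL : Line P L) (hB : TyB L) {z : G} (hz : z ∈ L)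
    (o : orderOf z = 2) : {i | P i ≤ L ∧ z • i = i}.ncard = 12 := by
  have J := h.jb hL hB
  obtain ⟨i, -, -, hi, -⟩ := hL.two
  obtain ⟨y, h1, h2, h3, -⟩ := h.btor hB hi
  have h4 : y ∈ MulAction.stabilizer G i := h3
  obtain ⟨g, g1, e⟩ := J.cls (pow_mem h1 5) hz (by rw [orderOf_pow, h2]; rfl) o
  have f : z • g • i = g • i := e ▸ conj_fix (pow_mem h4 5)
  have hj := (h.on_mem g1).2 hi
  generalize g • i = j at f hj
  obtain ⟨t, t1, t2, t3, t4⟩ := h.btz hB hz o hj f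
  have e1 := card_inf_mul_relIndex (MulAction.stabilizer G j) (L ⊓ C1 z)
  rw [h.bc10 hB t1 hz t2 o t4 hj t3 f (Or.inr rfl), J.cz hz o] at e1
  rw [show {i | P i ≤ L ∧ z • i = i} = MulAction.orbit (L ⊓ C1 z :) j from ?_,
    ← MulAction.index_stabilizer]
  · exact Nat.eq_of_mul_eq_mul_left (by norm_num : 0 < 10) e1
  refine Set.ext fun k => ⟨fun ⟨k1, k2⟩ => ?_, ?_⟩
  · obtain ⟨a, a1, a2, a3⟩ := h.btrz hB hz o hj k1 f k2
    exact ⟨⟨a, a1, mem_C1.2 a2⟩, a3⟩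
  · rintro ⟨⟨a, a1, a2⟩, rfl⟩
    have := conj_fix (g := a) f
    rw [mem_C1_iff_conj.1 a2] at this
    exact ⟨(h.on_mem a1).2 hj, this⟩

theorem bmove (h : Geo G Ω P) (hB : TyB L) {u : G} (hu : u ∈ L) (o : orderOf u = 3) {i : Ω}
    (hi : P i ≤ L) : u • i ≠ i := fun f => by
  have := orderOf_dvd_card' (X := L ⊓ N (P i)) ⟨hu, h.fix_iff.1 f⟩
  rw [h.bstab hB hi, o] at this
  omega

theorem bsame (h : Geo G Ω P) (hL : Line P L) (hB : TyB L) {t : G} (ht : t ∈ L)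
    (o : orderOf t = 5) {i : Ω} (hi : P i ≤ L) : ∃ g ∈ L, g • i ≠ i ∧ g * t * g⁻¹ = t := by
  obtain ⟨u, h1, h2, h3⟩ := (h.jb hL hB).ex3 ht o
  exact ⟨u, h1, h.bmove hB h1 h2 hi, mul_inv_eq_iff_eq_mul.2 h3⟩

theorem bfive (h : Geo G Ω P) (hL : Line P L) (hB : TyB L) {t : G} (ht : t ∈ L)
    (o : orderOf t = 5) : ∃ i j, i ≠ j ∧ P i ≤ L ∧ P j ≤ L ∧ t • i = i ∧ t • j = j := by
  obtain ⟨i, -, -, hi, -⟩ := hL.two
  obtain ⟨y, h1, h2, h3, -⟩ := h.btor hB hi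
  have h4 : y ∈ MulAction.stabilizer G i := h3
  obtain ⟨g, g1, e⟩ := (h.jb hL hB).conj_zp (m := 35112) Nat.prime_five rfl (by norm_num)
    (pow_mem h1 2) ht (by rw [orderOf_pow, h2]; rfl) o
  have f : t ∈ MulAction.stabilizer G (g • i) :=
    (zpowers_le.2 (conj_fix (pow_mem h4 2))) (e ▸ mem_zpowers t)
  have hj := (h.on_mem g1).2 hi
  obtain ⟨u, u1, u2, u3⟩ := h.bsame hL hB ht o hj
  exact ⟨_, _, u2, (h.on_mem u1).2 hj, hj, u3 ▸ conj_fix f, f⟩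

theorem bnt (h : Geo G Ω P) (hL : Line P L) (hB : TyB L) {t : G} (ht : t ∈ L) (o : orderOf t = 5)
    {i j : Ω} (hi : P i ≤ L) (hj : P j ≤ L) (f : t • i = i) (f' : t • j = j) :
    ∃ g ∈ L, g • i = j ∧ (g * t * g⁻¹ = t ∨ g * t * g⁻¹ = t⁻¹) := by
  obtain ⟨g, hg, rfl⟩ := h.btr hB hi hj
  obtain ⟨p, p1, p2, e⟩ := h.bsyl5 hB hj (mul_mem (mul_mem hg ht) (inv_mem hg)) ht
    (by rwa [ord_conj]) o (conj_fix f) f'
  refine ⟨p * g, mul_mem p1 hg, by rw [mul_smul, p2], (h.jb hL hB).nt ht o (mul_mem p1 hg) ?_⟩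
  rw [mem_N, cj_zpowers, ← e]
  congr 1; group

/-- an element normalising `C_L(t)` normalises its subgroup of order 3 -/
theorem _root_.CfsgJ.JB.n3 (J : JB L) {t u a : G} (ht : t ∈ L) (o : orderOf t = 5) (hu : u ∈ L)
    (ou : orderOf u = 3) (e : u * t = t * u) (ha : a ∈ N L) (e' : a * t = t * a) :
    a * u * a⁻¹ = u ∨ a * u * a⁻¹ = u⁻¹ := by
  classical
  have hu' : u ∈ L ⊓ C1 t := ⟨hu, mem_C1.2 e⟩
  have U := syl_zpowers (m := 10) Nat.prime_three hu' ou (J.c5 ht o).1 (by norm_num)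
  obtain ⟨e2, e3⟩ := syl_mod Nat.prime_three U
  have e4 := orderOf_dvd_card' (X := L ⊓ C1 t ⊓ N (zpowers u)) (x := t)
    ⟨⟨ht, self_mem_C1 t⟩, C_le_N _ (by rw [C_zpowers]; exact mem_C1.2 e.symm)⟩
  have e5 : (N (zpowers u)).relIndex (L ⊓ C1 t) = 1 := by
    rw [(J.c5 ht o).1] at e2
    rw [o] at e4
    obtain ⟨d, hd⟩ := e4
    have e6 := orderOf_dvd_card' (X := L ⊓ C1 t ⊓ N (zpowers u)) ⟨hu', le_N _ (mem_zpowers u)⟩
    rw [hd] at e2 e6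
    rw [ou] at e6
    generalize (N (zpowers u)).relIndex _ = k at *
    have : d ≤ 6 := by have := Nat.le_of_dvd (by norm_num) (Dvd.intro _ e2); omega
    interval_cases d <;> omega
  have U' := U.cjj a
  rw [cj_inf, mem_N.1 ha, cj_C1, mul_inv_eq_iff_eq_mul.2 e'] at U'
  have e6 := U.eq_of_nrm Nat.prime_three U' (nrm_of_le_N (U'.le.trans (relIndex_eq_one.1 e5)))
  have e7 := conj_mem_of_mem_N (mem_N.2 e6) (mem_zpowers u)
  rw [mem_zpowers_iff_mem_range_orderOf, ou] at e7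
  obtain ⟨k, hk, e7⟩ := Finset.mem_image.1 e7
  have := Finset.mem_range.1 hk
  have e8 := ord_conj a u
  rw [← e7] at e8 ⊢
  interval_cases k
  · rw [pow_zero, orderOf_one, ou] at e8; omega
  · exact Or.inl (pow_one u)
  · exact Or.inr (by rw [eq_inv_iff_mul_eq_one, ← pow_succ, ← orderOf_dvd_iff_pow_eq_one, ou])

theorem bsc3 (h : Geo G Ω P) (hL : Line P L) (hB : TyB L) {t z : G} (ht : t ∈ L) (hz : z ∈ L)
    (o1 : orderOf t = 5) (o2 : orderOf z = 2) (e : z * t = t * z) {i : Ω} (hi : P i ≤ L)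
    (f : t • i = i) {n : ZMod 11} (hn : Sc t (P i) n) :
    ∃! j, P j ≤ L ∧ t • j = j ∧ Sc t (P j) n ∧ z • j = j := by
  have J := h.jb hL hB
  have := Fact.mk Nat.prime_two
  have ex : ∃ j, P j ≤ L ∧ t • j = j ∧ Sc t (P j) n ∧ z • j = j := by
    obtain ⟨w, w1, w2, w3, w4⟩ := h.bzt hB ht o1 hi f
    obtain ⟨g, hg, e1⟩ := (syl_zpowers (m := 15) Nat.prime_two (mem_inf.2 ⟨w1, mem_C1.2 w4⟩) w2 (J.c5 ht o1).1
      (by norm_num)).conj (syl_zpowers (m := 15) Nat.prime_two (mem_inf.2 ⟨hz, mem_C1.2 e⟩) o2 (J.c5 ht o1).1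
        (by norm_num))
    have e2 := hn.cjj g
    rw [mem_C1_iff_conj.1 hg.2, ← h.smul] at e2
    refine ⟨g • i, (h.on_mem hg.1).2 hi, mem_C1_iff_conj.1 hg.2 ▸ conj_fix f, e2, ?_⟩
    rw [cj_zpowers] at e1
    exact (zpowers_le.2 (show _ ∈ MulAction.stabilizer G (g • i) from conj_fix w3))
      (e1 ▸ mem_zpowers z)
  obtain ⟨j, j1, j2, j3, j4⟩ := ex
  refine ⟨j, ⟨j1, j2, j3, j4⟩, fun k ⟨k1, k2, k3, k4⟩ => ?_⟩
  obtain ⟨g, g1, rfl, e1⟩ := h.bnt hL hB ht o1 j1 k1 j2 k2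
  have e2 := j3.cjj g
  rw [← h.smul] at e2
  replace e1 := e1.resolve_right fun e1 =>
    h.bnC hB k1 ht (by omega) (by omega) (h.sc_ne o1 k3 (e1 ▸ e2) k3)
  obtain ⟨u, u1, u2, u3⟩ := J.ex3 ht o1
  have u4 : z * u * z⁻¹ = u⁻¹ := (J.n3 ht o1 u1 u2 u3 (le_N _ hz) e).resolve_left fun f =>
    J.no30 hz u1 ht o2 u2 o1 (mul_inv_eq_iff_eq_mul.1 f) e u3
  have b : zpowers u ⊓ (MulAction.stabilizer G j ⊓ (L ⊓ C1 t)) = ⊥ :=
    (le_or_inf_eq_bot_of_prime_card (by rw [Nat.card_zpowers, u2]; norm_num) _).resolve_left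
      fun f => h.bmove hB u1 u2 j1 (f (mem_zpowers u)).1
  obtain ⟨x, hx, c, hc, rfl⟩ := exists_mul_of_card_le (zpowers_le.2 (mem_inf.2 ⟨u1, mem_C1.2 u3⟩))
    (inf_le_right : MulAction.stabilizer G j ⊓ (L ⊓ C1 t) ≤ _) (by
      rw [b, card_bot, Nat.card_zpowers, u2, (J.c5 ht o1).1,
        h.bc10 hB ht hz o1 o2 e j1 j2 j4 (Or.inl rfl)]) ⟨g1, mem_C1_iff_conj.2 e1⟩
  rw [mul_smul, show c • j = j from hc.1] at k4 ⊢
  have x1 : z * x * z⁻¹ = x⁻¹ := by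
    obtain ⟨m, rfl⟩ := hx
    rw [← conj_zpow, u4, inv_zpow]
  have x2 : x * x ∈ zpowers u ⊓ (MulAction.stabilizer G j ⊓ (L ⊓ C1 t)) := by
    refine ⟨mul_mem hx hx, ?_, (zpowers_le.2 (mem_inf.2 ⟨u1, mem_C1.2 u3⟩)) (mul_mem hx hx)⟩
    change (x * x) • j = j
    rw [mul_smul, ← k4, ← mul_smul z, mul_inv_eq_iff_eq_mul.1 x1, mul_smul, j4, smul_inv_smul]
  rw [b, mem_bot] at x2
  have x3 : x ^ 3 = 1 := by
    obtain ⟨m, rfl⟩ := hx
    rw [← zpow_natCast, ← zpow_mul, mul_comm, zpow_mul, zpow_natCast, ← u2, pow_orderOf_eq_one,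
      one_zpow]
  rw [pow_succ, sq, x2, one_mul] at x3
  rw [x3, one_smul]

end Geo

end CfsgJ
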