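import Cfsg.Agent.H3.JB2

/-! S3403 (JB), part 3: the normaliser of a line of type `B`. -/

set_option autoImplicit false

namespace CfsgJ

open CfsgH5 CfsgH6 CfsgFT Subgroup JT

universe u

variable {G Ω : Type u} [Group G] [Finite G] [MulAction G Ω] {P : Ω → Subgroup G}
  {L : Subgroup G}

theorem JT.ex_prime_pow {X : Subgroup G} {n : ℕ} (hn : n ≠ 0) {x : G} (h1 : x ^ n ∈ X)
    (h2 : x ∉ X) : ∃ m r : ℕ, r.Prime ∧ x ^ m ∉ X ∧ (x ^ m) ^ r ∈ X := by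
  induction n using induction_on_primes generalizing x with
  | zero => exact absurd rfl hn
  | one => exact absurd (pow_one x ▸ h1) h2
  | prime_mul p a hp ih =>
    by_cases e : x ^ p ∈ X
    · exact ⟨1, p, hp, by rwa [pow_one], by rwa [pow_one]⟩
    · obtain ⟨m, r, h3, h4, h5⟩ := ih (right_ne_zero_of_mul hn) (pow_mul x p a ▸ h1) e
      exact ⟨p * m, r, h3, by rwa [pow_mul], by rwa [pow_mul]⟩

/-- an involutory automorphism of `L` centralises a four-group -/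
theorem JB.aut2 (J : JB L) {a : G} (ha : a ∈ N L) (h2 : a ^ 2 ∈ C L) :
    ¬ Nat.card ↥(L ⊓ C1 a) ∣ 110 := fun h => by
  have := Fact.mk Nat.prime_two
  obtain ⟨k, m, ⟨j, hm⟩, e⟩ := Nat.exists_eq_two_pow_mul_odd (orderOf_pos a).ne'
  obtain ⟨S0, s1, s2⟩ := exists_sylIn_ge (zpowers_le.2 (pow_mem ha m))
    (isPGroup_zpowers (p := 2) (k := k) (by rw [← pow_mul, mul_comm, ← e, pow_orderOf_eq_one]))
  have hS := s2.inf_nrm (le_N L) (nrm_N L)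
  obtain ⟨c8, sq, ab⟩ := J.syl2 hS
  have n : ∀ s ∈ S0 ⊓ L, a * s * a⁻¹ ∈ S0 ⊓ L := fun s hs => by
    refine ⟨?_, conj_mem_of_mem_N ha hs.2⟩
    have e1 := s1 (mem_zpowers _)
    have := mul_mem (mul_mem e1 hs.1) (inv_mem e1)
    rwa [hm, pow_succ', pow_mul, mul_assoc a, ← mem_C.1 (pow_mem h2 j) s hs.2, mul_inv_rev,
      ← mul_assoc, ← mul_assoc, mul_inv_cancel_right] at this
  generalize S0 ⊓ L = S at *
  let f : S →* S := MonoidHom.mk' (fun s => ⟨s * (a * s * a⁻¹), mul_mem s.2 (n s s.2)⟩)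
    fun x y => Subtype.ext (by
      change x.1 * y * (a * (x * y) * a⁻¹) = x * (a * x * a⁻¹) * (y * (a * y * a⁻¹))
      rw [mul_assoc x.1 (a * x * a⁻¹), ← mul_assoc (a * x * a⁻¹), ab.comm (n x x.2) y.2]; group)
  have c2 : Nat.card ((C1 a).subgroupOf S) ≤ 2 := by
    rw [← inf_subgroupOf_left, Nat.card_congr (subgroupOfEquivOfLe inf_le_left).toEquiv]
    refine Nat.le_of_dvd (by norm_num) (Nat.dvd_gcd (m := 8) (n := 110)
      (c8 ▸ card_dvd_of_le' inf_le_left) ((card_dvd_of_le' (inf_le_inf_right _ hS.le)).trans h))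
  have k1 : f.ker ≤ (C1 a).subgroupOf S := fun x hx => mem_C1_iff_conj'.2 (by
    have : x.1 * (a * x * a⁻¹) = 1 := congrArg Subtype.val hx
    rw [← sq x x.2] at this
    exact mul_left_cancel this)
  have k2 : f.range ≤ (C1 a).subgroupOf S := by
    rintro _ ⟨x, rfl⟩
    refine mem_C1_iff_conj'.2 ?_
    change a * (x.1 * (a * x * a⁻¹)) * a⁻¹ = x * (a * x * a⁻¹)
    rw [ab.comm x.2 (n x x.2), show a * (a * x * a⁻¹ * x) * a⁻¹ = a ^ 2 * x * (a ^ 2)⁻¹ *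
      (a * x * a⁻¹) by simp only [pow_succ, pow_zero]; group, ← mem_C.1 h2 x (hS.le x.2),
      mul_inv_cancel_right, ab.comm x.2 (n x x.2)]
  have k3 := f.ker.card_mul_index
  rw [index_ker, c8] at k3
  have := (card_le_of_le k1).trans c2
  have := (card_le_of_le k2).trans c2
  nlinarith

namespace Geo

theorem nosub (h : Geo G Ω P) (hA : ∀ M, Line P M → TyA M → FA P M) (hB : TyB L) {M : Subgroup G}
    (hM : Line P M) (hML : M ≤ L) {z : G} (hz : z ∈ L) (o : orderOf z = 2) (h1 : z ∈ N M) {i : Ω}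
    (hi : P i ≤ M) (f : z • i = i) : M = L := by
  rcases h.ty hM with A | B
  · obtain ⟨v, v1, v2, -⟩ := (hA M hM A).ord4 z h1 (inv_sq o) i hi f
      (h.bnC hB (hi.trans hML) hz (by omega) (by omega))
    have := hB.2 _ (mul_mem hz (hML v1))
    rw [v2] at this
    simp at this
  · exact eq_of_le_of_card_eq hML (B.1.trans hB.1.symm)

theorem bb' (h : Geo G Ω P) (hA : ∀ M, Line P M → TyA M → FA P M) (hL : Line P L) (hB : TyB L)
    {i : Ω} (hi : P i ≤ L) {y : G} (h1 : y ∈ L) (h2 : orderOf y = 10) (h3 : y • i = i) {k : G}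
    (k1 : k ∈ C (P i)) (k2 : k ∈ N L) (k3 : k ∈ C1 y) : k ∈ C L := by
  by_contra k4
  have J := h.jb hL hB
  obtain ⟨m, r, hr, a4, a5⟩ := ex_prime_pow (orderOf_pos k).ne'
    (pow_orderOf_eq_one k ▸ one_mem (C L)) k4
  have a1 := pow_mem k1 m
  have a2 := pow_mem k2 m
  have a3 := pow_mem k3 m
  generalize k ^ m = a at *
  have y1 : y ∈ L ⊓ C1 a := ⟨h1, mem_C1_comm.1 a3⟩
  have i1 : P i ≤ L ⊓ C1 a := le_inf hi (le_C1_iff.2 a1)
  have Y : ∀ g ∈ L ⊓ C1 a, g • i = i := fun g hg => by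
    by_contra f
    obtain ⟨c, d, -, e⟩ := id hL
    obtain ⟨b, b', hb, b1, b2, b3⟩ := h.min (L ⊓ C1 a)
      (fun f => h.ne_top c d (eq_top_iff.2 (f.ge.trans (inf_le_left.trans e.le)))) _ _ f
      ((h.on_mem hg).2 i1) i1
    have z1 := pow_mem y1 5
    have := h.nosub hA hB ⟨b, b', hb, rfl⟩ ((sup_le b1 b2).trans inf_le_left) z1.1
      (by rw [orderOf_pow, h2]; rfl) (mem_N_of_cj_le (by
        rw [cj_sup, ← h.smul, ← h.smul]
        exact sup_le (b3 _ ((h.on_mem z1).2 b1)) (b3 _ ((h.on_mem z1).2 b2)))) (b3 i i1)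
      (pow_mem (show y ∈ MulAction.stabilizer G i from h3) 5)
    exact a4 (le_C1_iff.1 (this.ge.trans ((sup_le b1 b2).trans inf_le_right)))
  have o : orderOf (y ^ 2) = 5 := by rw [orderOf_pow, h2]; rfl
  obtain ⟨u, u1, u2, u3⟩ := J.ex3 (pow_mem h1 2) o
  have u4 := (J.n3 (pow_mem h1 2) o u1 u2 u3 a2 (mem_C1.1 (C1_le_C1_pow y 2 a3))).resolve_left
    fun f => h.bmove hB u1 u2 hi (Y u ⟨u1, mem_C1_iff_conj'.2 f⟩)
  rcases hr.eq_two_or_odd' with rfl | ⟨j, rfl⟩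
  · exact J.aut2 a2 a5 (h.bstab hB hi ▸ card_dvd_of_le' fun g hg => ⟨hg.1, h.fix_iff.1 (Y g hg)⟩)
  have u5 : a ^ 2 ∈ C1 u := mem_C1_iff_conj.2 (by
    rw [show a ^ 2 * u * (a ^ 2)⁻¹ = a * (a * u * a⁻¹) * a⁻¹ by simp only [pow_succ, pow_zero]; group,
      u4, ← conj_inv, u4, inv_inv])
  have u6 := C_le_C1 u1 a5
  rw [pow_succ, pow_mul, mul_mem_cancel_left (pow_mem u5 j), mem_C1_iff_conj, u4, eq_comm,
    eq_inv_iff_mul_eq_one, ← sq, ← orderOf_dvd_iff_pow_eq_one, u2] at u6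
  omega

theorem bb (h : Geo G Ω P) (hA : ∀ M, Line P M → TyA M → FA P M) (hL : Line P L) (hB : TyB L)
    {i : Ω} (hi : P i ≤ L) {k : G} (k1 : k ∈ C (P i)) (k2 : k ∈ N L) :
    ∃ p ∈ P i, ∃ c ∈ C L, k = p * c := by
  obtain ⟨y, h1, h2, h3, -⟩ := h.btor hB hi
  have h4 : y ∈ MulAction.stabilizer G i := h3
  have o : orderOf (y ^ 5) = 2 := by rw [orderOf_pow, h2]; rfl
  have f := conj_fix (g := k) (show y ^ 5 • i = i from pow_mem h4 5)
  rw [h.fix_C k1] at f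
  obtain ⟨p, hp, e⟩ := h.bclsP hB hi (pow_mem h1 5) (conj_mem_of_mem_N k2 (pow_mem h1 5)) o
    (by rwa [ord_conj]) (pow_mem h4 5) f
  have c1 := mul_mem (inv_mem (h.ab i hp)) k1
  have c2 := mul_mem (inv_mem (le_N _ (hi hp))) k2
  have c3 : p⁻¹ * k ∈ C1 (y ^ 5) := mem_C1_iff_conj.2 (by
    rw [show p⁻¹ * k * y ^ 5 * (p⁻¹ * k)⁻¹ = p⁻¹ * (k * y ^ 5 * k⁻¹) * p by group, ← e]; group)
  refine ⟨p, hp, p⁻¹ * k, h.bb' hA hL hB hi h1 h2 h3 c1 c2 ?_, by group⟩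
  generalize p⁻¹ * k = c at *
  have d1 : c * y * c⁻¹ * y⁻¹ ∈ P i := h.bcen hB hi ▸ mem_inf.2
    ⟨mul_mem (conj_mem_of_mem_N c2 h1) (inv_mem h1), by
      have := h.conj_mem_C (inv_mem c1) y
      rw [h3] at this
      simpa only [mul_assoc] using mul_mem c1 this⟩
  have y5 := C1_le_C1_pow y 5 (self_mem_C1 y)
  have d2 := mem_C1_iff_conj'.1 (mul_mem (mul_mem (mul_mem c3 y5) (inv_mem c3)) (inv_mem y5))
  rw [h.inverts (inv_sq o) (pow_mem h4 5) (h.bnC hB hi (pow_mem h1 5) (by omega) (by omega)) _ d1,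
    inv_eq_iff_mul_eq_one, ← sq, ← orderOf_dvd_iff_pow_eq_one] at d2
  by_contra d3
  rw [h.order d1 fun f => d3 (mem_C1_iff_conj.2 (mul_inv_eq_one.1 f))] at d2
  omega

theorem zm_gen : ∀ a b : (ZMod 11)ˣ, a ^ 2 ≠ 1 → a ^ 5 ≠ 1 → ∃ k : Fin 10, b = a ^ k.1 := by
  decide +kernel

theorem bsplit (h : Geo G Ω P) (hA : ∀ M, Line P M → TyA M → FA P M) (hL : Line P L) (hB : TyB L)
    {g : G} (hg : g ∈ N L) : ∃ m ∈ L, ∃ w ∈ C L, g = m * w := by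
  obtain ⟨i, -, -, hi, -⟩ := hL.two
  obtain ⟨m, hm, e⟩ := h.btr hB hi ((h.on_N hg).2 hi)
  obtain ⟨y, h1, h2, h3, -⟩ := h.btor hB hi
  obtain ⟨φ, -, p2⟩ := h.aut i
  have n : ∀ k : ℕ, orderOf (y ^ k) ≠ 1 → orderOf (y ^ k) ≠ 11 → φ ⟨y, h3⟩ ^ k ≠ 1 :=
    fun k o1 o2 f => h.bnC hB hi (pow_mem h1 k) o1 o2 ((p2 (⟨y, h3⟩ ^ k)).1 (by rwa [map_pow]))
  obtain ⟨k, hk⟩ := zm_gen (φ ⟨y, h3⟩) (φ ⟨m⁻¹ * g, by
    change (m⁻¹ * g) • i = i; rw [mul_smul, ← e, inv_smul_smul]⟩)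
    (n 2 (by rw [orderOf_pow, h2]; decide) (by rw [orderOf_pow, h2]; decide))
    (n 5 (by rw [orderOf_pow, h2]; decide) (by rw [orderOf_pow, h2]; decide))
  rw [← map_pow, ← inv_mul_eq_one, ← map_inv, ← map_mul, p2] at hk
  replace hk : (y ^ k.1)⁻¹ * (m⁻¹ * g) ∈ C (P i) := by
    simpa only [mul_inv_rev, inv_inv, coe_mul, coe_inv, coe_pow] using inv_mem hk
  obtain ⟨p, hp, c, hc, e1⟩ := h.bb hA hL hB hi hk
    (mul_mem (inv_mem (le_N _ (pow_mem h1 _))) (mul_mem (inv_mem (le_N _ hm)) hg))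
  exact ⟨m * y ^ k.1 * p, mul_mem (mul_mem hm (pow_mem h1 _)) (hi hp), c, hc, by
    rw [mul_assoc, ← e1]; group⟩

theorem fb (h : Geo G Ω P) (hA : ∀ M, Line P M → TyA M → FA P M) {L : Subgroup G} (hL : Line P L)
    (hB : TyB L) : FB P L :=
  have J := h.jb hL hB
  { card := hB.1
    ord := hB.2
    perf := J.perf
    tr := fun _ _ => h.btr hB
    cen := fun _ => h.bcen hB
    tor := fun _ => h.btor hB
    cls := fun _ h1 _ h2 => J.cls h1 h2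
    clsP := fun _ hi _ h1 _ h2 => h.bclsP hB hi h1 h2
    cz := fun _ => J.cz
    fixz := fun _ => h.bfixz hL hB
    trz := fun _ h1 h2 _ _ => h.btrz hB h1 h2
    ninv := fun _ => J.ninv
    clsz := fun _ h1 _ h2 _ h3 => J.clsz h1 h2 h3
    five := fun _ => h.bfive hL hB
    zt := fun _ h1 h2 _ => h.bzt hB h1 h2
    tz := fun _ h1 h2 _ => h.btz hB h1 h2
    nt := fun _ h1 h2 _ _ => h.bnt hL hB h1 h2
    same := fun _ h1 h2 _ hi _ => h.bsame hL hB h1 h2 hi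
    sc3 := fun _ h1 _ h2 o1 o2 e _ hi f _ => h.bsc3 hL hB h1 h2 o1 o2 e hi f
    ctz := fun _ h1 _ h2 o1 o2 e => ⟨fun _ g1 g2 g3 => J.ctz h1 h2 o1 o2 e ▸
      mem_inf.2 ⟨mem_inf.2 ⟨g1, mem_C1.2 g2⟩, mem_C1.2 g3⟩, J.ntz h1 h2 o1 o2 e, J.exs h1 h2 o1 o2 e⟩
    three := fun _ => J.three
    split := fun _ => h.bsplit hA hL hB
    gen := fun _ h1 o i j hij hi hj f f' => h.nosub hA hB ⟨i, j, hij, rfl⟩ (sup_le hi hj) h1 o
      (h.N_pair f f') le_sup_left f }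

end Geo

end CfsgJ
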