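import Cfsg.Agent.H3.JDef

/-! S3403: basic facts about the geometry. -/

set_option autoImplicit false

namespace CfsgJ

open CfsgH5 CfsgH6 CfsgFT Subgroup

universe u

variable {G Ω : Type u} [Group G]

theorem Sc.mul {s t : G} {X : Subgroup G} {m n : ZMod 11} (hX : ∀ x ∈ X, x ^ 11 = 1)
    (h1 : Sc s X m) (h2 : Sc t X n) : Sc (s * t) X (m * n) := fun x hx => by
  have e : s * t * x * (s * t)⁻¹ = (s * x * s⁻¹) ^ n.val := by
    rw [conj_pow, ← h2 x hx]; group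
  rw [e, h1 x hx, ← pow_mul, ZMod.val_mul, ← pow_eq_pow_mod _ (hX x hx)]

theorem Sc.cjj {t : G} {X : Subgroup G} {n : ZMod 11} (h : Sc t X n) (g : G) :
    Sc (g * t * g⁻¹) (cj g X) n := fun x hx => by
  obtain ⟨y, hy, rfl⟩ := mem_cj'.1 hx
  rw [conj_pow, ← h y hy]; group

theorem sc_one_iff {t : G} {X : Subgroup G} : Sc t X 1 ↔ t ∈ C X := by
  rw [mem_C]
  refine forall₂_congr fun x _ => ?_
  rw [show (1 : ZMod 11).val = 1 from rfl, pow_one, mul_inv_eq_iff_eq_mul, eq_comm]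

/-- a factor centralising `X` does not change the scalar -/
theorem Sc.mul_C {t w : G} {X : Subgroup G} {n : ZMod 11} (hw : w ∈ C X) :
    Sc (t * w) X n ↔ Sc t X n := by
  refine forall₂_congr fun x hx => ?_
  rw [show t * w * x * (t * w)⁻¹ = t * x * t⁻¹ by
    rw [mul_assoc t w, ← mem_C.1 hw x hx]; group]

variable [MulAction G Ω] {P : Ω → Subgroup G}

namespace Geo

theorem fix_iff (h : Geo G Ω P) {g : G} {i : Ω} : g • i = i ↔ g ∈ N (P i) := by
  rw [mem_N, ← h.smul, h.inj.eq_iff]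

theorem fix_P (h : Geo G Ω P) {x : G} {i : Ω} (hx : x ∈ P i) : x • i = i :=
  h.fix_iff.2 (le_N _ hx)

theorem fix_C (h : Geo G Ω P) {x : G} {i : Ω} (hx : x ∈ C (P i)) : x • i = i :=
  h.fix_iff.2 (C_le_N _ hx)

theorem conj_mem (h : Geo G Ω P) {x : G} {i : Ω} (hx : x ∈ P i) (g : G) :
    g * x * g⁻¹ ∈ P (g • i) := by
  rw [h.smul]; exact conj_mem_cj.2 hx

theorem conj_mem_C (h : Geo G Ω P) {x : G} {i : Ω} (hx : x ∈ C (P i)) (g : G) :
    g * x * g⁻¹ ∈ C (P (g • i)) := by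
  rw [h.smul, ← cj_C]; exact conj_mem_cj.2 hx

theorem on_smul (h : Geo G Ω P) {g : G} {i : Ω} {L : Subgroup G} :
    P (g • i) ≤ cj g L ↔ P i ≤ L := by
  rw [h.smul, cj_le_cj]

theorem on_N (h : Geo G Ω P) {g : G} {i : Ω} {L : Subgroup G} (hg : g ∈ N L) :
    P (g • i) ≤ L ↔ P i ≤ L := by
  rw [← h.on_smul (g := g) (i := i), mem_N.1 hg]

theorem on_mem (h : Geo G Ω P) {g : G} {i : Ω} {L : Subgroup G} (hg : g ∈ L) :
    P (g • i) ≤ L ↔ P i ≤ L := h.on_N (le_N _ hg)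

/-- `C L` fixes the points of `L` -/
theorem fix_W (h : Geo G Ω P) {w : G} {i : Ω} {L : Subgroup G} (hw : w ∈ C L) (hi : P i ≤ L) :
    w • i = i := h.fix_C (C_anti hi hw)

theorem pow11 (h : Geo G Ω P) {x : G} {i : Ω} (hx : x ∈ P i) : x ^ 11 = 1 := by
  have := pow_card_eq_one' (G := P i) (x := ⟨x, hx⟩)
  rw [h.card] at this
  exact congrArg Subtype.val this

theorem order (h : Geo G Ω P) {x : G} {i : Ω} (hx : x ∈ P i) (h1 : x ≠ 1) : orderOf x = 11 :=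
  haveI := Fact.mk (by norm_num : Nat.Prime 11)
  orderOf_eq_prime (h.pow11 hx) h1

theorem sc_unique (h : Geo G Ω P) {t : G} {i : Ω} {m n : ZMod 11} (h1 : Sc t (P i) m)
    (h2 : Sc t (P i) n) : m = n := by
  have : P i ≠ ⊥ := fun e => by have := h.card i; rw [e, card_bot] at this; omega
  obtain ⟨⟨x, hx⟩, h0⟩ := (P i).ne_bot_iff_exists_ne_one.1 this
  have e := (h1 x hx).symm.trans (h2 x hx)
  rw [pow_eq_pow_iff_modEq, h.order hx fun e => h0 (Subtype.ext e)] at e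
  exact ZMod.val_injective _ (e.eq_of_lt_of_lt m.val_lt n.val_lt)

theorem N_pair (h : Geo G Ω P) {g : G} {i j : Ω} (hi : g • i = i) (hj : g • j = j) :
    g ∈ N (P i ⊔ P j) := by
  rw [mem_N, cj_sup, ← h.smul, ← h.smul, hi, hj]

theorem N_swap (h : Geo G Ω P) {g : G} {i j : Ω} (hi : g • i = j) (hj : g • j = i) :
    g ∈ N (P i ⊔ P j) := by
  rw [mem_N, cj_sup, ← h.smul, ← h.smul, hi, hj, sup_comm]

theorem line_cj (h : Geo G Ω P) {L : Subgroup G} (hL : Line P L) (g : G) : Line P (cj g L) := by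
  obtain ⟨i, j, hij, rfl⟩ := hL
  exact ⟨g • i, g • j, fun e => hij (smul_left_cancel g e), by rw [cj_sup, h.smul, h.smul]⟩

theorem ml_cj (h : Geo G Ω P) {L : Subgroup G} (hL : ML P L) (g : G) : ML P (cj g L) :=
  ⟨h.line_cj hL.1 g, fun M hM e => by
    rw [← hL.2 _ (h.line_cj hM g⁻¹) (cj_le_iff.1 e), cj_cj_inv]⟩

theorem finite (h : Geo G Ω P) [Finite G] : Finite Ω := Finite.of_injective P h.inj

theorem ty (h : Geo G Ω P) {L : Subgroup G} (hL : Line P L) : TyA L ∨ TyB L := by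
  obtain ⟨i, j, hij, rfl⟩ := hL
  exact h.pair i j hij

variable [Finite G]

theorem exP (h : Geo G Ω P) (i : Ω) : ∃ x, x ≠ 1 ∧ orderOf x = 11 ∧ P i = zpowers x := by
  have : P i ≠ ⊥ := fun e => by have := h.card i; rw [e, card_bot] at this; omega
  obtain ⟨⟨x, hx⟩, h0⟩ := (P i).ne_bot_iff_exists_ne_one.1 this
  have h1 : x ≠ 1 := fun e => h0 (Subtype.ext e)
  exact ⟨x, h1, h.order hx h1, eq_zpowers_of_prime_card (by rw [h.card]; norm_num) hx h1⟩

theorem eq_zpowers (h : Geo G Ω P) {x : G} {i : Ω} (hx : x ∈ P i) (h1 : x ≠ 1) :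
    P i = zpowers x := eq_zpowers_of_prime_card (by rw [h.card]; norm_num) hx h1

theorem ab (h : Geo G Ω P) (i : Ω) : P i ≤ C (P i) := by
  obtain ⟨x, -, -, e⟩ := h.exP i
  rw [e]; exact ab_zpowers x

/-- `P i` fixes only `i` -/
theorem semireg (h : Geo G Ω P) {x : G} {i j : Ω} (hx : x ∈ P i) (h1 : x ≠ 1) (hj : x • j = j) :
    j = i := by
  by_contra e
  have h2 : Nrm (P i) (P j) := by
    rw [h.eq_zpowers hx h1, nrm_zpowers_iff]; exact h.fix_iff.1 hj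
  have h3 := card_sup_dvd (Or.inl h2)
  rw [h.card, h.card] at h3
  rcases h.pair i j (Ne.symm e) with h4 | h4 <;> rw [h4.1] at h3 <;> norm_num at h3

theorem inf_eq_bot (h : Geo G Ω P) {x : G} {i j : Ω} (hij : i ≠ j) (hi : x ∈ P i) (hj : x ∈ P j) :
    x = 1 := by
  by_contra e
  exact hij (h.semireg hj e (h.fix_P hi))

/-- a subgroup containing all points is everything -/
theorem eq_top (h : Geo G Ω P) {Y : Subgroup G} (hY : ∀ i, P i ≤ Y) : Y = ⊤ := by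
  have := h.simple
  obtain ⟨i, -, -⟩ := h.two
  have hn : (⨆ i, P i).Normal := ⟨fun x hx g => by
    have : cj g (⨆ i, P i) ≤ ⨆ i, P i := by
      rw [cj, Subgroup.map_iSup]
      exact iSup_le fun k => (h.smul g k).symm.le.trans (le_iSup P _)
    exact this (conj_mem_cj.2 hx)⟩
  rcases hn.eq_bot_or_eq_top with e | e
  · have := h.card i
    rw [eq_bot_iff.2 ((le_iSup P i).trans e.le), card_bot] at this
    omega
  · exact eq_top_iff.2 (e.ge.trans (iSup_le hY))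

theorem faithful (h : Geo G Ω P) {g : G} (hg : ∀ i : Ω, g • i = i) : g = 1 := by
  have := h.simple
  rcases (MulAction.toPermHom G Ω).normal_ker.eq_bot_or_eq_top with e | e
  · exact mem_bot.1 (e ▸ Equiv.ext hg)
  · obtain ⟨i, j, hij⟩ := h.two
    obtain ⟨x, h1, -, e2⟩ := h.exP i
    have : x ∈ (MulAction.toPermHom G Ω).ker := e ▸ mem_top x
    exact absurd (h.semireg (e2 ▸ mem_zpowers x) h1 (Equiv.congr_fun this j)) hij.symm

theorem C1_ne_top (h : Geo G Ω P) {g : G} (hg : g ≠ 1) : C1 g ≠ ⊤ := fun e => by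
  refine hg (h.faithful fun i => h.fix_C (le_C1_iff.1 (e ▸ le_top)))

theorem perf (h : Geo G Ω P) : commutator G = ⊤ := by
  have := h.simple
  refine (inferInstance : (commutator G).Normal).eq_bot_or_eq_top.resolve_left fun e => ?_
  obtain ⟨i, -, -⟩ := h.two
  obtain ⟨x, h1, -, -⟩ := h.exP i
  refine h.C1_ne_top h1 (eq_top_iff.2 fun g _ => mem_C1.2 ?_)
  exact commutatorElement_eq_one_iff_mul_comm.1
    (mem_bot.1 (e ▸ commutator_mem_commutator (mem_top g) (mem_top x)))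

theorem sc_ex (h : Geo G Ω P) {g : G} {i : Ω} (hg : g • i = i) : ∃ n, Sc g (P i) n := by
  classical
  obtain ⟨x, -, h2, e⟩ := h.exP i
  have h3 := conj_mem_of_mem_N (h.fix_iff.1 hg) (e ▸ mem_zpowers x)
  rw [e, mem_zpowers_iff_mem_range_orderOf, h2] at h3
  obtain ⟨k, hk, h3⟩ := Finset.mem_image.1 h3
  refine ⟨k, fun y hy => ?_⟩
  rw [e] at hy
  obtain ⟨m, rfl⟩ := hy
  rw [ZMod.val_cast_of_lt (Finset.mem_range.1 hk), ← conj_zpow, ← h3, ← zpow_natCast,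
    ← zpow_natCast, ← zpow_mul, ← zpow_mul, mul_comm]

/-- the action of the stabiliser of `i` on `P i` -/
theorem aut (h : Geo G Ω P) (i : Ω) : ∃ φ : MulAction.stabilizer G i →* (ZMod 11)ˣ,
    (∀ g, Sc g.1 (P i) (φ g)) ∧ ∀ g, φ g = 1 ↔ g.1 ∈ C (P i) := by
  choose f hf using fun g : MulAction.stabilizer G i => h.sc_ex (i := i) g.2
  let ψ : MulAction.stabilizer G i →* ZMod 11 :=
    { toFun := f
      map_one' := h.sc_unique (hf 1) (sc_one_iff.2 (one_mem _))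
      map_mul' := fun a b => h.sc_unique (hf _) (Sc.mul (fun _ => h.pow11) (hf a) (hf b)) }
  refine ⟨ψ.toHomUnits, hf, fun g => ?_⟩
  rw [← sc_one_iff, Units.ext_iff]
  exact ⟨fun e => (show f g = 1 from e) ▸ hf g, fun e => h.sc_unique (hf g) e⟩

/-- the tenth power of an element fixing `i` centralises `P i` -/
theorem pow10 (h : Geo G Ω P) {g : G} {i : Ω} (hg : g • i = i) : g ^ 10 ∈ C (P i) := by
  obtain ⟨φ, -, h2⟩ := h.aut i
  have := Fact.mk (by norm_num : Nat.Prime 11)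
  exact (h2 (⟨g, hg⟩ ^ 10)).1 (by rw [map_pow]; exact ZMod.units_pow_card_sub_one_eq_one 11 _)

/-- `L ∩ C L = 1` -/
theorem inf_C (h : Geo G Ω P) {L : Subgroup G} (hL : Line P L)
    (hc : ∀ i, P i ≤ L → L ⊓ C (P i) = P i) {m : G} (h1 : m ∈ L) (h2 : m ∈ C L) : m = 1 := by
  obtain ⟨i, j, hij, e⟩ := hL
  have hi : P i ≤ L := e ▸ le_sup_left
  have hj : P j ≤ L := e ▸ le_sup_right
  exact h.inf_eq_bot hij (hc i hi ▸ ⟨h1, C_anti hi h2⟩) (hc j hj ▸ ⟨h1, C_anti hj h2⟩)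

end Geo

theorem Line.two {L : Subgroup G} (hL : Line P L) : ∃ i j, i ≠ j ∧ P i ≤ L ∧ P j ≤ L := by
  obtain ⟨i, j, hij, rfl⟩ := hL
  exact ⟨i, j, hij, le_sup_left, le_sup_right⟩

theorem Line.two' {L : Subgroup G} (hL : Line P L) (i : Ω) : ∃ j, j ≠ i ∧ P j ≤ L := by
  obtain ⟨a, b, hab, ha, hb⟩ := hL.two
  by_cases e : a = i
  exacts [⟨b, fun f => hab (e.trans f.symm), hb⟩, ⟨a, e, ha⟩]

namespace LS

/-- an element mapping two points of `L` into `M` maps `L` to `M` -/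
theorem cj_eq (h : LS G Ω P) {L M : Subgroup G} (hL : ML P L) (hM : ML P M) {i j : Ω}
    (hij : i ≠ j) (hi : P i ≤ L) (hj : P j ≤ L) {g : G} (h1 : P (g • i) ≤ M)
    (h2 : P (g • j) ≤ M) : cj g L = M :=
  h.uniq _ _ (h.ml_cj hL g) hM _ _ (fun e => hij (smul_left_cancel g e)) (h.on_smul.2 hi)
    (h.on_smul.2 hj) h1 h2

theorem mem_N (h : LS G Ω P) {L : Subgroup G} (hL : ML P L) {i j : Ω} (hij : i ≠ j)
    (hi : P i ≤ L) (hj : P j ≤ L) {g : G} (h1 : P (g • i) ≤ L) (h2 : P (g • j) ≤ L) : g ∈ N L :=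
  CfsgFT.mem_N.2 (h.cj_eq hL hL hij hi hj h1 h2)

theorem conj (h : LS G Ω P) {L M : Subgroup G} (hL : ML P L) (hM : ML P M) :
    ∃ g : G, cj g L = M := by
  obtain ⟨i, -, -, hi, -⟩ := hL.1.two
  obtain ⟨j, -, -, hj, -⟩ := hM.1.two
  obtain ⟨g, rfl⟩ := h.tr i j
  obtain ⟨k, -, e⟩ := h.ktr _ _ (h.ml_cj hL g) hM _ (h.on_smul.2 hi) hj
  exact ⟨k * g, by rw [← cj_cj, e]⟩

/-- `C L ∩ C M = 1` -/
theorem W_inf (h : LS G Ω P) {L M : Subgroup G} (hL : ML P L) (hM : ML P M) {w : G} (h0 : w ≠ 1)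
    (h1 : w ∈ C L) (h2 : w ∈ C M) : L = M := by
  obtain ⟨i, j, hij, hi, hj⟩ := hM.1.two
  exact h.uniq _ _ hL hM i j hij (h.wfix L hL w h1 h0 i (h.fix_W h2 hi))
    (h.wfix L hL w h1 h0 j (h.fix_W h2 hj)) hi hj

/-- the centraliser of `1 ≠ w ∈ C L` normalises `L` -/
theorem C1_le_N (h : LS G Ω P) {L : Subgroup G} (hL : ML P L) {w : G} (h0 : w ≠ 1)
    (h1 : w ∈ C L) : C1 w ≤ N L := fun g hg => by
  refine CfsgFT.mem_N.2 (h.W_inf (h.ml_cj hL g) hL h0 ?_ h1)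
  rw [← cj_C, ← mem_C1_iff_conj.1 hg]
  exact conj_mem_cj.2 h1

/-- an element of `C (P i)` fixing a second point centralises the line -/
theorem star [Finite G] (h : LS G Ω P) {L : Subgroup G} (hL : ML P L) {i j : Ω} (hij : i ≠ j)
    (hi : P i ≤ L) (hj : P j ≤ L) {k : G} (hk : k ∈ C (P i)) (hkj : k • j = j) : k ∈ C L := by
  obtain ⟨p, hp, c, hc, rfl⟩ := h.b L hL i hi k hk
    (h.mem_N hL hij hi hj (by rwa [h.fix_C hk]) (by rwa [hkj]))
  rw [mul_smul, h.fix_W hc hj] at hkj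
  by_cases e : p = 1
  · rwa [e, one_mul]
  · exact absurd (h.semireg hp e hkj) hij.symm

/-- the fixed points of an element of order 5 lie on every invariant line through one of them -/
theorem fix5 (h : LS G Ω P) {L : Subgroup G} (hL : ML P L) {t : G} (ht : orderOf t = 5) {i k : Ω}
    (hi : P i ≤ L) (h1 : t • i = i) (h2 : t ∉ C (P i)) (h3 : t ∈ N L) (hk : t • k = k) :
    P k ≤ L := by
  by_cases e : i = k
  · exact e ▸ hi
  obtain ⟨M, hM, h4, h5⟩ := h.ex i k e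
  rwa [h.t1 t ht i h1 h2 L M hL hM hi h4 h3 (h.mem_N hM e h4 h5 (by rwa [h1]) (by rwa [hk]))]

end LS

end CfsgJ
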