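import Cfsg.Agent.FT.Base11
import Mathlib.Analysis.Complex.Basic

/-! Interfaces for S3403 (a class of subgroups of order 11 generating `L₂(11)` or `J₁` in pairs).
See blueprints/S3403.md. -/

set_option autoImplicit false

namespace CfsgJ

open CfsgH5 CfsgH6 CfsgFT Subgroup

universe u

variable {G Ω : Type u} [Group G]

/-- type `A`: what we use of `L₂(11)` -/
def TyA (L : Subgroup G) : Prop := Nat.card L = 660 ∧ IsSimpleGroup L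

/-- type `B`: what we use of `J₁` -/
def TyB (L : Subgroup G) : Prop :=
  Nat.card L = 175560 ∧ ∀ g ∈ L, orderOf g ∈ [1, 2, 3, 5, 6, 7, 10, 11, 15, 19]

/-- a line is generated by two points; `i` is on `L` if `P i ≤ L` -/
def Line (P : Ω → Subgroup G) (L : Subgroup G) : Prop := ∃ i j, i ≠ j ∧ L = P i ⊔ P j

/-- maximal lines -/
def ML (P : Ω → Subgroup G) (L : Subgroup G) : Prop :=
  Line P L ∧ ∀ M, Line P M → L ≤ M → M = L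

/-- `t` acts on `X` as the `n`-th power map -/
def Sc (t : G) (X : Subgroup G) (n : ZMod 11) : Prop := ∀ x ∈ X, t * x * t⁻¹ = x ^ n.val

variable [MulAction G Ω]

/-- a minimal counterexample -/
structure Geo (G Ω : Type u) [Group G] [MulAction G Ω] (P : Ω → Subgroup G) : Prop where
  simple : IsSimpleGroup G
  inj : Function.Injective P
  card : ∀ i, Nat.card (P i) = 11
  smul : ∀ (g : G) i, P (g • i) = cj g (P i)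
  tr : ∀ i j : Ω, ∃ g : G, g • i = j
  pair : ∀ i j, i ≠ j → TyA (P i ⊔ P j) ∨ TyB (P i ⊔ P j)
  min : ∀ Y : Subgroup G, Y ≠ ⊤ → ∀ i j, i ≠ j → P i ≤ Y → P j ≤ Y →
    ∃ a b, a ≠ b ∧ P a ≤ Y ∧ P b ≤ Y ∧ ∀ k, P k ≤ Y → P k ≤ P a ⊔ P b
  ne_top : ∀ i j, P i ⊔ P j ≠ ⊤
  two : ∃ i j : Ω, i ≠ j

/-- facts about a line of type `A` -/
structure FA (P : Ω → Subgroup G) (L : Subgroup G) : Prop where
  card : Nat.card L = 660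
  perf : ⁅L, L⁆ = L
  npts : {i | P i ≤ L}.ncard = 12
  gen : ∀ i j, i ≠ j → P i ≤ L → P j ≤ L → P i ⊔ P j = L
  reg : ∀ i j k, P i ≤ L → P j ≤ L → P k ≤ L → j ≠ i → k ≠ i → ∃ x ∈ P i, x • j = k
  cen : ∀ i, P i ≤ L → L ⊓ C (P i) = P i
  stab : ∀ i, P i ≤ L → Nat.card ↥(L ⊓ MulAction.stabilizer G i) = 55
  fpf : ∀ s ∈ L, s * s = 1 → ∀ i, P i ≤ L → s • i = i → s = 1
  tor : ∀ i j, i ≠ j → P i ≤ L → P j ≤ L → ∃ t ∈ L, orderOf t = 5 ∧ t • i = i ∧ t • j = j ∧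
    (∀ g ∈ L, g • i = i → g • j = j → g ∈ zpowers t) ∧
    ∃ s ∈ L, orderOf s = 2 ∧ s • i = j ∧ s * t * s⁻¹ = t⁻¹
  cls : ∀ s ∈ L, ∀ s' ∈ L, orderOf s = 2 → orderOf s' = 2 → ∃ g ∈ L, g * s * g⁻¹ = s'
  ninv : {s | s ∈ L ∧ orderOf s = 2}.ncard = 55
  four : ∀ s ∈ L, orderOf s = 2 → ∃ s' ∈ L, orderOf s' = 2 ∧ s' ≠ s ∧ s * s' = s' * s
  a4 : ∀ s ∈ L, ∀ s' ∈ L, orderOf s = 2 → orderOf s' = 2 → s' ≠ s → s * s' = s' * s →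
    ∃ g ∈ L, orderOf g = 3 ∧ g * s * g⁻¹ = s' ∧ g * s' * g⁻¹ = s * s'
  b : ∀ i, P i ≤ L → ∀ k ∈ C (P i), k ∈ N L → ∃ p ∈ P i, ∃ c ∈ C L, k = p * c
  fix2 : ∀ g ∈ N L, ∀ i, P i ≤ L → g • i = i → g ∉ C (P i) → ∃! j, P j ≤ L ∧ j ≠ i ∧ g • j = j
  opp : ∀ i j, i ≠ j → P i ≤ L → P j ≤ L → ∀ t : G, orderOf t = 5 → t • i = i → t • j = j →
    t ∉ C (P i) → ∀ n, Sc t (P i) n → Sc t⁻¹ (P j) n
  sq : ∀ g ∈ N L, ∃ m ∈ L, ∃ w ∈ C L, g * g = m * w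
  out : ∀ u ∈ N L, u * u = 1 → (∀ i, P i ≤ L → u • i ≠ i) → ∃ m ∈ L, ∃ w ∈ C L, u = m * w
  ord4 : ∀ a ∈ N L, a * a = 1 → ∀ i, P i ≤ L → a • i = i → a ∉ C (P i) →
    ∃ v ∈ L, orderOf (a * v) = 4 ∧ (a * v) ^ 2 ∈ L

/-- facts about a line of type `B` -/
structure FB (P : Ω → Subgroup G) (L : Subgroup G) : Prop where
  card : Nat.card L = 175560
  ord : ∀ g ∈ L, orderOf g ∈ [1, 2, 3, 5, 6, 7, 10, 11, 15, 19]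
  perf : ⁅L, L⁆ = L
  tr : ∀ i j, P i ≤ L → P j ≤ L → ∃ g ∈ L, g • i = j
  cen : ∀ i, P i ≤ L → L ⊓ C (P i) = P i
  tor : ∀ i, P i ≤ L → ∃ y ∈ L, orderOf y = 10 ∧ y • i = i ∧
    ∀ g ∈ L, g • i = i → ∃ p ∈ P i, ∃ k : ℕ, g = p * y ^ k
  cls : ∀ s ∈ L, ∀ s' ∈ L, orderOf s = 2 → orderOf s' = 2 → ∃ g ∈ L, g * s * g⁻¹ = s'
  clsP : ∀ i, P i ≤ L → ∀ s ∈ L, ∀ s' ∈ L, orderOf s = 2 → orderOf s' = 2 → s • i = i →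
    s' • i = i → ∃ p ∈ P i, p * s * p⁻¹ = s'
  cz : ∀ z ∈ L, orderOf z = 2 → Nat.card ↥(L ⊓ C1 z) = 120
  fixz : ∀ z ∈ L, orderOf z = 2 → {i | P i ≤ L ∧ z • i = i}.ncard = 12
  trz : ∀ z ∈ L, orderOf z = 2 → ∀ i j, P i ≤ L → P j ≤ L → z • i = i → z • j = j →
    ∃ g ∈ L, g * z = z * g ∧ g • i = j
  ninv : ∀ z ∈ L, orderOf z = 2 → {s | s ∈ L ∧ orderOf s = 2 ∧ s * z = z * s ∧ s ≠ z}.ncard = 30
  clsz : ∀ z ∈ L, ∀ s ∈ L, ∀ s' ∈ L, orderOf z = 2 → orderOf s = 2 → orderOf s' = 2 →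
    s * z = z * s → s' * z = z * s' → s ≠ z → s' ≠ z →
    ∃ g ∈ L, g * z = z * g ∧ (g * s * g⁻¹ = s' ∨ g * s * g⁻¹ = s' * z)
  five : ∀ t ∈ L, orderOf t = 5 → ∃ i j, i ≠ j ∧ P i ≤ L ∧ P j ≤ L ∧ t • i = i ∧ t • j = j
  zt : ∀ t ∈ L, orderOf t = 5 → ∀ i, P i ≤ L → t • i = i →
    ∃ z ∈ L, orderOf z = 2 ∧ z • i = i ∧ z * t = t * z
  tz : ∀ z ∈ L, orderOf z = 2 → ∀ i, P i ≤ L → z • i = i →
    ∃ t ∈ L, orderOf t = 5 ∧ t • i = i ∧ z * t = t * z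
  nt : ∀ t ∈ L, orderOf t = 5 → ∀ i j, P i ≤ L → P j ≤ L → t • i = i → t • j = j →
    ∃ g ∈ L, g • i = j ∧ (g * t * g⁻¹ = t ∨ g * t * g⁻¹ = t⁻¹)
  same : ∀ t ∈ L, orderOf t = 5 → ∀ i, P i ≤ L → t • i = i →
    ∃ g ∈ L, g • i ≠ i ∧ g * t * g⁻¹ = t
  sc3 : ∀ t ∈ L, ∀ z ∈ L, orderOf t = 5 → orderOf z = 2 → z * t = t * z →
    ∀ i, P i ≤ L → t • i = i → ∀ n, Sc t (P i) n →
    ∃! j, P j ≤ L ∧ t • j = j ∧ Sc t (P j) n ∧ z • j = j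
  ctz : ∀ t ∈ L, ∀ z ∈ L, orderOf t = 5 → orderOf z = 2 → z * t = t * z →
    (∀ g ∈ L, g * t = t * g → g * z = z * g → g ∈ zpowers (t * z)) ∧
    Nat.card ↥(L ⊓ C1 z ⊓ N (zpowers t)) = 20 ∧
    ∃ s ∈ L, orderOf s = 2 ∧ s ≠ z ∧ s * z = z * s ∧ s * t * s⁻¹ = t⁻¹
  three : ∀ u ∈ L, orderOf u = 3 → ∃ t ∈ L, orderOf t = 5 ∧ t * u = u * t
  split : ∀ g ∈ N L, ∃ m ∈ L, ∃ w ∈ C L, g = m * w
  gen : ∀ z ∈ L, orderOf z = 2 → ∀ i j, i ≠ j → P i ≤ L → P j ≤ L → z • i = i → z • j = j →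
    P i ⊔ P j = L

/-- the maximal lines form a linear space -/
structure LS (G Ω : Type u) [Group G] [MulAction G Ω] (P : Ω → Subgroup G) : Prop
    extends Geo G Ω P where
  ex : ∀ i j, i ≠ j → ∃ L, ML P L ∧ P i ≤ L ∧ P j ≤ L
  uniq : ∀ L M, ML P L → ML P M → ∀ i j, i ≠ j → P i ≤ L → P j ≤ L → P i ≤ M → P j ≤ M → L = M
  b : ∀ L, ML P L → ∀ i, P i ≤ L → ∀ k ∈ C (P i), k ∈ N L → ∃ p ∈ P i, ∃ c ∈ C L, k = p * c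
  ktr : ∀ L M, ML P L → ML P M → ∀ i, P i ≤ L → P i ≤ M → ∃ k ∈ C (P i), cj k L = M
  wfix : ∀ L, ML P L → ∀ w ∈ C L, w ≠ 1 → ∀ i, w • i = i → P i ≤ L
  t1 : ∀ t : G, orderOf t = 5 → ∀ i, t • i = i → t ∉ C (P i) → ∀ L M, ML P L → ML P M →
    P i ≤ L → P i ≤ M → t ∈ N L → t ∈ N M → L = M
  off : ∀ L, ML P L → ∃ i, ¬ P i ≤ L

/-- all maximal lines of type `A` -/
structure SA (G Ω : Type u) [Group G] [MulAction G Ω] (P : Ω → Subgroup G) : Prop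
    extends LS G Ω P where
  fa : ∀ L, ML P L → FA P L
  ktr2 : ∀ i j k : Ω, j ≠ i → k ≠ i → ∃ g ∈ C (P i), g • j = k
  star : ∀ L, ML P L → ∀ i j, i ≠ j → P i ≤ L → P j ≤ L → ∀ k ∈ C (P i), k • j = j → k ∈ C L
  cardK : ∀ L, ML P L → ∀ i, Nat.card (C (P i)) = (Nat.card Ω - 1) * Nat.card (C L)
  big : 12 < Nat.card Ω
  m11 : Nat.card Ω % 11 = 1
  m5 : Nat.card Ω % 5 = 2
  even : Even (Nat.card Ω)
  notN : ∀ L, ML P L → ∀ s ∈ L, s * s = 1 → ∀ i, s • i = i → s ∈ C (P i)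
  tv : ∀ L M, ML P L → ML P M → L ≠ M → ∀ i, P i ≤ L → P i ≤ M → ∀ w ∈ C L, w ≠ 1 → w ∈ N M →
    orderOf w = 11 ∧ Nat.card ↥(C (P i) ⊓ C1 w) ≤ 121 ∧ 121 ∣ Nat.card Ω - 1
  w61 : Nat.card Ω = 672 → ∀ L, ML P L → IsCyclic (C L)

/-- the involutions of a line of type `A` -/
def Inv (P : Ω → Subgroup G) : Prop := ∀ L, ML P L → ∀ s ∈ L, orderOf s = 2 →
  (∀ i : Ω, s • i ≠ i) ∧ ∀ w ∈ C L, orderOf w = 2 → Nat.card Ω = 672 ∧ ∃ i : Ω, (s * w) • i = i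

/-- all maximal lines of type `B` -/
structure SB (G Ω : Type u) [Group G] [MulAction G Ω] (P : Ω → Subgroup G) : Prop
    extends LS G Ω P where
  fb : ∀ L, ML P L → FB P L
  w30 : ∀ L, ML P L → (Nat.card (C L)).Coprime 30
  mem : ∀ L, ML P L → ∀ u ∈ N L, u * u = 1 → u ∈ L
  kodd : ∀ i, ∀ u ∈ C (P i), u * u = 1 → u = 1
  ztr : ∀ L M, ML P L → ML P M → ∀ z ∈ L, z ∈ M → orderOf z = 2 → ∀ i, P i ≤ L → P i ≤ M →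
    z • i = i → ∃ k ∈ C (P i), k * z = z * k ∧ cj k L = M
  frob : ∀ L, ML P L → ∀ z ∈ L, orderOf z = 2 → ∀ i, P i ≤ L → z • i = i →
    ∃ c : ℕ, 1 < c ∧ c % 5 = 1 ∧ c.Coprime (Nat.card (C L)) ∧
      {M | ML P M ∧ P i ≤ M ∧ z ∈ M}.ncard = c ∧ {j : Ω | z • j = j}.ncard = 1 + 11 * c ∧
      Nat.card ↥(C (P i) ⊓ C1 z) = c * Nat.card (C L) ∧
      ∃ F ≤ C1 z, Nat.card F = c ∧ Group.IsNilpotent F

/-- Lemma (Y) -/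
def YSt : Prop := ∀ (Y : Type u) [Group Y] [Finite Y] (c : ℕ) (t s : Y) (F : Subgroup Y),
  1 < c → c % 5 = 1 → Nat.card Y = 5 * c * (1 + 11 * c) → orderOf t = 5 → C1 t = zpowers t →
  Nat.card (N (zpowers t)) = 10 → orderOf s = 2 → s * t * s⁻¹ = t⁻¹ →
  {v | IsConj s v}.ncard = 15 * c → Nat.card F = c → Group.IsNilpotent F → False

/-- Lemma (CH) -/
def CHSt : Prop := ∀ (G Ω : Type u) [Group G] [Finite G] [MulAction G Ω] [Finite Ω]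
  [IsSimpleGroup G] (i j : Ω) (s x : G) (ρ : MulAction.stabilizer G i →* ℂˣ)
  (hx : x ∈ MulAction.stabilizer G i), commutator G = ⊤ → (∀ a b : Ω, ∃ g : G, g • a = b) →
  (∀ a b : Ω, a ≠ i → b ≠ i → ∃ g : G, g • i = i ∧ g • a = b) → i ≠ j → orderOf s = 2 →
  (∀ k : Ω, s • k ≠ k) → ρ ≠ 1 →
  (∀ v w : G, IsConj s v → IsConj s w → v • i = j → w • i = j →
    ∀ e : v * w ∈ MulAction.stabilizer G i, ρ ⟨v * w, e⟩ = 1) →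
  orderOf x = 11 → (∀ k : Ω, x • k = k → k = i) → ρ ⟨x, hx⟩ = 1 →
  (Nat.card Ω - 1).Coprime (C1 x).index → False

/-- Lemma (CF) -/
def CFSt : Prop := ∀ (H : Type u) [Group H] [Finite H] (K : Subgroup H) [K.Normal] (t w : H),
  Odd (Nat.card H) → K.index = 5 → orderOf t = 5 → t ∉ K → w ∈ K → orderOf w = 11 →
  w * t = t * w → Nat.card ↥(K ⊓ C1 w) ≤ 121 → ∃ ρ : H →* ℂˣ, ρ ≠ 1 ∧ ρ t = 1

end CfsgJ
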