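import Cfsg.Agent.H3.JBase

/-! S3403 (JG): the maximal lines form a linear space. -/

set_option autoImplicit false

namespace CfsgJ

open CfsgH5 CfsgH6 CfsgFT Subgroup

universe u

variable {G Ω : Type u} [Group G] [MulAction G Ω] {P : Ω → Subgroup G}

/-- all lines have the properties of their type -/
structure GL2 (G Ω : Type u) [Group G] [MulAction G Ω] (P : Ω → Subgroup G) : Prop
    extends Geo G Ω P where
  fa : ∀ L, Line P L → TyA L → FA P L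
  fb : ∀ L, Line P L → TyB L → FB P L

theorem comm_of_C {L : Subgroup G} {m w : G} (hm : m ∈ L) (hw : w ∈ C L) : Commute m w :=
  mem_C.1 hw m hm

theorem zm_sq {n : ZMod 11} (h1 : n * n = 1) (h2 : n * n * n * n * n = 1) : n = 1 := by
  revert n; decide

variable [Finite G]

theorem Geo.sc_ne (h : Geo G Ω P) {t : G} (ht : orderOf t = 5) {i : Ω} {n : ZMod 11}
    (h1 : Sc t (P i) n) (h2 : Sc t⁻¹ (P i) n) {j : Ω} (h3 : Sc t (P j) n) : t ∈ C (P j) := by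
  have m := fun {a b : G} {k l : ZMod 11} => Sc.mul (s := a) (t := b) (X := P i) (m := k) (n := l)
    fun _ => h.pow11
  have o : Sc (1 : G) (P i) 1 := sc_one_iff.2 (one_mem _)
  have e1 := m h1 h2
  have e2 := m (m (m (m h1 h1) h1) h1) h1
  rw [mul_inv_cancel] at e1
  rw [show t * t * t * t * t = t ^ 5 by simp only [pow_succ, pow_zero, one_mul], ← ht,
    pow_orderOf_eq_one] at e2
  rw [zm_sq (h.sc_unique e1 o) (h.sc_unique e2 o)] at h3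
  exact sc_one_iff.1 h3

/-- decomposition of an element of prime order normalising a line of type `B` -/
theorem FB.dec (h : Geo G Ω P) {L : Subgroup G} (hL : Line P L) (B : FB P L) {g : G}
    (hg : g ∈ N L) {p : ℕ} (hp : p.Prime) (ho : orderOf g = p) (hc : g ∉ C L) :
    ∃ m ∈ L, ∃ w ∈ C L, g = m * w ∧ orderOf m = p := by
  obtain ⟨m, hm, w, hw, rfl⟩ := B.split g hg
  refine ⟨m, hm, w, hw, rfl, ?_⟩
  have := Fact.mk hp
  refine orderOf_eq_prime ?_ fun e => hc (by rwa [e, one_mul])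
  have e := pow_orderOf_eq_one (m * w)
  rw [ho, (comm_of_C hm hw).mul_pow, mul_eq_one_iff_eq_inv] at e
  exact h.inf_C hL B.cen (pow_mem hm _) (e ▸ inv_mem (pow_mem hw _))

theorem FB.comm (h : Geo G Ω P) {L : Subgroup G} (hL : Line P L) (B : FB P L) {a b v w : G}
    (ha : a ∈ L) (hb : b ∈ L) (hv : v ∈ C L) (hw : w ∈ C L)
    (e : a * v * (b * w) = b * w * (a * v)) : a * b = b * a := by
  have e1 : a * v * (b * w) = a * b * (v * w) := by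
    rw [mul_assoc, ← mul_assoc v, ← (comm_of_C hb hv).eq]; group
  have e2 : b * w * (a * v) = b * a * (w * v) := by
    rw [mul_assoc, ← mul_assoc w, ← (comm_of_C ha hw).eq]; group
  have e3 : (b * a)⁻¹ * (a * b) = w * v * (v * w)⁻¹ := by
    rw [e1, e2] at e
    rw [eq_mul_inv_iff_mul_eq, mul_assoc, e]; group
  have := h.inf_C hL B.cen (mul_mem (inv_mem (mul_mem hb ha)) (mul_mem ha hb))
    (e3 ▸ mul_mem (mul_mem hw hv) (inv_mem (mul_mem hv hw)))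
  exact (inv_mul_eq_one.1 this).symm

theorem Geo.smul_W (h : Geo G Ω P) {L : Subgroup G} {m w : G} (hw : w ∈ C L) {i : Ω}
    (hi : P i ≤ L) : (m * w) • i = m • i := by rw [mul_smul, h.fix_W hw hi]

/-- the fixed points of `t` and an involution `z` on a line of type `B` -/
theorem FB.sc3' (h : Geo G Ω P) {L : Subgroup G} (hL : Line P L) (B : FB P L) {t z : G}
    (ht : orderOf t = 5) (hz : orderOf z = 2) (h1 : t ∈ N L) (h2 : z ∈ N L) (h3 : z ∉ C L)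
    (e : z * t = t * z) {i : Ω} (hi : P i ≤ L) (h4 : t • i = i) (h5 : t ∉ C (P i)) {n : ZMod 11}
    (hn : Sc t (P i) n) : ∃! j, P j ≤ L ∧ t • j = j ∧ Sc t (P j) n ∧ z • j = j := by
  obtain ⟨m, hm, w, hw, rfl, o1⟩ := B.dec h hL h1 Nat.prime_five ht fun f => h5 (C_anti hi f)
  obtain ⟨y, hy, v, hv, rfl, o2⟩ := B.dec h hL h2 Nat.prime_two hz h3
  have := B.sc3 m hm y hy o1 o2 (B.comm h hL hy hm hv hw e) i hi (by rwa [h.smul_W hw hi] at h4) n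
    ((Sc.mul_C (C_anti hi hw)).1 hn)
  refine (existsUnique_congr fun j => and_congr_right fun hj => ?_).1 this
  rw [h.smul_W hw hj, h.smul_W hv hj, Sc.mul_C (C_anti hj hw)]

/-- a fixed point with the inverse scalar -/
theorem FB.exopp (h : Geo G Ω P) {L : Subgroup G} (hL : Line P L) (B : FB P L) {t : G}
    (ht : orderOf t = 5) (h1 : t ∈ N L) {i : Ω} (hi : P i ≤ L) (h4 : t • i = i)
    (h5 : t ∉ C (P i)) {n : ZMod 11} (hn : Sc t (P i) n) :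
    ∃ j, P j ≤ L ∧ t⁻¹ • j = j ∧ Sc t⁻¹ (P j) n ∧ t⁻¹ ∉ C (P j) := by
  obtain ⟨m, hm, w, hw, rfl, o1⟩ := B.dec h hL h1 Nat.prime_five ht fun f => h5 (C_anti hi f)
  rw [h.smul_W hw hi] at h4
  obtain ⟨z, hz, o2, -, e⟩ := B.zt m hm o1 i hi h4
  obtain ⟨-, -, s, hs, -, -, -, e2⟩ := B.ctz m hm z hz o1 o2 e
  have hj : P (s • i) ≤ L := (h.on_mem hs).2 hi
  have e3 : (m * w)⁻¹ = m⁻¹ * w⁻¹ := by rw [(comm_of_C hm hw).eq, mul_inv_rev]
  have e4 : Sc (m * w)⁻¹ (P (s • i)) n := by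
    rw [e3, Sc.mul_C (C_anti hj (inv_mem hw)), ← e2, h.smul]
    exact ((Sc.mul_C (C_anti hi hw)).1 hn).cjj s
  refine ⟨s • i, hj, ?_, e4, fun f => h5 (sc_one_iff.1 ?_)⟩
  · rw [e3, h.smul_W (inv_mem hw) hj, ← e2, mul_smul, inv_smul_smul, mul_smul, h4]
  · rwa [h.sc_unique (sc_one_iff.2 f) e4]

namespace GL2

theorem cases (h : GL2 G Ω P) {L : Subgroup G} (hL : Line P L) : FA P L ∨ FB P L :=
  (h.ty hL).imp (h.fa L hL) (h.fb L hL)

theorem cen (h : GL2 G Ω P) {L : Subgroup G} (hL : Line P L) {i : Ω} (hi : P i ≤ L) :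
    L ⊓ C (P i) = P i := (h.cases hL).elim (fun A => A.cen i hi) fun B => B.cen i hi

theorem b (h : GL2 G Ω P) {L : Subgroup G} (hL : Line P L) {i : Ω} (hi : P i ≤ L) {k : G}
    (h1 : k ∈ C (P i)) (h2 : k ∈ N L) : ∃ p ∈ P i, ∃ c ∈ C L, k = p * c := by
  rcases h.cases hL with A | B
  · exact A.b i hi k h1 h2
  · obtain ⟨m, hm, w, hw, rfl⟩ := B.split k h2
    exact ⟨m, B.cen i hi ▸ ⟨hm, (mul_mem_cancel_right (C_anti hi hw)).1 h1⟩, w, hw, rfl⟩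

theorem notC (h : GL2 G Ω P) {L : Subgroup G} (hL : Line P L) {i : Ω} (hi : P i ≤ L) {t : G}
    (ht : t ∈ L) (h1 : orderOf t ≠ 1) (h2 : orderOf t ≠ 11) : t ∉ C (P i) := fun e =>
  h2 (h.order (h.cen hL hi ▸ ⟨ht, e⟩ : t ∈ P i) fun f => h1 (by rw [f, orderOf_one]))

theorem ex5 (h : GL2 G Ω P) {L : Subgroup G} (hL : Line P L) {i : Ω} (hi : P i ≤ L) :
    ∃ t ∈ L, orderOf t = 5 ∧ t • i = i ∧ t ∉ C (P i) := by
  have : ∃ t ∈ L, orderOf t = 5 ∧ t • i = i := by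
    rcases h.cases hL with A | B
    · obtain ⟨j, hj, h1⟩ := hL.two' i
      obtain ⟨t, h2, h3, h4, -⟩ := A.tor i j hj.symm hi h1
      exact ⟨t, h2, h3, h4⟩
    · obtain ⟨y, h1, h2, h3, -⟩ := B.tor i hi
      exact ⟨y ^ 2, pow_mem h1 _, by rw [orderOf_pow, h2]; rfl, by rw [sq, mul_smul, h3, h3]⟩
  obtain ⟨t, h1, h2, h3⟩ := this
  exact ⟨t, h1, h2, h3, h.notC hL hi h1 (by omega) (by omega)⟩

theorem scal (h : GL2 G Ω P) {t : G} (ht : orderOf t = 5) {i j : Ω} (hij : i ≠ j) (hi : t • i = i)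
    (hj : t • j = j) (hc : t ∉ C (P i)) {n : ZMod 11} (hn : Sc t (P i) n) :
    Sc t (P j) n ∨ Sc t⁻¹ (P j) n := by
  have hL : Line P (P i ⊔ P j) := ⟨i, j, hij, rfl⟩
  rcases h.cases hL with A | B
  · exact Or.inr (A.opp i j hij le_sup_left le_sup_right t ht hi hj hc n hn)
  obtain ⟨m, hm, w, hw, rfl, o1⟩ := B.dec h.toGeo hL (h.N_pair hi hj) Nat.prime_five ht
    fun f => hc (C_anti le_sup_left f)
  rw [h.smul_W hw le_sup_left] at hi
  rw [h.smul_W hw le_sup_right] at hj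
  obtain ⟨g, -, rfl, e⟩ := B.nt m hm o1 i j le_sup_left le_sup_right hi hj
  have e1 := ((Sc.mul_C (C_anti le_sup_left hw)).1 hn).cjj g
  rw [← h.smul] at e1
  rw [show (m * w)⁻¹ = m⁻¹ * w⁻¹ by rw [(comm_of_C hm hw).eq, mul_inv_rev],
    Sc.mul_C (C_anti le_sup_right hw), Sc.mul_C (C_anti le_sup_right (inv_mem hw))]
  rcases e with e | e <;> rw [e] at e1
  exacts [Or.inl e1, Or.inr e1]

theorem fb_of_same (h : GL2 G Ω P) {t : G} (ht : orderOf t = 5) {i j : Ω} (hij : i ≠ j)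
    (hi : t • i = i) (hj : t • j = j) (hc : t ∉ C (P i)) {n : ZMod 11} (hn : Sc t (P i) n)
    (hn' : Sc t (P j) n) : FB P (P i ⊔ P j) :=
  (h.cases ⟨i, j, hij, rfl⟩).resolve_left fun A => hc
    (h.sc_ne ht hn' (A.opp i j hij le_sup_left le_sup_right t ht hi hj hc n hn) hn)

theorem notC' (h : GL2 G Ω P) {t : G} {i j : Ω} (hc : t ∉ C (P i)) {n : ZMod 11}
    (hn : Sc t (P i) n) (hn' : Sc t (P j) n ∨ Sc t⁻¹ (P j) n) : t ∉ C (P j) := fun e => by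
  refine hc (sc_one_iff.1 ?_)
  rcases hn' with f | f
  · rwa [h.sc_unique (sc_one_iff.2 e) f]
  · rwa [h.sc_unique (sc_one_iff.2 (inv_mem e)) f]

/-- an involution centralising `t` fixes at most one point with a given scalar -/
theorem uniqz (h : GL2 G Ω P) {t z : G} (ht : orderOf t = 5) (hz : orderOf z = 2)
    (e : z * t = t * z) {a b : Ω} (h1 : t • a = a) (h2 : t • b = b) (h3 : z • a = a)
    (h4 : z • b = b) (h5 : t ∉ C (P a)) (h6 : z ∉ C (P a)) {n : ZMod 11} (ha : Sc t (P a) n)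
    (hb : Sc t (P b) n) : b = a := by
  by_contra f
  exact f ((FB.sc3' h.toGeo ⟨a, b, Ne.symm f, rfl⟩ (h.fb_of_same ht (Ne.symm f) h1 h2 h5 ha hb) ht
    hz (h.N_pair h1 h2) (h.N_pair h3 h4) (fun k => h6 (C_anti le_sup_left k)) e le_sup_left h1 h5
    ha).unique ⟨le_sup_right, h2, hb, h4⟩ ⟨le_sup_left, h1, ha, h3⟩)

theorem t0' (h : GL2 G Ω P) {L : Subgroup G} (hL : Line P L) (B : FB P L) {t : G}
    (ht : orderOf t = 5) (h1 : t ∈ N L) {i r : Ω} (hi : P i ≤ L) (h2 : t • i = i)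
    (h3 : t ∉ C (P i)) (h4 : t • r = r) {n : ZMod 11} (h5 : Sc t (P i) n) (h6 : Sc t (P r) n) :
    P r ≤ L := by
  by_contra hr
  obtain ⟨m, hm, w, hw, e0, o1⟩ := B.dec h.toGeo hL h1 Nat.prime_five ht fun f => h3 (C_anti hi f)
  obtain ⟨z, hz, o2, z1, e⟩ := B.zt m hm o1 i hi (by rwa [e0, h.smul_W hw hi] at h2)
  have e1 : z * t = t * z := by
    rw [e0, ← mul_assoc, e, mul_assoc, (comm_of_C hz hw).eq, mul_assoc]
  have e2 : z * t⁻¹ = t⁻¹ * z := (Commute.inv_right (show Commute z t from e1)).eq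
  have ht' : orderOf t⁻¹ = 5 := by rwa [orderOf_inv]
  have zC : ∀ {k}, P k ≤ L → z ∉ C (P k) := fun hk => h.notC hL hk hz (by omega) (by omega)
  have zz : z * z = 1 := by rw [← sq, ← o2, pow_orderOf_eq_one]
  have r1 : z • r ≠ r := fun f =>
    hr (h.uniqz ht o2 e1 h2 h4 z1 f h3 (zC hi) h5 h6 ▸ hi)
  have r2 : t • z • r = z • r := by rw [← mul_smul, ← e1, mul_smul, h4]
  have r3 : Sc t (P (z • r)) n := by
    have := h6.cjj z
    rwa [← h.smul, e1, mul_inv_cancel_right] at this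
  have r4 := h.notC' h3 h5 (Or.inl h6)
  have hM : Line P (P r ⊔ P (z • r)) := ⟨_, _, r1.symm, rfl⟩
  have BM := h.fb_of_same ht r1.symm h4 r2 r4 h6 r3
  have tM := h.N_pair h4 r2
  have zM := h.N_swap (g := z) (i := r) rfl (by rw [← mul_smul, zz, one_smul])
  have zM' : z ∉ C (P r ⊔ P (z • r)) := fun f => r1 (h.fix_W f le_sup_left)
  have rM : P r ≤ P r ⊔ P (z • r) := le_sup_left
  generalize P r ⊔ P (z • r) = M at *
  obtain ⟨b, ⟨b1, b2, b3, b4⟩, -⟩ := BM.sc3' h.toGeo hM ht o2 tM zM zM' e1 rM h4 r4 h6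
  obtain rfl := h.uniqz ht o2 e1 h2 b2 z1 b4 h3 (zC hi) h5 b3
  obtain ⟨a, a1, a2, a3, a4⟩ := BM.exopp h.toGeo hM ht tM rM h4 r4 h6
  obtain ⟨c, ⟨c1, c2, c3, c4⟩, -⟩ := BM.sc3' h.toGeo hM ht' o2 (inv_mem tM) zM zM' e2 a1 a2 a4 a3
  obtain ⟨a', a1', a2', a3', a4'⟩ := B.exopp h.toGeo hL ht h1 hi h2 h3 h5
  obtain ⟨d, ⟨d1, d2, d3, d4⟩, -⟩ := B.sc3' h.toGeo hL ht' o2 (inv_mem h1) (le_N _ hz)
    (fun f => zC hi (C_anti hi f)) e2 a1' a2' a4' a3'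
  obtain rfl := h.uniqz ht' o2 e2 d2 c2 d4 c4 (h.notC' a4' a3' (Or.inl d3)) (zC d1) d3 c3
  have hbc : b ≠ c := fun f => h3 (h.sc_ne ht h5 (f ▸ c3) h5)
  have e3 := B.gen z hz o2 b c hbc hi d1 z1 d4
  have e4 := eq_of_le_of_card_eq (e3 ▸ sup_le b1 c1 : L ≤ M) (B.card.trans BM.card.symm)
  exact hr (e4 ▸ rM)

/-- (T0) an invariant line of type `B` contains all fixed points of `t` -/
theorem t0 (h : GL2 G Ω P) {L : Subgroup G} (hL : Line P L) (B : FB P L) {t : G}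
    (ht : orderOf t = 5) (h1 : t ∈ N L) {i r : Ω} (hi : P i ≤ L) (h2 : t • i = i)
    (h3 : t ∉ C (P i)) (h4 : t • r = r) : P r ≤ L := by
  by_cases e : i = r
  · exact e ▸ hi
  obtain ⟨n, hn⟩ := h.sc_ex h2
  rcases h.scal ht e h2 h4 h3 hn with f | f
  · exact h.t0' hL B ht h1 hi h2 h3 h4 hn f
  · obtain ⟨a, a1, a2, a3, a4⟩ := B.exopp h.toGeo hL ht h1 hi h2 h3 hn
    exact h.t0' hL B (by rwa [orderOf_inv]) (inv_mem h1) a1 a2 a4 (inv_smul_eq_iff.2 h4.symm) a3 f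

theorem t1B (h : GL2 G Ω P) {t : G} (ht : orderOf t = 5) {i : Ω} (h1 : t • i = i)
    (h2 : t ∉ C (P i)) {L M : Subgroup G} (hL : ML P L) (hM : ML P M) (hi : P i ≤ L)
    (hi' : P i ≤ M) (h3 : t ∈ N L) (h4 : t ∈ N M) (B : FB P L) : L = M := by
  rcases h.cases hM.1 with A | B'
  · obtain ⟨j, ⟨j1, j2, j3⟩, -⟩ := A.fix2 t h4 i hi' h1 h2
    exact hM.2 L hL.1 (A.gen i j j2.symm hi' j1 ▸ sup_le hi (h.t0 hL.1 B ht h3 hi h1 h2 j3))
  obtain ⟨m, hm, w, hw, e0, o1⟩ := B'.dec h.toGeo hM.1 h4 Nat.prime_five ht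
    fun f => h2 (C_anti hi' f)
  obtain ⟨g, hg, g1, g2⟩ := B'.same m hm o1 i hi' (by rwa [e0, h.smul_W hw hi'] at h1)
  have e1 : g * t * g⁻¹ = t := by
    rw [e0, ← mul_assoc, mul_assoc (g * m), ← (comm_of_C (inv_mem hg) hw).eq, ← mul_assoc, g2]
  have e2 : t • g • i = g • i := by
    rw [← e1, mul_smul, inv_smul_smul, mul_smul, h1]
  obtain ⟨n, hn⟩ := h.sc_ex h1
  have e3 := hn.cjj g
  rw [e1, ← h.smul] at e3
  have B2 := h.fb_of_same ht g1.symm h1 e2 h2 hn e3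
  rw [← eq_of_le_of_card_eq (sup_le hi (h.t0 hL.1 B ht h3 hi h1 h2 e2)) (B2.card.trans B.card.symm),
    eq_of_le_of_card_eq (sup_le hi' ((h.on_mem hg).2 hi')) (B2.card.trans B'.card.symm)]

/-- (T1) -/
theorem t1 (h : GL2 G Ω P) {t : G} (ht : orderOf t = 5) {i : Ω} (h1 : t • i = i)
    (h2 : t ∉ C (P i)) {L M : Subgroup G} (hL : ML P L) (hM : ML P M) (hi : P i ≤ L)
    (hi' : P i ≤ M) (h3 : t ∈ N L) (h4 : t ∈ N M) : L = M := by
  rcases h.cases hL.1 with A | B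
  swap
  · exact h.t1B ht h1 h2 hL hM hi hi' h3 h4 B
  rcases h.cases hM.1 with A' | B'
  swap
  · exact (h.t1B ht h1 h2 hM hL hi' hi h4 h3 B').symm
  obtain ⟨j, ⟨j1, j2, j3⟩, -⟩ := A.fix2 t h3 i hi h1 h2
  obtain ⟨k, ⟨k1, k2, k3⟩, -⟩ := A'.fix2 t h4 i hi' h1 h2
  by_cases e : j = k
  · rw [← A.gen i j j2.symm hi j1, ← A'.gen i k k2.symm hi' k1, e]
  obtain ⟨n, hn⟩ := h.sc_ex h1
  have s1 := A.opp i j j2.symm hi j1 t ht h1 j3 h2 n hn
  have s2 := A'.opp i k k2.symm hi' k1 t ht h1 k3 h2 n hn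
  have s3 := h.notC' h2 hn (Or.inr s1)
  have B := h.fb_of_same (t := t⁻¹) (by rwa [orderOf_inv]) e (inv_smul_eq_iff.2 j3.symm)
    (inv_smul_eq_iff.2 k3.symm) (fun f => s3 (inv_mem_iff.1 f)) s1 s2
  have e1 := hL.2 _ ⟨j, k, e, rfl⟩ (A.gen i j j2.symm hi j1 ▸ sup_le
    (h.t0 ⟨j, k, e, rfl⟩ B ht (h.N_pair j3 k3) le_sup_left j3 s3 h1) le_sup_left)
  have := B.card
  rw [e1, A.card] at this
  omega

theorem exML (h : GL2 G Ω P) {L : Subgroup G} (hL : Line P L) : ∃ M, ML P M ∧ L ≤ M := by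
  obtain ⟨M, h1, h2⟩ := Finite.exists_le_maximal (p := Line P) hL
  exact ⟨M, ⟨h2.1, fun _ k e => le_antisymm (h2.2 k e) e⟩, h1⟩

theorem star (h : GL2 G Ω P) {i j : Ω} (hij : i ≠ j) {k : G} (hk : k ∈ C (P i))
    (hkj : k • j = j) : k ∈ C (P i ⊔ P j) := by
  obtain ⟨p, hp, c, hc, rfl⟩ := h.b ⟨i, j, hij, rfl⟩ le_sup_left hk (h.N_pair (h.fix_C hk) hkj)
  rw [h.smul_W hc le_sup_right] at hkj
  by_cases e : p = 1
  · rwa [e, one_mul]
  · exact absurd (h.semireg hp e hkj) hij.symm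

theorem wfix (h : GL2 G Ω P) {L : Subgroup G} (hL : ML P L) {w : G} (hw : w ∈ C L) (h1 : w ≠ 1)
    {i : Ω} (hi : w • i = i) : P i ≤ L := by
  obtain ⟨j, hj, h2⟩ := hL.1.two' i
  have h3 : P i ≤ C1 w := le_C1_iff.2 (C_anti le_sup_right (h.star hj (C_anti h2 hw) hi))
  have h4 : L ≤ C1 w := le_C1_iff.2 hw
  obtain ⟨a, b, hab, -, -, h5⟩ := h.min _ (h.C1_ne_top h1) j i hj (h2.trans h4) h3
  obtain ⟨c, d, -, e⟩ := hL.1
  rw [← hL.2 _ ⟨a, b, hab, rfl⟩ (e.le.trans (sup_le (h5 c (le_sup_left.trans (e.ge.trans h4)))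
    (h5 d (le_sup_right.trans (e.ge.trans h4)))))]
  exact h5 i h3

theorem zm_pow : ∀ a b : ZMod 11, a ^ 5 = 1 → a ≠ 1 → b ^ 5 = 1 → ∃ k : Fin 5, b = a ^ k.1 := by
  decide

theorem ktr (h : GL2 G Ω P) {L M : Subgroup G} (hL : ML P L) (hM : ML P M) {i : Ω} (hi : P i ≤ L)
    (hi' : P i ≤ M) : ∃ k ∈ C (P i), cj k L = M := by
  have := Fact.mk Nat.prime_five
  obtain ⟨φ, -, h2⟩ := h.aut i
  let H0 := ((powMonoidHom 5).comp φ).ker.map (MulAction.stabilizer G i).subtype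
  have m5 : ∀ {t : G}, orderOf t = 5 → t • i = i → zpowers t ≤ H0 := fun {t} o e =>
    zpowers_le.2 ⟨⟨t, e⟩, by
      change φ _ ^ 5 = 1
      rw [← map_pow, show (⟨t, e⟩ : MulAction.stabilizer G i) ^ 5 = 1 from
        Subtype.ext (o ▸ pow_orderOf_eq_one t), map_one], rfl⟩
  have p5 : ∀ {t : G}, orderOf t = 5 → IsPGroup 5 (zpowers t) := fun {t} o =>
    isPGroup_zpowers (k := 1) (by rw [pow_one, ← o, pow_orderOf_eq_one])
  obtain ⟨t, t1, t2, t3, t4⟩ := h.ex5 hL.1 hi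
  obtain ⟨s, s1, s2, s3, s4⟩ := h.ex5 hM.1 hi'
  have on : ∀ {g}, g ∈ H0 → P i ≤ cj g L := by
    rintro _ ⟨g, -, rfl⟩
    have := h.on_smul (g := g.1).2 hi
    rwa [show g.1 • i = i from g.2] at this
  obtain ⟨S, S1, S2⟩ := exists_sylIn_ge (le_inf (m5 t2 t3) (zpowers_le.2 (le_N _ t1))) (p5 t2)
  have S3 : SylIn 5 S H0 := by
    refine sylIn_of_sylIn_N Nat.prime_five (S2.of_le (le_inf (S2.le.trans inf_le_left) (le_N _))
      fun g hg => ⟨hg.1, mem_N.2 (h.t1 t2 t3 t4 (h.ml_cj hL g) hL (on hg.1) hi ?_ (le_N _ t1))⟩)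
    rw [← cj_N]
    exact cj_mono (S2.le.trans inf_le_right) ((mem_N.1 hg.2).ge (S1 (mem_zpowers t)))
  obtain ⟨g, hg, e⟩ := S3.exists_le_cj (m5 s2 s3) (p5 s2)
  have e1 := h.t1 s2 s3 s4 (h.ml_cj hL g) hM (on hg) hi' (by
    rw [← cj_N]; exact cj_mono (S2.le.trans inf_le_right) (e (mem_zpowers s))) (le_N _ s1)
  obtain ⟨g, hg, rfl⟩ := hg
  obtain ⟨⟨_, ht, rfl⟩⟩ : Nonempty (t ∈ H0) := ⟨m5 t2 t3 (mem_zpowers t)⟩
  rename_i t
  obtain ⟨k, hk⟩ := zm_pow (φ t) (φ g) (congrArg Units.val ht)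
    (fun f => t4 ((h2 t).1 (Units.ext f))) (congrArg Units.val hg)
  refine ⟨(g * (t ^ k.1)⁻¹ :), (h2 _).1 ?_, ?_⟩
  · rw [map_mul, map_inv, map_pow, mul_inv_eq_one]; exact Units.ext hk
  · rw [← e1, coe_mul, ← cj_cj, cj_self (g := (t ^ k.1)⁻¹.1) (inv_mem (pow_mem t1 _))]; rfl

end GL2

theorem Geo.ls (h : Geo G Ω P) (hA : ∀ L, Line P L → TyA L → FA P L)
    (hB : ∀ L, Line P L → TyB L → FB P L) :
    LS G Ω P ∧ ((∀ L, ML P L → FA P L) ∨ (∀ L, ML P L → FB P L)) := by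
  have g : GL2 G Ω P := ⟨h, hA, hB⟩
  have l : LS G Ω P :=
    { h with
      ex := fun i j hij => by
        obtain ⟨M, h1, h2⟩ := g.exML ⟨i, j, hij, rfl⟩
        exact ⟨M, h1, le_sup_left.trans h2, le_sup_right.trans h2⟩
      uniq := fun L M hL hM i j hij h1 h2 h3 h4 => by
        obtain ⟨t, t1, t2, t3, t4⟩ := g.ex5 ⟨i, j, hij, rfl⟩ (le_sup_left : P i ≤ _)
        exact g.t1 t2 t3 t4 hL hM h1 h3 (le_N _ (sup_le h1 h2 t1)) (le_N _ (sup_le h3 h4 t1))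
      b := fun L hL i hi k h1 h2 => g.b hL.1 hi h1 h2
      ktr := fun L M hL hM i h1 h2 => g.ktr hL hM h1 h2
      wfix := fun L hL w h1 h2 i h3 => g.wfix hL h1 h2 h3
      t1 := fun t h1 i h2 h3 L M hL hM h4 h5 h6 h7 => g.t1 h1 h2 h3 hL hM h4 h5 h6 h7
      off := fun L hL => by
        by_contra! e
        obtain ⟨i, j, -, f⟩ := hL.1
        exact h.ne_top i j (f ▸ h.eq_top e) }
  refine ⟨l, ?_⟩
  by_contra! e
  obtain ⟨⟨L, hL, h1⟩, M, hM, h2⟩ := e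
  obtain ⟨x, rfl⟩ := l.conj hL hM
  have := ((g.cases hM.1).resolve_right h2).card
  rw [card_cj, ((g.cases hL.1).resolve_left h1).card] at this
  omega

end CfsgJ
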