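import Cfsg.Agent.H3.JB3
import Cfsg.Agent.H5.JSA
import Cfsg.Agent.H5.JSB
import Cfsg.Agent.H8.JB2
import Cfsg.Agent.H8.JY
import Cfsg.Agent.H9.JCF
import Cfsg.Agent.H9.JFin
import Cfsg.Agent.L.JCH
import Cfsg.Agent.L.JA6
import Cfsg.Agent.H8.JIN
import Cfsg.Agent.H9.JA

/-! S3403: there is no minimal counterexample. -/

set_option autoImplicit false

namespace CfsgJ

open CfsgH5 CfsgH6 CfsgFT Subgroup

universe u

theorem noGeo (G Ω : Type u) [Group G] [Finite G] [MulAction G Ω] [Finite Ω]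
    (P : Ω → Subgroup G) : ¬ Geo G Ω P := fun h => by
  have hA : ∀ L, Line P L → TyA L → FA P L := fun _ => h.fa
  obtain ⟨l, e | e⟩ := h.ls hA fun _ => h.fb hA
  · exact (l.sa e).elim (l.sa e).inv lemCH lemCF
  · exact (l.sb e).elim lemY

end CfsgJ
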