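import Cfsg.Agent.H9.MA
import Cfsg.Agent.FT.Base9

set_option autoImplicit false
set_option linter.unusedSectionVars false
set_option maxHeartbeats 800000

/-! S3717: the case `C(t) = ⟨t⟩ × A₅`. -/

namespace CfsgM11

open Subgroup CfsgH5 CfsgH6 CfsgFT
open scoped commutatorElement

variable {G : Type*} [Group G] [Finite G]

theorem x_dbl {A B : Subgroup G} (h : A < B) : 2 * Nat.card A ≤ Nat.card B := by
  obtain ⟨k, hk⟩ := card_dvd_of_le h.le
  have hne : Nat.card A ≠ Nat.card B := fun e => h.ne (eq_of_le_of_card_ge h.le e.ge)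
  have : Nat.card B ≠ 0 := Nat.card_pos.ne'
  rcases k with _ | _ | k
  · simp [hk] at this
  · simp [hk] at hne
  · rw [hk]; nlinarith

theorem x_zp {v x : G} (v2 : v * v = 1) (hx : x ∈ zpowers v) : x = 1 ∨ x = v := by
  let B : Subgroup G :=
    { carrier := {y | y = 1 ∨ y = v}
      mul_mem' := by rintro _ _ (rfl | rfl) (rfl | rfl) <;> simp [v2]
      one_mem' := Or.inl rfl
      inv_mem' := by rintro _ (rfl | rfl) <;> simp [inv_of_sq v2] }
  exact (zpowers_le (H := B)).mpr (Or.inr rfl) hx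

theorem x_ext {F : Subgroup G} {v x : G} (v2 : v * v = 1) (hc : F ≤ C1 v) :
    x ∈ F ⊔ zpowers v ↔ x ∈ F ∨ x * v ∈ F := by
  have hn : Nrm (zpowers v) F := nrm_of_le_C (zpowers_le.mpr fun y hy => mem_C1.mp (hc hy))
  constructor
  · intro hx
    obtain ⟨f, hf, y, hy, rfl⟩ := (mem_sup_of_or (Or.inr hn)).mp hx
    rcases x_zp v2 hy with rfl | rfl
    · left; simpa using hf
    · right; rwa [mul_assoc, v2, mul_one]
  · rintro (hx | hx)
    · exact mem_sup_left hx
    · have := mul_mem (mem_sup_left hx : x * v ∈ F ⊔ zpowers v) (mem_sup_right (mem_zpowers v))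
      rwa [mul_assoc, v2, mul_one] at this

theorem x_pg {F : Subgroup G} {v : G} (hF : IsPGroup 2 F) (v2 : v * v = 1) (hc : F ≤ C1 v) :
    IsPGroup 2 ↥(F ⊔ zpowers v) :=
  isPGroup_sup Nat.prime_two hF (pg_of_sq fun x hx => by rcases x_zp v2 hx with rfl | rfl <;> simp [v2])
    (Or.inr (nrm_of_le_C (zpowers_le.mpr fun y hy => mem_C1.mp (hc hy))))

theorem x_zp3 {c x : G} (c3 : c ^ 3 = 1) (hx : x ∈ zpowers c) : x = 1 ∨ x = c ∨ x = c⁻¹ := by
  have cc : c * c = c⁻¹ := by rw [← mul_eq_one_iff_eq_inv, ← pow_three', c3]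
  have ci : c⁻¹ * c⁻¹ = c := by rw [← mul_inv_rev, cc, inv_inv]
  let B : Subgroup G :=
    { carrier := {y | y = 1 ∨ y = c ∨ y = c⁻¹}
      mul_mem' := by rintro _ _ (rfl | rfl | rfl) (rfl | rfl | rfl) <;> simp [cc, ci]
      one_mem' := Or.inl rfl
      inv_mem' := by rintro _ (rfl | rfl | rfl) <;> simp }
  exact (zpowers_le (H := B)).mpr (Or.inr (Or.inl rfl)) hx

theorem x_pg3 {c : G} (c3 : c ^ 3 = 1) : IsPGroup 3 (zpowers c) := fun p => ⟨1, Subtype.ext (by
  rcases x_zp3 c3 p.2 with e | e | e <;> simp [e, c3])⟩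

namespace Cf

variable {M : Subgroup G} {g h a t s z w : G} (H : Cf M g h a t s z w)
include H

theorem x_syl3 {c : G} (c3 : c ^ 3 = 1) (c1 : c ≠ 1) {S : Subgroup G} (hS : IsPGroup 2 S)
    (hne : S ≠ ⊥) (cN : c ∈ N S) : SylIn 3 (zpowers c) (N S) := by
  refine ⟨zpowers_le.mpr cN, x_pg3 c3, fun P hP pP hle => ?_⟩
  by_contra hPc
  have lt : zpowers c < P := lt_of_le_of_ne hle (Ne.symm hPc)
  obtain ⟨y, hy, hyn⟩ := SetLike.exists_of_lt
    (lt_inf_N_of_nilpotent (nilpotent_of_isPGroup Nat.prime_three pP) lt)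
  obtain ⟨k, hk⟩ := pP ⟨y, hy.1⟩
  have yk : y ^ 3 ^ k = 1 := congrArg Subtype.val hk
  have y2 : y * y * c = c * (y * y) := by
    rcases x_zp3 c3 (conj_mem_of_mem_N hy.2 (mem_zpowers c)) with e | e | e
    · exact absurd (cj1 (c := y⁻¹) (by simpa using e)) c1
    · calc y * y * c = y * (y * c * y⁻¹) * y := by group
        _ = y * c * y := by rw [e]
        _ = (y * c * y⁻¹) * (y * y) := by group
        _ = _ := by rw [e]
    · calc y * y * c = y * (y * c * y⁻¹) * y := by group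
        _ = y * c⁻¹ * y := by rw [e]
        _ = (y * c * y⁻¹)⁻¹ * (y * y) := by group
        _ = _ := by rw [e, inv_inv]
  have yz : y ∈ zpowers (y * y) := by
    obtain ⟨m, hm⟩ : Odd (3 ^ k) := Odd.pow (by decide)
    refine ⟨((m + 1 : ℕ) : ℤ), ?_⟩
    show (y * y) ^ ((m + 1 : ℕ) : ℤ) = y
    rw [zpow_natCast, ← pow_two, ← pow_mul, show 2 * (m + 1) = 3 ^ k + 1 by omega, pow_succ, yk,
      one_mul]
  have yc : y * c = c * y := mem_C1.mp ((zpowers_le.mpr (mem_C1.mpr y2)) yz)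
  have y6 := H.six c3 c1 yc
  have y3 : y ^ 3 = 1 := by
    have b := Nat.dvd_gcd (orderOf_dvd_of_pow_eq_one yk) (orderOf_dvd_of_pow_eq_one y6)
    have d : Nat.gcd (3 ^ k) 6 ∣ 3 :=
      (Nat.Coprime.dvd_mul_right (k := Nat.gcd (3 ^ k) 6) (n := 2) (m := 3)
        ((Nat.Coprime.pow_left k (by norm_num)).coprime_dvd_left (Nat.gcd_dvd_left _ _))).1
        (Nat.gcd_dvd_right _ _)
    exact orderOf_dvd_iff_pow_eq_one.1 (b.trans d)
  exact hyn (H.noM hS hne c3 c1 y3 yc.symm cN (hP hy.1))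

theorem x_cent {c : G} (c3 : c ^ 3 = 1) (c1 : c ≠ 1) (ct : c * t = t * c) {S : Subgroup G}
    (hS : IsPGroup 2 S) (tS : t ∈ S) {y : G} (yS : y ∈ S) (yc : y * c = c * y) :
    y = 1 ∨ y = t := by
  refine or_iff_not_imp_left.2 fun y1 => ?_
  have y2 := sq_of_six hS yS (H.six c3 c1 yc)
  refine H.two_eq c3 c1 yc ct.symm y2 H.tt y1 H.t1 (comm_of_sq y2 H.tt ?_)
  refine sq_of_six hS (mul_mem yS tS) (H.six c3 c1 ?_)
  rw [mul_assoc, ← ct, ← mul_assoc, yc, mul_assoc]

theorem x_sylow {c u : G} (c3 : c ^ 3 = 1) (c1 : c ≠ 1) (ct : c * t = t * c) {T : Subgroup G}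
    (pT : IsPGroup 2 T) (cT : c ∈ N T) (tT : t ∈ T) (uT : u ∈ T)
    (ab : ∀ x ∈ T, ∀ y ∈ T, x * y = y * x)
    (hT : ∀ X : Subgroup G, IsPGroup 2 X → T ≤ X → X ≤ C1 t → X = T)
    (hni : ∀ x, x * t = t * x → x * u * x⁻¹ * u = u * (x * u * x⁻¹) → x * c * x⁻¹ ≠ c⁻¹) :
    ∃ S : Subgroup G, SylIn 2 S ⊤ ∧ T ≤ S ∧ c ∈ N S := by
  obtain ⟨S, h1, ⟨pS, cN⟩, hmax⟩ := exists_maximal_ge
    (P := fun X : Subgroup G => IsPGroup 2 X ∧ c ∈ N X) ⟨pT, cT⟩
  refine ⟨S, ?_, h1, cN⟩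
  have tS := h1 tT
  have hne : S ≠ ⊥ := fun e => H.t1 (by rwa [e, mem_bot] at tS)
  have s3 := H.x_syl3 c3 c1 pS hne cN
  have eT : S ⊓ C1 t = T := hT _ (pS.to_le inf_le_left)
    (le_inf h1 fun x hx => mem_C1.mpr (ab x hx t tT)) inf_le_right
  have hc : N S ⊓ N (zpowers c) ≤ C (zpowers c) := by
    intro x hx
    have xc : x * c = c * x := by
      rcases x_zp3 c3 (conj_mem_of_mem_N hx.2 (mem_zpowers c)) with e | e | e
      · exact absurd (cj1 (c := x⁻¹) (by simpa using e)) c1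
      · rw [← mul_inv_eq_iff_eq_mul, e]
      · exfalso
        have m := conj_mem_of_mem_N hx.1 tS
        have e1 : x * t * x⁻¹ * c = c * (x * t * x⁻¹) := by
          have e2 : c = x * c⁻¹ * x⁻¹ := by
            rw [show x * c⁻¹ * x⁻¹ = (x * c * x⁻¹)⁻¹ by group, e, inv_inv]
          have ct' : t * c⁻¹ = c⁻¹ * t := by
            rw [eq_inv_mul_iff_mul_eq, ← mul_assoc, ct]; group
          calc x * t * x⁻¹ * c = x * t * x⁻¹ * (x * c⁻¹ * x⁻¹) := by rw [← e2]
            _ = x * (t * c⁻¹) * x⁻¹ := by group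
            _ = (x * c⁻¹ * x⁻¹) * (x * t * x⁻¹) := by rw [ct']; group
            _ = _ := by rw [← e2]
        have xt : x * t = t * x := by
          rcases H.x_cent c3 c1 ct pS tS m e1 with q | q
          · exact absurd (cj1 (c := x⁻¹) (by simpa using q)) H.t1
          · rw [← mul_inv_eq_iff_eq_mul, q]
        have m2 : x * u * x⁻¹ ∈ T := by
          rw [← eT]
          refine ⟨conj_mem_of_mem_N hx.1 (h1 uT), mem_C1.mpr ?_⟩
          have xt' : t = x * t * x⁻¹ := by rw [xt]; group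
          calc x * u * x⁻¹ * t = x * u * x⁻¹ * (x * t * x⁻¹) := by rw [← xt']
            _ = x * (u * t) * x⁻¹ := by group
            _ = (x * t * x⁻¹) * (x * u * x⁻¹) := by rw [ab u uT t tT]; group
            _ = _ := by rw [← xt']
        exact hni x xt (ab _ m2 u uT) e
    rw [C_zpowers]
    exact mem_C1.mpr xc
  have pn := s3.pNil_of_le_C Nat.prime_three hc
  have hK : S ≤ Opc 3 (N S) := Op_le_Opc Nat.prime_two (by norm_num) _
    |>.trans' (le_Op (le_N S) (nrm_N S) pS)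
  have nK : Nrm (zpowers c) (Opc 3 (N S)) := (nrm_Opc 3 (N S)).mono (zpowers_le.mpr cN)
  obtain ⟨P, p1, p2, p3⟩ := exists_sylIn_ge_nrm_of_coprime nK
    (coprime_Opc Nat.prime_three _ (x_pg3 c3))
    (Or.inr (solvable_of_isPGroup Nat.prime_three (x_pg3 c3))) Nat.prime_two hK pS
    (nrm_of_le_N (zpowers_le.mpr cN))
  have e := hmax P ⟨p2.2.1, p3.le_N (mem_zpowers c)⟩ p1
  subst e
  refine sylIn_of_sylIn_N Nat.prime_two ?_
  rw [top_inf_eq]
  exact p2.trans_hall Nat.prime_two (pn.hall Nat.prime_three) (by simp)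

omit H in
theorem x_cube {c y : G} (c3 : c ^ 3 = 1) : (y * c) ^ 3 = y * (c * y * c⁻¹) * (c⁻¹ * y * c) := by
  have ci : c⁻¹ * c⁻¹ = c := by
    rw [← mul_inv_rev, inv_eq_iff_mul_eq_one, ← pow_three', c3]
  rw [pow_three']
  calc y * c * (y * c) * (y * c) = y * c * y * c * y * c := by group
    _ = y * c * y * (c⁻¹ * c⁻¹) * y * c := by rw [ci]
    _ = _ := by group

theorem x_nu {c : G} (c3 : c ^ 3 = 1) (c1 : c ≠ 1) (ct : c * t = t * c) {S : Subgroup G}
    (pS : IsPGroup 2 S) (tS : t ∈ S) (cN : c ∈ N S) {y : G} (yS : y ∈ S) :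
    (y * c) ^ 3 = 1 ∨ ∃ b ∈ S, (y * c) ^ 3 = b * t * b⁻¹ := by
  haveI := Fact.mk Nat.prime_three
  refine or_iff_not_imp_left.2 fun n1 => ?_
  have hne : S ≠ ⊥ := fun e => H.t1 (by rwa [e, mem_bot] at tS)
  have nS : (y * c) ^ 3 ∈ S := by
    rw [x_cube c3]
    have := conj_mem_of_mem_N (inv_mem cN) yS
    rw [inv_inv] at this
    exact mul_mem (mul_mem yS (conj_mem_of_mem_N cN yS)) this
  have cS : c ∉ S := fun hc => c1 (by
    have := sq_of_six pS hc (by rw [show 6 = 3 * 2 from rfl, pow_mul, c3, one_pow])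
    rwa [pow_succ, pow_two, this, one_mul] at c3)
  have h3 : 3 ∣ orderOf (y * c) := by
    by_contra hd
    have cop : (orderOf (y * c)).Coprime 3 :=
      ((Nat.Prime.coprime_iff_not_dvd Nat.prime_three).mpr hd).symm
    obtain ⟨m, hm⟩ := exists_pow_eq_self_of_coprime cop.symm
    have : y * c ∈ S := hm ▸ pow_mem nS m
    exact cS (by simpa using mul_mem (inv_mem yS) this)
  obtain ⟨a1, a2⟩ := H.six' h3
  have s3 := H.x_syl3 c3 c1 pS hne cN
  have hL : S ⊔ zpowers c ≤ N S := sup_le (le_N S) (zpowers_le.mpr cN)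
  have s4 : SylIn 3 (zpowers c) (S ⊔ zpowers c) :=
    ⟨le_sup_right, s3.2.1, fun T hT => s3.2.2 T (hT.trans hL)⟩
  have d3 : ((y * c) ^ 2) ^ 3 = 1 := by rw [← pow_mul, a1]
  obtain ⟨k, hk, hle⟩ := s4.exists_le_cj (X := zpowers ((y * c) ^ 2))
    (zpowers_le.mpr (pow_mem (mul_mem (mem_sup_left yS) (mem_sup_right (mem_zpowers c))) 2))
    (x_pg3 d3)
  obtain ⟨b, hb, d, hd, rfl⟩ :=
    (mem_sup_of_or (Or.inr (nrm_of_le_N (zpowers_le.mpr cN)))).mp hk
  rw [← cj_cj, cj_self hd] at hle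
  have m := mem_cj.mp (hle (mem_zpowers _))
  have q : (y * c) ^ 3 * (y * c) ^ 2 = (y * c) ^ 2 * (y * c) ^ 3 := (Commute.pow_pow_self _ 3 2).eq
  have q2 : b⁻¹ * (y * c) ^ 3 * b * (b⁻¹ * (y * c) ^ 2 * b) =
      b⁻¹ * (y * c) ^ 2 * b * (b⁻¹ * (y * c) ^ 3 * b) := by
    calc _ = b⁻¹ * ((y * c) ^ 3 * (y * c) ^ 2) * b := by
          generalize (y * c) ^ 3 = A; generalize (y * c) ^ 2 = B; group
      _ = _ := by rw [q]; generalize (y * c) ^ 3 = A; generalize (y * c) ^ 2 = B; group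
  have q3 : b⁻¹ * (y * c) ^ 3 * b * c = c * (b⁻¹ * (y * c) ^ 3 * b) := by
    rcases x_zp3 c3 m with e | e | e
    · exact absurd (cj1 e) a2
    · rwa [e] at q2
    · rw [e] at q2
      generalize b⁻¹ * (y * c) ^ 3 * b = A at q2 ⊢
      calc A * c = c * (c⁻¹ * A) * c := by group
        _ = c * A := by rw [← q2]; group
  have mS : b⁻¹ * (y * c) ^ 3 * b ∈ S := mul_mem (mul_mem (inv_mem hb) nS) hb
  rcases H.x_cent c3 c1 ct pS tS mS q3 with e | e
  · exact absurd (cj1 e) n1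
  · refine ⟨b, hb, ?_⟩
    rw [← e]
    generalize (y * c) ^ 3 = A
    group

omit H in
theorem x_of {R : Subgroup G} {v : R} : Abelianization.of v = 1 ↔ (v : G) ∈ D R := by
  rw [← MonoidHom.mem_ker, Abelianization.ker_of, D, ← map_subtype_commutator]
  constructor
  · exact fun h => ⟨v, h, rfl⟩
  · rintro ⟨v', hv, e⟩
    rwa [← Subtype.ext e]

theorem x_half {c : G} (c3 : c ^ 3 = 1) (c1 : c ≠ 1) (ct : c * t = t * c) {S : Subgroup G}
    (pS : IsPGroup 2 S) (tS : t ∈ S) (cN : c ∈ N S) (tD : t ∉ D S) :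
    ∃ B ≤ S, B.relIndex S = 2 ∧ ∀ y ∈ B, (y * c) ^ 3 = 1 := by
  have hα : ∀ v : S, ((MulAut.conj c).toMonoidHom.comp S.subtype) v ∈ S := fun v =>
    conj_mem_of_mem_N cN v.2
  have hβ : ∀ v : S, ((MulAut.conj c⁻¹).toMonoidHom.comp S.subtype) v ∈ S := fun v =>
    conj_mem_of_mem_N (inv_mem cN) v.2
  let α : S →* S := MonoidHom.codRestrict _ _ hα
  let β : S →* S := MonoidHom.codRestrict _ _ hβ
  let φ : S →* Abelianization S :=
    Abelianization.of * (Abelianization.of.comp α) * (Abelianization.of.comp β)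
  have hφ : ∀ v : S, φ v = Abelianization.of (v * α v * β v) := fun v => by simp [φ]
  have hv : ∀ v : S, ((v * α v * β v : S) : G) = ((v : G) * c) ^ 3 := fun v => by
    rw [x_cube c3]; simp [α, β]
  have tt : Abelianization.of (⟨t, tS⟩ : S) ≠ 1 := fun e => tD (x_of.mp e)
  have t2 : Abelianization.of (⟨t, tS⟩ : S) * Abelianization.of (⟨t, tS⟩ : S) = 1 := by
    rw [← map_mul, show (⟨t, tS⟩ * ⟨t, tS⟩ : S) = 1 from Subtype.ext H.tt, map_one]
  have key : ∀ v : S, (((v : G) * c) ^ 3 = 1 ∧ φ v = 1) ∨ φ v = Abelianization.of (⟨t, tS⟩ : S) := by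
    intro v
    rcases H.x_nu c3 c1 ct pS tS cN v.2 with e | ⟨b, hb, e⟩
    · refine Or.inl ⟨e, ?_⟩
      rw [hφ, show v * α v * β v = 1 from Subtype.ext ((hv v).trans e), map_one]
    · right
      rw [hφ, show v * α v * β v = ⟨b, hb⟩ * ⟨t, tS⟩ * ⟨b, hb⟩⁻¹ from Subtype.ext ((hv v).trans e),
        map_mul, map_mul, map_inv, mul_inv_cancel_comm]
  have φt : φ ⟨t, tS⟩ = Abelianization.of (⟨t, tS⟩ : S) := by
    rcases key ⟨t, tS⟩ with ⟨e, -⟩ | e
    · exfalso
      have e' : (t * c) ^ 3 = 1 := e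
      rw [Commute.mul_pow ct.symm, c3, mul_one, pow_succ, pow_two, H.tt, one_mul] at e'
      exact H.t1 e'
    · exact e
  refine ⟨φ.ker.map S.subtype, map_subtype_le _, ?_, ?_⟩
  · have : (φ.ker.map S.subtype).subgroupOf S = φ.ker :=
      comap_map_eq_self_of_injective S.subtype_injective _
    rw [relIndex, this, index_eq_two_iff]
    refine ⟨⟨t, tS⟩, fun b => ?_⟩
    rw [MonoidHom.mem_ker, MonoidHom.mem_ker, map_mul, φt]
    rcases key b with ⟨-, e⟩ | e
    · rw [e, one_mul]; exact Or.inr ⟨rfl, tt⟩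
    · rw [e]; exact Or.inl ⟨t2, tt⟩
  · rintro _ ⟨v, hv', rfl⟩
    rcases key v with ⟨e, -⟩ | e
    · exact e
    · exact absurd (e.symm.trans hv') tt

theorem lemmaX {c u : G} (c3 : c ^ 3 = 1) (c1 : c ≠ 1) (ct : c * t = t * c) (u2 : u * u = 1)
    (ut : u * t = t * u) (u1 : u ≠ 1) (uNt : u ≠ t) (uc : u * (c * u * c⁻¹) = c⁻¹ * u * c)
    (h8 : ∀ X : Subgroup G, IsPGroup 2 X → X ≤ C1 t → Nat.card X ≤ 8)
    (hni : ∀ x, x * t = t * x → x * u * x⁻¹ * u = u * (x * u * x⁻¹) → x * c * x⁻¹ ≠ c⁻¹) :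
    False := by
  haveI := Fact.mk Nat.prime_two
  have ci : c⁻¹ * c⁻¹ = c := by
    rw [← mul_inv_rev, inv_eq_iff_mul_eq_one, ← pow_three', c3]
  have cc : c * c = c⁻¹ := by rw [← mul_eq_one_iff_eq_inv, ← pow_three', c3]
  obtain ⟨v, hv⟩ : ∃ v, v = c * u * c⁻¹ := ⟨_, rfl⟩
  rw [← hv] at uc
  have v2 : v * v = 1 := hv ▸ sq_conj u2 c
  have uv2 : u * v * (u * v) = 1 := by
    rw [uc]; simpa using sq_conj u2 c⁻¹
  have uv : u * v = v * u := comm_of_sq u2 v2 uv2
  have cv : c * v * c⁻¹ = u * v := by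
    rw [uc, hv]
    calc c * (c * u * c⁻¹) * c⁻¹ = (c * c) * u * (c⁻¹ * c⁻¹) := by group
      _ = _ := by rw [cc, ci]
  have cuv : c * (u * v) * c⁻¹ = u := by rw [uc]; group
  have v1 : v ≠ 1 := fun e => u1 (cj1 (c := c⁻¹) (by simpa [hv] using e))
  have vu : v ≠ u := fun e => u1 (by
    rw [e, u2] at uc; exact cj1 uc.symm)
  have ctc : c * t * c⁻¹ = t := by rw [ct]; group
  have vt : v * t = t * v := by
    have := comm_conj' ut c
    rwa [ctc, ← hv] at this
  -- the four-group `F`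
  have hu : zpowers u ≤ C1 v := zpowers_le.mpr (mem_C1.mpr uv)
  set F := zpowers u ⊔ zpowers v with hF
  have uF : u ∈ F := mem_sup_left (mem_zpowers u)
  have vF : v ∈ F := mem_sup_right (mem_zpowers v)
  have memF : ∀ x ∈ F, x = 1 ∨ x = u ∨ x = v ∨ x = u * v := by
    intro x hx
    rcases (x_ext v2 hu).mp hx with e | e
    · rcases x_zp u2 e with e | e <;> simp [e]
    · rcases x_zp u2 e with e | e
      · right; right; left
        rw [← inv_of_sq v2]; exact eq_inv_of_mul_eq_one_left e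
      · right; right; right
        rw [← e, mul_assoc, v2, mul_one]
  have pU : IsPGroup 2 (zpowers u) :=
    pg_of_sq fun x hx => by rcases x_zp u2 hx with rfl | rfl <;> simp [u2]
  have sqF : ∀ x ∈ F, x * x = 1 := fun x hx => by
    rcases memF x hx with rfl | rfl | rfl | rfl
    · simp
    · exact u2
    · exact v2
    · exact uv2
  have pF : IsPGroup 2 F := pg_of_sq sqF
  have cF : c ∈ N F := mem_N_of_conj fun x hx => by
    rcases memF x hx with rfl | rfl | rfl | rfl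
    · simp
    · exact hv ▸ vF
    · rw [cv]; exact mul_mem uF vF
    · rw [cuv]; exact uF
  have fixF : ∀ x ∈ F, c * x * c⁻¹ = x → x = 1 := fun x hx e => by
    rcases memF x hx with rfl | rfl | rfl | rfl
    · rfl
    · exact absurd (hv.trans e) vu
    · rw [cv] at e; exact absurd (by simpa using e) u1
    · rw [cuv] at e; exact absurd (by simpa using e) v1
  have tF : t ∉ F := fun e => H.t1 (fixF t e ctc)
  have Ft : F ≤ C1 t := sup_le (zpowers_le.mpr (mem_C1.mpr ut)) (zpowers_le.mpr (mem_C1.mpr vt))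
  have c4 : 4 ≤ Nat.card F := by
    have l1 : (⊥ : Subgroup G) < zpowers u := bot_lt_iff_ne_bot.mpr (zpowers_ne_bot.mpr u1)
    have l2 : zpowers u < F := lt_of_le_of_ne le_sup_left fun e => by
      rcases x_zp u2 (e ▸ vF) with e | e
      · exact v1 e
      · exact vu e
    have := x_dbl l1
    have := x_dbl l2
    rw [card_bot] at *
    omega
  have ltE : ∀ {y : G}, y ∉ F → F < F ⊔ zpowers y := fun {y} hy =>
    lt_of_le_of_ne le_sup_left fun e => hy (e ▸ mem_sup_right (mem_zpowers y))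
  set T := F ⊔ zpowers t with hT
  have tT : t ∈ T := mem_sup_right (mem_zpowers t)
  have c8 : 8 ≤ Nat.card T := by
    have : 2 * Nat.card F ≤ Nat.card T := x_dbl (ltE tF)
    omega
  have sqT : ∀ x ∈ T, x * x = 1 := fun x hx => by
    rcases (x_ext H.tt Ft).mp hx with e | e
    · exact sqF x e
    · have q := mem_C1.mp (Ft e)
      have xt : x * t = t * x := by
        have : x * t * t = t * x * t := by rw [q, mul_assoc]
        exact mul_right_cancel this
      have := sqF _ e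
      rwa [mul_assoc, ← mul_assoc t, ← xt, mul_assoc, H.tt, mul_one] at this
  have abT : ∀ x ∈ T, ∀ y ∈ T, x * y = y * x := fun x hx y hy =>
    comm_of_sq (sqT x hx) (sqT y hy) (sqT _ (mul_mem hx hy))
  have hTm : ∀ X : Subgroup G, IsPGroup 2 X → T ≤ X → X ≤ C1 t → X = T := fun X p1 p2 p3 =>
    (eq_of_le_of_card_ge p2 ((h8 X p1 p3).trans c8)).symm
  have cT : c ∈ N T := by rw [mem_N, hT, CfsgFT.cj_sup, mem_N.mp cF, CfsgFT.cj_zpowers, ctc]
  obtain ⟨S, sS, TS, cN⟩ := H.x_sylow c3 c1 ct (pg_of_sq sqT) cT tT (mem_sup_left uF) abT hTm hni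
  have pS := sS.2.1
  have tS := TS tT
  have FS : F ≤ S := le_sup_left.trans TS
  have eT : S ⊓ C1 t = T := hTm _ (pS.to_le inf_le_left)
    (le_inf TS fun x hx => mem_C1.mpr (abT x hx t tT)) inf_le_right
  have inT : ∀ y ∈ S, y * t = t * y → y ∈ T := fun y hy e => eT ▸ ⟨hy, mem_C1.mpr e⟩
  have STne : T ≠ S := by
    intro e
    have pa : IsPGroup 2 (zpowers a) := IsPGroup.of_card_dvd_pow (n := 3) (by
      rw [Nat.card_zpowers]; exact orderOf_dvd_of_pow_eq_one H.a8)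
    obtain ⟨k, -, hk⟩ := sS.exists_le_cj le_top pa
    have := sqT _ (e ▸ mem_cj.mp (hk (mem_zpowers a)))
    have a2 : a * a = 1 := cj1 (c := k) (by rw [← this]; group)
    exact H.z1 (by rw [H.ez, show 4 = 2 * 2 from rfl, pow_mul, pow_two a, a2, one_pow])
  have c16 : 16 ≤ Nat.card S := by have := x_dbl (lt_of_le_of_ne TS STne); omega
  have nt : ¬ S ≤ C1 t := fun e => by have := h8 S pS e; omega
  -- `F ≤ Z(S)`
  have FZ : F ≤ C S := by
    have hne : S ≠ ⊥ := fun e => H.t1 (by rwa [e, mem_bot] at tS)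
    obtain ⟨e, ⟨e1, e2⟩, e3⟩ := (bot_or_exists_ne_one _).resolve_left
      (inf_C_ne_bot_of_isPGroup Nat.prime_two pS pS (Nrm.self S) hne)
    have cC : c ∈ N (C S) := (nrm_of_le_N (zpowers_le.mpr cN)).C.le_N (mem_zpowers c)
    have key : ∀ f ∈ F, f ≠ 1 → f ∈ C S → F ≤ C S := by
      intro f hf f1 hc
      have q1 := conj_mem_of_mem_N cC hc
      have q2 := conj_mem_of_mem_N cC q1
      have uC : u ∈ C S := by
        rcases memF f hf with rfl | rfl | rfl | rfl
        · exact absurd rfl f1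
        · exact hc
        · rwa [cv, cuv] at q2
        · rwa [cuv] at q1
      exact sup_le (zpowers_le.mpr uC) (zpowers_le.mpr (hv ▸ conj_mem_of_mem_N cC uC))
    rcases (x_ext H.tt Ft).mp (inT e e1 (e2 t tS).symm) with q | q
    · exact key e q e3 e2
    · have r1 := conj_mem_of_mem_N cF q
      have et : e * t = t * e := (e2 t tS).symm
      have r2 : e * t * (c * (e * t) * c⁻¹) = e * (c * e * c⁻¹) := by
        have w1 : t * (c * e * c⁻¹) = (c * e * c⁻¹) * t := conj_mem_of_mem_N cC e2 t tS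
        calc e * t * (c * (e * t) * c⁻¹) = e * (t * (c * e * c⁻¹)) * (c * t * c⁻¹) := by group
          _ = e * (c * e * c⁻¹) * (t * t) := by rw [w1, ctc]; group
          _ = _ := by rw [H.tt, mul_one]
      refine key _ (mul_mem q r1) (fun e0 => ?_) (r2 ▸ mul_mem e2 (conj_mem_of_mem_N cC e2))
      have r3 : c * (e * t) * c⁻¹ = e * t := by
        exact (eq_inv_of_mul_eq_one_right e0).trans (inv_of_sq (sqF _ q))
      have r4 : e = t := by
        rw [← inv_of_sq H.tt]; exact eq_inv_of_mul_eq_one_left (fixF _ q r3)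
      exact nt fun y hy => mem_C1.mpr (r4 ▸ e2 y hy)
  have nF : Nrm S F := nrm_of_le_C (le_C_symm FZ)
  -- `t ∉ S'`
  have tD : t ∉ D S := by
    intro tD
    have FlS : ¬ S ≤ F := fun e => tF (e tS)
    have q0 := inf_C_ne_bot_of_isPGroup Nat.prime_two (isPGroup_quo F pS) (isPGroup_quo F pS)
      (Nrm.self _) (fun e => FlS ((quo_eq_bot nF).mp e))
    set A := coq F (quo F S ⊓ C (quo F S)) with hA
    have AS : A ≤ S := coq_le_of_le_quo FS inf_le_left
    have AF : ⁅A, S⁆ ≤ F := (le_coq_C_iff (nrm_coq _ _) nF).mp (coq_mono _ inf_le_right)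
    have b1 : ⁅⁅A, S⁆, S⁆ = ⊥ := commutator_eq_bot_iff_le_centralizer.mpr (AF.trans FZ)
    have b2 : ⁅⁅S, A⁆, S⁆ = ⊥ := by rwa [commutator_comm S A]
    have b3 := commutator_eq_bot_iff_le_centralizer.mp (three_subgroups b2 b1)
    obtain ⟨y, yA, yF⟩ := SetLike.exists_of_lt
      (lt_of_le_of_ne (le_coq F _) (fun e => q0 (coq_eq_self.mp e.symm)) : F < A)
    have yT := inT y (AS yA) (b3 tD y yA)
    have tA : t ∈ A := by
      rcases (x_ext H.tt Ft).mp yT with e | e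
      · exact absurd e yF
      · simpa using mul_mem (inv_mem yA) (le_coq F _ e)
    have sq : ∀ y ∈ S, y * y ∈ F := by
      intro y hy
      have k := AF (commutator_mem_commutator tA hy)
      have k1 := FZ k y hy
      have k2 := sqF _ k
      have e1 : t * y * t⁻¹ = ⁅t, y⁆ * y := by rw [commutatorElement_def]; group
      have e2 : y * y * t = t * (y * y) := by
        have : t * (y * y) * t⁻¹ = y * y := by
          rw [← conj_mul, e1, mul_assoc, ← mul_assoc y, k1, mul_assoc, ← mul_assoc, k2, one_mul]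
        exact (mul_inv_eq_iff_eq_mul.mp this).symm
      rcases (x_ext H.tt Ft).mp (inT _ (mul_mem hy hy) e2) with e | e
      · exact e
      · have e3 := FZ e y hy
        have e4 : y * t = t * y := by
          have : y * y * (y * t) = y * y * (t * y) := by
            calc y * y * (y * t) = y * (y * y * t) := by group
              _ = _ := by rw [e3]; group
          exact mul_left_cancel this
        rw [sqT y (inT y hy e4)]
        exact one_mem F
    have DF : D S ≤ F := by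
      rw [D, commutator_le]
      intro x hx y hy
      have e : ⁅x, y⁆ = (x * y * (x * y)) * (y⁻¹ * (x⁻¹ * x⁻¹) * y⁻¹⁻¹) * (y⁻¹ * y⁻¹) := by
        rw [commutatorElement_def]; group
      rw [e]
      exact mul_mem (mul_mem (sq _ (mul_mem hx hy)) (nF _ (inv_mem hy) _ (sq _ (inv_mem hx))))
        (sq _ (inv_mem hy))
    exact tF (DF tD)
  obtain ⟨B, BS, bi, hB⟩ := H.x_half c3 c1 ct pS tS cN tD
  obtain ⟨k, hk⟩ := thompson_transfer' sS BS bi H.simp H.tt
  set t1 := k * t * k⁻¹ with ht1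
  have h8' : ∀ X : Subgroup G, IsPGroup 2 X → X ≤ C1 t1 → Nat.card X ≤ 8 := fun X p1 p2 => by
    rw [← card_cj k⁻¹ X]
    refine h8 _ (isPGroup_cj p1 _) ?_
    rw [cj_le_iff, inv_inv, cj_C1]
    exact p2
  have t12 : t1 * t1 = 1 := sq_conj H.tt k
  have t1S := BS hk
  have cub := hB t1 hk
  rw [x_cube c3] at cub
  have r2 : c * t1 * c⁻¹ * (c * t1 * c⁻¹) = 1 := sq_conj t12 c
  have r3 : c⁻¹ * t1 * c * (c⁻¹ * t1 * c) = 1 := by simpa using sq_conj t12 c⁻¹
  have r4 : t1 * (c * t1 * c⁻¹) = c⁻¹ * t1 * c := by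
    rw [← inv_of_sq r3]; exact eq_inv_of_mul_eq_one_left cub
  have r5 : t1 * (c * t1 * c⁻¹) = (c * t1 * c⁻¹) * t1 := comm_of_sq t12 r2 (by rw [r4, r3])
  have t1F : t1 ∉ F := fun e => by
    have := h8' S pS fun y hy => mem_C1.mpr (FZ e y hy)
    omega
  have Ft1 : F ≤ C1 t1 := fun f hf => mem_C1.mpr (FZ hf t1 t1S).symm
  have l2 : F ⊔ zpowers t1 < S ⊓ C1 t1 := by
    refine lt_of_le_of_ne (sup_le (le_inf FS Ft1) (zpowers_le.mpr ⟨t1S, self_mem_C1 t1⟩)) fun e => ?_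
    have m : c * t1 * c⁻¹ ∈ F ⊔ zpowers t1 :=
      e ▸ ⟨conj_mem_of_mem_N cN t1S, mem_C1.mpr r5.symm⟩
    rcases (x_ext t12 Ft1).mp m with q | q
    · exact t1F (by simpa [mul_assoc] using conj_mem_of_mem_N (inv_mem cF) q)
    · rw [← r5, r4] at q
      exact t1F (by simpa [mul_assoc] using conj_mem_of_mem_N cF q)
  have := x_dbl (ltE t1F)
  have := x_dbl l2
  have := h8' _ (pS.to_le inf_le_left) inf_le_right
  omega

end Cf

end CfsgM11
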