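import Cfsg.Agent.H7.Loc10
import Cfsg.Agent.H3.A5Pres
import Cfsg.Agent.H3.X32Gen
import Cfsg.Prelude.Def_SporadicB
import Cfsg.Prelude.Def_CaseTheorems

/-! Generalities for the 3-local characterization of the McLaughlin group. -/

set_option autoImplicit false
set_option linter.unusedSectionVars false
set_option synthInstance.maxSize 2048

namespace CfsgH3.Md
open Subgroup CfsgH5 CfsgH6 CfsgFT CfsgH7 CfsgH7.F5 Equiv

universe u
variable {G : Type u} [Group G]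

/-- `R` is the graph of a homomorphism `M → H` with kernel `K`. -/
structure Rl {H : Type*} [Group H] (M K : Subgroup G) (R : G → H → Prop) : Prop where
  mem : ∀ {g a}, R g a → g ∈ M
  ex : ∀ {g}, g ∈ M → ∃ a, R g a
  mul : ∀ {g h a b}, R g a → R h b → R (g * h) (a * b)
  ker : ∀ {g a}, R g a → (a = 1 ↔ g ∈ K)
  le : K ≤ M

namespace Rl
variable {H : Type*} [Group H] {M K : Subgroup G} {R : G → H → Prop} (h : Rl M K R)
include h

theorem of_ker {g : G} (hg : g ∈ K) : R g 1 := by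
  obtain ⟨a, ha⟩ := h.ex (h.le hg)
  rwa [(h.ker ha).2 hg] at ha

theorem one : R 1 1 := h.of_ker (one_mem _)

theorem inv {g : G} {a : H} (h1 : R g a) : R g⁻¹ a⁻¹ := by
  obtain ⟨b, hb⟩ := h.ex (inv_mem (h.mem h1))
  have := (h.ker (h.mul h1 hb)).2 (by rw [mul_inv_cancel]; exact one_mem _)
  rwa [eq_inv_of_mul_eq_one_right this] at hb

theorem uniq {g : G} {a b : H} (h1 : R g a) (h2 : R g b) : a = b :=
  mul_inv_eq_one.1 ((h.ker (h.mul h1 (h.inv h2))).2 (by rw [mul_inv_cancel]; exact one_mem _))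

theorem pow {g : G} {a : H} (h1 : R g a) (n : ℕ) : R (g ^ n) (a ^ n) := by
  induction n with
  | zero => simpa using h.one
  | succ n ih => rw [pow_succ, pow_succ]; exact h.mul ih h1

theorem conj {g k : G} {a b : H} (h1 : R g a) (h2 : R k b) : R (g * k * g⁻¹) (a * b * a⁻¹) :=
  h.mul (h.mul h1 h2) (h.inv h1)

theorem cast {g : G} {a b : H} (h1 : R g a) (e : a = b) : R g b := e ▸ h1

theorem kerm {g : G} {a : H} (h1 : R g a) (e : a = 1) : g ∈ K := (h.ker h1).1 e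

theorem eqv {g k : G} {a : H} (h1 : R g a) (h2 : R k a) : g * k⁻¹ ∈ K :=
  h.kerm (h.mul h1 (h.inv h2)) (mul_inv_cancel a)

theorem eqv' {g k : G} {a : H} (h1 : R g a) (h2 : R k a) : k⁻¹ * g ∈ K :=
  h.kerm (h.mul (h.inv h2) h1) (inv_mul_cancel a)

theorem mulK {g k : G} {a : H} (h1 : R g a) (hk : k ∈ K) : R (g * k) a :=
  mul_one a ▸ h.mul h1 (h.of_ker hk)

theorem Kmul {g k : G} {a : H} (h1 : R g a) (hk : k ∈ K) : R (k * g) a :=
  one_mul a ▸ h.mul (h.of_ker hk) h1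

theorem of_eqv {g k : G} {a : H} (h1 : R k a) (e : g * k⁻¹ ∈ K) : R g a := by
  simpa using h.Kmul h1 e

theorem eq_of {g k : G} {a b : H} (h1 : R g a) (h2 : R k b) (e : g = k) : a = b :=
  h.uniq h1 (e ▸ h2)

theorem nrm : Nrm M K := fun g hg k hk => by
  obtain ⟨a, ha⟩ := h.ex hg
  exact h.kerm (h.conj ha (h.of_ker hk)) (by simp)

theorem comm {g k : G} {a b : H} (h1 : R g a) (h2 : R k b) (e : g * k = k * g) : a * b = b * a :=
  h.eq_of (h.mul h1 h2) (h.mul h2 h1) e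

theorem conjAut (π : H) : Rl M K fun g a => R g (π * a * π⁻¹) where
  mem h1 := h.mem h1
  ex hg := let ⟨a, ha⟩ := h.ex hg; ⟨π⁻¹ * a * π, h.cast ha (by group)⟩
  mul h1 h2 := h.cast (h.mul h1 h2) (by group)
  ker h1 := by rw [← h.ker h1]; simp
  le := h.le

/-- the homomorphism -/
noncomputable def hom : M →* H :=
  MonoidHom.mk' (fun g => (h.ex g.2).choose) fun g k =>
    h.uniq (h.ex (g * k).2).choose_spec (h.mul (h.ex g.2).choose_spec (h.ex k.2).choose_spec)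

theorem hom_spec (g : M) : R g (h.hom g) := (h.ex g.2).choose_spec

/-- preimage of a subgroup -/
def pre (Y : Subgroup H) : Subgroup G where
  carrier := {g | ∃ a ∈ Y, R g a}
  one_mem' := ⟨1, one_mem _, h.one⟩
  mul_mem' := fun ⟨a, ha, h1⟩ ⟨b, hb, h2⟩ => ⟨_, mul_mem ha hb, h.mul h1 h2⟩
  inv_mem' := fun ⟨a, ha, h1⟩ => ⟨_, inv_mem ha, h.inv h1⟩

/-- image of a subgroup -/
def im (X : Subgroup G) : Subgroup H where
  carrier := {a | ∃ g ∈ X, R g a}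
  one_mem' := ⟨1, one_mem _, h.one⟩
  mul_mem' := fun ⟨a, ha, h1⟩ ⟨b, hb, h2⟩ => ⟨_, mul_mem ha hb, h.mul h1 h2⟩
  inv_mem' := fun ⟨a, ha, h1⟩ => ⟨_, inv_mem ha, h.inv h1⟩

theorem mem_pre {Y : Subgroup H} {g : G} {a : H} (h1 : R g a) : g ∈ h.pre Y ↔ a ∈ Y :=
  ⟨fun ⟨_, hb, h2⟩ => h.uniq h2 h1 ▸ hb, fun ha => ⟨a, ha, h1⟩⟩

theorem pre_le (Y : Subgroup H) : h.pre Y ≤ M := fun _ ⟨_, _, h1⟩ => h.mem h1

theorem le_pre (Y : Subgroup H) : K ≤ h.pre Y := fun _ hg => ⟨1, one_mem _, h.of_ker hg⟩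

theorem card_pre [Finite G] {Y : Subgroup H} (hs : ∀ a ∈ Y, ∃ g, R g a) :
    Nat.card (h.pre Y) = Nat.card K * Nat.card Y := by
  let f : h.pre Y →* H := h.hom.comp (inclusion (h.pre_le Y))
  have f1 : ∀ g : h.pre Y, R g (f g) := fun g => h.hom_spec ⟨g, h.pre_le Y g.2⟩
  have h1 : f.ker = K.subgroupOf _ := Subgroup.ext fun g => h.ker (f1 g)
  have h2 : f.range = Y := le_antisymm (fun _ ⟨g, e⟩ => e ▸ (h.mem_pre (f1 g)).1 g.2) fun a ha =>
    let ⟨g, hg⟩ := hs a ha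
    ⟨⟨g, a, ha, hg⟩, h.uniq (f1 ⟨g, a, ha, hg⟩) hg⟩
  rw [← card_mul_relIndex (h.le_pre Y), relIndex, ← h1, index_ker, h2]

theorem pre_top : h.pre ⊤ = M :=
  le_antisymm (h.pre_le _) fun _ hg => let ⟨a, ha⟩ := h.ex hg; ⟨a, mem_top _, ha⟩

theorem card_all [Finite G] (hs : ∀ a, ∃ g, R g a) : Nat.card M = Nat.card K * Nat.card H := by
  rw [← h.pre_top, h.card_pre fun a _ => hs a, card_top]

/-- lifting a `2`-subgroup over a `3`-group -/
theorem lift2 [Finite G] (hK : IsPGroup 3 K) {Y : Subgroup H}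
    (hY : ∀ g a, R g a → a ∈ Y → a ^ 4 = 1) :
    ∃ T : Subgroup G, (∀ g a, R g a → a ∈ Y → ∃ k ∈ T, R k a) ∧ ∀ k ∈ T, R k 1 → k = 1 := by
  have := Fact.mk Nat.prime_two
  obtain ⟨T, hT⟩ := exists_sylIn 2 (h.pre Y)
  refine ⟨T, fun g a ha hy => ?_, fun k hk h1 => ?_⟩
  · obtain ⟨s, hs, k, hk, e⟩ := hT.exists_mul (h.le_pre Y) (h.nrm.mono (h.pre_le Y))
      (fun x ⟨b, hb, h1⟩ => ⟨2, h.kerm (h.pow h1 _) (hY _ _ h1 hb)⟩) (x := g) ⟨a, hy, ha⟩
    exact ⟨s, hs, by simpa [e] using h.mulK ha (inv_mem hk)⟩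
  · obtain ⟨n, hn⟩ := hT.isPGroup ⟨k, hk⟩
    exact eq_one_of_coprime_of_mem hK (h.kerm h1 rfl) (Nat.Coprime.coprime_dvd_left
      (orderOf_dvd_of_pow_eq_one (congrArg Subtype.val hn)) (Nat.Coprime.pow_left _ (by norm_num)))

end Rl

theorem rl_of_hom {H : Type*} [Group H] {M K : Subgroup G} (f : M →* H) (hK : K ≤ M)
    (hf : ∀ g, f g = 1 ↔ g.1 ∈ K) : Rl M K fun g a => ∃ hg : g ∈ M, f ⟨g, hg⟩ = a where
  mem h1 := h1.1
  ex hg := ⟨_, hg, rfl⟩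
  mul := fun ⟨h1, e1⟩ ⟨h2, e2⟩ => ⟨mul_mem h1 h2, e1 ▸ e2 ▸ map_mul f ⟨_, h1⟩ ⟨_, h2⟩⟩
  ker := fun ⟨h1, e1⟩ => e1 ▸ hf ⟨_, h1⟩
  le := hK

/-- Relations modulo a central involution lift for elements of odd order. -/
theorem odd_lift {H : Type*} [Group H] {t : G} {R : G → H → Prop} (h : Rl (C1 t) (zpowers t) R)
    (t2 : t * t = 1) (t1 : t ≠ 1) {a b : G} {a' : H} (ha : R a a') (hb : R b a') {n : ℕ}
    (h1 : a ^ (2 * n + 1) = 1) (h2 : b ^ (2 * n + 1) = 1) : a = b := by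
  rcases mem_zpowers_order_two' t2 (h.eqv ha hb) with e | e
  · exact mul_inv_eq_one.1 e
  · rw [mul_inv_eq_iff_eq_mul] at e
    rw [e, (Commute.mul_pow (mem_C1.1 (h.mem hb)).symm), h2, pow_succ, pow_mul, pow_two, t2] at h1
    exact absurd (by simpa using h1) t1

/-- Extension of a homomorphism from a subgroup of index two. -/
theorem ext2 {H : Type*} [Group H] {H0 : Subgroup H} {π : H} (hπ : π ∉ H0)
    (h2 : ∀ a b, a ∉ H0 → b ∉ H0 → a * b ∈ H0) (κ : H0 →* G) {γ : G}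
    (hc : ∀ a b : H0, π * a * π⁻¹ = b → γ * κ a * γ⁻¹ = κ b) (hππ : π * π = 1) (hγ : γ * γ = 1) :
    ∃ l : H →* G, (∀ a : H0, l a = κ a) ∧ l π = γ := by
  classical
  have hi : π⁻¹ = π := inv_eq_self hππ
  have m1 : ∀ a, a ∉ H0 → a * π ∈ H0 := fun a ha => h2 a π ha hπ
  have m2 : ∀ a ∈ H0, π * a * π ∈ H0 := fun a ha =>
    m1 _ fun e => hπ ((mul_mem_cancel_right ha).1 e)
  have k2 : ∀ a (ha : a ∈ H0), γ * κ ⟨a, ha⟩ = κ ⟨_, m2 a ha⟩ * γ := fun a ha => by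
    rw [← hc ⟨a, ha⟩ ⟨_, m2 a ha⟩ (by rw [hi]), inv_mul_cancel_right]
  refine ⟨MonoidHom.mk' (fun a => if ha : a ∈ H0 then κ ⟨a, ha⟩ else κ ⟨_, m1 a ha⟩ * γ)
    fun a b => ?_, fun a => dif_pos a.2, ?_⟩
  · by_cases ha : a ∈ H0 <;> by_cases hb : b ∈ H0
    · simp only [dif_pos ha, dif_pos hb, dif_pos (mul_mem ha hb), ← map_mul]; rfl
    · have hab : a * b ∉ H0 := fun e => hb ((mul_mem_cancel_left ha).1 e)
      simp only [dif_pos ha, dif_neg hb, dif_neg hab, ← mul_assoc, ← map_mul]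
      exact congrArg (fun x => κ x * γ) (Subtype.ext (mul_assoc _ _ _))
    · have hab : a * b ∉ H0 := fun e => ha ((mul_mem_cancel_right hb).1 e)
      simp only [dif_neg ha, dif_pos hb, dif_neg hab]
      rw [mul_assoc _ γ, k2, ← mul_assoc, ← map_mul]
      refine congrArg (fun x => κ x * γ) (Subtype.ext ?_)
      change a * b * π = a * π * (π * b * π)
      rw [← mul_assoc, ← mul_assoc, mul_assoc a π π, hππ, mul_one]
    · simp only [dif_neg ha, dif_neg hb, dif_pos (h2 a b ha hb)]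
      rw [mul_assoc _ γ, ← mul_assoc γ, k2, mul_assoc _ γ, hγ, mul_one, ← map_mul]
      refine congrArg κ (Subtype.ext ?_)
      change a * b = a * π * (π * (b * π) * π)
      rw [mul_assoc π, mul_assoc b, hππ, mul_one, ← mul_assoc, mul_assoc a π π, hππ, mul_one]
  · change dite _ _ _ = _
    rw [dif_neg hπ, show (⟨π * π, m1 π hπ⟩ : H0) = 1 from Subtype.ext hππ, map_one, one_mul]

/-! ### `A₅` -/

def ω5 : A5 := sw2 2 3 3 4
def Y5 : A5 := sw2 0 1 0 2 * sw2 1 3 1 4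
def π5 : A5 := sw2 0 1 0 3

theorem ω5_val : ω5.1 = ω := by decide +kernel

theorem a5_hom {x y : G} (hx : x ^ 3 = 1) (hy : y ^ 5 = 1) (hxy : (x * y) ^ 2 = 1) :
    ∃ f : A5 →* G, f ω5 = x ∧ f Y5 = y := by
  obtain ⟨f, h1, h2⟩ := a5_exists_hom hx hy hxy
  exact ⟨f.comp (MulAut.conj π5⁻¹).toMonoidHom,
    (congrArg f (by decide +kernel)).trans h1, (congrArg f (by decide +kernel)).trans h2⟩

theorem a5_ind {Y : Subgroup A5} (h1 : ω5 ∈ Y) (h2 : Y5 ∈ Y) (a : A5) : a ∈ Y :=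
  A5_le (κ := MonoidHom.id _) (a := ω5 * Y5) (mul_mem h1 h2) h1 h2 (by decide +kernel)
    (by decide +kernel) (by decide +kernel) (by decide +kernel) (by decide +kernel)
    (by decide +kernel) a

theorem aut5 : ∀ x : S5, x ^ 3 = 1 → ∀ y : S5, y ^ 5 = 1 → y ≠ 1 → (x * y) ^ 2 = 1 →
    ∃ π : S5, π * ω * π⁻¹ = x ∧ π * Y5.1 * π⁻¹ = y := by decide +kernel

theorem cent5 : ∀ π : S5, π * ω = ω * π → π * Y5.1 = Y5.1 * π → π = 1 := by decide +kernel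

theorem conj_ω : ∀ x : S5, x ^ 3 = 1 → x ≠ 1 → ∃ π : S5, π * ω * π⁻¹ = x := by decide +kernel

/-- conjugation of `A₅` by `S₅` -/
def cj5 (π : S5) (a : A5) : A5 :=
  ⟨π * a * π⁻¹, by rw [Perm.mem_alternatingGroup, sign_conj']; exact a.2⟩

theorem cj5_mul (π : S5) (a b : A5) : cj5 π (a * b) = cj5 π a * cj5 π b :=
  Subtype.ext (by simp [cj5])

theorem cj5_cj5 (π ρ : S5) (a : A5) : cj5 π (cj5 ρ a) = cj5 (π * ρ) a :=
  Subtype.ext (by simp [cj5, mul_assoc])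

theorem cj5_one (a : A5) : cj5 1 a = a := Subtype.ext (by simp [cj5])

theorem cj5_coe (b a : A5) : cj5 b a = b * a * b⁻¹ := rfl

/-- `h` induces the conjugation by `π` on the image of `κ`. -/
def Ind (κ : A5 →* G) (h : G) (π : S5) : Prop := ∀ a, h * κ a * h⁻¹ = κ (cj5 π a)

theorem Ind.mul {κ : A5 →* G} {g h : G} {π ρ : S5} (h1 : Ind κ g π) (h2 : Ind κ h ρ) :
    Ind κ (g * h) (π * ρ) := fun a => by rw [← cj5_cj5, ← h1, ← h2]; group

theorem Ind.inv {κ : A5 →* G} {g : G} {π : S5} (h1 : Ind κ g π) : Ind κ g⁻¹ π⁻¹ := fun a => by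
  have := h1 (cj5 π⁻¹ a)
  rw [cj5_cj5, mul_inv_cancel, cj5_one] at this
  rw [← this]; group

theorem ind_self (κ : A5 →* G) (b : A5) : Ind κ (κ b) b := fun a => by
  rw [cj5_coe, map_mul, map_mul, map_inv]

theorem Ind.uniq {κ : A5 →* G} (hκ : Function.Injective κ) {g : G} {π ρ : S5} (h1 : Ind κ g π)
    (h2 : Ind κ g ρ) : π = ρ := by
  have f : ∀ a : A5, ρ⁻¹ * π * a = a * (ρ⁻¹ * π) := fun a => by
    have e : π * a * π⁻¹ = ρ * a * ρ⁻¹ := congrArg Subtype.val (hκ ((h1 a).symm.trans (h2 a)))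
    calc _ = ρ⁻¹ * (π * a * π⁻¹) * π := by group
      _ = _ := by rw [e]; group
  exact (inv_mul_eq_one.1 (cent5 _ (ω5_val ▸ f ω5) (f Y5))).symm

theorem ind_one {κ : A5 →* G} {g : G} : Ind κ g 1 ↔ ∀ a, g * κ a = κ a * g :=
  forall_congr' fun a => by rw [cj5_one, mul_inv_eq_iff_eq_mul]

theorem exists_ind {κ : A5 →* G} (hκ : Function.Injective κ) {h : G}
    (h1 : h * κ Y5 * h⁻¹ ∈ κ.range) (h2 : h * κ (ω5 * Y5) * h⁻¹ ∈ κ.range) : ∃ π, Ind κ h π := by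
  obtain ⟨y, hy⟩ := h1
  obtain ⟨u, hu⟩ := h2
  have hx : κ (u * y⁻¹) = h * κ ω5 * h⁻¹ := by rw [map_mul, map_inv, hu, hy, map_mul]; group
  have f : ∀ (a b : A5) (n : ℕ), κ b = h * κ a * h⁻¹ → a ^ n = 1 → b.1 ^ n = 1 := fun a b n e e' =>
    congrArg Subtype.val (hκ (by rw [map_pow, e, conj_pow, ← map_pow, e']; simp) : b ^ n = 1)
  obtain ⟨π, e1, e2⟩ := aut5 _ (f _ _ 3 hx (by decide +kernel)) _ (f _ _ 5 hy (by decide +kernel))
    (fun e => by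
      rw [show y = 1 from Subtype.ext e, map_one, eq_comm, conj_eq_one_iff, map_eq_one_iff _ hκ] at hy
      exact absurd hy (by decide +kernel))
    (by simpa using f _ _ 2 hu (by decide +kernel))
  refine ⟨π, a5_ind (Y := ((MulAut.conj h).toMonoidHom.comp κ).eqLocus
    (κ.comp (MonoidHom.mk' (cj5 π) (cj5_mul π)))) ?_ ?_⟩
  · exact hx.symm.trans (congrArg κ (Subtype.ext (e1.symm.trans (by rw [← ω5_val]; rfl))))
  · exact hy.symm.trans (congrArg κ (Subtype.ext e2.symm))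

theorem exists_l2 {κ : A5 →* G} {γ : G} {π : S5} (h : Ind κ γ π) (hs : Perm.sign π = -1)
    (hππ : π * π = 1) (hγ : γ * γ = 1) : ∃ l : S5 →* G, (∀ a : A5, l a = κ a) ∧ l π = γ :=
  ext2 (H0 := alternatingGroup (Fin 5)) (by rw [Perm.mem_alternatingGroup, hs]; decide)
    (fun a b ha hb => by
      rw [Perm.mem_alternatingGroup] at *
      rw [map_mul, (Int.units_eq_one_or _).resolve_left ha, (Int.units_eq_one_or _).resolve_left hb]
      rfl)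
    κ (fun a b e => (h a).trans (congrArg κ (Subtype.ext e))) hππ hγ

/-! ### The dihedral group acting on a group of order nine -/

def act : DihedralGroup 4 → ZMod 4 → ZMod 4
  | .r k, i => i + k
  | .sr k, i => -(i + k)

def pt (z x : G) : ZMod 4 → G := ![z, x, z⁻¹, x⁻¹]

theorem exists_d8 [Finite G] {z x f v : G} (hb : B9 z x)
    (h : ∀ n ∈ N (D9 z x), ∃ i j, n * z * n⁻¹ = pt z x i ∧ n * x * n⁻¹ = pt z x j)
    (f1 : f * z * f⁻¹ = z) (f2 : f * x * f⁻¹ = x⁻¹) (v1 : v * z * v⁻¹ = x) (v2 : v * x * v⁻¹ = z) :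
    ∃ φ : N (D9 z x) →* DihedralGroup 4, Function.Surjective φ ∧
      ∀ g, φ g = 1 ↔ g.1 ∈ C (D9 z x) := by
  have p2 : ∀ i, pt z x (i + 2) = (pt z x i)⁻¹ := fun i => by
    fin_cases i
    exacts [rfl, rfl, (inv_inv _).symm, (inv_inv _).symm]
  have pm : ∀ i, pt z x i ∈ D9 z x := fun i => by
    fin_cases i
    exacts [left_mem_D9 _ _, right_mem_D9 _ _, inv_mem (left_mem_D9 _ _),
      inv_mem (right_mem_D9 _ _)]
  have key : ∀ (n : G) d, n * z * n⁻¹ = pt z x (act d 0) → n * x * n⁻¹ = pt z x (act d 1) →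
      n ∈ N (D9 z x) ∧ ∀ i, n * pt z x i * n⁻¹ = pt z x (act d i) := fun n d e1 e2 => by
    refine ⟨mem_N_of_cj_le (by rw [B9.cj_D9, e1, e2]; exact D9_le (pm _) (pm _)), fun i => ?_⟩
    have f := (by decide : ∀ d i, act d (i + 2) = act d i + 2)
    fin_cases i
    · exact e1
    · exact e2
    · exact (conj_inv.symm.trans (congrArg _ e1)).trans ((p2 _).symm.trans (congrArg _ (f d 0).symm))
    · exact (conj_inv.symm.trans (congrArg _ e2)).trans ((p2 _).symm.trans (congrArg _ (f d 1).symm))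
  have zx : ∀ {a : G}, a ^ 3 = 1 → a ≠ 1 → a⁻¹ ≠ a := fun {a} a3 a1 e =>
    a1 (eq_one_of_sq_cube (by nth_rw 1 [← e]; simp) a3)
  have p0 : ∀ i, pt z x i = z → i = 0 := fun i e => by
    fin_cases i
    exacts [rfl, absurd (e ▸ mem_zpowers z) hb.ind, absurd e (zx hb.a3 hb.a1),
      absurd ((inv_mem_iff (x := x)).1 (e ▸ mem_zpowers z)) hb.ind]
  have p1 : ∀ i, pt z x i = x → i = 1 := fun i e => by
    fin_cases i
    exacts [absurd (e ▸ mem_zpowers z) hb.ind, rfl, absurd (e ▸ inv_mem (mem_zpowers z)) hb.ind,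
      absurd e (zx hb.b3 hb.b1)]
  have hR : Rl (N (D9 z x)) (C (D9 z x))
      fun n d => n ∈ N (D9 z x) ∧ ∀ i, n * pt z x i * n⁻¹ = pt z x (act d i) := by
    refine ⟨fun h => h.1, fun {n} hn => ?_, fun {g k a b} h1 h2 => ⟨mul_mem h1.1 h2.1, fun i => ?_⟩,
      fun {g a} h1 => ⟨fun e => hb.mem_C_iff.2 ⟨?_, ?_⟩, fun e => ?_⟩, C_le_N _⟩
    · obtain ⟨i, j, e1, e2⟩ := h n hn
      have hi := (hb.conj n).ind
      rw [e1, e2] at hi
      obtain ⟨d, rfl, rfl⟩ := (by decide : ∀ i j : ZMod 4, j ≠ i → j ≠ i + 2 →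
        ∃ d, act d 0 = i ∧ act d 1 = j) i j (fun e => hi (e ▸ mem_zpowers _))
        (fun e => hi (by rw [e, p2]; exact inv_mem (mem_zpowers _)))
      exact ⟨d, key n d e1 e2⟩
    · rw [(by decide : ∀ a b i, act (a * b) i = act a (act b i)), ← h1.2, ← h2.2]; group
    · subst e; exact mul_inv_eq_iff_eq_mul.1 (h1.2 0)
    · subst e; exact mul_inv_eq_iff_eq_mul.1 (h1.2 1)
    · obtain ⟨e1, e2⟩ := hb.mem_C_iff.1 e
      exact (by decide : ∀ a, act a 0 = 0 → act a 1 = 1 → a = 1) a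
        (p0 _ ((h1.2 0).symm.trans (mul_inv_eq_iff_eq_mul.2 e1)))
        (p1 _ ((h1.2 1).symm.trans (mul_inv_eq_iff_eq_mul.2 e2)))
  refine ⟨hR.hom, fun d => ?_, fun g => hR.ker (hR.hom_spec g)⟩
  have g1 : DihedralGroup.sr 0 ∈ hR.im ⊤ := ⟨f, mem_top _, key f _ f1 f2⟩
  have g2 : DihedralGroup.sr 3 ∈ hR.im ⊤ := ⟨v, mem_top _, key v _ v1 v2⟩
  obtain ⟨g, -, hg⟩ : d ∈ hR.im ⊤ := by
    obtain ⟨i, e | e⟩ := (by decide : ∀ d : DihedralGroup 4, ∃ i : Fin 4,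
      d = (.sr 0 * .sr 3) ^ i.val ∨ d = (.sr 0 * .sr 3) ^ i.val * .sr 0) d <;> rw [e]
    exacts [pow_mem (mul_mem g1 g2) _, mul_mem (pow_mem (mul_mem g1 g2) _) g1]
  exact ⟨⟨g, hg.1⟩, hR.uniq (hR.hom_spec _) hg⟩

end CfsgH3.Md
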