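import Cfsg.Agent.H3.MdA
import Cfsg.Agent.H4.McLoc
import Cfsg.Prelude.Def_Spor_Conway

/-! Facts on `S₈`, automorphisms of `A₈`, and double covers of `A₈`. -/

set_option autoImplicit false
set_option linter.unusedSectionVars false
set_option synthInstance.maxSize 4096

namespace CfsgH3.Md
open Subgroup CfsgH5 CfsgH6 CfsgFT CfsgH7 CfsgH7.F5 Equiv CfsgMcL

universe u
variable {G : Type u} [Group G]

abbrev S8 := Perm (Fin 8)

def e8 : Fin 5 → S8 := ![1, swap 0 1, swap 0 1 * swap 2 3, swap 0 1 * swap 2 3 * swap 4 5,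
  swap 0 1 * swap 2 3 * swap 4 5 * swap 6 7]

theorem odd_invol {u : S8} (hu : u * u = 1) (hs : Perm.sign u = -1) :
    (∃ π, π * e8 1 * π⁻¹ = u) ∨ ∃ π, π * e8 3 * π⁻¹ = u := by
  have h2 : u ^ 2 = 1 := by rwa [pow_two]
  obtain ⟨m, hm⟩ := dvd_card_support Nat.prime_two h2
  have h8 : u.support.card ≤ 8 := (Finset.card_le_univ _).trans (by simp)
  have f := (by decide +kernel : ∀ m : Fin 5, e8 m ^ 2 = 1 ∧ (e8 m).support.card = 2 * m.val ∧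
    (Perm.sign (e8 m) = -1 → m = 1 ∨ m = 3)) ⟨m, by omega⟩
  obtain ⟨π, e⟩ := isConj_of_support Nat.prime_two f.1 h2 (f.2.1.trans hm.symm)
  rcases f.2.2 (by rw [← sign_conj' π, e, hs]) with e' | e' <;> rw [e'] at e
  exacts [Or.inl ⟨π, e⟩, Or.inr ⟨π, e⟩]

def cyc (p q r : Fin 8) : S8 := swap p r * swap p q

theorem cyc_conj (π : S8) (p q r : Fin 8) : π * cyc p q r * π⁻¹ = cyc (π p) (π q) (π r) := by
  rw [cyc, cyc, swap_apply_apply, swap_apply_apply]; group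

theorem cent9_aux : ∀ p : Fin 8, cyc 2 3 4 p ≠ p → ∀ q : Fin 8, cyc 5 6 7 q ≠ q → ∀ r s : Fin 8,
    (∀ k, ![r, s, p, cyc 2 3 4 p, cyc 2 3 4 (cyc 2 3 4 p), q, cyc 5 6 7 q, cyc 5 6 7 (cyc 5 6 7 q)]
      (![r, s, p, cyc 2 3 4 p, cyc 2 3 4 (cyc 2 3 4 p), q, cyc 5 6 7 q, cyc 5 6 7 (cyc 5 6 7 q)] k)
        = k) → ∃ j : Fin 2, ∀ k, ![r, s, p, cyc 2 3 4 p, cyc 2 3 4 (cyc 2 3 4 p), q, cyc 5 6 7 q,
          cyc 5 6 7 (cyc 5 6 7 q)] k = (e8 1 ^ j.val) k := by decide +kernel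

theorem cent9 {α β u : S8} (hb : B9 α β) (hu : u * u = 1) (u1 : u ≠ 1) (h1 : u * α = α * u)
    (h2 : u * β = β * u) : ∃ π, π * e8 1 * π⁻¹ = u := by
  have := Fact.mk Nat.prime_three
  have b0 : B9 (cyc 2 3 4) (cyc 5 6 7) := b9_map (ψ := MonoidHom.id _) Function.injective_id
    (by decide +kernel) (by decide +kernel) (by decide +kernel) (by decide +kernel)
    (by decide +kernel) (by decide +kernel) (by decide +kernel)
  have hS : SylIn 3 (D9 (cyc 2 3 4) (cyc 5 6 7)) ⊤ := sylIn_of_not_dvd le_top b0.isPGroup (by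
    rw [relIndex_eq_of_mul le_top (n := 4480) (by rw [b0.card, card_top, Nat.card_perm]; simp; rfl)]
    norm_num)
  obtain ⟨π, -, hπ⟩ := hS.exists_le_cj le_top hb.isPGroup
  have e := eq_of_le_of_card_eq hπ (by rw [card_cj, b0.card, hb.card])
  have hc : π⁻¹ * u * π ∈ C (D9 (cyc 2 3 4) (cyc 5 6 7)) := by
    rw [← mem_cj, cj_C, ← e]; exact hb.mem_C_iff.2 ⟨h1, h2⟩
  obtain ⟨c1, c2⟩ := b0.mem_C_iff.1 hc
  have w2 : π⁻¹ * u * π * (π⁻¹ * u * π) = 1 := by simpa using conj_mul_self hu π⁻¹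
  have e' : u = π * (π⁻¹ * u * π) * π⁻¹ := by group
  generalize π⁻¹ * u * π = w at c1 c2 w2 e'
  have t : ∀ k, ![w 0, w 1, w 2, cyc 2 3 4 (w 2), cyc 2 3 4 (cyc 2 3 4 (w 2)), w 5,
      cyc 5 6 7 (w 5), cyc 5 6 7 (cyc 5 6 7 (w 5))] k = w k := fun k => by
    simp only [← apply_comm c1, ← apply_comm c2]
    fin_cases k <;> rfl
  obtain ⟨j, hj⟩ := cent9_aux (w 2) (by rw [← apply_comm c1]; exact w.injective.ne (by decide))
    (w 5) (by rw [← apply_comm c2]; exact w.injective.ne (by decide)) (w 0) (w 1) fun k => by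
      rw [t, t, ← Perm.mul_apply, w2]; rfl
  have e2 : w = e8 1 ^ j.val := Equiv.ext fun k => (t k).symm.trans (hj k)
  fin_cases j
  · exact absurd (by rw [e', e2]; simp) u1
  · exact ⟨π, by rw [e', e2]; simp⟩

theorem c3_val (i : Fin 6) : (c3 i).1 = cyc (i.castAdd 2) 6 7 := rfl

theorem tup_aux1 : ∀ p q r : Fin 8, p ≠ q → p ≠ r → q ≠ r → (cyc 0 6 7 * cyc p q r) ^ 2 = 1 →
    cyc 0 6 7 * cyc p q r ≠ 1 → ∃ j : Fin 3, ∃ k, k ≠ 0 ∧ k ≠ 6 ∧ k ≠ 7 ∧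
      cyc 0 6 7 ^ j.val * cyc p q r * (cyc 0 6 7 ^ j.val)⁻¹ = cyc k 6 7 := by decide +kernel

theorem tup_aux2 : ∀ l : Fin 8, l ≠ 0 → l ≠ 6 → l ≠ 7 → ∀ p q r : Fin 8, p ≠ q → p ≠ r → q ≠ r →
    (cyc 0 6 7 * cyc p q r) ^ 2 = 1 → cyc 0 6 7 * cyc p q r ≠ 1 → (cyc l 6 7 * cyc p q r) ^ 2 = 1 →
      cyc l 6 7 * cyc p q r ≠ 1 → ∃ k, k ≠ 6 ∧ k ≠ 7 ∧ cyc p q r = cyc k 6 7 := by decide +kernel

/-- Carmichael tuples -/
def Tup (d : Fin 6 → S8) : Prop := (∀ i, ∃ π : S8, π * cyc 0 6 7 * π⁻¹ = d i) ∧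
  ∀ i j, i ≠ j → (d i * d j) ^ 2 = 1 ∧ d i * d j ≠ 1 ∧ d i ≠ d j

theorem Tup.conj {d : Fin 6 → S8} (h : Tup d) (σ : S8) : Tup fun i => σ * d i * σ⁻¹ :=
  ⟨fun i => let ⟨π, e⟩ := h.1 i; ⟨σ * π, by simp only [← e]; group⟩, fun i j hij => by
    obtain ⟨h1, h2, h3⟩ := h.2 i j hij
    refine ⟨by rw [conj_mul, conj_pow, h1]; simp, by rw [conj_mul]; exact conj_ne_one h2 σ, ?_⟩
    simpa using h3⟩

theorem Tup.std {d : Fin 6 → S8} (h : Tup d) : ∃ π : S8, ∀ i, π * c3 i * π⁻¹ = d i := by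
  have hc : ∀ {d}, Tup d → ∀ i, ∃ p q r, p ≠ q ∧ p ≠ r ∧ q ≠ r ∧ cyc p q r = d i := fun h i =>
    let ⟨π, e⟩ := h.1 i
    ⟨_, _, _, π.injective.ne (by decide), π.injective.ne (by decide), π.injective.ne (by decide),
      (cyc_conj π 0 6 7).symm.trans e⟩
  obtain ⟨π, e0⟩ := h.1 0
  have h1 := h.conj π⁻¹
  obtain ⟨p, q, r, n1, n2, n3, e1⟩ := hc h1 1
  have f0 : π⁻¹ * d 0 * π⁻¹⁻¹ = cyc 0 6 7 := by rw [← e0]; group
  have f1 := h1.2 0 1 (by decide)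
  simp only [f0, ← e1] at f1
  obtain ⟨j, l, l0, l6, l7, e2⟩ := tup_aux1 p q r n1 n2 n3 f1.1 f1.2.1
  have h2 := h1.conj (cyc 0 6 7 ^ j.val)
  rw [e1] at e2
  have f2 : cyc 0 6 7 ^ j.val * (π⁻¹ * d 0 * π⁻¹⁻¹) * (cyc 0 6 7 ^ j.val)⁻¹ = cyc 0 6 7 := by
    rw [f0]; group
  have hk : ∀ i, ∃ k, k ≠ 6 ∧ k ≠ 7 ∧
      cyc 0 6 7 ^ j.val * (π⁻¹ * d i * π⁻¹⁻¹) * (cyc 0 6 7 ^ j.val)⁻¹ = cyc k 6 7 := fun i => by
    by_cases i0 : 0 = i
    · exact ⟨0, by decide, by decide, i0 ▸ f2⟩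
    by_cases i1 : 1 = i
    · exact ⟨l, l6, l7, i1 ▸ e2⟩
    obtain ⟨p, q, r, n1, n2, n3, e1⟩ := hc h2 i
    have g0 := h2.2 0 i i0
    have g1 := h2.2 1 i i1
    simp only [f2, e2, ← e1] at g0 g1 ⊢
    exact tup_aux2 l l0 l6 l7 p q r n1 n2 n3 g0.1 g0.2.1 g1.1 g1.2.1
  choose k k6 k7 hk using hk
  have ki : Function.Injective k := fun a b e => by
    by_contra hab
    exact (h2.2 a b hab).2.2 ((hk a).trans (e ▸ (hk b).symm))
  let σ : Fin 8 → Fin 8 := fun x => if hx : x.1 < 6 then k ⟨x, hx⟩ else x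
  have σi : Function.Injective σ := fun x y e => by
    have f : ∀ x : Fin 8, ¬ x.1 < 6 → x = 6 ∨ x = 7 := by decide
    by_cases hx : x.1 < 6 <;> by_cases hy : y.1 < 6 <;> simp only [σ, hx, hy, dite_true,
      dite_false] at e
    · exact Fin.ext (congrArg Fin.val (ki e) :)
    · rcases f y hy with rfl | rfl
      exacts [absurd e (k6 _), absurd e (k7 _)]
    · rcases f x hx with rfl | rfl
      exacts [absurd e.symm (k6 _), absurd e.symm (k7 _)]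
    · exact e
  let σ' : S8 := Equiv.ofBijective σ (Finite.injective_iff_bijective.1 σi)
  refine ⟨π * (cyc 0 6 7 ^ j.val)⁻¹ * σ', fun i => ?_⟩
  have f : σ' * c3 i * σ'⁻¹ = cyc (k i) 6 7 := by
    rw [c3_val, cyc_conj]
    exact congrArg (fun x => cyc x 6 7) (dif_pos i.2)
  calc _ = π * (cyc 0 6 7 ^ j.val)⁻¹ * (σ' * c3 i * σ'⁻¹) * cyc 0 6 7 ^ j.val * π⁻¹ := by group
    _ = _ := by rw [f, ← hk]; group

theorem aut8_aux : ∀ i : Fin 6, ∀ p q r : Fin 8, p ≠ q → p ≠ r → q ≠ r →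
    ∃ n : Fin 6, n ≠ 0 ∧ (cyc (i.castAdd 2) 6 7 * cyc p q r) ^ n.val = 1 := by
  decide +kernel

/-- Every automorphism of `A₈` is induced by `S₈`. -/
theorem aut8 {α : A8 →* A8} (hα : Function.Injective α) :
    ∃ π : S8, ∀ a, (α a).1 = π * a * π⁻¹ := by
  have hs := Finite.injective_iff_surjective.1 hα
  have hT : Tup fun i => (α (c3 i)).1 := by
    refine ⟨fun i => ?_, fun i j hij => ?_⟩
    · have h3 : (α (c3 i)).1 ^ 3 = 1 := congrArg Subtype.val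
        (rel_pow α ((by decide +kernel : ∀ i, c3 i ^ 3 = 1) i))
      have h1 : (α (c3 i)).1 ≠ 1 := fun e =>
        rel_ne hα ((by decide +kernel : ∀ i, c3 i ≠ 1) i) (Subtype.ext e)
      obtain ⟨m, hm⟩ := dvd_card_support Nat.prime_three h3
      have h8 : (α (c3 i)).1.support.card ≤ 8 := (Finset.card_le_univ _).trans (by simp)
      have h0 := mt Perm.card_support_eq_zero.1 h1
      by_cases h6 : m = 1
      · exact isConj_of_support Nat.prime_three (by decide +kernel) h3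
          (by rw [hm, h6]; decide +kernel)
      obtain ⟨π, e⟩ := isConj_of_support Nat.prime_three (σ := cyc 0 1 2 * cyc 3 4 5)
        (by decide +kernel) h3 (by rw [hm, show m = 2 by omega]; decide +kernel)
      obtain ⟨k, hk⟩ := hs ⟨π * (cyc 0 1 3 * cyc 0 1 6) * π⁻¹, by
        rw [Perm.mem_alternatingGroup, sign_conj']; decide +kernel⟩
      have f0 := (by decide : ∀ i : Fin 6, i.castAdd 2 ≠ 6 ∧ i.castAdd 2 ≠ 7) i
      obtain ⟨n, n0, hn⟩ := aut8_aux i _ _ _ (k.1.injective.ne f0.1) (k.1.injective.ne f0.2)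
        (k.1.injective.ne (by decide : (6 : Fin 8) ≠ 7))
      have f : (c3 i * (k * c3 i * k⁻¹)) ^ n.val = 1 := Subtype.ext (by
        change ((c3 i).1 * (k.1 * (c3 i).1 * k.1⁻¹)) ^ n.val = 1
        rw [c3_val, cyc_conj]; exact hn)
      have f2 := congrArg Subtype.val (rel_pow α f)
      rw [map_mul, map_mul, map_mul, map_inv, hk] at f2
      change ((α (c3 i)).1 * (π * _ * π⁻¹ * (α (c3 i)).1 * (π * _ * π⁻¹)⁻¹)) ^ n.val = 1 at f2
      rw [← e, conj_inv, conj_mul, conj_mul, conj_mul, conj_pow, conj_eq_one_iff] at f2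
      exact absurd f2 (by revert n0; generalize n = n; revert n; decide +kernel)
    · obtain ⟨h1, h2, h3⟩ := (by decide +kernel : ∀ i j, i ≠ j →
        (c3 i * c3 j) ^ 2 = 1 ∧ c3 i * c3 j ≠ 1 ∧ c3 i ≠ c3 j) i j hij
      exact ⟨congrArg Subtype.val (map_mul α _ _ ▸ rel_pow α h1),
        fun e => rel_ne hα h2 (Subtype.ext (by rw [map_mul]; exact e)),
        fun e => h3 (hα (Subtype.ext e))⟩
  obtain ⟨π, hπ⟩ := hT.std
  refine ⟨π, fun a => ?_⟩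
  have : closure (Set.range c3) ≤ (A8.subtype.comp α).eqLocus
      ((MulAut.conj π).toMonoidHom.comp A8.subtype) := by
    rw [closure_le]; rintro _ ⟨i, rfl⟩; exact (hπ i).symm
  exact this (closure_c3.ge (mem_top a))

section cover
variable [Finite G] {t : G} {K0 : Subgroup G} {R : G → A8 → Prop} (h : Rl K0 (zpowers t) R)
  (hs : ∀ a, ∃ g, R g a) (hK : K0 ≤ C1 t) (t2 : t * t = 1)
include h hs hK t2

theorem gen3 {Y : Subgroup G} (ht : t ∈ Y) (hY : ∀ g ∈ K0, g ^ 3 = 1 → g ∈ Y) : K0 ≤ Y := by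
  have : closure (Set.range c3) ≤ h.im Y := by
    rw [closure_le]
    rintro _ ⟨i, rfl⟩
    obtain ⟨g, hg⟩ := hs (c3 i)
    have f := (by decide +kernel : ∀ i, c3 i ^ 3 = 1 ∧ c3 i ^ 4 = c3 i) i
    refine ⟨g ^ 4, hY _ (pow_mem (h.mem hg) _) ?_, h.cast (h.pow hg 4) f.2⟩
    rw [← pow_mul, show 4 * 3 = 3 * 2 * 2 from rfl, pow_mul, pow_mul]
    rcases mem_zpowers_order_two' t2 (h.kerm (h.pow hg 3) f.1) with e | e <;>
      simp [e, pow_two, t2]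
  intro g hg
  obtain ⟨a, ha⟩ := h.ex hg
  obtain ⟨k, hk, e⟩ := this (closure_c3.ge (mem_top a))
  exact (mul_mem_cancel_right (inv_mem hk)).1 (zpowers_le.2 ht (h.eqv ha e))

theorem nsdc (t1 : t ≠ 1) {f : G} (hf : f ∈ K0) (f2 : f * f = t) {H : Subgroup G}
    (hH : H ⊓ C1 t = K0) (ht : t ∈ H) :
    Cfsg.IsNonsplitDoubleCover (centralizer ({⟨t, ht⟩} : Set H)) (alternatingGroup (Fin 8)) := by
  have m1 : ∀ g : centralizer ({⟨t, ht⟩} : Set H), g.1.1 ∈ K0 := fun g =>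
    hH.le ⟨g.1.2, mem_C1.2 (congrArg Subtype.val (mem_C1.1 g.2))⟩
  have m2 : ∀ g ∈ K0, ∃ k : centralizer ({⟨t, ht⟩} : Set H), k.1.1 = g := fun g hg =>
    ⟨⟨⟨g, (hH.ge hg).1⟩, mem_C1.2 (Subtype.ext (mem_C1.1 (hK hg)))⟩, rfl⟩
  let π : centralizer ({⟨t, ht⟩} : Set H) →* A8 :=
    h.hom.comp ((H.subtype.comp (Subgroup.subtype _)).codRestrict _ m1)
  have π1 : ∀ g, R g.1.1 (π g) := fun g => h.hom_spec ⟨_, m1 g⟩
  have πs : Function.Surjective π := fun a => by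
    obtain ⟨g, hg⟩ := hs a
    obtain ⟨k, rfl⟩ := m2 g (h.mem hg)
    exact ⟨k, h.uniq (π1 k) hg⟩
  obtain ⟨t0, e0⟩ := m2 t (h.le (mem_zpowers t))
  have hc : ∀ g, g ∈ center _ ↔ g = 1 ∨ g = t0 := fun g => ⟨fun hg => by
    have : π g ∈ center A8 := mem_center_iff.2 fun a => by
      obtain ⟨k, rfl⟩ := πs a
      exact rel_mul π (mem_center_iff.1 hg k)
    rw [alternatingGroup.center_eq_bot (by simp), mem_bot] at this
    exact (mem_zpowers_order_two' t2 (h.kerm (π1 g) this)).imp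
      (fun e => Subtype.ext (Subtype.ext e)) fun e => Subtype.ext (Subtype.ext (e.trans e0.symm)),
    by
      rintro (rfl | rfl)
      exacts [one_mem _, mem_center_iff.2 fun k => Subtype.ext (Subtype.ext (by
        change k.1.1 * g.1.1 = g.1.1 * k.1.1
        rw [e0]; exact mem_C1.1 (hK (m1 k))))]⟩
  have t01 : t0 ≠ 1 := fun e => t1 (by rw [← e0, e]; rfl)
  have t02 : t0 * t0 = 1 := Subtype.ext (Subtype.ext (by
    change t0.1.1 * t0.1.1 = 1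
    rw [e0, t2]))
  have hk : center _ = π.ker := Subgroup.ext fun g => by
    rw [hc, MonoidHom.mem_ker, h.ker (π1 g)]
    refine ⟨?_, fun e => (mem_zpowers_order_two' t2 e).imp
      (fun e => Subtype.ext (Subtype.ext e)) fun e => Subtype.ext (Subtype.ext (e.trans e0.symm))⟩
    rintro (rfl | rfl)
    exacts [one_mem _, by rw [e0]; exact mem_zpowers _]
  refine ⟨?_, ⟨(QuotientGroup.quotientMulEquivOfEq hk).trans
    (QuotientGroup.quotientKerEquivOfSurjective π πs)⟩, fun L hL => ?_⟩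
  · rw [show center _ = zpowers t0 from le_antisymm (fun g hg => by
      rcases (hc g).1 hg with rfl | rfl
      exacts [one_mem _, mem_zpowers _]) (zpowers_le.2 ((hc _).2 (Or.inr rfl))), Nat.card_zpowers]
    exact orderOf_eq_prime (by rwa [pow_two]) t01
  · obtain ⟨f0, rfl⟩ := m2 f hf
    obtain ⟨c, hc', l, hl, e⟩ := (mem_sup_nrm' (Nrm.of_normal _ _)).1 (hL.sup_eq_top.ge (mem_top f0))
    have f3 : f0 * f0 = t0 := Subtype.ext (Subtype.ext (f2.trans e0.symm))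
    have f4 : c * c = 1 := by rcases (hc c).1 hc' with e | e <;> simp [e, t02]
    rw [e, mul_assoc, ← mul_assoc l, mem_center_iff.1 hc' l, ← mul_assoc, ← mul_assoc, f4,
      one_mul] at f3
    exact t01 (disjoint_def.1 hL.disjoint ((hc _).2 (Or.inr rfl)) (f3 ▸ mul_mem hl hl))

theorem invol_cover (t1 : t ≠ 1) {f : G} (hf : f ∈ K0) (f2 : f * f = t) {u v : G} (hu : u ∈ K0)
    (hv : v ∈ K0) (u2 : u * u = 1) (v2 : v * v = 1) (u1 : u ≠ 1) (v1 : v ≠ 1) (ut : u ≠ t)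
    (vt : v ≠ t) : ∃ k ∈ K0, k * u * k⁻¹ = v := by
  have ht := h.le (mem_zpowers t)
  obtain ⟨val, ψ, e, -, h8⟩ := exists_set8 (t := (⟨t, ht⟩ : K0)) (fun e => t1 (congrArg Subtype.val e))
    (nsdc h hs hK t2 t1 hf f2 (inf_eq_left.2 hK) ht)
  have key : ∀ w (hw : w ∈ K0), w * w = 1 → w ≠ 1 → w ≠ t →
      ∃ k : K0, k * CfsgH3.TC.wval val wU * k⁻¹ = ⟨w, hw⟩ := fun w hw w2 w1 wt => by
    rcases h8.invol (g := ⟨w, hw⟩) (by rw [e]; exact Subtype.ext (mem_C1.1 (hK hw))) (Subtype.ext w2) with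
      e' | e' | ⟨k, -, e'⟩
    exacts [absurd (congrArg Subtype.val e') w1, absurd (congrArg Subtype.val (e'.trans e)) wt,
      ⟨k, e'⟩]
  obtain ⟨k, hk⟩ := key u hu u2 u1 ut
  obtain ⟨l, hl⟩ := key v hv v2 v1 vt
  refine ⟨(l * k⁻¹ : K0), (l * k⁻¹).2, congrArg Subtype.val
    (?_ : l * k⁻¹ * ⟨u, hu⟩ * (l * k⁻¹)⁻¹ = ⟨v, hv⟩)⟩
  rw [← hk, ← hl]; group

/-- The statement recognizing the McLaughlin group by its involution centralizer. -/
def McRec : Prop := ∀ {G : Type u} [Group G] [Finite G] (t : G), orderOf t = 2 →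
  Cfsg.IsNonsplitDoubleCover (centralizer ({t} : Set G)) (alternatingGroup (Fin 8)) →
    centralizer ({t} : Set G) ⊔ Cfsg.oddCore G = ⊤ ∨ Nonempty (G ≃* Cfsg.Spor.McL)

theorem mcl_of (hM : McRec.{u}) (t1 : t ≠ 1) {f : G} (hf : f ∈ K0) (f2 : f * f = t)
    {H : Subgroup G} (hH : H ⊓ C1 t = K0) {s : G} (hs' : s ∈ H)
    (he : 2 ∣ orderOf (s * t * s⁻¹ * t⁻¹)) : Nonempty (H ≃* Cfsg.Spor.McL) := by
  have ht := (hH.ge (h.le (mem_zpowers t))).1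
  refine (hM (G := H) ⟨t, ht⟩ (orderOf_eq_prime (Subtype.ext (by rwa [pow_two]))
    fun e => t1 (congrArg Subtype.val e)) (nsdc h hs hK t2 t1 hf f2 hH ht)).resolve_left fun e => ?_
  have h1 : Cfsg.oddCore H ≤ Opc 2 ⊤ := sSup_le fun X hX =>
    le_Opi le_top (@Nrm.of_normal _ _ _ _ hX.1) ((piG_compl_single Nat.prime_two).2
      ((Nat.Prime.coprime_iff_not_dvd Nat.prime_two).1 hX.2.symm))
  obtain ⟨k, hk, o, ho, e'⟩ := (mem_sup_nrm ((nrm_Opi {2}ᶜ ⊤).mono le_top)).1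
    ((sup_le_sup_left h1 _).trans' e.ge (mem_top (⟨s, hs'⟩ : H)))
  have n := nrm_Opi {2}ᶜ (⊤ : Subgroup H)
  have h2 : (⟨s, hs'⟩ * ⟨t, ht⟩ * (⟨s, hs'⟩ : H)⁻¹ * (⟨t, ht⟩ : H)⁻¹) ∈ Opc 2 ⊤ := by
    have := n k (mem_top _) _ (mul_mem ho (n ⟨t, ht⟩ (mem_top _) _ (inv_mem ho)))
    convert this using 1
    rw [e', ← (mem_C1_iff_conj.1 hk : k * ⟨t, ht⟩ * k⁻¹ = _)]
    generalize (⟨t, ht⟩ : H) = t' at hk ⊢
    rw [mem_C1_iff_conj.1 hk]
    nth_rw 2 [← mem_C1_iff_conj.1 hk]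
    group
  exact not_dvd_card_Opc Nat.prime_two _ ((he.trans (orderOf_coe _).dvd).trans (orderOf_dvd_card' h2))

end cover

end CfsgH3.Md
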