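import Cfsg.Agent.H3.MdA
import Cfsg.Agent.H3.X32Base

/-! The Sylow 3-subgroup in the 3-local characterization of the McLaughlin group. -/

set_option autoImplicit false
set_option linter.unusedSectionVars false
set_option synthInstance.maxSize 4096

namespace CfsgH3.Md
open Subgroup CfsgH5 CfsgH6 CfsgFT CfsgH7 CfsgH7.F5 CfsgH8 Equiv X32

universe u
variable {G : Type u} [Group G]

/-- commutator -/
def cm (a b : G) : G := a * b * a⁻¹ * b⁻¹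

theorem cm_eq_one {a b : G} : cm a b = 1 ↔ a * b = b * a := by
  rw [cm, mul_inv_eq_one, mul_inv_eq_iff_eq_mul]

open Classical in
/-- discrete logarithm to the base `z` -/
noncomputable def lg (z u : G) : ZMod 3 := if u = 1 then 0 else if u = z then 1 else 2

theorem lg_pow {z : G} (z1 : z ≠ 1) (z3 : z ^ 3 = 1) (n : ℕ) : lg z (z ^ n) = n := by
  have h1 : z ^ 2 ≠ 1 := fun e => z1 (eq_one_of_sq_cube (by rwa [← pow_two]) z3)
  have h2 : z ^ 2 ≠ z := fun e => z1 (by simpa [pow_two] using e)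
  rw [← ZMod.natCast_mod, ← Nat.mod_add_div n 3, pow_add, pow_mul, z3, one_pow, mul_one,
    Nat.mod_add_div]
  have : n % 3 < 3 := Nat.mod_lt _ (by norm_num)
  generalize n % 3 = m at this ⊢
  interval_cases m <;> simp [lg, z1, h1, h2]

theorem exists_pow_of_mem_zpowers {z u : G} (z3 : z ^ 3 = 1) (hu : u ∈ zpowers z) :
    ∃ n : ℕ, u = z ^ n := by
  rcases mem_zpowers_three z3 hu with rfl | rfl | rfl
  exacts [⟨0, by simp⟩, ⟨1, by simp⟩, ⟨2, by rw [inv_eq_iff_mul_eq_one, ← pow_succ', z3]⟩]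

theorem lg_mul {z a b : G} (z1 : z ≠ 1) (z3 : z ^ 3 = 1) (ha : a ∈ zpowers z) (hb : b ∈ zpowers z) :
    lg z (a * b) = lg z a + lg z b := by
  obtain ⟨m, rfl⟩ := exists_pow_of_mem_zpowers z3 ha
  obtain ⟨n, rfl⟩ := exists_pow_of_mem_zpowers z3 hb
  rw [← pow_add, lg_pow z1 z3, lg_pow z1 z3, lg_pow z1 z3, Nat.cast_add]

theorem lg_eq_zero {z a : G} : lg z a = 0 ↔ a = 1 := by
  unfold lg; split_ifs with h1 h2
  · simp [h1]
  · simp [h1]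
  · exact ⟨fun e => absurd e (by decide), fun e => absurd e h1⟩

theorem mem_of_sq_mem {K : Subgroup G} {a : G} (h3 : a ^ 3 = 1) (h : a * a ∈ K) : a ∈ K := by
  have : a = (a * a)⁻¹ := by rw [eq_inv_iff_mul_eq_one, ← h3]; simp [pow_succ, mul_assoc]
  exact this ▸ inv_mem h

theorem isPGroup_of_pow {X : Subgroup G} {p k : ℕ} (h : ∀ x ∈ X, x ^ p ^ k = 1) : IsPGroup p X :=
  fun x => ⟨k, Subtype.ext (h x x.2)⟩

/-- The hypotheses. -/
structure Hyp0 (S J Q Q2 M0 L0 : Subgroup G) (z : G) (Φ : G → S6 → Prop) (Θ : G → S5 → Prop) :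
    Prop where
  syl : SylIn 3 S ⊤
  cS : Nat.card S = 729
  JS : J ≤ S
  Jab : Ab J
  J3 : ∀ a ∈ J, a ^ 3 = 1
  cJ : Nat.card J = 81
  z1 : z ≠ 1
  z3 : z ^ 3 = 1
  ZS : Z S = zpowers z
  Qop : Q = Op 3 (N (zpowers z))
  ZQ : Z Q = zpowers z
  DQ : ∀ a ∈ Q, ∀ b ∈ Q, cm a b ∈ zpowers z
  cQ : Nat.card Q = 243
  Q3 : ∀ a ∈ Q, a ^ 3 = 1
  MN : M0 ≤ N J
  Mn : Nrm (N J) M0
  M3 : ∀ g ∈ N J, ∀ k : ℕ, g ^ 3 ^ k = 1 → g ∈ M0
  Mi : ∀ Y : Subgroup G, Y.index = 2 → M0 ≤ Y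
  LC : L0 ≤ C1 z
  Ln : Nrm (N (zpowers z)) L0
  SL : S ≤ L0
  φ : Rl M0 J Φ
  φs : ∀ σ, Perm.sign σ = 1 → ∃ g, Φ g σ
  φe : ∀ {g σ}, Φ g σ → Perm.sign σ = 1
  θ : Rl L0 Q2 Θ
  θs : ∀ σ, Perm.sign σ = 1 → ∃ g, Θ g σ
  θe : ∀ {g σ}, Θ g σ → Perm.sign σ = 1
  QQ : Q ≤ Q2
  q2 : ∀ g ∈ Q2, ∀ k ∈ Q2, g ∉ Q → k ∉ Q → g * k ∈ Q
  sq : ∀ {g σ}, Θ g σ → σ ≠ 1 → σ * σ = 1 → g * g ∉ Q
  iii : ∀ x ∈ J, x ≠ 1 → C (Op 3 (C1 x)) ≤ Op 3 (C1 x)

/-- the commutator form -/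
noncomputable def br (z a b : G) : ZMod 3 := lg z (cm a b)

/-- A map acting on `Q` and `W = J ∩ Q` and multiplying `z` by `ε`. -/
structure Endo (J Q : Subgroup G) (z : G) (F : G → G) (ε : ℕ) : Prop where
  mapQ : ∀ q ∈ Q, F q ∈ Q
  mapW : ∀ q ∈ Q, q ∈ J → F q ∈ J
  mul : ∀ a ∈ Q, ∀ b ∈ Q, F (a * b) = F a * F b
  hz : F z = z ^ ε

namespace Endo
variable {J Q : Subgroup G} {z : G} {F : G → G} {ε : ℕ} (h : Endo J Q z F ε)
include h

theorem one : F 1 = 1 := by simpa using h.mul 1 (one_mem _) 1 (one_mem _)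

theorem inv {a : G} (ha : a ∈ Q) : F a⁻¹ = (F a)⁻¹ :=
  eq_inv_of_mul_eq_one_left (by rw [← h.mul _ (inv_mem ha) _ ha, inv_mul_cancel, h.one])

theorem pow {a : G} (ha : a ∈ Q) (n : ℕ) : F (a ^ n) = F a ^ n := by
  induction n with
  | zero => simpa using h.one
  | succ n ih => rw [pow_succ, h.mul _ (pow_mem ha n) _ ha, ih, pow_succ]

theorem cm {a b : G} (ha : a ∈ Q) (hb : b ∈ Q) : F (cm a b) = cm (F a) (F b) := by
  rw [Md.cm, h.mul _ (mul_mem (mul_mem ha hb) (inv_mem ha)) _ (inv_mem hb),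
    h.mul _ (mul_mem ha hb) _ (inv_mem ha), h.mul _ ha _ hb, h.inv ha, h.inv hb, Md.cm]

end Endo

namespace Hyp0
variable [Finite G] {S J Q Q2 M0 L0 : Subgroup G} {z : G} {Φ : G → S6 → Prop} {Θ : G → S5 → Prop}
  (h : Hyp0 S J Q Q2 M0 L0 z Φ Θ)
include h

local notation "𝒵" => zpowers z

theorem zQ : z ∈ Q := (h.ZQ.ge (mem_zpowers z)).1
theorem ZQ' {u : G} (hu : u ∈ 𝒵) : u ∈ Q := zpowers_le.2 h.zQ hu
theorem zc {q : G} (hq : q ∈ Q) : q * z = z * q := mem_C.1 (h.ZQ.ge (mem_zpowers z)).2 q hq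
theorem Zc {u q : G} (hu : u ∈ 𝒵) (hq : q ∈ Q) : q * u = u * q := mem_C.1 (h.ZQ.ge hu).2 q hq
theorem Z3 {u : G} (hu : u ∈ 𝒵) : u ^ 3 = 1 := h.Q3 u (h.ZQ' hu)
theorem zS {s : G} (hs : s ∈ S) : s * z = z * s := mem_C.1 (h.ZS.ge (mem_zpowers z)).2 s hs
theorem cardZ : Nat.card 𝒵 = 3 := by rw [Nat.card_zpowers]; exact orderOf_eq_prime h.z3 h.z1
theorem nQ : Nrm (N 𝒵) Q := h.Qop ▸ nrm_Op_self _ _
omit h in
theorem CN {g : G} (hg : g * z = z * g) : g ∈ N 𝒵 :=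
  mem_N_zpowers (by rw [hg, mul_inv_cancel_right]; exact mem_zpowers z)
theorem LN : L0 ≤ N 𝒵 := fun _ hg => CN (mem_C1.1 (h.LC hg))
theorem SN : S ≤ N 𝒵 := h.SL.trans h.LN
theorem QS : Q ≤ S := h.syl.le_of_nrm le_top (isPGroup_of_pow (k := 1) h.Q3) (h.nQ.mono h.SN)
theorem nSQ : Nrm S Q := h.nQ.mono h.SN
theorem NS_le : N S ≤ N 𝒵 := (h.ZS ▸ (nrm_N S).Z).le_N
theorem sign_z {g : G} (hg : g ∈ N 𝒵) : g * z * g⁻¹ = z ∨ g * z * g⁻¹ = z⁻¹ :=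
  (mem_zpowers_three h.z3 (conj_mem_of_mem_N hg (mem_zpowers z))).resolve_left (conj_ne_one h.z1 g)

theorem cm_mul_left {a b c : G} (ha : a ∈ Q) (hb : b ∈ Q) (hc : c ∈ Q) :
    cm (a * b) c = cm a c * cm b c := by
  calc _ = a * cm b c * a⁻¹ * cm a c := by unfold cm; group
    _ = _ := by rw [h.Zc (h.DQ b hb c hc) ha, mul_inv_cancel_right,
      h.Zc (h.DQ a ha c hc) (h.ZQ' (h.DQ b hb c hc))]

theorem br_mul_left {a b c : G} (ha : a ∈ Q) (hb : b ∈ Q) (hc : c ∈ Q) :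
    br z (a * b) c = br z a c + br z b c := by
  rw [br, h.cm_mul_left ha hb hc, lg_mul h.z1 h.z3 (h.DQ a ha c hc) (h.DQ b hb c hc), br, br]

omit h in
theorem br_eq_zero {a b : G} : br z a b = 0 ↔ a * b = b * a := lg_eq_zero.trans cm_eq_one

theorem br_anti {a b : G} (ha : a ∈ Q) (hb : b ∈ Q) : br z b a = -br z a b := by
  rw [eq_neg_iff_add_eq_zero, br, br, ← lg_mul h.z1 h.z3 (h.DQ b hb a ha) (h.DQ a ha b hb),
    lg_eq_zero]
  unfold cm; group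

theorem br_mul_right {a b c : G} (ha : a ∈ Q) (hb : b ∈ Q) (hc : c ∈ Q) :
    br z c (a * b) = br z c a + br z c b := by
  rw [h.br_anti (mul_mem ha hb) hc, h.br_anti ha hc, h.br_anti hb hc, h.br_mul_left ha hb hc]; ring

theorem br_inv_left {a c : G} (ha : a ∈ Q) (hc : c ∈ Q) : br z a⁻¹ c = -br z a c := by
  rw [eq_neg_iff_add_eq_zero, ← h.br_mul_left (inv_mem ha) ha hc, br_eq_zero]; simp

theorem br_inv_right {a c : G} (ha : a ∈ Q) (hc : c ∈ Q) : br z c a⁻¹ = -br z c a := by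
  rw [eq_neg_iff_add_eq_zero, ← h.br_mul_right (inv_mem ha) ha hc, br_eq_zero]; simp

theorem br_pow_left {a c : G} (ha : a ∈ Q) (hc : c ∈ Q) (n : ℕ) :
    br z (a ^ n) c = n * br z a c := by
  induction n with
  | zero => simp [br_eq_zero]
  | succ n ih => rw [pow_succ, h.br_mul_left (pow_mem ha n) ha hc, ih]; push_cast; ring

theorem br_pow_right {a c : G} (ha : a ∈ Q) (hc : c ∈ Q) (n : ℕ) :
    br z c (a ^ n) = n * br z c a := by
  rw [h.br_anti (pow_mem ha n) hc, h.br_pow_left ha hc, h.br_anti ha hc]; ring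

theorem br_Z {u c : G} (hu : u ∈ 𝒵) (hc : c ∈ Q) : br z u c = 0 := br_eq_zero.2 (h.Zc hu hc).symm

omit [Finite G] in
theorem br_J {a b : G} (ha : a ∈ J) (hb : b ∈ J) : br z a b = 0 :=
  lg_eq_zero.2 (cm_eq_one.2 (h.Jab.comm ha hb))

theorem memZ {a : G} (ha : a ∈ Q) (hc : ∀ q ∈ Q, br z a q = 0) : a ∈ 𝒵 :=
  h.ZQ.le ⟨ha, mem_C.2 fun q hq => (br_eq_zero.1 (hc q hq)).symm⟩

theorem br_endo {J' : Subgroup G} {F : G → G} {ε : ℕ} (hF : Endo J' Q z F ε) {a b : G} (ha : a ∈ Q) (hb : b ∈ Q) :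
    br z (F a) (F b) = ε * br z a b := by
  obtain ⟨n, hn⟩ := exists_pow_of_mem_zpowers h.z3 (h.DQ a ha b hb)
  rw [br, br, ← hF.cm ha hb, hn, hF.pow h.zQ, hF.hz, ← pow_mul, lg_pow h.z1 h.z3, lg_pow h.z1 h.z3,
    Nat.cast_mul]

theorem ab_le {A : Subgroup G} (hA : A ≤ Q) (ab : Ab A) : Nat.card A ≤ 27 := by
  have h1 : A ⊔ 𝒵 ≤ Q := sup_le hA fun _ => h.ZQ'
  have h2 : Ab (A ⊔ 𝒵) := ab.sup (ab_zpowers z) (by
    rw [C_zpowers]; exact fun g hg => mem_C1.2 (h.zc (hA hg)))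
  refine (card_le_of_le (le_sup_left (b := 𝒵))).trans ?_
  generalize A ⊔ 𝒵 = B at h1 h2
  have hd : ∀ X ≤ Q, 27 < Nat.card X → Nat.card X = 81 ∨ X = Q := fun X hX hc => by
    have := card_dvd_of_le' hX
    rw [h.cQ] at this
    obtain ⟨k, hk, e⟩ := (Nat.dvd_prime_pow Nat.prime_three (m := 5)).1 this
    interval_cases k <;> simp only [e] at hc ⊢ <;> try omega
    exact Or.inr (eq_of_le_of_card_eq hX (by rw [e, h.cQ]; rfl))
  by_contra hc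
  rcases hd B h1 (not_le.1 hc) with e | e
  · obtain ⟨q, hq, hq'⟩ := SetLike.exists_of_lt (h1.lt_of_ne fun e' => by rw [e', h.cQ] at e; omega)
    have h3 : B ⊔ zpowers q ≤ Q := sup_le h1 (zpowers_le.2 hq)
    have h4 := card_lt_of_lt (show B < B ⊔ zpowers q from
      left_lt_sup.2 fun e => hq' (e (mem_zpowers q)))
    have h5 := (hd _ h3 (by omega)).resolve_left (by omega)
    let f : B →* G := MonoidHom.mk' (fun b => cm b q) fun a b => h.cm_mul_left (h1 a.2) (h1 b.2) hq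
    have h6 : Nat.card f.range ≤ 3 := h.cardZ ▸ card_le_of_le fun _ ⟨b, e⟩ => e ▸ h.DQ _ (h1 b.2) q hq
    have h7 : f.ker.map B.subtype ≤ 𝒵 := by
      rintro _ ⟨b, hb, rfl⟩
      refine h.ZQ.le ⟨h1 b.2, ?_⟩
      rw [← h5, C_sup, C_zpowers]
      exact ⟨h2 b.2, mem_C1.2 (cm_eq_one.1 hb)⟩
    have h8 := card_le_of_le h7
    rw [card_map_of_injective Subtype.val_injective, h.cardZ] at h8
    have h9 := f.ker.card_mul_index
    rw [index_ker, e] at h9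
    nlinarith
  · have := h.cardZ
    rw [← h.ZQ, Z_eq_self.2 (e ▸ h2), h.cQ] at this
    omega

theorem card_W {A : Subgroup G} (hA : A ≤ S) (ab : Ab A) (hc : Nat.card A = 81) :
    Nat.card ↥(A ⊓ Q) = 27 ∧ A ⊔ Q = S := by
  have h1 := card_sup_mul (Or.inl (h.nSQ.mono hA))
  have h2 := card_le_of_le (sup_le hA h.QS)
  have h3 := h.ab_le inf_le_right (ab.mono (inf_le_left (b := Q)))
  rw [hc, h.cQ] at h1
  rw [h.cS] at h2
  have h4 : Nat.card ↥(A ⊓ Q) = 27 := by nlinarith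
  exact ⟨h4, eq_of_le_of_card_eq (sup_le hA h.QS) (by rw [h4] at h1; rw [h.cS]; omega)⟩

theorem JQ : J ⊔ Q = S := (h.card_W h.JS h.Jab h.cJ).2

theorem CQW {q : G} (hq : q ∈ Q) (hc : ∀ w ∈ Q, w ∈ J → w * q = q * w) : q ∈ J := by
  have h1 : Ab (J ⊓ Q ⊔ zpowers q) := (h.Jab.mono inf_le_left).sup (ab_zpowers q) (by
    rw [C_zpowers]; exact fun w hw => mem_C1.2 (hc w hw.2 hw.1))
  have h2 := h.ab_le (sup_le inf_le_right (zpowers_le.2 hq)) h1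
  rw [← (h.card_W h.JS h.Jab h.cJ).1] at h2
  exact ((eq_of_le_of_card_le le_sup_left h2).ge (mem_sup_right (mem_zpowers q))).1

theorem zJ : z ∈ J := h.CQW h.zQ fun _ hw _ => h.zc hw
theorem ZJ {u : G} (hu : u ∈ 𝒵) : u ∈ J := zpowers_le.2 h.zJ hu

theorem CQ : C Q ≤ Q := by
  have h1 : NormalIn (C1 z) (N 𝒵) := C_zpowers z ▸ ⟨C_le_N _, nrm_N_C _⟩
  have h2 : Op 3 (C1 z) = Q := by
    rw [Op_of_normalIn Nat.prime_three h1, ← h.Qop, inf_eq_left]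
    exact fun q hq => mem_C1.2 (h.zc hq)
  exact h2 ▸ h.iii z h.zJ h.z1

theorem br_Zl {u a b : G} (hu : u ∈ 𝒵) (ha : a ∈ Q) (hb : b ∈ Q) : br z (u * a) b = br z a b := by
  rw [h.br_mul_left (h.ZQ' hu) ha hb, h.br_Z hu hb, zero_add]

theorem br_Zr {u a b : G} (hu : u ∈ 𝒵) (ha : a ∈ Q) (hb : b ∈ Q) : br z b (u * a) = br z b a := by
  rw [h.br_anti (mul_mem (h.ZQ' hu) ha) hb, h.br_Zl hu ha hb, h.br_anti ha hb]

theorem endo {J' : Subgroup G} {g : G} {ε : ℕ} (hz : g * z * g⁻¹ = z ^ ε) (hJ : g ∈ N J') :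
    Endo J' Q z (fun q => g * q * g⁻¹) ε :=
  ⟨h.nQ g (mem_N_zpowers (hz ▸ npow_mem_zpowers z ε)), fun _ _ => conj_mem_of_mem_N hJ,
    fun _ _ _ _ => conj_mul.symm, hz⟩

theorem zinv : z⁻¹ = z ^ 2 := by rw [inv_eq_iff_mul_eq_one, ← pow_succ', h.z3]

theorem not_QZ : ¬ Q ≤ 𝒵 := fun e => by
  have := card_le_of_le e
  rw [h.cQ, h.cardZ] at this
  omega

/-- An element centralizing `Q/Z` lies in `Q`. -/
theorem inn {g : G} (hn : g ∈ N 𝒵) (hg : ∀ q ∈ Q, cm g q ∈ 𝒵) : g ∈ Q := by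
  let A : Subgroup G := sub (fun g => g ∈ N 𝒵 ∧ ∀ q ∈ Q, cm g q ∈ 𝒵)
    ⟨⟨one_mem _, fun q _ => by simp [cm]⟩, fun a ha b hb => ⟨mul_mem ha.1 (inv_mem hb.1), fun q hq => by
      have := mul_mem (conj_mem_of_mem_N (mul_mem ha.1 (inv_mem hb.1)) (inv_mem (hb.2 q hq)))
        (ha.2 q hq)
      convert this using 1
      unfold cm; group⟩⟩
  refine h.Qop ▸ le_Op (X := A) (fun _ h => h.1) (fun n hn a ha => ⟨mul_mem (mul_mem hn ha.1)
    (inv_mem hn), fun q hq => ?_⟩) (isPGroup_of_pow (k := 2) fun a ha => ?_) ⟨hn, hg⟩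
  · convert conj_mem_of_mem_N hn (ha.2 _ (h.nQ.conj' hn hq)) using 1
    unfold cm; group
  · have e : ∀ q ∈ Q, a * q * a⁻¹ = cm a q * q := fun q _ => by unfold cm; group
    have h1 : a * z * a⁻¹ = z := (h.sign_z ha.1).resolve_right fun e' => h.not_QZ fun p hp =>
      h.memZ hp fun q hq => by
        have := h.br_endo (h.endo (J' := ⊤) (e'.trans h.zinv) (by rw [N_top]; trivial)) hp hq
        simp only [e p hp, e q hq] at this
        rw [h.br_Zl (ha.2 p hp) hp (mul_mem (h.ZQ' (ha.2 q hq)) hq), h.br_Zr (ha.2 q hq) hq hp] at this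
        push_cast at this
        linear_combination -this
    have h2 : a ^ 3 ∈ C Q := mem_C.2 fun q hq => by
      have f : a * cm a q * a⁻¹ = cm a q :=
        mem_C1_iff_conj.1 (C1_le_C1_of_mem_zpowers (ha.2 q hq) (mem_C1_iff_conj.2 h1))
      have f3 := h.Z3 (ha.2 q hq)
      have e' := e q hq
      generalize cm a q = u at f f3 e'
      refine (mul_inv_eq_iff_eq_mul.1 ?_).symm
      calc _ = a * (a * (a * q * a⁻¹) * a⁻¹) * a⁻¹ := by simp [pow_succ, mul_assoc]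
        _ = u ^ 3 * q := by
          simp only [e', ← conj_mul, f]; simp [pow_succ, mul_assoc]
        _ = q := by rw [f3, one_mul]
    rw [pow_two, pow_mul]
    exact h.Q3 _ (h.CQ h2)

theorem decS {s : G} (hs : s ∈ S) : ∃ j ∈ J, ∃ q ∈ Q, s = j * q :=
  (mem_sup_nrm (h.nSQ.mono h.JS)).1 (h.JQ.ge hs)

theorem CSW {s : G} (hs : s ∈ S) (hc : ∀ w ∈ Q, w ∈ J → w * s = s * w) : s ∈ J := by
  obtain ⟨j, hj, q, hq, rfl⟩ := h.decS hs
  refine mul_mem hj (h.CQW hq fun w hw hw' => mul_left_cancel (a := j) ?_)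
  rw [← mul_assoc, h.Jab.comm hj hw', mul_assoc, ← mul_assoc j q, ← hc w hw hw']

theorem nQW {q w : G} (hq : q ∈ Q) (hw : w ∈ Q) (hw' : w ∈ J) : q * w * q⁻¹ ∈ J := by
  simpa [cm] using mul_mem (h.ZJ (h.DQ q hq w hw)) hw'

theorem SNJ : S ≤ N J := by
  rw [← h.JQ]
  refine sup_le (le_N _) fun q hq => mem_N_of_conj fun j hj => h.CSW
    (mul_mem (mul_mem (h.QS hq) (h.JS hj)) (inv_mem (h.QS hq))) fun w hw hw' => ?_
  refine (comm_conj_of ?_).symm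
  simpa using h.Jab.comm hj (h.nQW (inv_mem hq) hw hw')

theorem SM : S ≤ M0 := fun s hs =>
  let ⟨k, hk⟩ := h.syl.isPGroup ⟨s, hs⟩
  h.M3 s (h.SNJ hs) k (congrArg Subtype.val hk)

theorem supx {x : G} (hx : x ∈ S) (hq : x ∉ Q) : Q ⊔ zpowers x = S := by
  have h1 : Q ⊔ zpowers x ≤ S := sup_le h.QS (zpowers_le.2 hx)
  rcases eq_or_eq_of_prime_relIndex (X := Q) (W := S) (by
    rw [relIndex_eq_of_mul h.QS (n := 3) (by rw [h.cQ, h.cS])]; exact Nat.prime_three)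
    le_sup_left h1 with e | e
  exacts [absurd (e.le (mem_sup_right (mem_zpowers x))) hq, e]

theorem decx {x s : G} (hx : x ∈ S) (hq : x ∉ Q) (hs : s ∈ S) :
    ∃ q ∈ Q, ∃ y ∈ zpowers x, s = q * y :=
  (mem_sup_nrm' (h.nSQ.mono (zpowers_le.2 hx))).1 ((h.supx hx hq).ge hs)

theorem NS_of {g : G} (h1 : g ∈ N 𝒵) (h2 : g ∈ N J) : g ∈ N S :=
  h.JQ ▸ ((nrm_zpowers_iff.2 h2).sup (h.nQ.mono (zpowers_le.2 h1))).le_N (mem_zpowers g)

theorem mem_S {g : G} (hg : g ∈ N S) {k : ℕ} (hk : g ^ 3 ^ k = 1) : g ∈ S :=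
  h.syl.le_of_nrm' Nat.prime_three le_top (isPGroup_zpowers hk) (nrm_zpowers_iff.2 hg)
    (mem_zpowers g)

theorem dual {F : G → G} {ε : ℕ} (hF : Endo J Q z F ε) (n : ℕ) (h1 : ∀ q ∈ Q, F q * q ^ n ∈ J) {m : ℕ}
    (hm : (ε : ZMod 3) = m * n) (n0 : (n : ZMod 3) ≠ 0) {w : G} (hw : w ∈ Q) (hw' : w ∈ J) :
    F w * w ^ m ∈ 𝒵 := by
  refine h.memZ (mul_mem (hF.mapQ w hw) (pow_mem hw m)) fun q hq => ?_
  have f1 := h.br_J (hF.mapW w hw hw') (h1 q hq)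
  rw [h.br_mul_right (hF.mapQ q hq) (pow_mem hq n) (hF.mapQ w hw), h.br_endo hF hw hq,
    h.br_pow_right hq (hF.mapQ w hw), hm] at f1
  rw [h.br_mul_left (hF.mapQ w hw) (pow_mem hw m) hq, h.br_pow_left hw hq]
  exact (mul_eq_zero.1 (by linear_combination f1)).resolve_left n0

/-- The kernel lemma. -/
theorem kerS {g : G} (hg : g ∈ N J) (hz : g * z * g⁻¹ = z) (h1 : ∀ q ∈ Q, cm g q ∈ J) : g ∈ S := by
  have hF := h.endo (ε := 1) (by rwa [pow_one]) hg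
  have i2 : ∀ q ∈ Q, q ^ 2 = q⁻¹ := fun q hq => by
    rw [eq_inv_iff_mul_eq_one, ← pow_succ, h.Q3 q hq]
  refine h.mem_S (k := 2) (h.NS_of (CN (mul_inv_eq_iff_eq_mul.1 hz)) hg) ?_
  have h2 : g ^ 3 ∈ C Q := mem_C.2 fun q hq => by
    have hw : cm g q ∈ Q := mul_mem (hF.mapQ q hq) (inv_mem hq)
    have f := h.dual hF 2 (fun q hq => by rw [i2 q hq]; exact h1 q hq) (m := 2) (by decide)
      (by decide) hw (h1 q hq)
    rw [i2 _ hw] at f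
    have f1 : g * (g * cm g q * g⁻¹ * (cm g q)⁻¹) * g⁻¹ = _ :=
      mem_C1_iff_conj.1 (C1_le_C1_of_mem_zpowers f (mem_C1_iff_conj.2 hz))
    have f2 := h.Zc f hw
    have f3 := h.Z3 f
    have f4 := h.Q3 _ hw
    have e1 : g * q * g⁻¹ = cm g q * q := by unfold cm; group
    have e2 : g * cm g q * g⁻¹ = (g * cm g q * g⁻¹ * (cm g q)⁻¹) * cm g q := by group
    generalize g * cm g q * g⁻¹ * (cm g q)⁻¹ = u at f1 f2 f3 e2
    generalize cm g q = w at f2 f4 e1 e2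
    refine (mul_inv_eq_iff_eq_mul.1 ?_).symm
    calc _ = g * (g * (g * q * g⁻¹) * g⁻¹) * g⁻¹ := by simp [pow_succ, mul_assoc]
      _ = u * (u * (w * u) * w) * w * q := by
        simp only [e1, e2, ← conj_mul, f1]; group
      _ = u ^ 3 * w ^ 3 * q := by rw [f2]; simp [pow_succ, mul_assoc]
      _ = q := by rw [f3, f4]; simp
  rw [pow_two, pow_mul]
  exact h.Q3 _ (h.CQ h2)

theorem CJ : C J ≤ J := fun g hg => by
  have hz := mem_C1_iff_conj.1 (C_le_C1 h.zJ hg)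
  have hF := h.endo (ε := 1) (by rwa [pow_one]) (C_le_N _ hg)
  refine h.CSW (h.kerS (C_le_N _ hg) hz fun q hq => h.CQW (mul_mem (hF.mapQ q hq) (inv_mem hq))
    fun w hw hw' => (br_eq_zero (z := z)).1 ?_) fun w _ hw => mem_C.1 hg w hw
  have := h.br_endo hF hw hq
  simp only [mem_C1_iff_conj.1 (C_le_C1 hw' hg)] at this
  rw [cm, h.br_mul_right (hF.mapQ q hq) (inv_mem hq) hw, h.br_inv_right hq hw, this]
  simp

end Hyp0
end CfsgH3.Md
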