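import Cfsg.Agent.H3.MdA

/-! Finite facts on `S₆` and on `2 × 2` matrices over `𝔽₃`. -/

set_option autoImplicit false
set_option linter.unusedSectionVars false
set_option synthInstance.maxSize 4096

namespace CfsgH3.Md
open Subgroup CfsgH5 CfsgH6 CfsgFT CfsgH7 CfsgH7.F5 CfsgH8 Equiv

def cy6 (p q r : Fin 6) : S6 := swap p r * swap p q
def a6 : S6 := cy6 0 1 2
def b6 : S6 := cy6 3 4 5
def g6 : S6 := swap 0 4 * swap 0 1 * swap 0 3 * swap 2 5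
def v6 : S6 := swap 0 1 * swap 2 5
def t6 : S6 := swap 0 1 * swap 3 4
def s6 : S6 := cy6 0 3 2 * cy6 1 4 5
def r6 : S6 := cy6 0 1 3

abbrev V := ZMod 3 × ZMod 3
def e6 (u : V) : S6 := a6 ^ u.1.val * b6 ^ u.2.val
def P9 (σ : S6) : Prop := σ * a6 = a6 * σ ∧ σ * b6 = b6 * σ
instance : DecidablePred P9 := fun _ => inferInstanceAs (Decidable (_ ∧ _))
def N9 (σ : S6) : Prop := P9 (σ * a6 * σ⁻¹) ∧ P9 (σ * b6 * σ⁻¹)
instance : DecidablePred N9 := fun _ => inferInstanceAs (Decidable (_ ∧ _))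

theorem p9_ex : ∀ σ, P9 σ → ∃ u, σ = e6 u := by decide +kernel
theorem p9_e6 : ∀ u, P9 (e6 u) := by decide +kernel
theorem e6_add : ∀ u u', e6 (u + u') = e6 u * e6 u' := by decide +kernel
theorem e6_inj : ∀ u, e6 u = 1 → u = 0 := by decide +kernel
theorem n9_conj : ∀ σ, N9 σ → ∀ u, P9 (σ * e6 u * σ⁻¹) := by decide +kernel

def lin (m : V × V) (u : V) : V := u.1 • m.1 + u.2 • m.2
def dot (u u' : V) : ZMod 3 := u.1 * u'.1 + u.2 * u'.2
def Sim (m : V × V) (μ : ZMod 3) : Prop := ∀ u u', dot (lin m u) (lin m u') = μ * dot u u'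
instance (m : V × V) (μ : ZMod 3) : Decidable (Sim m μ) := inferInstanceAs (Decidable (∀ _, _))
def mg : V × V := ((0, 1), (-1, 0))


theorem d8_pow : ∀ σ : S6, σ * t6 = t6 * σ → Perm.sign σ = 1 → σ ^ 4 = 1 := by decide +kernel
theorem nf6 : ∀ σ : S6, σ * σ = 1 → σ ≠ 1 → N9 σ → Perm.sign σ = 1 → ∀ ρ : S6, ρ * σ = σ * ρ →
    ρ * ρ = 1 → ρ ≠ 1 → N9 ρ → Perm.sign ρ = 1 → σ = ρ := by decide +kernel
theorem cs6 : ∀ σ : S6, σ * s6 = s6 * σ → v6 * σ * v6⁻¹ * s6 = s6 * (v6 * σ * v6⁻¹) → σ ^ 3 = 1 →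
    σ = 1 := by decide +kernel
theorem gen6a : ∀ σ : S6, N9 σ ∨ ∃ u, N9 (v6 * e6 u * σ) := by decide +kernel
theorem gen6b : ∀ σ : S6, N9 σ → Perm.sign σ = 1 → ∃ u, ∃ m : Fin 4, σ = e6 u * g6 ^ m.val := by
  decide +kernel

theorem m1 : ∀ m, Sim m (-1) → (∀ u, lin m (lin m (lin m (lin m u))) = u) →
    ∀ u, lin m (lin m u) = -u := by decide +kernel
theorem m2 : ∀ F, Sim F (-1) → (∀ u, lin F (lin F u) = -u) → ∀ m, Sim m 1 →
    ((∀ u, lin m (lin F u) = lin F (lin m u)) ∨ ∀ u, lin m (lin F u) = -lin F (lin m u)) →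
    (∀ u, lin m u = u) ∨ (∀ u, lin m u = -u) ∨ (∀ u, lin m u = lin mg u) ∨
      ∀ u, lin m u = -lin mg u := by decide +kernel
theorem m3 : ∀ F, Sim F (-1) → (∀ u, lin F (lin F u) = -u) →
    ¬ ∀ u, lin mg (lin F u) = lin F (lin mg u) := by decide +kernel
theorem m5 : ∀ F, Sim F (-1) → (∀ u, lin F (lin F u) = -u) → ∀ m, Sim m 1 →
    (∀ u, lin m (lin F u) = lin F (lin m u)) → (∀ u, lin m u = u) ∨ ∀ u, lin m u = -u := by
  decide +kernel
theorem m6 : ∀ u : V, u ≠ 0 → ∀ u', ∃ i j : Fin 3, u' = i.val • u + j.val • lin mg u := by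
  decide +kernel
theorem m7 : ∀ u : V, dot u u = 0 → u = 0 := by decide +kernel
theorem mg2 : ∀ u, lin mg (lin mg u) = -u := by decide +kernel
theorem lin_neg : ∀ m u, lin m (-u) = -lin m u := by decide +kernel

end CfsgH3.Md
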