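import Cfsg.Agent.H3.MdB
import Cfsg.Agent.H3.MdP

/-! Coordinates on `Q/W`, the involution `t` and the quadratic form. -/

set_option autoImplicit false
set_option linter.unusedSectionVars false
set_option synthInstance.maxSize 4096

namespace CfsgH3.Md
open Subgroup CfsgH5 CfsgH6 CfsgFT CfsgH7 CfsgH7.F5 CfsgH8 Equiv X32

universe u
variable {G : Type u} [Group G]

/-- The hypotheses, with `S/J` in standard position, and a Sylow 2-subgroup `⟨g, v⟩` of `M0`. -/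
structure Hyp (S J Q Q2 M0 L0 : Subgroup G) (z : G) (Φ : G → S6 → Prop) (Θ : G → S5 → Prop)
    (g v p1 p2 : G) : Prop extends Hyp0 S J Q Q2 M0 L0 z Φ Θ where
  ΦS : ∀ {s σ}, Φ s σ → (s ∈ S ↔ P9 σ)
  Φg : Φ g g6
  Φv : Φ v v6
  g4 : g * g * (g * g) = 1
  v2 : v * v = 1
  vg : v * g * v⁻¹ = g⁻¹
  p1Q : p1 ∈ Q
  p2Q : p2 ∈ Q
  Φp1 : Φ p1 a6
  Φp2 : Φ p2 b6

variable [Finite G] {S J Q Q2 M0 L0 : Subgroup G} {z : G} {Φ : G → S6 → Prop} {Θ : G → S5 → Prop}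

theorem Hyp0.exists_hyp (h : Hyp0 S J Q Q2 M0 L0 z Φ Θ) :
    ∃ Φ g v p1 p2, Hyp S J Q Q2 M0 L0 z Φ Θ g v p1 p2 := by
  have := Fact.mk Nat.prime_three
  have b0 : B9 a6 b6 := b9_map (ψ := MonoidHom.id _) Function.injective_id
    (by decide +kernel) (by decide +kernel) (by decide +kernel) (by decide +kernel)
    (by decide +kernel) (by decide +kernel) (by decide +kernel)
  have hS : SylIn 3 (D9 a6 b6) ⊤ := sylIn_of_not_dvd le_top b0.isPGroup (by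
    rw [relIndex_eq_of_mul le_top (n := 80) (by rw [b0.card, card_top, Nat.card_perm]; simp; rfl)]
    norm_num)
  have hP : ∀ σ, σ ∈ D9 a6 b6 ↔ P9 σ := fun σ => ⟨fun e => b0.mem_C_iff.1 (b0.ab e), fun e => by
    obtain ⟨u, rfl⟩ := p9_ex σ e
    exact mul_mem (pow_mem (left_mem_D9 _ _) _) (pow_mem (right_mem_D9 _ _) _)⟩
  obtain ⟨π, -, hπ⟩ := hS.exists_le_cj (X := h.φ.im S) le_top fun ⟨a, s, hs, e⟩ => by
    obtain ⟨k, hk⟩ := h.syl.isPGroup ⟨s, hs⟩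
    exact ⟨k, Subtype.ext (h.φ.eq_of (h.φ.pow e _) h.φ.one (congrArg Subtype.val hk))⟩
  have h' : Hyp0 S J Q Q2 M0 L0 z (fun g a => Φ g (π * a * π⁻¹)) Θ :=
    { h with
      φ := h.φ.conjAut π
      φs := fun σ e => h.φs _ (by rwa [sign_conj'])
      φe := fun e => by rw [← h.φe e, sign_conj'] }
  obtain ⟨Φ', h', h1⟩ : ∃ Φ', Hyp0 S J Q Q2 M0 L0 z Φ' Θ ∧ ∀ s σ, Φ' s σ → s ∈ S → P9 σ :=
    ⟨_, h', fun s σ e hs => (hP _).1 (conj_mem_cj.1 (hπ ⟨_, hs, e⟩))⟩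
  have h2 : h'.φ.pre (D9 a6 b6) = S := h.syl.eq_of_le le_top
    (isPGroup_of_pow (k := 2) fun x ⟨a, ha, e⟩ => by
      rw [pow_two, pow_mul]; exact h.J3 _ (h'.φ.kerm (h'.φ.pow e 3) (b0.cube ha)))
    fun s hs => let ⟨a, ha⟩ := h'.φ.ex (h.SM hs); ⟨a, (hP a).2 (h1 s a ha hs), ha⟩
  have h3 : ∀ {s σ}, Φ' s σ → (s ∈ S ↔ P9 σ) := fun e => by rw [← h2, h'.φ.mem_pre e, hP]
  have h4 : ∀ σ, P9 σ → Perm.sign σ = 1 → ∃ q ∈ Q, Φ' q σ := fun σ e e' => by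
    obtain ⟨s, hs⟩ := h'.φs σ e'
    obtain ⟨j, hj, q, hq, rfl⟩ := h.decS ((h3 hs).2 e)
    exact ⟨q, hq, by simpa using h'.φ.Kmul hs (inv_mem hj)⟩
  obtain ⟨p1, a1, a2⟩ := h4 a6 (by decide +kernel) (by decide +kernel)
  obtain ⟨p2, a3, a4⟩ := h4 b6 (by decide +kernel) (by decide +kernel)
  obtain ⟨T, T1, T2⟩ := h'.φ.lift2 (isPGroup_of_pow (k := 1) h.J3) (Y := C1 t6)
    fun g a e ha => d8_pow a (mem_C1.1 ha) (h'.φe e)
  obtain ⟨g0, hg0⟩ := h'.φs g6 (by decide +kernel)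
  obtain ⟨v0, hv0⟩ := h'.φs v6 (by decide +kernel)
  obtain ⟨g, gT, hg⟩ := T1 _ _ hg0 (mem_C1.2 (by decide +kernel))
  obtain ⟨v, vT, hv⟩ := T1 _ _ hv0 (mem_C1.2 (by decide +kernel))
  have φ := h'.φ
  exact ⟨Φ', g, v, p1, p2, h', h3, hg, hv,
    T2 _ (mul_mem (mul_mem gT gT) (mul_mem gT gT))
      (φ.cast (φ.mul (φ.mul hg hg) (φ.mul hg hg)) (by decide +kernel)),
    T2 _ (mul_mem vT vT) (φ.cast (φ.mul hv hv) (by decide +kernel)),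
    eq_inv_of_mul_eq_one_left (T2 _ (mul_mem (mul_mem (mul_mem vT gT) (inv_mem vT)) gT)
      (φ.cast (φ.mul (φ.conj hv hg) hg) (by decide +kernel))), a1, a3, a2, a4⟩

/-- coordinates on `Q/W` -/
def Co (Q : Subgroup G) (Φ : G → S6 → Prop) (q : G) (u : V) : Prop := q ∈ Q ∧ Φ q (e6 u)

/-- action on `Q/W` -/
def Act (Q : Subgroup G) (Φ : G → S6 → Prop) (F : G → G) (m : V → V) : Prop :=
  ∀ q u, Co Q Φ q u → Co Q Φ (F q) (m u)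

/-- action by conjugation on `Q/W` -/
abbrev Ac (Q : Subgroup G) (Φ : G → S6 → Prop) (k : G) (m : V → V) : Prop :=
  Act Q Φ (fun q => k * q * k⁻¹) m

omit [Finite G] in
theorem Ac.mul {k l : G} {m n : V → V} (h1 : Ac Q Φ k m) (h2 : Ac Q Φ l n) :
    Ac Q Φ (k * l) fun u => m (n u) := fun q u e => by
  have := h1 _ _ (h2 q u e)
  simp only [mul_inv_rev, mul_assoc] at this ⊢
  exact this

namespace Hyp
variable {g v p1 p2 : G} (h : Hyp S J Q Q2 M0 L0 z Φ Θ g v p1 p2)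
include h

local notation "𝒵" => zpowers z
local notation "t" => g * g
local notation "x" => v * z * v⁻¹

theorem co_ex {q : G} (hq : q ∈ Q) : ∃ u, Co Q Φ q u := by
  obtain ⟨a, ha⟩ := h.φ.ex (h.SM (h.QS hq))
  obtain ⟨u, rfl⟩ := p9_ex a ((h.ΦS ha).1 (h.QS hq))
  exact ⟨u, hq, ha⟩

theorem co_mul {q r : G} {u w : V} (h1 : Co Q Φ q u) (h2 : Co Q Φ r w) : Co Q Φ (q * r) (u + w) :=
  ⟨mul_mem h1.1 h2.1, e6_add u w ▸ h.φ.mul h1.2 h2.2⟩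

theorem co_W {w : G} (hw : w ∈ Q) (hw' : w ∈ J) : Co Q Φ w 0 := ⟨hw, h.φ.of_ker hw'⟩

theorem co_J {q : G} {u : V} (h1 : Co Q Φ q u) : q ∈ J ↔ u = 0 :=
  ⟨fun e => e6_inj u ((h.φ.ker h1.2).2 e), fun e => h.φ.kerm h1.2 (by rw [e]; rfl)⟩

theorem co_inv {q : G} {u : V} (h1 : Co Q Φ q u) : Co Q Φ q⁻¹ (-u) := by
  obtain ⟨w, hw⟩ := h.co_ex (inv_mem h1.1)
  have := (h.co_J (h.co_mul h1 hw)).1 (by simp)
  rwa [← eq_neg_of_add_eq_zero_right this]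

theorem co_pow {q : G} {u : V} (h1 : Co Q Φ q u) (n : ℕ) : Co Q Φ (q ^ n) (n • u) := by
  induction n with
  | zero => simpa using h.co_W (one_mem _) (one_mem _)
  | succ n ih => rw [pow_succ, succ_nsmul]; exact h.co_mul ih h1

theorem co_eqv {q r : G} {u : V} (h1 : Co Q Φ q u) (h2 : Co Q Φ r u) : q * r⁻¹ ∈ J :=
  h.φ.eqv h1.2 h2.2

theorem co_uniq {q : G} {u w : V} (h1 : Co Q Φ q u) (h2 : Co Q Φ q w) : u = w :=
  sub_eq_zero.1 (by rw [sub_eq_add_neg]; exact (h.co_J (h.co_mul h1 (h.co_inv h2))).1 (by simp))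

theorem co1 : Co Q Φ p1 (1, 0) := ⟨h.p1Q, h.φ.cast h.Φp1 (by decide +kernel)⟩
theorem co2 : Co Q Φ p2 (0, 1) := ⟨h.p2Q, h.φ.cast h.Φp2 (by decide +kernel)⟩

theorem co_std (u : V) : Co Q Φ (p1 ^ u.1.val * p2 ^ u.2.val) u := by
  convert h.co_mul (h.co_pow h.co1 u.1.val) (h.co_pow h.co2 u.2.val) using 1
  revert u; decide

theorem co_dec {q : G} {u : V} (h1 : Co Q Φ q u) :
    ∃ w ∈ Q, w ∈ J ∧ q = w * (p1 ^ u.1.val * p2 ^ u.2.val) :=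
  ⟨_, mul_mem h1.1 (inv_mem (h.co_std u).1), h.co_eqv h1 (h.co_std u), by group⟩

theorem act_ex {F : G → G} {ε : ℕ} (hF : Endo J Q z F ε) : ∃ m, Act Q Φ F (lin m) := by
  obtain ⟨a, ha⟩ := h.co_ex (hF.mapQ _ h.p1Q)
  obtain ⟨b, hb⟩ := h.co_ex (hF.mapQ _ h.p2Q)
  refine ⟨(a, b), fun q u e => ?_⟩
  obtain ⟨w, hw, hw', e'⟩ := h.co_dec e
  rw [e', hF.mul _ hw _ (h.co_std u).1, hF.mul _ (pow_mem h.p1Q _) _ (pow_mem h.p2Q _),
    hF.pow h.p1Q, hF.pow h.p2Q]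
  convert h.co_mul (h.co_W (hF.mapQ w hw) (hF.mapW w hw hw'))
    (h.co_mul (h.co_pow ha u.1.val) (h.co_pow hb u.2.val)) using 1
  rw [zero_add, lin, ← Nat.cast_smul_eq_nsmul (ZMod 3), ← Nat.cast_smul_eq_nsmul (ZMod 3)]
  simp

theorem act_uniq {F : G → G} {m n : V → V} (h1 : Act Q Φ F m) (h2 : Act Q Φ F n) (u : V) :
    m u = n u := h.co_uniq (h1 _ _ (h.co_std u)) (h2 _ _ (h.co_std u))

theorem ac_S {s : G} (hs : s ∈ S) : Ac Q Φ s fun u => u := fun q u e => by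
  obtain ⟨a, ha⟩ := h.φ.ex (h.SM hs)
  obtain ⟨w, rfl⟩ := p9_ex a ((h.ΦS ha).1 hs)
  exact ⟨h.nSQ s hs q e.1, h.φ.cast (h.φ.conj ha e.2) (by
    rw [← e6_add, add_comm, e6_add, mul_inv_cancel_right])⟩

theorem cm_of_ac {k : G} (h1 : Ac Q Φ k fun u => u) {q : G} (hq : q ∈ Q) : cm k q ∈ J :=
  let ⟨u, hu⟩ := h.co_ex hq; h.co_eqv (h1 q u hu) hu

theorem NS_of_N9 {k : G} {σ : S6} (h1 : Φ k σ) (h2 : N9 σ) : k ∈ N S := mem_N_of_conj fun s hs => by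
  obtain ⟨a, ha⟩ := h.φ.ex (h.SM hs)
  obtain ⟨w, rfl⟩ := p9_ex a ((h.ΦS ha).1 hs)
  exact (h.ΦS (h.φ.conj h1 ha)).2 (n9_conj σ h2 w)

theorem N9_of_NS {k : G} {σ : S6} (h1 : Φ k σ) (h2 : k ∈ N S) : N9 σ :=
  ⟨(h.ΦS (h.φ.conj h1 h.Φp1)).1 (conj_mem_of_mem_N h2 (h.QS h.p1Q)),
    (h.ΦS (h.φ.conj h1 h.Φp2)).1 (conj_mem_of_mem_N h2 (h.QS h.p2Q))⟩

theorem gM : g ∈ M0 := h.φ.mem h.Φg
theorem vM : v ∈ M0 := h.φ.mem h.Φv
theorem gN : g ∈ N 𝒵 := h.NS_le (h.NS_of_N9 h.Φg (by decide +kernel))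
theorem Φt : Φ (t) t6 := h.φ.cast (h.φ.mul h.Φg h.Φg) (by decide +kernel)
theorem t1 : t ≠ 1 := fun e => absurd (h.φ.eq_of h.Φt h.φ.one e) (by decide +kernel)
theorem vi : v⁻¹ = v := inv_eq_self h.v2
theorem gt : g * (t) = t * g := (mul_assoc _ _ _).symm
theorem vt : v * (t) = t * v :=
  mul_inv_eq_iff_eq_mul.1 (by rw [← conj_mul, h.vg, ← mul_inv_rev, inv_eq_self h.g4])

theorem tz : t * z * (t)⁻¹ = z := by
  rw [show t * z * (t)⁻¹ = g * (g * z * g⁻¹) * g⁻¹ by group]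
  rcases h.sign_z h.gN with e | e <;> rw [e]
  · exact e
  · rw [← conj_inv, e, inv_inv]

theorem ac_g : Ac Q Φ g (lin mg) := fun q u e => ⟨h.nQ g h.gN q e.1, h.φ.cast (h.φ.conj h.Φg e.2)
  ((by decide +kernel : ∀ u, g6 * e6 u * g6⁻¹ = e6 (lin mg u)) u)⟩

theorem ac_t : Ac Q Φ (t) fun u => -u := by simpa only [mg2] using h.ac_g.mul h.ac_g

theorem tinvW {w : G} (hw : w ∈ Q) (hw' : w ∈ J) : t * w * (t)⁻¹ * w ∈ 𝒵 := by
  simpa using h.dual (h.endo (ε := 1) (h.tz.trans (pow_one z).symm) (h.MN (mul_mem h.gM h.gM))) 1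
    (fun q hq => by
      obtain ⟨u, hu⟩ := h.co_ex hq
      simpa using h.co_eqv (h.ac_t q u hu) (h.co_inv hu)) (m := 1) (by decide) (by decide) hw hw'

theorem tN : t ∈ N 𝒵 := mul_mem h.gN h.gN

theorem tinv {q : G} (hq : q ∈ Q) : t * q * (t)⁻¹ * q ∈ 𝒵 := by
  obtain ⟨u, hu⟩ := h.co_ex hq
  have h1 : t * q * (t)⁻¹ * q ∈ Q := mul_mem (h.nQ _ h.tN q hq) hq
  have h2 := h.tinvW h1 (by simpa using h.co_eqv (h.ac_t q u hu) (h.co_inv hu))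
  have h3 : t * (t * q * (t)⁻¹ * q) * (t)⁻¹ = q * (t * q * (t)⁻¹ * q) * q⁻¹ := by
    rw [← conj_mul, conj_invol h.g4]; group
  rw [h3] at h2
  generalize t * q * (t)⁻¹ * q = w at h1 h2
  refine mem_of_sq_mem (h.Q3 w h1) ?_
  simpa [cm, mul_assoc] using mul_mem (inv_mem (h.DQ q hq w h1)) h2

theorem CQt {q : G} (hq : q ∈ Q) (e : q * (t) = t * q) : q ∈ 𝒵 :=
  mem_of_sq_mem (h.Q3 q hq) (by simpa only [← e, mul_inv_cancel_right] using h.tinv hq)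

theorem xJ : x ∈ J := conj_mem_of_mem_N (h.MN h.vM) h.zJ
theorem x3 : (x) ^ 3 = 1 := h.J3 _ h.xJ
theorem zt : z * (t) = t * z := (mul_inv_eq_iff_eq_mul.1 h.tz).symm
theorem xt : x * (t) = t * (x) := by
  have := comm_conj_both (g := v) h.zt
  rwa [mul_inv_eq_iff_eq_mul.2 h.vt] at this
theorem vx : v * (x) * v⁻¹ = z := conj_invol h.v2

theorem xQ : x ∉ Q := fun e => absurd (h.N9_of_NS h.Φv (h.NS_of
  (mem_N_zpowers (h.CQt e h.xt)) (h.MN h.vM))) (by decide +kernel)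

theorem xS : x ∈ S := h.JS h.xJ

theorem b9 : B9 z (x) := ⟨h.z3, h.x3, h.Jab.comm h.zJ h.xJ, h.z1, fun e => h.xQ (h.ZQ' e)⟩

theorem DJ : D9 z (x) ≤ J := D9_le h.zJ h.xJ

theorem DK : D9 z (x) ≤ C1 (t) := D9_le (mem_C1.2 h.zt) (mem_C1.2 h.xt)

theorem CSt {s : G} (hs : s ∈ S) (e : s ∈ C1 (t)) : s ∈ D9 z (x) := by
  obtain ⟨q, hq, y, hy, rfl⟩ := h.decx h.xS h.xQ hs
  have h1 : y ∈ D9 z (x) := mem_sup_right hy
  exact mul_mem (mem_sup_left (h.CQt hq (mem_C1.1 ((mul_mem_cancel_right (h.DK h1)).1 e)))) h1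

theorem decL {k : G} (hk : k ∈ N 𝒵) : ∃ q ∈ Q, q * k ∈ C1 (t) := by
  have h1 : k * (t) * k⁻¹ * (t)⁻¹ ∈ Q := h.inn (mul_mem (mul_mem (mul_mem hk h.tN) (inv_mem hk))
    (inv_mem h.tN)) fun q hq => by
      have f1 := h.nQ.conj' h.tN hq
      have f2 := conj_mem_of_mem_N hk (h.tinv (h.nQ.conj' hk f1))
      have f3 := h.tinv f1
      generalize t = t' at f2 f3 ⊢
      convert mul_mem f2 (inv_mem f3) using 1
      unfold cm; group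
  refine ⟨_, h1, mem_C1_iff_conj.2 ?_⟩
  have h2 := conj_mul_self h.g4 k
  have h3 := h.Q3 _ h1
  have h4 := h.g4
  generalize t = t' at h2 h3 h4 ⊢
  generalize hu : k * t' * k⁻¹ * t'⁻¹ = u at h3 ⊢
  have h5 : k * t' * k⁻¹ = u * t' := by rw [← hu]; group
  rw [show u * k * t' * (u * k)⁻¹ = u * (k * t' * k⁻¹) * u⁻¹ by group, h5]
  rw [h5] at h2
  have h6 : t' * u⁻¹ = u * t' := by
    rw [← inv_eq_self h4, ← mul_inv_rev, inv_eq_self h2, inv_eq_self h4]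
  rw [mul_assoc, mul_assoc u, h6, ← mul_assoc, ← mul_assoc, ← pow_two, ← pow_succ, h3, one_mul]

/-! ### The form -/

theorem cxQ {q : G} (hq : q ∈ Q) : cm (x) q ∈ Q := mul_mem (h.nSQ _ h.xS q hq) (inv_mem hq)

theorem cxJ {q : G} (hq : q ∈ Q) : cm (x) q ∈ J := h.cm_of_ac (h.ac_S h.xS) hq

theorem B_mul {q r c : G} (hq : q ∈ Q) (hr : r ∈ Q) (hc : c ∈ Q) :
    br z (cm (x) (q * r)) c = br z (cm (x) q) c + br z (cm (x) r) c := by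
  have e : cm (x) (q * r) = cm (x) q * (cm q (cm (x) r) * cm (x) r) := by unfold cm; group
  have f := h.DQ q hq _ (h.cxQ hr)
  rw [e, h.br_mul_left (h.cxQ hq) (mul_mem (h.ZQ' f) (h.cxQ hr)) hc, h.br_Zl f (h.cxQ hr) hc]

theorem B_symm {q r : G} (hq : q ∈ Q) (hr : r ∈ Q) : br z (cm (x) q) r = br z (cm (x) r) q := by
  have f := h.br_endo (h.endo (ε := 1) (g := x) (by rw [← h.b9.comm, mul_inv_cancel_right, pow_one])
    (le_N _ h.xJ)) hq hr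
  have e : ∀ q, x * q * (x)⁻¹ = cm (x) q * q := fun q => by unfold cm; group
  simp only [e] at f
  rw [h.br_mul_left (h.cxQ hq) hq (mul_mem (h.cxQ hr) hr), h.br_mul_right (h.cxQ hr) hr (h.cxQ hq),
    h.br_mul_right (h.cxQ hr) hr hq, h.br_J (h.cxJ hq) (h.cxJ hr), h.br_anti (h.cxQ hr) hq] at f
  push_cast at f
  linear_combination f

theorem B_lin {q c : G} {u : V} (hq : Co Q Φ q u) (hc : c ∈ Q) :
    br z (cm (x) q) c = u.1 * br z (cm (x) p1) c + u.2 * br z (cm (x) p2) c := by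
  obtain ⟨w, hw, hw', e⟩ := h.co_dec hq
  have f1 := pow_mem h.p1Q u.1.val
  have f2 := pow_mem h.p2Q u.2.val
  rw [h.B_symm hq.1 hc, h.B_symm h.p1Q hc, h.B_symm h.p2Q hc, e,
    h.br_mul_right hw (mul_mem f1 f2) (h.cxQ hc), h.br_mul_right f1 f2 (h.cxQ hc),
    h.br_J (h.cxJ hc) hw', h.br_pow_right h.p1Q (h.cxQ hc), h.br_pow_right h.p2Q (h.cxQ hc)]
  simp

theorem cm_xpow {q : G} (hq : q ∈ Q) (n : ℕ) : cm ((x) ^ n) q = cm (x) q ^ n := by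
  induction n with
  | zero => simp [cm]
  | succ n ih =>
    rw [pow_succ', pow_succ, ← ih]
    calc _ = x * cm ((x) ^ n) q * (x)⁻¹ * cm (x) q := by
          generalize x = y; generalize y ^ n = y'; unfold cm; group
      _ = _ := by rw [h.Jab.comm h.xJ (ih ▸ pow_mem (h.cxJ hq) n), mul_inv_cancel_right]

theorem B_endo {F : G → G} {ε δ : ℕ} (hF : Endo J Q z F ε)
    (hx : ∀ q ∈ Q, F (cm (x) q) = cm ((x) ^ δ) (F q)) {q r : G} (hq : q ∈ Q) (hr : r ∈ Q) :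
    δ * br z (cm (x) (F q)) (F r) = ε * br z (cm (x) q) r := by
  rw [← h.br_endo hF (h.cxQ hq) hr, hx q hq, h.cm_xpow (hF.mapQ q hq),
    h.br_pow_left (h.cxQ (hF.mapQ q hq)) (hF.mapQ r hr)]

omit h in
theorem conj_cm {k y y' : G} (e : k * y * k⁻¹ = y') (q : G) :
    k * cm y q * k⁻¹ = cm y' (k * q * k⁻¹) := by rw [← e]; unfold cm; group

theorem gx {ε : ℕ} (e : g * z * g⁻¹ = z ^ ε) (e' : g⁻¹ * z * g = z ^ ε) :
    g * (x) * g⁻¹ = (x) ^ ε := by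
  have f : g * v = v * g⁻¹ := by rw [← h.vg, ← mul_assoc, ← mul_assoc, h.v2, one_mul, h.vi]
  rw [conj_pow, ← e', ← mul_assoc, ← mul_assoc, f, mul_assoc _ v⁻¹, ← mul_inv_rev, f]; group

theorem gz : (g * z * g⁻¹ = z ∧ g * (x) * g⁻¹ = x) ∨
    (g * z * g⁻¹ = z⁻¹ ∧ g * (x) * g⁻¹ = (x)⁻¹) := by
  refine (h.sign_z h.gN).imp (fun e => ⟨e, ?_⟩) fun e => ⟨e, ?_⟩
  · simpa using h.gx (ε := 1) (by simpa using e) (by rw [pow_one]; nth_rw 1 [← e]; group)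
  · have := h.gx (e.trans h.zinv) (by
      calc _ = g⁻¹ * (g * z * g⁻¹)⁻¹ * g := by rw [e, inv_inv]
        _ = _ := by rw [← h.zinv]; group)
    rwa [conj_pow, ← h.zinv, conj_inv.symm] at this

theorem xinv : (x)⁻¹ = (x) ^ 2 := by rw [inv_eq_iff_mul_eq_one, ← pow_succ', h.x3]

theorem B_g {q r : G} (hq : q ∈ Q) (hr : r ∈ Q) :
    br z (cm (x) (g * q * g⁻¹)) (g * r * g⁻¹) = br z (cm (x) q) r := by
  rcases h.gz with ⟨e, e'⟩ | ⟨e, e'⟩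
  · simpa using h.B_endo (δ := 1) (h.endo (ε := 1) (by simpa using e) (h.MN h.gM))
      (fun q _ => conj_cm (by simpa using e') q) hq hr
  · have := h.B_endo (δ := 2) (h.endo (e.trans h.zinv) (h.MN h.gM))
      (fun q _ => conj_cm (e'.trans h.xinv) q) hq hr
    exact mul_left_cancel₀ (by decide) this

theorem B_co {q r : G} {u w : V} (hq : Co Q Φ q u) (hr : Co Q Φ r w) :
    br z (cm (x) q) r = br z (cm (x) p1) p1 * dot u w := by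
  have key : ∀ {q r u w}, Co Q Φ q u → Co Q Φ r w → br z (cm (x) q) r =
      u.1 * (w.1 * br z (cm (x) p1) p1 + w.2 * br z (cm (x) p2) p1) +
      u.2 * (w.1 * br z (cm (x) p2) p1 + w.2 * br z (cm (x) p2) p2) := fun hq hr => by
    rw [h.B_lin hq hr.1, h.B_symm h.p1Q hr.1, h.B_symm h.p2Q hr.1, h.B_lin hr h.p1Q,
      h.B_lin hr h.p2Q, h.B_symm h.p1Q h.p2Q]
  have f1 := (h.B_g h.p1Q h.p1Q).symm.trans (key (h.ac_g _ _ h.co1) (h.ac_g _ _ h.co1))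
  have f2 := (h.B_g h.p2Q h.p1Q).symm.trans (key (h.ac_g _ _ h.co2) (h.ac_g _ _ h.co1))
  simp [lin, mg] at f1 f2
  have f3 := (by decide : ∀ a : ZMod 3, a = -a → a = 0) _ f2
  rw [key hq hr, f3, ← f1, dot]; ring

theorem B_ne : br z (cm (x) p1) p1 ≠ 0 := fun e => h.xQ (h.inn (h.SN h.xS) fun q hq =>
  h.memZ (h.cxQ hq) fun r hr => by
    obtain ⟨u, hu⟩ := h.co_ex hq
    obtain ⟨w, hw⟩ := h.co_ex hr
    rw [h.B_co hu hw, e, zero_mul])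

theorem J_of_cm {q : G} (hq : q ∈ Q) (e : cm (x) q ∈ 𝒵) : q ∈ J := by
  obtain ⟨u, hu⟩ := h.co_ex hq
  exact (h.co_J hu).2 (m7 u ((mul_eq_zero.1 ((h.B_co hu hu).symm.trans (h.br_Z e hq))).resolve_left
    h.B_ne))

theorem sim_of {F : G → G} {ε δ : ℕ} (hF : Endo J Q z F ε)
    (hx : ∀ q ∈ Q, F (cm (x) q) = cm ((x) ^ δ) (F q)) {m : V × V} (hm : Act Q Φ F (lin m))
    {μ : ZMod 3} (e : (ε : ZMod 3) = δ * μ) (e' : (δ : ZMod 3) ≠ 0) : Sim m μ := fun u w => by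
  have := h.B_endo hF hx (h.co_std u).1 (h.co_std w).1
  rw [h.B_co (hm _ _ (h.co_std u)) (hm _ _ (h.co_std w)), h.B_co (h.co_std u) (h.co_std w), e] at this
  exact mul_left_cancel₀ (mul_ne_zero e' h.B_ne) (by linear_combination this)

theorem sim {k : G} {ε δ : ℕ} (hk : k ∈ N J) (hz : k * z * k⁻¹ = z ^ ε)
    (hx : k * (x) * k⁻¹ = (x) ^ δ) {μ : ZMod 3} (e : (ε : ZMod 3) = δ * μ) (e' : (δ : ZMod 3) ≠ 0) :
    ∃ m, Ac Q Φ k (lin m) ∧ Sim m μ :=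
  let ⟨m, hm⟩ := h.act_ex (h.endo hz hk)
  ⟨m, hm, h.sim_of (h.endo hz hk) (fun q _ => conj_cm hx q) hm e e'⟩

theorem uniqJ {A : Subgroup G} (hA : A ≤ S) (ab : Ab A) (hc : Nat.card A = 81) : A = J := by
  obtain ⟨h1, h2⟩ := h.card_W hA ab hc
  obtain ⟨y, hy, hy'⟩ : ∃ y ∈ A, y ∉ Q := by
    by_contra hn
    push Not at hn
    rw [inf_eq_left.2 hn, hc] at h1
    omega
  have h3 : A ⊓ Q ≤ J ⊓ Q := fun w hw => ⟨h.J_of_cm hw.2 (by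
    obtain ⟨q, hq, y', hy', e⟩ := h.decx (hA hy) hy' h.xS
    rw [e]
    convert h.DQ q hq w hw.2 using 1
    rw [cm, cm, mul_assoc q, ab.comm (zpowers_le.2 hy hy') hw.1]; group), hw.2⟩
  have h4 := eq_of_le_of_card_eq h3 (h1.trans (h.card_W h.JS h.Jab h.cJ).1.symm)
  exact eq_of_le_of_card_eq (fun a ha => h.CSW (hA ha) fun w hw hw' =>
    ab.comm (h4.ge ⟨hw', hw⟩).1 ha) (hc.trans h.cJ.symm)

theorem NJ_of {k : G} (hk : cj k J ≤ S) : k ∈ N J :=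
  mem_N.2 (h.uniqJ hk (h.Jab.cjj k) (by rw [card_cj, h.cJ]))

theorem NS_NJ : N S ≤ N J := fun _ hk => h.NJ_of ((cj_mono h.JS).trans (mem_N.1 hk).le)

theorem NS_of_x {k : G} (h1 : k ∈ N 𝒵) (h2 : k * (x) * k⁻¹ ∈ S) : k ∈ N S :=
  mem_N_of_conj fun s hs => by
    obtain ⟨q, hq, y, hy, rfl⟩ := h.decx h.xS h.xQ hs
    rw [← conj_mul]
    exact mul_mem (h.QS (h.nQ k h1 q hq)) (zpowers_le.2 h2 (conj_mem_zpowers.2 hy))

end Hyp
end CfsgH3.Md
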