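import Cfsg.Agent.H3.MdC

/-! Fusion in `J` and the 3-local structure of the centralizer of `t`. -/

set_option autoImplicit false
set_option linter.unusedSectionVars false
set_option synthInstance.maxSize 4096

namespace CfsgH3.Md
open Subgroup CfsgH5 CfsgH6 CfsgFT CfsgH7 CfsgH7.F5 CfsgH8 Equiv X32

universe u
variable {G : Type u} [Group G]

theorem eq_one_of_inv_eq {y : G} (h3 : y ^ 3 = 1) (e : y⁻¹ = y) : y = 1 :=
  eq_one_of_sq_cube (by nth_rw 1 [← e]; simp) h3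

theorem mz {a z : G} (e : a = z) : a ∈ zpowers z := e ▸ mem_zpowers a
theorem mzi {a z : G} (e : a = z⁻¹) : a ∈ zpowers z := e ▸ inv_mem (mem_zpowers z)

theorem conj_mem_N_iff {J : Subgroup G} {m k : G} (hm : m ∈ N J) : m * k * m⁻¹ ∈ J ↔ k ∈ J :=
  ⟨fun e => by simpa [mul_assoc] using conj_mem_of_mem_N (inv_mem hm) e, conj_mem_of_mem_N hm⟩

theorem cent_of_three {s y : G} (y3 : y ^ 3 = 1) (h1 : s * y * s⁻¹ ∈ zpowers y)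
    (h2 : s ^ 3 * y = y * s ^ 3) : s * y = y * s := by
  rcases mem_zpowers_three y3 h1 with e | e | e
  · rw [conj_eq_one_iff.1 e]; simp
  · exact mul_inv_eq_iff_eq_mul.1 e
  · have : s ^ 3 * y * (s ^ 3)⁻¹ = y⁻¹ := by
      rw [show s ^ 3 * y * (s ^ 3)⁻¹ = s * (s * (s * y * s⁻¹) * s⁻¹) * s⁻¹ by
        simp [pow_succ, mul_assoc], e, ← conj_inv, e, inv_inv, e]
    rw [h2, mul_inv_cancel_right] at this
    rw [eq_one_of_inv_eq y3 this.symm]; simp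

theorem inv_ω : ∀ σ : S5, σ * ω * σ⁻¹ = ω⁻¹ → Perm.sign σ = 1 →
    ∃ i : Fin 3, σ = ω ^ i.val * R6 0 1 := by decide +kernel

variable [Finite G] {S J Q Q2 M0 L0 : Subgroup G} {z : G} {Φ : G → S6 → Prop} {Θ : G → S5 → Prop}

namespace Hyp
variable {g v p1 p2 : G} (h : Hyp S J Q Q2 M0 L0 z Φ Θ g v p1 p2)
include h

local notation "𝒵" => zpowers z
local notation "t" => g * g
local notation "x" => v * z * v⁻¹
local notation "𝒟" => D9 z (v * z * v⁻¹)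

theorem comm_Φ {y m k k' : G} {μ κ : S6} (hy : y ∈ J) (hm : Φ m μ) (hk : Φ k κ)
    (hk' : Φ k' (μ * κ * μ⁻¹)) (e : k * y = y * k) : k' * (m * y * m⁻¹) = m * y * m⁻¹ * k' := by
  have h1 := h.φ.eqv hk' (h.φ.conj hm hk)
  have h2 := conj_mem_of_mem_N (h.MN (h.φ.mem hm)) hy
  have := comm_mul_of (h.Jab.comm h2 h1) (comm_conj_both (g := m) e).symm
  rw [inv_mul_cancel_right] at this
  exact this.symm

theorem vy : v * (z * (x)) = z * (x) * v :=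
  mul_inv_eq_iff_eq_mul.1 (by rw [← conj_mul, h.vx, h.b9.comm])

theorem yJ : z * (x) ∈ J := mul_mem h.zJ h.xJ

theorem ty {d : G} (hd : d ∈ 𝒟) : t * d = d * (t) := (mem_C1.1 (h.DK hd)).symm

theorem CJV {j : G} (hj : j ∈ J) (e1 : t * j = j * (t)) (e2 : v * j = j * v) :
    j ∈ zpowers (z * (x)) := by
  have b := h.b9
  have f := h.vx
  have e := mul_inv_eq_iff_eq_mul.2 e2
  rcases b.mem' (h.CSt (h.JS hj) (mem_C1.2 e1.symm)) with r | r | r | r | r | r | r | r | r <;>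
    rw [r] at e ⊢
  · exact one_mem _
  · exact absurd (mz e) b.ind
  · exact absurd (mz (inv_injective (conj_inv.trans e))) b.ind
  · exact absurd (mz (f.symm.trans e).symm) b.ind
  · exact absurd (mz (f.symm.trans (inv_injective (conj_inv.trans e))).symm) b.ind
  · exact mem_zpowers _
  · exact inv_mem (mem_zpowers _)
  · refine absurd (eq_one_of_inv_eq b.mul_inv_cube ?_) b.mul_inv_ne_one
    rw [← conj_mul, ← conj_inv (b := v) (a := x), f] at e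
    rw [← e, mul_inv_rev, inv_inv, e]
  · refine absurd (eq_one_of_inv_eq b.mul_inv_cube ?_) b.mul_inv_ne_one
    rw [← conj_inv, inv_inj, ← conj_mul, ← conj_inv (b := v) (a := x), f] at e
    rw [← e, mul_inv_rev, inv_inv, e]

theorem yD : z * (x) ∈ 𝒟 := mul_mem (left_mem_D9 _ _) (right_mem_D9 _ _)

theorem sy {s : G} (hs : Φ s s6) : s * (z * (x)) = z * (x) * s :=
  cent_of_three h.b9.mul_cube (h.CJV (conj_mem_of_mem_N (h.MN (h.φ.mem hs)) h.yJ)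
    (h.comm_Φ h.yJ hs h.Φv (h.φ.cast h.Φt (by decide +kernel)) h.vy)
    (h.comm_Φ h.yJ hs (h.φ.mul h.Φt h.Φv) (h.φ.cast h.Φv (by decide +kernel))
      (comm_mul_of (h.ty h.yD).symm h.vy.symm).symm))
    (h.Jab.comm (h.φ.kerm (h.φ.pow hs 3) (by decide +kernel)) h.yJ)

theorem ginv : g * z * g⁻¹ = z⁻¹ ∧ g * (x) * g⁻¹ = (x)⁻¹ := by
  refine h.gz.resolve_left fun ⟨e1, e2⟩ => ?_
  have gD : ∀ d ∈ 𝒟, g * d = d * g := fun d hd => (mem_C.1 (h.b9.mem_C_iff.2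
    ⟨mul_inv_eq_iff_eq_mul.1 e1, mul_inv_eq_iff_eq_mul.1 e2⟩) d hd).symm
  obtain ⟨s, hs⟩ := h.φs s6 (by decide +kernel)
  obtain ⟨r, hr⟩ := h.φs r6 (by decide +kernel)
  have vg := h.φ.mul h.Φv h.Φg
  have f1 : v * g * (z * (x)) = z * (x) * (v * g) := (comm_mul_of h.vy.symm (gD _ h.yD).symm).symm
  have f2 := conj_mem_of_mem_N (h.MN (h.φ.mem hr)) h.yJ
  have f3 := h.comm_Φ h.yJ hr vg (h.φ.cast h.Φt (by decide +kernel)) f1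
  have f4 := h.comm_Φ h.yJ hr (h.φ.mul h.Φt vg) (h.φ.cast vg (by decide +kernel))
    (comm_mul_of (h.ty h.yD).symm f1.symm).symm
  have f5 := gD _ (h.CSt (h.JS f2) (mem_C1.2 f3.symm))
  have hr' : r ∈ N (zpowers (z * (x))) := mem_N_zpowers (h.CJV f2 f3 (mul_right_cancel (b := g)
    (by rw [mul_assoc v, ← f5, ← mul_assoc v, f4, mul_assoc _ v])))
  have cn : ∀ {k : G}, k * (z * (x)) = z * (x) * k → k ∈ N (zpowers (z * (x))) := Hyp0.CN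
  have f6 := h.φ.eqv h.Φp2 (h.φ.cast (h.φ.conj (h.φ.mul h.Φv hs) hr) (by decide +kernel))
  have f7 := mul_mem (cn h.vy) (cn (h.sy hs))
  have f8 := (mul_mem_cancel_right (inv_mem (mul_mem (mul_mem f7 hr') (inv_mem f7)))).1
    (cn (h.Jab.comm f6 h.yJ))
  have f9 := cent_of_three h.b9.mul_cube (conj_mem_of_mem_N f8 (mem_zpowers _))
    (by rw [h.Q3 _ h.p2Q]; simp)
  rw [← mul_assoc p2, h.zc h.p2Q, mul_assoc z, mul_assoc z, mul_left_cancel_iff] at f9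
  exact absurd ((h.co_J h.co2).1 (h.J_of_cm h.p2Q (by rw [cm_eq_one.2 f9.symm]; exact one_mem _)))
    (by decide)

theorem nf {y u γ : G} {σ : S6} (hy : y ∈ J) (hu : Φ u σ) (σ2 : σ * σ = 1) (σ1 : σ ≠ 1)
    (σt : σ ≠ t6) (σc : σ * t6 = t6 * σ) (e1 : t * y = y * (t)) (e2 : u * y = y * u)
    (e : γ * y * γ⁻¹ ∈ 𝒵) : y = 1 := by
  have := Fact.mk Nat.prime_three
  by_contra y1
  have hc : C1 (γ * y * γ⁻¹) ≤ C1 z := by
    rcases mem_zpowers_three h.z3 e with e | e | e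
    exacts [absurd e (conj_ne_one y1 γ), e ▸ le_rfl, by rw [e, C1_inv]]
  obtain ⟨c, hc', hle⟩ := (h.syl.of_le (K := C1 z) (h.SL.trans h.LC) le_top).exists_le_cj
    (X := cj γ J) ((cj_mono fun j hj => mem_C1.2 (h.Jab.comm hj hy)).trans (cj_C1 γ y ▸ hc))
    (isPGroup_cj (isPGroup_of_pow (k := 1) h.J3) γ)
  have hm : c⁻¹ * γ ∈ N J := h.NJ_of (by rwa [← cj_cj, ← le_cj_iff])
  have e' : c⁻¹ * γ * y * (c⁻¹ * γ)⁻¹ = γ * y * γ⁻¹ := by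
    rw [← mem_C1_iff_conj.1 (C1_le_C1_of_mem_zpowers e (inv_mem hc'))]; group
  generalize c⁻¹ * γ = m at hm e'
  have key : ∀ {k κ}, Φ k κ → k * y = y * k → ∃ ρ, Φ (m * k * m⁻¹) ρ ∧ N9 ρ := fun {k κ} hk e => by
    have f := h.Mn m hm k (h.φ.mem hk)
    obtain ⟨ρ, hρ⟩ := h.φ.ex f
    exact ⟨ρ, hρ, h.N9_of_NS hρ (h.NS_of (Hyp0.CN (mem_C1.1 (hc (mem_C1.2
      (e' ▸ comm_conj_both e))))) (h.MN f))⟩
  have k2 : ∀ {k κ ρ}, Φ k κ → Φ (m * k * m⁻¹) ρ → (ρ = 1 ↔ κ = 1) := fun hk hρ => by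
    rw [h.φ.ker hk, h.φ.ker hρ, conj_mem_N_iff hm]
  obtain ⟨ρ1, a1, a2⟩ := key h.Φt e1
  obtain ⟨ρ2, b1, b2⟩ := key hu e2
  have i : ∀ {k κ ρ}, Φ k κ → Φ (m * k * m⁻¹) ρ → Φ (m * k⁻¹ * m⁻¹) ρ⁻¹ := fun _ hρ => by
    rw [← conj_inv]; exact h.φ.inv hρ
  have m' : ∀ {k l ρ ρ'}, Φ (m * k * m⁻¹) ρ → Φ (m * l * m⁻¹) ρ' →
      Φ (m * (k * l) * m⁻¹) (ρ * ρ') := fun h1 h2 => by
    rw [← conj_mul]; exact h.φ.mul h1 h2
  have := nf6 ρ1 ((k2 (h.φ.mul h.Φt h.Φt) (m' a1 a1)).2 (by decide +kernel))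
    (mt (k2 h.Φt a1).1 (by decide +kernel)) a2 (h.φe a1) ρ2
    (mul_inv_eq_one.1 ((k2 (h.φ.mul (h.φ.mul hu h.Φt) (h.φ.inv (h.φ.mul h.Φt hu)))
      (m' (m' b1 a1) (i (h.φ.mul h.Φt hu) (m' a1 b1)))).2 (by rw [σc, mul_inv_cancel])))
    ((k2 (h.φ.mul hu hu) (m' b1 b1)).2 σ2) (mt (k2 hu b1).1 σ1) b2 (h.φe b1)
  exact σt (mul_inv_eq_one.1 ((k2 (h.φ.mul hu (h.φ.inv h.Φt)) (m' b1 (i h.Φt a1))).1
    (by rw [this, mul_inv_cancel])))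

theorem zcls {γ : G} (hd : γ * z * γ⁻¹ ∈ 𝒟) : ∃ i, γ * z * γ⁻¹ = pt z (x) i := by
  have b := h.b9
  have n1 : ∀ δ : G, δ * (z * (x)) * δ⁻¹ ∉ 𝒵 := fun δ e => b.mul_ne_one (h.nf h.yJ h.Φv
    (by decide +kernel) (by decide +kernel) (by decide +kernel) (by decide +kernel) (h.ty h.yD)
    h.vy e)
  have n2 : ∀ δ : G, δ * (z * (x)⁻¹) * δ⁻¹ ∉ 𝒵 := fun δ e => b.mul_inv_ne_one (h.nf
    (mul_mem h.zJ (inv_mem h.xJ)) (h.φ.mul h.Φv h.Φg) (by decide +kernel) (by decide +kernel)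
    (by decide +kernel) (by decide +kernel)
    (h.ty (mul_mem (left_mem_D9 _ _) (inv_mem (right_mem_D9 _ _)))) (mul_inv_eq_iff_eq_mul.1 (by
      rw [show v * g * (z * (x)⁻¹) * (v * g)⁻¹ = v * (g * z * g⁻¹ * (g * (x) * g⁻¹)⁻¹) * v⁻¹ by group,
        h.ginv.1, h.ginv.2, inv_inv, ← conj_mul, ← conj_inv, h.vx]
      exact (Commute.inv_right b.comm).symm)) e)
  have k : ∀ {y : G}, γ * z * γ⁻¹ = y → γ⁻¹ * y * γ⁻¹⁻¹ ∈ 𝒵 := fun e => by rw [← e]; simp [mul_assoc]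
  have k' : ∀ {y : G}, γ * z * γ⁻¹ = y⁻¹ → γ⁻¹ * y * γ⁻¹⁻¹ ∈ 𝒵 := fun e =>
    inv_mem_iff.1 (by rw [conj_inv]; exact k e)
  rcases b.mem' hd with r | r | r | r | r | r | r | r | r
  exacts [absurd r (conj_ne_one h.z1 γ), ⟨0, r⟩, ⟨2, r⟩, ⟨1, r⟩, ⟨3, r⟩, absurd (k r) (n1 _),
    absurd (k' r) (n1 _), absurd (k r) (n2 _), absurd (k' r) (n2 _)]

theorem xcls {γ : G} (hd : γ * (x) * γ⁻¹ ∈ 𝒟) : ∃ i, γ * (x) * γ⁻¹ = pt z (x) i := by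
  have e : γ * (x) * γ⁻¹ = γ * v * z * (γ * v)⁻¹ := by group
  rw [e] at hd ⊢
  exact h.zcls hd

theorem vD : v ∈ N 𝒟 := mem_N_of_cj_le (by
  rw [B9.cj_D9, h.vx]; exact D9_le (right_mem_D9 _ _) (left_mem_D9 _ _))

theorem DS : 𝒟 ≤ S := h.DJ.trans h.JS

theorem ND {k : G} (hk : k ∈ N 𝒟) : k ∈ N 𝒵 ∨ v * k ∈ N 𝒵 := by
  obtain ⟨i, e⟩ := h.zcls (conj_mem_of_mem_N hk (left_mem_D9 _ _))
  have f : v * k * z * (v * k)⁻¹ = v * (k * z * k⁻¹) * v⁻¹ := by group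
  rw [e] at f
  fin_cases i
  · exact Or.inl (mem_N_zpowers (mz e))
  · exact Or.inr (mem_N_zpowers (mz (f.trans h.vx)))
  · exact Or.inl (mem_N_zpowers (mzi e))
  · exact Or.inr (mem_N_zpowers (mzi (f.trans (conj_inv.symm.trans (congrArg _ h.vx)))))

theorem NS_of_D {k : G} (h1 : k ∈ N 𝒵) (hk : k ∈ N 𝒟) : k ∈ N S :=
  h.NS_of_x h1 (h.DS (conj_mem_of_mem_N hk (right_mem_D9 _ _)))

theorem ND_NJ : N 𝒟 ≤ N J := fun _ hk => (h.ND hk).elim (fun e => h.NS_NJ (h.NS_of_D e hk))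
  fun e => (mul_mem_cancel_left (h.MN h.vM)).1 (h.NS_NJ (h.NS_of_D e (mul_mem h.vD hk)))

theorem xsign {k : G} (h1 : k ∈ N 𝒵) (hk : k ∈ N 𝒟) :
    k * (x) * k⁻¹ = x ∨ k * (x) * k⁻¹ = (x)⁻¹ := by
  obtain ⟨i, e⟩ := h.xcls (conj_mem_of_mem_N hk (right_mem_D9 _ _))
  have f : k * (x) * k⁻¹ ∉ 𝒵 := fun e => h.b9.ind (by
    simpa [mul_assoc] using conj_mem_of_mem_N (inv_mem h1) e)
  fin_cases i
  exacts [absurd (mz e) f, Or.inl e, absurd (mzi e) f, Or.inr e]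

theorem NJK {k : G} (h1 : k ∈ N J) (h2 : k ∈ C1 (t)) : k ∈ N 𝒟 := mem_N_of_conj fun d hd =>
  h.CSt (h.JS (conj_mem_of_mem_N h1 (h.DJ hd))) (mul_mem (mul_mem h2 (h.DK hd)) (inv_mem h2))

theorem sylD : SylIn 3 𝒟 (C1 (t)) := by
  refine sylIn_of_sylIn_N Nat.prime_three ⟨le_inf h.DK (le_N _), h.b9.isPGroup,
    fun T h1 h2 h3 => le_antisymm (fun k hk => ?_) h3⟩
  obtain ⟨n, hn⟩ := h2 ⟨k, hk⟩
  replace hn : k ^ 3 ^ n = 1 := congrArg Subtype.val hn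
  obtain ⟨σ, hσ⟩ := h.φ.ex (h.M3 k (h.ND_NJ (h1 hk).2) n hn)
  have f1 := d8_pow σ (h.φ.comm hσ h.Φt (mem_C1.1 (h1 hk).1)) (h.φe hσ)
  refine h.CSt (h.JS (h.φ.kerm hσ (eq_one_of_coprime_of_pow (p := 3) (Nat.Coprime.coprime_dvd_left
    (orderOf_dvd_of_pow_eq_one f1) (by norm_num)) (h.φ.eq_of (h.φ.pow hσ _) h.φ.one hn)))) (h1 hk).1

theorem Cy : C1 (z * (x)) ≤ N J := by
  have := Fact.mk Nat.prime_three
  obtain ⟨s, hs⟩ := h.φs s6 (by decide +kernel)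
  have s3 := h.φ.kerm (h.φ.pow hs 3) (by decide +kernel)
  have JC : J ≤ C1 (z * (x)) := fun j hj => mem_C1.2 (h.Jab.comm hj h.yJ)
  have sC := mem_C1.2 (h.sy hs)
  have n := nrm_Op_self 3 (C1 (z * (x)))
  have hP : IsPGroup 3 (zpowers s ⊔ J ⊔ Op 3 (C1 (z * (x))) : Subgroup G) :=
    CfsgH6.Nrm.isPGroup_sup (n.mono (sup_le (zpowers_le.2 sC) JC))
      (CfsgH6.Nrm.isPGroup_sup (nrm_zpowers_iff.2 (h.MN (h.φ.mem hs))) (isPGroup_zpowers (k := 2)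
        (by rw [pow_two, pow_mul]; exact h.J3 _ s3)) (isPGroup_of_pow (k := 1) h.J3))
      (isPGroup_Op _ _)
  obtain ⟨γ, -, hγ⟩ := h.syl.exists_le_cj le_top hP
  rw [le_cj_iff] at hγ
  have hm : γ⁻¹ ∈ N J := h.NJ_of ((cj_mono (le_sup_right.trans le_sup_left)).trans hγ)
  have k1 : ∀ k ∈ zpowers s ⊔ J ⊔ Op 3 (C1 (z * (x))), ∃ u, Φ (γ⁻¹ * k * γ⁻¹⁻¹) (e6 u) :=
    fun k hk => by
      have f := hγ (conj_mem_cj.2 hk)
      obtain ⟨a, ha⟩ := h.φ.ex (h.SM f)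
      obtain ⟨u, rfl⟩ := p9_ex a ((h.ΦS ha).1 f)
      exact ⟨u, ha⟩
  have k2 : ∀ k, γ⁻¹ * k * γ⁻¹⁻¹ ∈ J → k ∈ J := fun k => (conj_mem_N_iff hm).1
  have k3 : ∀ o ∈ Op 3 (C1 (z * (x))), ∀ σ, Φ o σ → σ * s6 = s6 * σ ∧ σ ^ 3 = 1 := fun o ho σ hσ => by
    obtain ⟨a, ha⟩ := k1 o (mem_sup_right ho)
    obtain ⟨b, hb⟩ := k1 s (mem_sup_left (mem_sup_left (mem_zpowers s)))
    refine ⟨mul_inv_eq_one.1 ((h.φ.ker (h.φ.mul (h.φ.mul hσ hs) (h.φ.inv (h.φ.mul hs hσ)))).2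
      (k2 _ ?_)), (h.φ.ker (h.φ.pow hσ 3)).2 (k2 _ ?_)⟩
    · convert h.φ.kerm (h.φ.mul (h.φ.mul ha hb) (h.φ.inv (h.φ.mul hb ha)))
        (by rw [← e6_add, ← e6_add, add_comm, mul_inv_cancel]) using 1
      group
    · rw [← conj_pow]
      exact h.φ.kerm (h.φ.pow ha 3) ((by decide +kernel : ∀ u, e6 u ^ 3 = 1) a)
  have h1 : Op 3 (C1 (z * (x))) ≤ J := fun o ho => by
    obtain ⟨a, ha⟩ := k1 o (mem_sup_right ho)
    obtain ⟨σ, hσ⟩ := h.φ.ex (g := o) (by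
      simpa [mul_assoc] using h.Mn _ (inv_mem hm) _ (h.φ.mem ha))
    exact h.φ.kerm hσ (cs6 σ (k3 o ho σ hσ).1
      (k3 _ (n v (mem_C1.2 h.vy) o ho) _ (h.φ.conj h.Φv hσ)).1 (k3 o ho σ hσ).2)
  have h2 := le_antisymm h1 ((h.Jab.trans (C_anti h1)).trans (h.iii _ h.yJ h.b9.mul_ne_one))
  exact (h2 ▸ n).le_N

theorem CKy {k : G} (h1 : k ∈ C1 (t)) (h2 : k ∈ C1 (z * (x))) : k ∈ C 𝒟 ∨ v * k ∈ C 𝒟 := by
  have key : ∀ k ∈ N 𝒟, k ∈ C1 (z * (x)) → k ∈ N 𝒵 → k ∈ C 𝒟 := fun k h1 h2 h3 => by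
    have e := mem_C1_iff_conj.1 h2
    rw [← conj_mul] at e
    have f : k * z * k⁻¹ = z := (h.sign_z h3).resolve_right fun e1 => by
      rw [e1] at e
      rcases h.xsign h3 h1 with e2 | e2 <;> rw [e2] at e
      · exact h.z1 (eq_one_of_inv_eq h.z3 (mul_right_cancel e))
      · rw [← mul_inv_rev, ← h.b9.comm] at e
        exact h.b9.mul_ne_one (eq_one_of_inv_eq h.b9.mul_cube e)
    rw [f, mul_left_cancel_iff] at e
    exact h.b9.mem_C_iff.2 ⟨mul_inv_eq_iff_eq_mul.1 f, mul_inv_eq_iff_eq_mul.1 e⟩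
  have f := h.NJK (h.Cy h2) h1
  exact (h.ND f).imp (key k f h2) (key _ (mul_mem h.vD f) (mul_mem (mem_C1.2 h.vy) h2))

end Hyp
end CfsgH3.Md
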