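import Cfsg.Agent.H3.MdA2
import Cfsg.Agent.H3.MdD
import Cfsg.Agent.H7.Loc5

/-! Recognition of `A₈` and `S₈` from the 3-local data of the centralizer of `t`. -/

set_option autoImplicit false
set_option linter.unusedSectionVars false
set_option synthInstance.maxSize 4096

namespace CfsgH3.Md
open Subgroup CfsgH5 CfsgH6 CfsgFT CfsgH7 CfsgH7.F5 CfsgH8 Equiv X32

universe u
variable {G : Type u} [Group G]

def R5 : A5 := sw2 2 3 0 1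

def n3 (p : S3) : ℕ := if p = 1 ∨ p = τ then 0 else if p = ζ ∨ p = ζ * τ then 1 else 2

theorem n3_mul : ∀ p q : S3, (Perm.sign p = 1 → n3 (p * q) % 3 = (n3 p + n3 q) % 3) ∧
    (Perm.sign p ≠ 1 → n3 (p * q) % 3 = (n3 p + 2 * n3 q) % 3) := by decide +kernel

theorem n3_zero : ∀ p : S3, Perm.sign p = 1 → p = 1 ∨ n3 p = 1 ∨ n3 p = 2 := by decide +kernel

theorem cent_ω' : ∀ π : S5, π * ω * π⁻¹ = ω → ∃ i : Fin 3,
    π * (ω5 ^ i.val).1⁻¹ = 1 ∨ Perm.sign π ≠ 1 ∧ π * swap 0 1 * (ω5 ^ i.val).1⁻¹ = 1 := by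
  decide +kernel

theorem inv_ω' : ∀ π : S5, π * ω * π⁻¹ = ω⁻¹ → π * π = 1 := by decide +kernel

theorem sign_ne {α : Type*} [Fintype α] [DecidableEq α] {a : Perm α} :
    Perm.sign a ≠ 1 ↔ Perm.sign a = -1 :=
  ⟨(Int.units_eq_one_or _).resolve_left, fun e => by rw [e]; decide⟩

/-- The data in the centralizer of `t` modulo `t`. -/
structure Bar (κ : A5 →* G) (z g v : G) : Prop where
  inj : Function.Injective κ
  b9 : B9 z (κ ω5)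
  syl : SylIn 3 (D9 z (κ ω5)) ⊤
  zκ : Ind κ z 1
  g2 : g * g = 1
  gz : g * z * g⁻¹ = z⁻¹
  gx : g * κ ω5 * g⁻¹ = (κ ω5)⁻¹
  v2 : v * v = 1
  vz : v * z * v⁻¹ = κ ω5
  ind : ∀ k ∈ N (zpowers z), ∃ π, Ind κ k π
  cx : ∀ k, k * z = z * k → Ind κ k 1 → k ∈ D9 z (κ ω5)
  odd : ∀ b : A5, ¬ Ind κ g b
  cls : ∀ γ, γ * z * γ⁻¹ ∈ D9 z (κ ω5) → ∃ i, γ * z * γ⁻¹ = pt z (κ ω5) i
  cy : ∀ k ∈ C1 (z * κ ω5), k ∈ C (D9 z (κ ω5)) ∨ v * k ∈ C (D9 z (κ ω5))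
  w8 : v * κ R5 * v⁻¹ * κ R5 * g ∈ D9 z (κ ω5)

theorem ind_one' {κ : A5 →* G} : Ind κ 1 1 := ind_one.2 fun _ => by simp

theorem Ind.pow {κ : A5 →* G} {g : G} {π : S5} (h : Ind κ g π) (n : ℕ) :
    Ind κ (g ^ n) (π ^ n) := by
  induction n with
  | zero => simpa using ind_one'
  | succ n ih => rw [pow_succ, pow_succ]; exact ih.mul h

theorem Ind.cast {κ : A5 →* G} {g : G} {π ρ : S5} (h : Ind κ g π) (e : π = ρ) : Ind κ g ρ := e ▸ h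

namespace Bar
variable [Finite G] {κ : A5 →* G} {z g v : G} (h : Bar κ z g v)
include h

local notation "x" => κ ω5
local notation "𝒟" => D9 z (κ ω5)

theorem zk (a : A5) : κ a * z = z * κ a := (ind_one.1 h.zκ a).symm

theorem zne : z⁻¹ ≠ z := fun e => h.b9.a1 (eq_one_of_inv_eq h.b9.a3 e)

theorem sgn {k : G} (hk : k ∈ N (zpowers z)) : k * z * k⁻¹ = z ∨ k * z * k⁻¹ = z⁻¹ :=
  (mem_zpowers_three h.b9.a3 (conj_mem_of_mem_N hk (mem_zpowers z))).resolve_left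
    (conj_ne_one h.b9.a1 k)

theorem ind_ω {k : G} {π : S5} (h1 : Ind κ k π) {a : A5} (e : k * x * k⁻¹ = κ a) :
    π * ω * π⁻¹ = a := ω5_val ▸ congrArg Subtype.val (h.inj ((h1 ω5).symm.trans e))

theorem indD {d : G} (hd : d ∈ 𝒟) : ∃ n : ℕ, Ind κ d (ω5 ^ n : A5) ∧ d * (κ (ω5 ^ n))⁻¹ ∈ zpowers z := by
  obtain ⟨i, j, rfl⟩ := h.b9.mem hd
  refine ⟨j.val, ((h.zκ.pow i.val).mul ((ind_self κ ω5).pow j.val)).cast (by simp), ?_⟩
  rw [map_pow, el, mul_inv_cancel_right]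
  exact npow_mem_zpowers _ _

theorem cz {k : G} (h1 : k * z = z * k) (h2 : Ind κ k 1) : k ∈ zpowers z := by
  obtain ⟨n, e1, e2⟩ := h.indD (h.cx k h1 h2)
  rwa [show ω5 ^ n = 1 from Subtype.ext (e1.uniq h.inj h2), map_one, inv_one, mul_one] at e2

theorem exists_g : ∃ π, Ind κ g π ∧ Perm.sign π ≠ 1 ∧ π * π = 1 := by
  obtain ⟨π, e⟩ := h.ind g (mem_N_zpowers (mzi h.gz))
  exact ⟨π, e, fun e' => h.odd ⟨π, e'⟩ e, inv_ω' π (ω5_val ▸ h.ind_ω e (h.gx.trans (map_inv κ _).symm))⟩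

theorem CD {k : G} (hk : k ∈ C 𝒟) : k ∈ 𝒟 ∨ ∃ π, Ind κ k π ∧ Perm.sign π ≠ 1 ∧
    ∀ s, s * z = z * s → Ind κ s (swap 0 1) → k * s ∈ 𝒟 := by
  obtain ⟨e1, e2⟩ := h.b9.mem_C_iff.1 hk
  obtain ⟨π, e⟩ := h.ind k (Hyp0.CN e1)
  obtain ⟨i, e3⟩ := cent_ω' π (ω5_val ▸ h.ind_ω e (mul_inv_eq_iff_eq_mul.2 e2))
  have key : ∀ k π, k * z = z * k → Ind κ k π → π * (ω5 ^ i.val).1⁻¹ = 1 → k ∈ 𝒟 :=
    fun k π e1 e e3 => (mul_mem_cancel_right (inv_mem (map_pow κ ω5 i.val ▸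
      pow_mem (right_mem_D9 z x) i.val))).1 (h.cx _ (comm_mul_of e1.symm
        (Commute.inv_right (h.zk _).symm)).symm ((e.mul (ind_self κ _).inv).cast e3))
  exact e3.imp (key k π e1 e) fun e3 => ⟨π, e, e3.1, fun s s1 s2 =>
    key _ _ (comm_mul_of e1.symm s1.symm).symm (e.mul s2) e3.2⟩

theorem build {Γ : Type} [Group Γ] {ι : Γ →* S3 × S5} (hι : Function.Injective ι) {ψ : Γ →* G}
    (h1 : ∀ γ, ψ γ * z * (ψ γ)⁻¹ = if Perm.sign (ι γ).1 = 1 then z else z⁻¹)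
    (h2 : ∀ γ, Ind κ (ψ γ) (ι γ).2) (h3 : ∀ γ, Perm.sign (ι γ).1 = 1 → (ι γ).2 = 1 → ψ γ = 1)
    (h4 : ∀ k π p, Ind κ k π → (k * z * k⁻¹ = if Perm.sign p = 1 then z else z⁻¹) →
      ∃ γ, ι γ = (p, π)) :
    ∃ l : Γ →* G, Function.Injective l ∧ l.range = N (zpowers z) ∧
      (∀ γ, l γ = z ^ n3 (ι γ).1 * ψ γ) ∧ ∀ γ, Ind κ (l γ) (ι γ).2 := by
  have z3 := h.b9.a3
  let l : Γ →* G := MonoidHom.mk' (fun γ => z ^ n3 (ι γ).1 * ψ γ) fun a b => by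
    have e : ψ a * z ^ n3 (ι b).1 = (ψ a * z * (ψ a)⁻¹) ^ n3 (ι b).1 * ψ a := by
      rw [conj_pow, inv_mul_cancel_right]
    simp only [map_mul, Prod.fst_mul]
    rw [mul_assoc, ← mul_assoc (ψ a), e, h1, ← mul_assoc, ← mul_assoc, ← mul_assoc,
      pow_eq_pow_mod _ z3]
    split_ifs with e'
    · rw [(n3_mul _ _).1 e', ← pow_eq_pow_mod _ z3, pow_add]
    · rw [(n3_mul _ _).2 e', ← pow_eq_pow_mod _ z3, pow_add, pow_mul,
        show z ^ 2 = z⁻¹ by rw [eq_inv_iff_mul_eq_one, ← pow_succ, z3]]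
  have l1 : ∀ γ, l γ = z ^ n3 (ι γ).1 * ψ γ := fun _ => rfl
  have l2 : ∀ γ, Ind κ (l γ) (ι γ).2 := fun γ => ((h.zκ.pow _).mul (h2 γ)).cast (by simp)
  have l3 : ∀ γ, l γ * z * (l γ)⁻¹ = if Perm.sign (ι γ).1 = 1 then z else z⁻¹ := fun γ => by
    rw [l1, show ∀ a b : G, a * b * z * (a * b)⁻¹ = a * (b * z * b⁻¹) * a⁻¹ from fun a b => by group,
      h1]
    split_ifs <;> group
  refine ⟨l, (injective_iff_map_eq_one l).2 fun γ e => ?_, le_antisymm ?_ fun k hk => ?_, l1, l2⟩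
  · have e1 : (ι γ).2 = 1 := (l2 γ).uniq h.inj (e ▸ ind_one')
    have e2 : Perm.sign (ι γ).1 = 1 := by
      by_contra e2
      exact h.zne (by simpa [e, e2] using (l3 γ).symm)
    rw [l1, h3 γ e2 e1, mul_one] at e
    refine (injective_iff_map_eq_one ι).1 hι γ (Prod.ext ?_ e1)
    rcases n3_zero _ e2 with e3 | e3 | e3
    · exact e3
    · exact absurd (by simpa [e3] using e) h.b9.a1
    · exact absurd (eq_one_of_sq_cube (by simpa [e3, pow_two] using e) z3) h.b9.a1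
  · rintro _ ⟨γ, rfl⟩
    refine mem_N_zpowers ?_
    rw [l3]
    split_ifs
    exacts [mz rfl, mzi rfl]
  · obtain ⟨π, hπ⟩ := h.ind k hk
    obtain ⟨p, hp⟩ : ∃ p : S3, k * z * k⁻¹ = if Perm.sign p = 1 then z else z⁻¹ :=
      (h.sgn hk).elim (fun e => ⟨1, by simpa using e⟩) fun e => ⟨τ, by
        rwa [if_neg (by decide +kernel)]⟩
    obtain ⟨γ, hγ⟩ := h4 k π p hπ hp
    obtain ⟨γ', hγ'⟩ := h4 1 1 ζ ind_one' (by rw [if_pos (by decide +kernel)]; simp)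
    have e1 : l γ' = z := by
      rw [l1, h3 γ' (by rw [hγ']; decide +kernel) (by rw [hγ']), hγ', mul_one]; exact pow_one z
    have e2 := l3 γ
    rw [hγ, ← hp] at e2
    exact (mul_mem_cancel_left (inv_mem (⟨γ, rfl⟩ : l γ ∈ l.range))).1
      (zpowers_le.2 (⟨γ', e1⟩ : z ∈ l.range) (h.cz
      (by rw [mul_assoc, mul_inv_eq_iff_eq_mul.1 e2.symm]; group)
      (((l2 γ).inv.mul hπ).cast (by rw [hγ, inv_mul_cancel]))))

theorem hz {n : ℕ} (e : Nat.card (N (zpowers z)) = n * 2) : Nat.card (C1 z) = n := by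
  have := card_mul_relIndex (X := C1 z) (Y := N (zpowers z)) fun k hk => Hyp0.CN (mem_C1.1 hk)
  rw [relIndex_eq_two_of (mem_N_zpowers (mzi h.gz)) (fun e => h.zne (h.gz.symm.trans
    (mem_C1_iff_conj.1 e))) fun k hk hk' => mem_C1_iff_conj.2 (by
      rw [show g * k * z * (g * k)⁻¹ = g * (k * z * k⁻¹) * g⁻¹ by group,
        (h.sgn hk).resolve_left (mt mem_C1_iff_conj.2 hk'), ← conj_inv, h.gz, inv_inv])] at this
  omega

theorem vx : v * x * v⁻¹ = z := h.vz ▸ conj_invol h.v2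

theorem vC : v ∉ C 𝒟 := fun e => h.b9.ind (mz (h.vz.symm.trans
  (mul_inv_eq_iff_eq_mul.2 (h.b9.mem_C_iff.1 e).1)))

theorem vy : v ∈ C1 (z * x) := mem_C1_iff_conj.2 (by rw [← conj_mul, h.vz, h.vx, h.b9.comm])

theorem yD : z * x ∈ 𝒟 := mul_mem (left_mem_D9 _ _) (right_mem_D9 _ _)

theorem hy : Nat.card (C1 (z * x)) = Nat.card (C 𝒟) * 2 := by
  rw [← card_mul_relIndex (C_le_C1 h.yD),
    relIndex_eq_two_of h.vy h.vC fun k hk hk' => (h.cy k hk).resolve_left hk']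

theorem fz : κ R5 * z * (κ R5)⁻¹ = z := mul_inv_eq_iff_eq_mul.2 (h.zk _)
theorem fx : κ R5 * x * (κ R5)⁻¹ = (x)⁻¹ :=
  (rel_conj κ (by decide +kernel)).trans (map_inv κ ω5)

theorem d8 : ∃ φ : N 𝒟 →* DihedralGroup 4, Function.Surjective φ ∧ ∀ g, φ g = 1 ↔ g.1 ∈ C 𝒟 :=
  exists_d8 h.b9 (fun n hn => by
    have e : n * x * n⁻¹ = n * v * z * (n * v)⁻¹ := by rw [← h.vz]; group
    obtain ⟨i, hi⟩ := h.cls n (conj_mem_of_mem_N hn (left_mem_D9 _ _))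
    obtain ⟨j, hj⟩ := h.cls (n * v) (e ▸ conj_mem_of_mem_N hn (right_mem_D9 _ _))
    exact ⟨i, j, hi, e.trans hj⟩) h.fz h.fx h.vz h.vx

theorem nD {k : G} (e1 : k * z * k⁻¹ ∈ 𝒟) (e2 : k * x * k⁻¹ ∈ 𝒟) : k ∈ N 𝒟 :=
  mem_N_of_cj_le (by rw [B9.cj_D9]; exact D9_le e1 e2)

theorem vN : v ∈ N 𝒟 := h.nD (h.vz ▸ right_mem_D9 _ _) (by rw [h.vx]; exact left_mem_D9 _ _)
theorem fN : κ R5 ∈ N 𝒟 := h.nD (by rw [h.fz]; exact left_mem_D9 _ _)
  (by rw [h.fx]; exact inv_mem (right_mem_D9 _ _))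
theorem gN : g ∈ N 𝒟 := h.nD (by rw [h.gz]; exact inv_mem (left_mem_D9 _ _))
  (by rw [h.gx]; exact inv_mem (right_mem_D9 _ _))

theorem sgn_l {l : S5 →* G} (l1 : ∀ a : A5, l a = κ a) {π : S5} (hπ : Perm.sign π ≠ 1)
    {ρ : S5} (h1 : Ind κ (l π) π) : Ind κ (l ρ) ρ ∧ l ρ * z * (l ρ)⁻¹ =
      if Perm.sign ρ = 1 then z else l π * z * (l π)⁻¹ := by
  split_ifs with e
  · rw [l1 ⟨ρ, e⟩]
    exact ⟨ind_self κ _, mul_inv_eq_iff_eq_mul.2 (h.zk _)⟩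
  · have e' : π⁻¹ * ρ ∈ alternatingGroup (Fin 5) := by
      rw [Perm.mem_alternatingGroup, map_mul, Perm.sign_inv, sign_ne.1 e, sign_ne.1 hπ]; rfl
    have e2 : l ρ = l π * κ ⟨_, e'⟩ := by rw [← l1, ← map_mul]; simp
    rw [e2]
    exact ⟨(h1.mul (ind_self κ _)).cast (by simp), by rw [mul_assoc _ _ z, h.zk]; group⟩

theorem caseA (hA : ∀ k π, k * z = z * k → Ind κ k π → Perm.sign π = 1) : Nonempty (G ≃* A8) := by
  obtain ⟨π, g1, g2, g3⟩ := h.exists_g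
  obtain ⟨l2, a1, a2⟩ := exists_l2 g1 (sign_ne.1 g2) g3 h.g2
  have a3 := fun ρ => h.sgn_l a1 g2 (ρ := ρ) (a2.symm ▸ g1)
  have sg : ∀ γ : CfsgH7.L0, Perm.sign γ.1.1 = 1 ↔ Perm.sign γ.1.2 = 1 := fun γ =>
    (by decide : ∀ a b : ℤˣ, a * b = 1 → (a = 1 ↔ b = 1)) _ _ γ.2
  obtain ⟨l, l1, l3, l4, -⟩ := h.build (ι := CfsgH7.L0.subtype) Subtype.val_injective
    (ψ := l2.comp ((MonoidHom.snd _ _).comp CfsgH7.L0.subtype))
    (fun γ => ((a3 γ.1.2).2.trans (by rw [a2, h.gz])).trans (if_congr (sg γ).symm rfl rfl))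
    (fun γ => (a3 γ.1.2).1) (fun γ _ e => (congrArg l2 e).trans (map_one _)) fun k ρ p e1 e2 => by
      refine ⟨⟨(p, ρ), mem_L0.2 ?_⟩, rfl⟩
      split_ifs at e2 with e
      · rw [e, hA k ρ (mul_inv_eq_iff_eq_mul.1 e2) e1, one_mul]
      · have := hA _ _ (mul_inv_eq_iff_eq_mul.1 (by
          rw [show g * k * z * (g * k)⁻¹ = g * (k * z * k⁻¹) * g⁻¹ by group, e2, ← conj_inv, h.gz,
            inv_inv])) (g1.mul e1)
        rwa [map_mul, sign_ne.1 g2, ← sign_ne.1 e] at this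
  have e1 : l A8c.ζ0 = z := (l4 _).trans (by
    change z ^ n3 ζ * l2 1 = z
    rw [map_one, show n3 ζ = 1 by decide +kernel]; simp)
  have e2 : l A8c.ω0 = x := (l4 _).trans (by
    change z ^ n3 1 * l2 ω5 = x
    rw [a1]; simp [n3])
  have cD : C 𝒟 ≤ 𝒟 := fun k hk => (h.CD hk).resolve_right fun ⟨ρ, e, e', _⟩ =>
    e' (hA k ρ (h.b9.mem_C_iff.1 hk).1 e)
  obtain ⟨φ, -, hφ⟩ := h.d8
  refine A8c.Hyp.main (l := l) ⟨l1, ?_, ?_, ?_, ?_, ?_, ?_, ?_⟩ <;> simp only [e1, e2]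
  · exact l3
  · exact h.syl
  · exact cD
  · refine ⟨_, mul_mem h.fN h.vN, fun e => h.zne ?_⟩
    refine Eq.trans ?_ (mul_inv_eq_iff_eq_mul.2 (h.b9.mem_C_iff.1 (h.b9.ab e)).1)
    rw [show κ R5 * v * (κ R5 * v) * z * (κ R5 * v * (κ R5 * v))⁻¹ =
        κ R5 * (v * (κ R5 * (v * z * v⁻¹) * (κ R5)⁻¹) * v⁻¹) * (κ R5)⁻¹ by group, h.vz, h.fx,
      ← conj_inv, h.vx, ← conj_inv, h.fz]
  · refine fun k hk => cD ((hφ (⟨k, hk⟩ * ⟨k, hk⟩ * ⟨k, hk⟩ * ⟨k, hk⟩)).1 ?_)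
    rw [map_mul, map_mul, map_mul]
    exact (by decide : ∀ a : DihedralGroup 4, a * a * a * a = 1) _
  · exact ⟨_, h.yD, by rw [h.hy, le_antisymm cD h.b9.ab, h.b9.card]⟩
  · refine h.hz ?_
    rw [← l3, card_range_inj l1, card_of_pred _ fun _ => mem_L0]
    decide +kernel

theorem caseB {k : G} {ρ : S5} (k1 : k * z = z * k) (k2 : Ind κ k ρ) (k3 : Perm.sign ρ ≠ 1) :
    Nonempty (G ≃* S8) ∧ ∃ s, s * s = 1 ∧ s ∉ 𝒟 ∧ s ∈ C 𝒟 ∧ s * κ R5 = κ R5 * s ∧ s * g = g * s ∧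
      ∀ k ∈ C 𝒟, k ∈ 𝒟 ∨ k * s ∈ 𝒟 := by
  have ev : ∀ {a b : S5}, Perm.sign a ≠ 1 → Perm.sign b ≠ 1 → a⁻¹ * b ∈ alternatingGroup (Fin 5) :=
    fun ha hb => by
      rw [Perm.mem_alternatingGroup, map_mul, Perm.sign_inv, sign_ne.1 ha, sign_ne.1 hb]; rfl
  have sw : Perm.sign (swap 0 1 : S5) ≠ 1 := by decide +kernel
  obtain ⟨s, s1, s2, s3⟩ : ∃ s, s * z = z * s ∧ Ind κ s (swap 0 1) ∧ s * s = 1 := by
    have f1 := (comm_mul_of k1.symm (h.zk ⟨_, ev k3 sw⟩).symm).symm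
    have f2 := (k2.mul (ind_self κ ⟨_, ev k3 sw⟩)).cast (mul_inv_cancel_left _ _)
    refine ⟨_ ^ 3, Commute.pow_left f1 3, (f2.pow 3).cast (by decide +kernel), ?_⟩
    rw [← pow_add, show 3 + 3 = 2 * 3 from rfl, pow_mul]
    exact h.b9.cube (mem_sup_left (h.cz (Commute.pow_left f1 2) ((f2.pow 2).cast (by decide +kernel))))
  obtain ⟨π, g1, g2, -⟩ := h.exists_g
  obtain ⟨r, r1, r2⟩ : ∃ r, r * z * r⁻¹ = z⁻¹ ∧ Ind κ r 1 :=
    ⟨g * κ ⟨_, ev g2 sw⟩ * s, by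
      rw [mul_assoc _ s, s1, ← mul_assoc, mul_assoc g, h.zk, ← h.gz]; group,
      ((g1.mul (ind_self κ _)).mul s2).cast (by simp)⟩
  have zi : ∀ {u : G}, u ∈ zpowers z → r * u * r⁻¹ = u⁻¹ := fun hu => by
    obtain ⟨n, rfl⟩ := exists_pow_of_mem_zpowers h.b9.a3 hu
    rw [← conj_pow, r1, inv_pow]
  have c3 : ∀ {u : G}, u ∈ zpowers z → u ^ 3 = 1 := fun hu => h.b9.cube (mem_sup_left hu)
  have r3 : r * r = 1 := by
    have f := h.cz (k := r * r) (mul_inv_eq_iff_eq_mul.1 (by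
      rw [show r * r * z * (r * r)⁻¹ = r * (r * z * r⁻¹) * r⁻¹ by group, r1, ← conj_inv, r1, inv_inv]))
      ((r2.mul r2).cast (mul_one 1))
    exact eq_one_of_inv_eq (c3 f) ((zi f).symm.trans (by group))
  have rs : r * s = s * r := by
    have f0 : r * s * r⁻¹ * z = z * (r * s * r⁻¹) := comm_conj_of (by
      rw [show r⁻¹ * z * r = (r⁻¹ * (r * z * r⁻¹) * r)⁻¹ by rw [r1]; group]
      exact Commute.inv_right (by simpa [mul_assoc, commute_iff_eq] using s1))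
    have f1 := h.cz (comm_mul_of f0.symm (Commute.inv_right s1.symm)).symm
      ((((r2.mul s2).mul r2.inv).mul s2.inv).cast (by simp))
    have f2 := mem_C1.1 (C1_le_C1_of_mem_zpowers f1 (mem_C1.2 s1))
    have f3 := conj_mul_self s3 r
    rw [← inv_mul_cancel_right (r * s * r⁻¹) s] at f3
    refine mul_inv_eq_iff_eq_mul.1 (mul_inv_eq_one.1 (eq_one_of_sq_cube ?_ (c3 f1)))
    generalize r * s * r⁻¹ * s⁻¹ = u at f2 f3
    rwa [mul_assoc, ← mul_assoc s, f2, mul_assoc u s, s3, mul_one] at f3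
  obtain ⟨l3, a1, a2⟩ := exists_l2 s2 (sign_ne.1 sw) (swap_mul_self _ _) s3
  have a3 : ∀ q, Ind κ (l3 q) q ∧ l3 q * z * (l3 q)⁻¹ = z := fun q => by
    simpa only [a2, s1, mul_inv_cancel_right, ite_self] using
      h.sgn_l a1 sw (ρ := q) (a2.symm ▸ s2)
  let l1 : S3 →* G := MonoidHom.mk' (fun p => if Perm.sign p = 1 then 1 else r) fun a b => by
    rw [map_mul]
    rcases Int.units_eq_one_or (Perm.sign a) with e | e <;>
      rcases Int.units_eq_one_or (Perm.sign b) with e' | e' <;> simp [e, e', r3]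
  have b1 : ∀ p, l1 p = if Perm.sign p = 1 then 1 else r := fun _ => rfl
  have cm : ∀ p q, Commute (l1 p) (l3 q) := fun p q => by
    rw [b1]
    split_ifs
    · exact Commute.one_left _
    by_cases e : Perm.sign q = 1
    · exact a1 ⟨q, e⟩ ▸ ind_one.1 r2 _
    · rw [← mul_inv_cancel_left (swap 0 1) q, map_mul, a2, a1 ⟨_, ev sw e⟩]
      exact comm_mul_of rs (ind_one.1 r2 _)
  obtain ⟨l, l4, l5, l6, l7⟩ := h.build (ι := MonoidHom.id _) Function.injective_id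
    (ψ := MonoidHom.noncommCoprod l1 l3 cm)
    (fun γ => by
      change l1 γ.1 * l3 γ.2 * z * (l1 γ.1 * l3 γ.2)⁻¹ = if Perm.sign γ.1 = 1 then z else z⁻¹
      rw [show ∀ a b : G, a * b * z * (a * b)⁻¹ = a * (b * z * b⁻¹) * a⁻¹ from fun a b => by group,
        (a3 _).2, b1]
      split_ifs
      exacts [by simp, r1])
    (fun γ => by
      change Ind κ (l1 γ.1 * l3 γ.2) γ.2
      rw [b1]
      split_ifs
      exacts [(ind_one'.mul (a3 _).1).cast (one_mul _), (r2.mul (a3 _).1).cast (one_mul _)])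
    (fun γ e e' => by
      change l1 γ.1 * l3 γ.2 = 1
      rw [b1, if_pos (show Perm.sign γ.1 = 1 from e), show γ.2 = 1 from e', map_one, one_mul])
    fun _ _ _ _ _ => ⟨_, rfl⟩
  have l8 : ∀ p q, l (p, q) = z ^ n3 p * ((if Perm.sign p = 1 then 1 else r) * l3 q) :=
    fun p q => l6 (p, q)
  have e1 : l S8c.z0 = z := by
    rw [S8c.z0, l8, if_pos (by decide +kernel), map_one]; simp [show n3 ζ = 1 by decide +kernel]
  have e2 : l S8c.w0 = x := by rw [S8c.w0, l8, ← ω5_val, a1]; simp [n3]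
  have e3 : l S8c.s0 = s := by rw [S8c.s0, l8, a2]; simp [n3]
  have e4 : l (S8c.r1 1) = κ R5 := by
    rw [S8c.r1, l8, show R6 0 1 = R5.1 by decide +kernel, a1]; simp [n3]
  have sC : s ∈ C 𝒟 := h.b9.mem_C_iff.2 ⟨s1, mul_inv_eq_iff_eq_mul.1
    ((s2 ω5).trans (congrArg κ (by decide +kernel)))⟩
  have sD : s ∉ 𝒟 := fun e => absurd (s2.uniq h.inj (eq_one_of_sq_cube s3 (h.b9.cube e) ▸ ind_one'))
    (by decide +kernel)
  have cD : ∀ k ∈ C 𝒟, k ∈ 𝒟 ∨ k * s ∈ 𝒟 := fun k hk => (h.CD hk).imp_right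
    fun ⟨_, _, _, e⟩ => e s s1 s2
  have nS : ∀ n ∈ N 𝒟, s * n = n * s := fun n hn => by
    have f := conj_mul_self s3 n
    have f1 := nrm_N_C _ n hn _ sC
    rcases cD _ f1 with e | e
    · exact absurd ((conj_mem_N_iff hn).1 e) sD
    · have f2 := mem_C.1 sC _ e
      rw [mul_assoc, s3, mul_one, ← mul_assoc] at f2
      have f3 := eq_one_of_sq_cube (by
        rw [← mul_assoc, ← mul_assoc _ _ n⁻¹, ← mul_assoc]
        calc _ = n * s * n⁻¹ * (s * (n * s * n⁻¹) * s) := by group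
          _ = 1 := by rw [← f2, f]) (h.b9.cube e)
      rw [← inv_eq_self s3, mul_inv_eq_one, inv_eq_self s3] at f3
      exact (mul_inv_eq_iff_eq_mul.1 f3).symm
  have c18 : Nat.card (C 𝒟) = 18 := by
    rw [← card_mul_relIndex (show 𝒟 ≤ C 𝒟 from h.b9.ab), h.b9.card,
      relIndex_eq_two_of sC sD fun k hk hk' => nS k (C_le_N _ hk) ▸ (cD k hk).resolve_left hk']
  have hH : S8c.Hyp l := by
    refine ⟨l4, ?_, ?_, ?_, ?_, ?_, ?_⟩ <;> rw [e1] <;> try rw [e2]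
    · exact l5
    · exact h.syl
    · exact c18
    · exact h.d8
    · have f : C1 (z * x) ≤ N 𝒟 := fun k hk => (h.cy k hk).elim (fun e => C_le_N _ e)
        fun e => (mul_mem_cancel_left h.vN).1 (C_le_N _ e)
      have f1 : ∀ n ∈ N 𝒟, ∀ w, w * w = 1 → w ∈ N 𝒟 → w * n ∈ C 𝒟 → n * n ∈ 𝒟 :=
        fun n hn w w2 wN e => by
          have f2 : ∀ u, u * u = 1 → u * n = n * u → u * w = w * u → w * n * u ∈ 𝒟 → n * n ∈ 𝒟 :=
            fun u u2 un uw e => by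
              convert mul_mem (conj_mem_of_mem_N wN e) e using 1
              rw [← mul_assoc w, ← mul_assoc w, w2, one_mul, inv_eq_self w2, mul_assoc w,
                mul_assoc _ w, ← mul_assoc w, w2, one_mul, mul_assoc n, ← mul_assoc u, un,
                mul_assoc n, u2, mul_one]
          exact (cD _ e).elim (fun e => f2 1 (by simp) (by simp) (by simp) (by simpa using e))
            (f2 s s3 (nS n hn) (nS w wN))
      exact ⟨_, h.yD, by rw [h.hy, c18], f, fun k hk => (h.cy k hk).elim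
        (fun e => f1 k (f hk) 1 (by simp) (one_mem _) (by simpa using e))
        (f1 k (f hk) v h.v2 h.vN)⟩
    · exact h.hz (by rw [← l5, card_range_inj l4, Nat.card_prod, Nat.card_perm, Nat.card_perm]; simp; rfl)
  refine ⟨?_, s, s3, sD, sC, nS _ h.fN, nS _ h.gN, cD⟩
  obtain ⟨σ, ε, hσ⟩ := hH.exists_cfg
  fin_cases ε
  · exact hσ.caseT
  exfalso
  have b2 := hσ.σz
  have b3 := hσ.σw
  have b4 := hσ.σr'
  rw [e1, e2] at b2 b3
  replace b4 : σ * κ R5 * σ⁻¹ = l S8c.r0 := e4 ▸ b4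
  have b5 : v * σ⁻¹ ∈ C 𝒟 := h.b9.mem_C_iff.2 ⟨mul_inv_eq_iff_eq_mul.1 (by
    nth_rw 1 [← b3]; rw [← h.vx]; group), mul_inv_eq_iff_eq_mul.1 (by
      nth_rw 1 [← b2]; rw [← h.vz]; group)⟩
  obtain ⟨π', b6⟩ := h.ind _ (Hyp0.CN (h.b9.mem_C_iff.1 b5).1)
  have b7 : Ind κ (v * κ R5 * v⁻¹) 1 := by
    rw [show v * κ R5 * v⁻¹ = v * σ⁻¹ * (σ * κ R5 * σ⁻¹) * (v * σ⁻¹)⁻¹ by group, b4]
    exact ((b6.mul (l7 S8c.r0)).mul b6.inv).cast (by simp [S8c.r0])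
  obtain ⟨n, b8, -⟩ := h.indD h.w8
  have b9 := congrArg Perm.sign (((b7.mul (ind_self κ R5)).mul g1).uniq h.inj b8)
  rw [map_mul, one_mul, Perm.mem_alternatingGroup.1 R5.2, one_mul,
    Perm.mem_alternatingGroup.1 (ω5 ^ n).2] at b9
  exact g2 b9

theorem main : Nonempty (G ≃* A8) ∨ Nonempty (G ≃* S8) ∧ ∃ s, s * s = 1 ∧ s ∉ 𝒟 ∧ s ∈ C 𝒟 ∧
    s * κ R5 = κ R5 * s ∧ s * g = g * s ∧ ∀ k ∈ C 𝒟, k ∈ 𝒟 ∨ k * s ∈ 𝒟 := by
  by_cases hA : ∀ k π, k * z = z * k → Ind κ k π → Perm.sign π = 1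
  · exact Or.inl (h.caseA hA)
  · push Not at hA
    obtain ⟨k, π, e1, e2, e3⟩ := hA
    exact Or.inr (h.caseB e1 e2 e3)

end Bar
end CfsgH3.Md
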