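import Cfsg.Agent.H3.MdE

/-! The centralizer of `t` modulo `t`. -/

set_option autoImplicit false
set_option linter.unusedSectionVars false
set_option synthInstance.maxSize 4096

namespace CfsgH3.Md
open Subgroup CfsgH5 CfsgH6 CfsgFT CfsgH7 CfsgH7.F5 CfsgH8 Equiv X32

universe u
variable {G : Type u} [Group G]
variable [Finite G] {S J Q Q2 M0 L0 : Subgroup G} {z : G} {Φ : G → S6 → Prop} {Θ : G → S5 → Prop}

theorem Hyp0.cubeQ (h : Hyp0 S J Q Q2 M0 L0 z Φ Θ) {a b : G} (hb : b ∈ L0) (a3 : a ^ 3 = 1)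
    (b3 : b ^ 3 = 1) (e : a * b⁻¹ ∈ Q2) : a * b⁻¹ ∈ Q := by
  by_contra hn
  have n : ∀ u, u ∈ Q2 ∧ u ∉ Q → b * u * b⁻¹ ∈ Q2 ∧ b * u * b⁻¹ ∉ Q := fun u hu =>
    ⟨h.θ.nrm b hb u hu.1, mt (conj_mem_N_iff (h.nQ.le_N (h.LN hb))).1 hu.2⟩
  have f1 := n _ ⟨e, hn⟩
  have f2 := n _ f1
  refine f2.2 ((mul_mem_cancel_left (h.q2 _ e _ f1.1 hn f1.2)).1 ?_)
  convert one_mem Q using 1
  calc _ = a ^ 3 * (b ^ 3)⁻¹ := by simp [pow_succ, mul_assoc]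
    _ = 1 := by simp [a3, b3]

namespace Hyp
variable {g v p1 p2 : G} (h : Hyp S J Q Q2 M0 L0 z Φ Θ g v p1 p2)
include h

local notation "𝒵" => zpowers z
local notation "t" => g * g
local notation "x" => v * z * v⁻¹
local notation "𝒟" => D9 z (v * z * v⁻¹)

theorem xL : x ∈ L0 := h.SL h.xS

theorem exists_θ : ∃ Θ, Hyp S J Q Q2 M0 L0 z Φ Θ g v p1 p2 ∧ Θ (x) ω := by
  obtain ⟨σ, hσ⟩ := h.θ.ex h.xL
  obtain ⟨π, e⟩ := conj_ω σ (h.θ.eq_of (h.θ.pow hσ 3) h.θ.one h.x3) fun e => h.xQ (by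
    simpa using h.cubeQ (one_mem _) h.x3 (one_pow 3) (by simpa using h.θ.kerm hσ e))
  exact ⟨fun g a => Θ g (π * a * π⁻¹), { h with
    θ := h.θ.conjAut π
    θs := fun σ e => h.θs _ (by rwa [sign_conj'])
    θe := fun e => by rw [← h.θe e, sign_conj']
    sq := fun e e1 e2 => h.sq e (conj_ne_one e1 π) (conj_mul_self e2 π) }, h.θ.cast hσ e.symm⟩

theorem gK : g ∈ C1 (t) := mem_C1.2 h.gt
theorem vK : v ∈ C1 (t) := mem_C1.2 h.vt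
theorem tK : t ∈ C1 (t) := mem_C1.2 rfl
theorem tNJ : t ∈ N J := h.MN (mul_mem h.gM h.gM)
theorem tC : t ∈ C 𝒟 := mem_C.2 fun _ hd => (h.ty hd).symm

theorem toS {k : G} {m : V → V} (h1 : k ∈ N J) (h2 : k * z * k⁻¹ = z) (h3 : Ac Q Φ k m)
    (e : ∀ u, m u = u) : k ∈ S :=
  h.kerS h1 h2 fun _ => h.cm_of_ac (by rwa [funext e] at h3)

theorem toS' {k : G} {m : V → V} (h1 : k ∈ N J) (h2 : k * z * k⁻¹ = z) (h3 : Ac Q Φ k m)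
    (e : ∀ u, m u = -u) : k * (t) ∈ S :=
  h.toS (mul_mem h1 h.tNJ) (by rw [mul_assoc k, ← h.zt]; nth_rw 2 [← h2]; group) (h3.mul h.ac_t)
    fun u => by rw [e, neg_neg]

theorem MCD {w : G} (h1 : w ∈ M0) (h2 : w ∈ C1 (t)) (h3 : w ∈ C 𝒟) : w ∈ 𝒟 ∨ w * (t) ∈ 𝒟 := by
  obtain ⟨σ, hσ⟩ := h.φ.ex h1
  have e := (h.b9.mem_C_iff.1 h3).1
  obtain ⟨u, m, rfl⟩ := gen6b σ (h.N9_of_NS hσ (h.NS_of_D (Hyp0.CN e) (C_le_N _ h3))) (h.φe hσ)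
  have f := h.CSt ((h.ΦS (h.φ.mul hσ (h.φ.inv (h.φ.pow h.Φg m.val)))).2 (by simpa using p9_e6 u))
    (mul_mem h2 (inv_mem (pow_mem h.gK _)))
  have f1 : g ∉ C 𝒟 := fun e => h.z1 (eq_one_of_inv_eq h.z3 (h.ginv.1.symm.trans
    (mul_inv_eq_iff_eq_mul.2 (h.b9.mem_C_iff.1 e).1)))
  have f2 : g ^ m.val ∈ C 𝒟 := inv_mem_iff.1 ((mul_mem_cancel_left h3).1 (h.b9.ab f))
  fin_cases m
  · exact Or.inl (by simpa using f)
  · exact absurd (by simpa using f2) f1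
  · exact Or.inr (by simpa only [pow_two, inv_eq_self h.g4] using f)
  · exact absurd ((mul_mem_cancel_left h.tC).1 (by simpa only [pow_succ, pow_zero, one_mul] using f2)) f1

theorem fmat {l : G} (h1 : l ∈ L0) (h2 : l * (x) * l⁻¹ = (x)⁻¹) (h3 : l * l ∈ Q2) :
    l ∈ N J ∧ ∃ F, Ac Q Φ l (lin F) ∧ Sim F (-1) ∧ ∀ u, lin F (lin F u) = -u := by
  have f := h.NS_NJ (h.NS_of_x (h.LN h1) (h2 ▸ inv_mem h.xS))
  obtain ⟨F, e1, e2⟩ := h.sim (ε := 1) (μ := -1) f (by rw [pow_one]; exact mem_C1_iff_conj.1 (h.LC h1))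
    (h2.trans h.xinv) (by decide) (by decide)
  refine ⟨f, F, e1, e2, m1 F e2 (h.act_uniq ((e1.mul e1).mul (e1.mul e1)) (h.ac_S (h.QS ?_)))⟩
  by_cases e : l * l ∈ Q
  exacts [mul_mem e e, h.q2 _ h3 _ h3 e e]

theorem exLK {σ : S5} (e : Perm.sign σ = 1) : ∃ l ∈ C1 (t), Θ l σ := by
  obtain ⟨l, hl⟩ := h.θs σ e
  obtain ⟨q, hq, e⟩ := h.decL (h.LN (h.θ.mem hl))
  exact ⟨_, e, h.θ.Kmul hl (h.QQ hq)⟩

theorem tQ : t ∉ Q := fun e => h.t1 (eq_one_of_sq_cube h.g4 (h.Q3 _ e))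

theorem memQ {a : G} (h1 : a ∈ N 𝒵) (h2 : a ^ 3 = 1) (h3 : t * a * (t)⁻¹ * a ∈ Q) : a ∈ Q := by
  obtain ⟨q, hq, e⟩ := h.decL h1
  refine mem_of_sq_mem h2 ((mul_mem_cancel_left
    (mul_mem (h.nQ _ h.tN _ (inv_mem hq)) hq)).1 ?_)
  convert h3 using 1
  rw [← mul_assoc, mul_assoc _ q, ← mem_C1_iff_conj'.1 e]
  generalize t = t'
  group

variable (hx : Θ (v * z * v⁻¹) ω)
include hx

theorem inv_x {l : G} {σ : S5} (h1 : l ∈ C1 (t)) (h2 : Θ l σ) (e : σ * ω * σ⁻¹ = ω⁻¹) :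
    l * (x) * l⁻¹ = (x)⁻¹ := by
  have f := h.θ.conj h2 hx
  have f1 := h.cubeQ (inv_mem h.xL) (a := l * (x) * l⁻¹) (by rw [conj_pow, h.x3]; simp)
    (by rw [inv_pow, h.x3, inv_one]) (h.θ.eqv f (e ▸ h.θ.inv hx))
  have f2 := h.LN (h.θ.mem h2)
  refine (h.xsign f2 (h.NJK (h.NS_NJ (h.NS_of_x f2 ((mul_mem_cancel_right (inv_mem (inv_mem h.xS))).1
    (h.QS f1)))) h1)).resolve_left fun e' => ?_
  exact absurd (e.symm.trans (h.θ.eq_of f hx e')) (by decide +kernel)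

theorem fmat' {l : G} (h1 : l ∈ C1 (t)) (h2 : Θ l R5) :
    l ∈ N J ∧ ∃ F, Ac Q Φ l (lin F) ∧ Sim F (-1) ∧ ∀ u, lin F (lin F u) = -u :=
  h.fmat (h.θ.mem h2) (h.inv_x hx h1 h2 (by decide +kernel))
    (h.θ.kerm (h.θ.mul h2 h2) (by decide +kernel))

theorem ffS {l : G} (h1 : l ∈ C1 (t)) (h2 : Θ l R5) : l * l * (t) ∈ S := by
  obtain ⟨f, F, e1, -, e2⟩ := h.fmat' hx h1 h2
  have := h.LC (h.θ.mem h2)
  exact h.toS' (mul_mem f f) (mem_C1_iff_conj.1 (mul_mem this this)) (e1.mul e1) e2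

theorem tQ2 : t ∈ Q2 := by
  obtain ⟨l, h1, h2⟩ := h.exLK (σ := R5) R5.2
  have f := h.ffS hx h1 h2
  have f1 := h.θ.kerm (h.θ.mul h2 h2) (by decide +kernel)
  obtain ⟨σ, hσ⟩ := h.θ.ex ((mul_mem_cancel_left (h.θ.le f1)).1 (h.SL f))
  exact h.θ.kerm hσ (eq_one_of_sq_cube (h.θ.eq_of (h.θ.mul hσ hσ) h.θ.one h.g4)
    (h.θ.eq_of (h.θ.pow (h.θ.Kmul hσ f1) 3) h.θ.one
      (h.b9.cube (h.CSt f (mul_mem (mul_mem h1 h1) h.tK)))))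

theorem Q2K {k : G} (h1 : k ∈ Q2) (h2 : k ∈ C1 (t)) : k ∈ 𝒵 ∨ k * (t) ∈ 𝒵 := by
  by_cases e : k ∈ Q
  exacts [Or.inl (h.CQt e (mem_C1.1 h2)), Or.inr (h.CQt (h.q2 _ h1 _ (h.tQ2 hx) e h.tQ)
    (mem_C1.1 (mul_mem h2 h.tK)))]

theorem exists_e : ∃ e ∈ C1 (t), Θ e Y5 ∧ e ^ 5 = 1 := by
  obtain ⟨l, h1, h2⟩ := h.exLK (σ := Y5) Y5.2
  refine ⟨l ^ 6, pow_mem h1 _, h.θ.cast (h.θ.pow h2 6) (by decide +kernel), ?_⟩
  rw [← pow_mul, mul_comm, pow_mul, show 6 = 3 * 2 from rfl, pow_mul]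
  rcases h.Q2K hx (h.θ.kerm (h.θ.pow h2 5) (by decide +kernel)) (pow_mem h1 _) with e | e
  · rw [h.Z3 e, one_pow]
  · have := h.Z3 e
    rw [Commute.mul_pow (mem_C1.1 (pow_mem h1 5)), mul_eq_one_iff_eq_inv] at this
    rw [this, ← inv_pow, inv_eq_self h.g4, ← pow_mul, mul_comm, pow_mul, pow_two, h.g4, one_pow]

section bar
variable {H : Type*} [Group H] [Finite H] {B : G → H → Prop}
  (hB : Rl (C1 (g * g)) (zpowers (g * g)) B)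
include hB

omit hx in
theorem lift {k a b : G} {k' a' b' : H} (hk : B k k') (ha : B a a') (hb : B b b') {n : ℕ}
    (a3 : a ^ (2 * n + 1) = 1) (b3 : b ^ (2 * n + 1) = 1) (e : k' * a' * k'⁻¹ = b') :
    k * a * k⁻¹ = b :=
  odd_lift hB h.g4 h.t1 (hB.cast (hB.conj hk ha) e) hb (by rw [conj_pow, a3]; simp) b3

omit hx in
theorem bt {k : G} {k' : H} {Y : Subgroup G} {Y' : Subgroup H} (hY : Y ≤ hB.pre Y') (hk : B k k')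
    (e : k ∈ Y ∨ k * (t) ∈ Y) : k' ∈ Y' :=
  e.elim (fun e => (hB.mem_pre hk).1 (hY e))
    fun e => (hB.mem_pre (hB.mulK hk (mem_zpowers _))).1 (hY e)

theorem exists_κ {z' x' : H} (bz : B z z') (bx : B (x) x') : ∃ (κ : A5 →* H) (e : G),
    κ ω5 = x' ∧ e ^ 5 = 1 ∧ Θ e Y5 ∧ B e (κ Y5) ∧
      ∀ a : A5, ∃ l ∈ closure {x, e}, Θ l a ∧ B l (κ a) := by
  obtain ⟨e, e1, e2, e3⟩ := h.exists_e hx
  obtain ⟨e', be⟩ := hB.ex e1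
  have cz : ∀ {u l : G}, u ∈ 𝒵 → l ∈ L0 → l * u = u * l := fun hu hl =>
    mem_C1.1 (C1_le_C1_of_mem_zpowers hu (h.LC hl))
  have xe := h.θ.mul hx e2
  obtain ⟨u, hu, e4⟩ : ∃ u ∈ 𝒵, (u * (x * e)) ^ 2 ∈ zpowers (t) := by
    have f : ∀ u ∈ 𝒵, (u * (x * e)) ^ 2 = (u⁻¹ * (x * e) ^ 2) := fun u hu => by
      rw [Commute.mul_pow (cz hu (h.θ.mem xe)).symm, inv_eq_of_mul_eq_one_right
        (show u * u ^ 2 = 1 by rw [← pow_succ', h.Z3 hu])]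
    rcases h.Q2K hx (h.θ.kerm (h.θ.pow xe 2) (by decide +kernel))
      (pow_mem (mul_mem (hB.mem bx) e1) 2) with e5 | e5
    · exact ⟨_, e5, by rw [f _ e5]; simp⟩
    · exact ⟨_, e5, by rw [f _ e5, mul_inv_rev _ (t), inv_mul_cancel_right]; exact mzi rfl⟩
  obtain ⟨u', -, bu⟩ := zpowers_le.2 (show z ∈ hB.pre ⊤ from ⟨_, mem_top _, bz⟩) hu
  have c3 : (u * (x)) ^ 3 = 1 := by
    rw [Commute.mul_pow (cz hu h.xL).symm, h.Z3 hu, h.x3, one_mul]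
  have b0 := hB.mul bu bx
  obtain ⟨κ, k1, k2⟩ := a5_hom (hB.eq_of (hB.pow b0 3) hB.one c3) (hB.eq_of (hB.pow be 5) hB.one e3)
    ((hB.ker (hB.pow (hB.mul b0 be) 2)).2 (by rwa [mul_assoc u]))
  have key : ∀ a : A5, ∃ l ∈ closure {u * (x), e}, Θ l a ∧ B l (κ a) :=
    a5_ind (Y := sub (fun a : A5 => ∃ l ∈ closure {u * (x), e}, Θ l a ∧ B l (κ a))
      ⟨⟨1, one_mem _, h.θ.one, map_one κ ▸ hB.one⟩, fun a ⟨l, h1, h2, h3⟩ b ⟨m, h4, h5, h6⟩ =>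
        ⟨_, mul_mem h1 (inv_mem h4), h.θ.mul h2 (h.θ.inv h5),
          hB.cast (hB.mul h3 (hB.inv h6)) (by simp)⟩⟩)
      ⟨_, subset_closure (by simp), ω5_val ▸ h.θ.Kmul hx (h.QQ (h.ZQ' hu)), k1 ▸ b0⟩
      ⟨_, subset_closure (by simp), e2, k2 ▸ be⟩
  obtain ⟨f, -, f1, f2⟩ := key R5
  have f3 := h.lift hB (n := 1) f2 b0 (hB.inv b0) c3 (by rw [inv_pow, c3, inv_one])
    (k1 ▸ (rel_conj κ (by decide +kernel)).trans (map_inv κ ω5))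
  rw [← conj_mul, h.inv_x hx (hB.mem f2) f1 (by decide +kernel), cz hu (h.θ.mem f1),
    mul_inv_cancel_right, ← cz hu h.xL, mul_inv_rev _ u, mul_left_inj] at f3
  obtain rfl := eq_one_of_inv_eq (h.Z3 hu) f3.symm
  rw [one_mul] at key b0
  exact ⟨κ, e, k1.trans (hB.uniq b0 bx), e3, e2, k2 ▸ be, key⟩

theorem bar (hs : ∀ a, ∃ k, B k a) : ∃ (κ : A5 →* H) (z' g' v' : H) (e f : G), Bar κ z' g' v' ∧
    B z z' ∧ B (x) (κ ω5) ∧ B g g' ∧ B v v' ∧ B f (κ R5) ∧ Θ f R5 ∧ f ∈ closure {x, e} ∧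
      e ∈ C1 (t) ∧ e ^ 5 = 1 ∧ Θ e Y5 := by
  have := Fact.mk Nat.prime_three
  obtain ⟨z', bz⟩ := hB.ex (h.DK (left_mem_D9 _ _))
  obtain ⟨x', bx⟩ := hB.ex (h.DK (right_mem_D9 _ _))
  obtain ⟨g', bg⟩ := hB.ex h.gK
  obtain ⟨v', bv⟩ := hB.ex h.vK
  obtain ⟨κ, e, rfl, e5, θe, be, key⟩ := h.exists_κ hx hB bz bx
  obtain ⟨f, fX, θf, bf⟩ := key R5
  have l3 : ∀ {k a b k' a' b'}, B k k' → B a a' → B b b' → a ^ 3 = 1 → b ^ 3 = 1 →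
      k' * a' * k'⁻¹ = b' → k * a * k⁻¹ = b := h.lift hB (n := 1)
  have zi : z⁻¹ ^ 3 = 1 := by rw [inv_pow, h.z3, inv_one]
  have D1 : 𝒟 ≤ hB.pre (D9 z' (κ ω5)) :=
    D9_le ⟨_, left_mem_D9 _ _, bz⟩ ⟨_, right_mem_D9 _ _, bx⟩
  have D2 : D9 z' (κ ω5) ≤ hB.im 𝒟 := D9_le ⟨_, left_mem_D9 _ _, bz⟩ ⟨_, right_mem_D9 _ _, bx⟩
  have b9 : B9 z' (κ ω5) := ⟨hB.eq_of (hB.pow bz 3) hB.one h.z3, hB.eq_of (hB.pow bx 3) hB.one h.x3,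
    hB.comm bz bx h.b9.comm, fun e => h.z1 (odd_lift hB h.g4 h.t1 (n := 1) (e ▸ bz) hB.one h.z3
      (one_pow _)), fun e => by
        obtain ⟨d, hd, e⟩ := zpowers_le.2 (show z' ∈ hB.im 𝒵 from ⟨_, mem_zpowers _, bz⟩) e
        exact h.b9.ind (odd_lift hB h.g4 h.t1 (n := 1) e bx (h.Z3 hd) h.x3 ▸ hd)⟩
  have inj : Function.Injective κ := alt_injective (n := 5) le_rfl b9.b1
  have zκ : Ind κ z' 1 := ind_one.2 fun a =>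
    let ⟨l, _, h1, h2⟩ := key a; hB.comm bz h2 (mem_C1.1 (h.LC (h.θ.mem h1))).symm
  have cX : ∀ {k k'}, B k k' → Ind κ k' 1 → ∀ l ∈ closure {x, e}, k * l = l * k :=
    fun {k k'} hk e1 l hl => (mem_C1.1 ((closure_le (C1 k)).2 (Set.pair_subset
      (mem_C1_iff_conj'.2 (l3 hk bx bx h.x3 h.x3 (mul_inv_eq_iff_eq_mul.2 (ind_one.1 e1 _))))
      (mem_C1_iff_conj'.2 (h.lift hB (n := 2) hk be be e5 e5
        (mul_inv_eq_iff_eq_mul.2 (ind_one.1 e1 _))))) hl)).symm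
  have CD : ∀ {k k'}, B k k' → k ∈ C 𝒟 → k' ∈ C (D9 z' (κ ω5)) := fun hk e =>
    b9.mem_C_iff.2 ((h.b9.mem_C_iff.1 e).imp (hB.comm hk bz) (hB.comm hk bx))
  obtain ⟨fJ, F, F1, F2, F3⟩ := h.fmat' hx (hB.mem bf) θf
  refine ⟨κ, z', g', v', e, f, ⟨inj, b9, sylIn_of_not_dvd le_top b9.isPGroup fun e1 => ?_, zκ,
    (hB.ker (hB.mul bg bg)).2 (mem_zpowers _), hB.eq_of (hB.conj bg bz) (hB.inv bz) h.ginv.1,
    hB.eq_of (hB.conj bg bx) (hB.inv bx) h.ginv.2, hB.eq_of (hB.mul bv bv) hB.one h.v2,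
    hB.uniq (hB.conj bv bz) bx, fun k' hk => ?_, fun k' k1 k2 => ?_, fun b hb => ?_,
    fun γ' hγ => ?_, fun k' hk => ?_, h.bt hB D1 (hB.mul (hB.mul (hB.conj bv bf) bf) bg) ?_⟩,
    bz, bx, bg, bv, bf, θf, fX, hB.mem be, e5, θe⟩
  · refine h.sylD.not_dvd_relIndex ?_
    have f1 := card_mul_relIndex (le_top (a := D9 z' (κ ω5)))
    have f2 := card_mul_relIndex h.DK
    rw [hB.card_all hs, ← card_top (G := H), ← f1, b9.card, h.b9.card, mul_left_comm,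
      Nat.mul_right_inj (by norm_num)] at f2
    exact f2 ▸ e1.mul_left _
  · obtain ⟨k, bk⟩ := hs k'
    have kN : k ∈ N 𝒵 := by
      obtain ⟨d, hd, e⟩ := zpowers_le.2 (show z' ∈ hB.im 𝒵 from ⟨_, mem_zpowers _, bz⟩)
        (conj_mem_of_mem_N hk (mem_zpowers z'))
      exact mem_N_zpowers (by rw [l3 bk bz e h.z3 (h.Z3 hd) rfl]; exact hd)
    have c3 : ∀ a, (k' * κ a * k'⁻¹) ^ 3 ∈ κ.range := fun a => by
      obtain ⟨l, -, h1, h2⟩ := key a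
      obtain ⟨σ, hσ⟩ := h.θ.ex (h.Ln k kN l (h.θ.mem h1))
      obtain ⟨m, -, h3, h4⟩ := key ⟨σ, h.θe hσ⟩
      have h5 := hB.mul (hB.conj bk h2) (hB.inv h4)
      have h6 := h.bt hB (zpowers_le.2 (show z ∈ hB.pre (zpowers z') from ⟨_, mem_zpowers _, bz⟩)) h5
        (h.Q2K hx (h.θ.eqv hσ h3) (hB.mem h5))
      rw [← inv_mul_cancel_right (k' * κ a * k'⁻¹) (κ ⟨σ, h.θe hσ⟩), Commute.mul_pow
        (mem_C1.1 (C1_le_C1_of_mem_zpowers h6 (mem_C1.2 (ind_one.1 zκ _).symm))).symm,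
        b9.cube (mem_sup_left h6), one_mul]
      exact pow_mem (⟨_, rfl⟩ : κ _ ∈ κ.range) 3
    refine exists_ind inj ?_ ?_
    · convert pow_mem (c3 Y5) 2 using 1
      rw [← pow_mul, conj_pow, ← map_pow, show Y5 ^ (3 * 2) = Y5 by decide +kernel]
    · convert c3 (ω5 * Y5) using 1
      rw [conj_pow, ← map_pow, show (ω5 * Y5) ^ 3 = ω5 * Y5 by decide +kernel]
  · obtain ⟨k, bk⟩ := hs k'
    have e1 := l3 bk bz bz h.z3 h.z3 (mul_inv_eq_iff_eq_mul.2 k1)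
    have e2 := cX bk k2 _ (subset_closure (Set.mem_insert _ _))
    have e3 := h.ND_NJ (C_le_N _ (h.b9.mem_C_iff.2 ⟨mul_inv_eq_iff_eq_mul.1 e1, e2⟩))
    obtain ⟨m, e4, e5⟩ := h.sim (ε := 1) (δ := 1) (μ := 1) e3 (by rwa [pow_one])
      (by rw [pow_one, e2, mul_inv_cancel_right]) (by simp) (by simp)
    exact h.bt hB D1 bk ((m5 F F2 F3 m e5 (h.act_uniq (e4.mul F1) (cX bk k2 f fX ▸ F1.mul e4))).imp
      (fun e => h.CSt (h.toS e3 e1 e4 e) (hB.mem bk))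
      fun e => h.CSt (h.toS' e3 e1 e4 e) (mul_mem (hB.mem bk) h.tK))
  · obtain ⟨l, lX, θl, bl⟩ := key b
    have e1 := cX (hB.mul bg (hB.inv bl)) ((hb.mul (ind_self κ b).inv).cast (mul_inv_cancel _))
    have e2 : g * l = l * g := by
      have := e1 l lX
      rw [inv_mul_cancel_right, ← mul_assoc, eq_mul_inv_iff_mul_eq] at this
      exact this
    have e3 : l * (x) * l⁻¹ = (x)⁻¹ := h.inv_x hx (hB.mem bl) θl (ω5_val ▸ congrArg Subtype.val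
      (inj ((hb ω5).symm.trans ((hB.eq_of (hB.conj bg bx) (hB.inv bx) h.ginv.2).trans
        (map_inv κ _).symm))))
    obtain ⟨-, F', a1, a2, a3⟩ := h.fmat (h.θ.mem θl) e3 (h.θ.kerm (h.θ.mul θl θl)
      ((hb.mul hb).uniq inj (by rw [(hB.ker (hB.mul bg bg)).2 (mem_zpowers _)]; exact ind_one')))
    exact m3 F' a2 a3 (h.act_uniq (h.ac_g.mul a1) (e2 ▸ a1.mul h.ac_g))
  · obtain ⟨γ, bγ⟩ := hs γ'
    obtain ⟨d, hd, e⟩ := D2 hγ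
    obtain ⟨i, hi⟩ := h.zcls (γ := γ) (by rw [l3 bγ bz e h.z3 (h.b9.cube hd) rfl]; exact hd)
    refine ⟨i, hB.eq_of (hB.conj bγ bz) ?_ hi⟩
    fin_cases i
    exacts [bz, bx, hB.inv bz, hB.inv bx]
  · obtain ⟨k, bk⟩ := hs k'
    exact (h.CKy (hB.mem bk) (mem_C1_iff_conj.2 (l3 bk (hB.mul bz bx) (hB.mul bz bx) h.b9.mul_cube
      h.b9.mul_cube (mem_C1_iff_conj.1 hk)))).imp (CD bk) (CD (hB.mul bv bk))
  · have fz := mem_C1_iff_conj.1 (h.LC (h.θ.mem θf))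
    have fx := h.inv_x hx (hB.mem bf) θf (by decide +kernel)
    refine h.MCD ?_ (hB.mem (hB.mul (hB.mul (hB.conj bv bf) bf) bg)) (h.b9.mem_C_iff.2 ⟨?_, ?_⟩)
    · convert mul_mem (mul_mem (mul_mem h.vM (h.Mn f fJ _ (inv_mem h.vM)))
        ((mul_mem_cancel_right (mul_mem h.gM h.gM)).1 (h.SM (h.ffS hx (hB.mem bf) θf)))) h.gM using 2
      group
    · refine mul_inv_eq_iff_eq_mul.1 ?_
      rw [show v * f * v⁻¹ * f * g * z * (v * f * v⁻¹ * f * g)⁻¹ =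
        v * (f * (v⁻¹ * (f * (g * z * g⁻¹) * f⁻¹) * v⁻¹⁻¹) * f⁻¹) * v⁻¹ by group, h.ginv.1,
        ← conj_inv, fz, ← conj_inv, h.vi, h.vi]
      nth_rw 3 [← h.vi]
      rw [← conj_inv, fx, inv_inv]
      nth_rw 4 [← h.vi]
      exact h.vx
    · refine mul_inv_eq_iff_eq_mul.1 ?_
      rw [show v * f * v⁻¹ * f * g * (x) * (v * f * v⁻¹ * f * g)⁻¹ =
        v * (f * (v⁻¹ * (f * (g * (x) * g⁻¹) * f⁻¹) * v) * f⁻¹) * v⁻¹ by group, h.ginv.2,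
        ← conj_inv, fx, inv_inv, show v⁻¹ * (x) * v = z by group, fz]

end bar

end Hyp
end CfsgH3.Md
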