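import Cfsg.Agent.H3.MdF

/-! The case `C(t)/⟨t⟩ ≅ S₈`: a subgroup of index two. -/

set_option autoImplicit false
set_option linter.unusedSectionVars false
set_option synthInstance.maxSize 4096

namespace CfsgH3.Md
open Subgroup CfsgH5 CfsgH6 CfsgFT CfsgH7 CfsgH7.F5 CfsgH8 Equiv X32

universe u
variable {G : Type u} [Group G]

theorem rot8 {a : S8} (h : a * finRotate 8 = finRotate 8 * a) (h2 : a * a = 1) :
    Perm.sign a = 1 := by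
  have e : a = finRotate 8 ^ (a 0).val := Equiv.ext fun k => by
    have f := apply_comm (Commute.pow_right h k.val).eq 0
    rw [(by decide +kernel : ∀ k : Fin 8, (finRotate 8 ^ k.val) 0 = k) k] at f
    exact f.trans ((by decide +kernel : ∀ i k : Fin 8,
      (finRotate 8 ^ k.val) i = (finRotate 8 ^ i.val) k) _ k)
  rw [e] at h2 ⊢
  exact (by decide +kernel : ∀ i : Fin 8, finRotate 8 ^ i.val * finRotate 8 ^ i.val = 1 →
    Perm.sign (finRotate 8 ^ i.val) = 1) _ h2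

/-- `C(t)/⟨t⟩ ≅ S₈`, and `K0` is the preimage of `A₈`. -/
structure Two (t : G) (B : G → S8 → Prop) (K0 : Subgroup G) : Prop where
  σ : Rl (C1 t) (zpowers t) B
  σs : ∀ a, ∃ k, B k a
  k0 : ∀ {k a}, B k a → (k ∈ K0 ↔ Perm.sign a = 1)
  le : K0 ≤ C1 t
  t2 : t * t = 1
  t1 : t ≠ 1

namespace Two
variable [Finite G] {t : G} {B : G → S8 → Prop} {K0 : Subgroup G} (b : Two t B K0)
include b

theorem tK : t ∈ K0 := (b.k0 (b.σ.of_ker (mem_zpowers t))).2 (map_one _)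

theorem r : Rl K0 (zpowers t) fun k (a : A8) => B k a where
  mem {_ a} e := (b.k0 e).2 a.2
  ex hk := let ⟨a, e⟩ := b.σ.ex (b.le hk); ⟨⟨a, (b.k0 e).1 hk⟩, e⟩
  mul := b.σ.mul
  ker e := Subtype.ext_iff.trans (b.σ.ker e)
  le := zpowers_le.2 b.tK

theorem odd {k l : G} (hk : k ∈ C1 t) (hl : l ∈ C1 t) (h1 : k ∉ K0) (h2 : l ∉ K0) : k * l ∈ K0 := by
  obtain ⟨a, e⟩ := b.σ.ex hk
  obtain ⟨a', e'⟩ := b.σ.ex hl
  rw [b.k0 (b.σ.mul e e'), map_mul, sign_ne.1 (mt (b.k0 e).2 h1), sign_ne.1 (mt (b.k0 e').2 h2)]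
  rfl

theorem sq {k : G} (hk : k ∈ C1 t) : k * k ∈ K0 := by
  by_cases e : k ∈ K0
  exacts [mul_mem e e, b.odd hk hk e e]

theorem of_odd {k : G} (hk : k ∈ C1 t) {n : ℕ} (e : k ^ (2 * n + 1) = 1) : k ∈ K0 := by
  obtain ⟨a, ha⟩ := b.σ.ex hk
  exact (b.k0 ha).2 (sign_of_cube (b.σ.eq_of (b.σ.pow ha _) b.σ.one e))

theorem cases {k l : G} {a : S8} (h1 : B k a) (h2 : B l a) : k = l ∨ k = t * l :=
  (mem_zpowers_order_two' b.t2 (b.σ.eqv h1 h2)).imp mul_inv_eq_one.1 mul_inv_eq_iff_eq_mul.1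

theorem syl {f : G} (hf : f ∈ K0) (f2 : f * f = t) {P : Subgroup G} (hP : SylIn 2 P (C1 t)) :
    SylIn 2 P ⊤ := by
  have := Fact.mk Nat.prime_two
  refine sylIn_of_sylIn_N Nat.prime_two (hP.of_le (le_inf le_top (le_N _)) fun n hn => ?_)
  have tP : t ∈ P := hP.le_of_nrm (zpowers_le.2 (mem_C1.2 rfl)) (isPGroup_zpowers (k := 1)
    (by rw [pow_one, pow_two, b.t2])) ((nrm_N _).mono fun p hp => Hyp0.CN (mem_C1.1 (hP.le hp)))
    (mem_zpowers t)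
  have uK := hP.le (conj_mem_of_mem_N hn.2 tP)
  have u2 := conj_mul_self b.t2 n
  have u1 := conj_ne_one b.t1 n
  have hu : P ≤ C1 (n * t * n⁻¹) := by rw [← cj_C1, ← mem_N.1 hn.2]; exact cj_mono hP.le
  rw [mem_C1_iff_conj]
  generalize n * t * n⁻¹ = u at uK u2 u1 hu
  by_contra ut
  have uK0 : u ∈ K0 := by
    obtain ⟨w, hw⟩ := b.σs (finRotate 8)
    obtain ⟨γ, hγ, e⟩ := hP.exists_le_cj (zpowers_le.2 (b.σ.mem hw)) (isPGroup_zpowers (k := 4) (by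
      rcases mem_zpowers_order_two' b.t2 (b.σ.kerm (b.σ.pow hw 8) (by decide +kernel)) with e | e <;>
        rw [show 2 ^ 4 = 8 * 2 from rfl, pow_mul, e, pow_two]
      exacts [mul_one 1, b.t2]))
    obtain ⟨a, ha⟩ := b.σ.ex uK
    obtain ⟨c, hc⟩ := b.σ.ex hγ
    rw [b.k0 ha, ← sign_conj' c]
    exact rot8 (b.σ.comm (b.σ.conj hc ha) hw (mem_C1.1 (cj_C1 γ u ▸ cj_mono hu (e (mem_zpowers w)))).symm)
      (conj_mul_self (b.σ.eq_of (b.σ.mul ha ha) b.σ.one u2) c)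
  have tu := mem_C1.1 uK
  obtain ⟨k, hk, e⟩ := invol_cover b.r (fun a => b.σs a) b.le b.t2 b.t1 hf f2 uK0 (mul_mem uK0 b.tK) u2
    (by rw [mul_assoc, ← mul_assoc t, ← tu, mul_assoc, b.t2, mul_one, u2]) u1
    (fun e => ut (by rw [eq_inv_of_mul_eq_one_left e, inv_eq_self b.t2])) ut (by simpa using u1)
  have k1 : ∀ a ∈ C1 t, a * u * a⁻¹ = u * t → a * (u * t) * a⁻¹ = u := fun a ha e => by
    rw [← conj_mul, e, mem_C1_iff_conj.1 ha, mul_assoc, b.t2, mul_one]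
  have k2 : ∀ a c : G, a * c * u * (a * c)⁻¹ = a * (c * u * c⁻¹) * a⁻¹ := fun a c => by group
  let Y : Subgroup G := sub (fun a => a ∈ C1 t ∧ (a * u * a⁻¹ = u ∨ a * u * a⁻¹ = u * t))
    ⟨⟨one_mem _, by simp⟩, fun a ha c hc => ⟨mul_mem ha.1 (inv_mem hc.1), by
      have f : c⁻¹ * u * c⁻¹⁻¹ = u ∨ c⁻¹ * u * c⁻¹⁻¹ = u * t := hc.2.imp
        (fun e => by nth_rw 1 [← e]; group) fun e => by nth_rw 1 [← k1 c hc.1 e]; group
      rw [k2]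
      rcases f with f | f <;> rw [f]
      · exact ha.2
      · exact ha.2.symm.imp (k1 a ha.1) fun e => by rw [← conj_mul, e, mem_C1_iff_conj.1 ha.1]⟩⟩
  have hY : P ≤ Y := fun p hp => ⟨hP.le hp, Or.inl (mem_C1_iff_conj.1 (hu hp))⟩
  refine (hP.of_le hY fun a ha => ha.1).not_dvd_relIndex (Dvd.dvd.trans ?_ (relIndex_dvd_of_le_left Y hu))
  rw [relIndex_eq_two_of (S := Y) (y := k) ⟨b.le hk, Or.inr e⟩
    (fun e' => b.t1 (by simpa using e.symm.trans (mem_C1_iff_conj.1 e')))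
    fun s hs hs' => mem_C1_iff_conj.2 (by
      rw [k2, hs.2.resolve_left (mt mem_C1_iff_conj.2 hs'), k1 k (b.le hk) e])]

end Two

variable [Finite G] {S J Q Q2 M0 L0 : Subgroup G} {z : G} {Φ : G → S6 → Prop} {Θ : G → S5 → Prop}

namespace Hyp
variable {g v p1 p2 : G} (h : Hyp S J Q Q2 M0 L0 z Φ Θ g v p1 p2)
include h

local notation "𝒵" => zpowers z
local notation "t" => g * g
local notation "x" => v * z * v⁻¹
local notation "𝒟" => D9 z (v * z * v⁻¹)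

theorem vconj : ∃ γ ∈ M0, γ * v * γ⁻¹ = t := by
  obtain ⟨s, hs⟩ := h.φs s6 (by decide +kernel)
  have f := h.φ.conj hs h.Φv
  have f1 := h.J3 _ (h.φ.eqv f (h.φ.cast h.Φt (by decide +kernel)))
  have f2 := conj_mul_self h.v2 s
  refine ⟨s * v * s⁻¹ * (t) * s, mul_mem (mul_mem (h.φ.mem f) (h.φ.mem h.Φt)) (h.φ.mem hs), ?_⟩
  rw [inv_eq_self h.g4] at f1
  have f3 := h.g4
  rw [show s * v * s⁻¹ * (t) * s * v * (s * v * s⁻¹ * (t) * s)⁻¹ =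
    s * v * s⁻¹ * (t) * (s * v * s⁻¹) * (t)⁻¹ * (s * v * s⁻¹)⁻¹ by group]
  generalize s * v * s⁻¹ = a at f1 f2
  generalize t = t' at f1 f3
  rw [inv_eq_self f2, inv_eq_self f3, ← inv_eq_self f3, eq_inv_iff_mul_eq_one, inv_eq_self f3, ← f1]
  simp [pow_succ, mul_assoc]

theorem fix {c : G} (c2 : c * c = 1) {A Y : Subgroup G} (hA : Nrm Q A) (hA' : A ≤ Q) (hY : Y ≤ Q)
    (e : ∀ y ∈ Y, cm c y ∈ A) : Nat.card Y ≤ Nat.card ↥(Q ⊓ C1 c) * Nat.card A := by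
  rw [← card_sup_mul (Or.inl (hA.mono inf_le_left))]
  refine le_mul_of_le_of_one_le (card_le_of_le fun y hy => ?_) (card_pos _)
  have f := e y hy
  have f3 := h.Q3 _ (hA' f)
  have f1 : c * cm c y * c⁻¹ = (cm c y)⁻¹ := by
    rw [cm, ← conj_mul, conj_invol c2]; group
  have f2 : c * y * c⁻¹ = cm c y * y := by rw [cm]; group
  generalize cm c y = u at f f1 f2 f3
  have f4 : y⁻¹ * u ∈ Q ⊓ C1 c := mem_inf.2 ⟨mul_mem (inv_mem (hY hy)) (hA' f), mem_C1_iff_conj'.2 (by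
    rw [← conj_mul, ← conj_inv, f1, f2, mul_inv_rev, mul_assoc, ← mul_inv_rev, inv_eq_of_mul_eq_one_left
      (show u * (u * u) = 1 by rw [← f3]; simp [pow_succ, mul_assoc])])⟩
  simpa using inv_mem (mul_mem (mem_sup_left f4) (mem_sup_right (inv_mem f)))

variable {B : G → S8 → Prop} {K0 : Subgroup G} (b : Two (g * g) B K0)
include b

theorem nonconj (gK : g ∈ K0) (hD : ∀ k ∈ K0, k ∈ C 𝒟 → k ∈ 𝒟 ∨ k * (t) ∈ 𝒟) {c : G}
    (cg : c * g = g * c) (cz : c * z * c⁻¹ = z⁻¹) (hR : 9 ≤ Nat.card ↥(Q ⊓ C1 c)) (γ : G) :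
    γ * c * γ⁻¹ ≠ t := fun e => by
  have := Fact.mk Nat.prime_three
  obtain ⟨δ, hδ, e1⟩ := h.sylD.exists_le_cj (X := cj γ (Q ⊓ C1 c)) (e ▸ cj_C1 γ c ▸ cj_mono inf_le_right)
    (isPGroup_cj (isPGroup_of_pow (X := Q ⊓ C1 c) (k := 1) fun q hq => h.Q3 q hq.1) γ)
  rw [le_cj_iff, cj_cj] at e1
  replace e : δ⁻¹ * γ * c * (δ⁻¹ * γ)⁻¹ = t := by
    rw [← mem_C1_iff_conj.1 (inv_mem hδ), ← e]; group
  generalize δ⁻¹ * γ = γ at e e1
  have e2 := eq_of_le_of_card_le e1 (by rw [card_cj, h.b9.card]; exact hR)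
  have e3 : γ * g * γ⁻¹ ∈ C1 (t) := mem_C1.2 (e ▸ comm_conj_both cg.symm)
  have e4 : ∀ d ∈ 𝒟, γ * (t) * γ⁻¹ * d * (γ * (t) * γ⁻¹)⁻¹ = d⁻¹ := fun d hd => by
    obtain ⟨r, hr, rfl⟩ := mem_cj'.1 (e2.ge hd)
    have f := h.tinv hr.1
    have gc : g ∈ C1 c := mem_C1.2 cg.symm
    have f1 : t * r * (t)⁻¹ * r ∈ C1 c :=
      mul_mem (mul_mem (mul_mem (mul_mem gc gc) hr.2) (inv_mem (mul_mem gc gc))) hr.2
    obtain ⟨n, hn⟩ := exists_pow_of_mem_zpowers h.z3 f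
    have f2 := mem_C1_iff_conj'.1 f1
    rw [hn, ← conj_pow, cz, inv_pow, ← hn] at f2
    rw [conj_mul, conj_inv, conj_inv, conj_mul, eq_inv_of_mul_eq_one_left
      (eq_one_of_inv_eq (h.Z3 f) f2)]
  have e5 := b.sq e3
  have e6 := conj_mul_self h.g4 γ
  rw [conj_mul] at e5
  generalize γ * (t) * γ⁻¹ = u at e4 e5 e6
  have key : ∀ d ∈ 𝒟, g * d * g⁻¹ = d⁻¹ → u * g * d = d * (u * g) := fun d hd e =>
    mul_inv_eq_iff_eq_mul.1 (by
      rw [show u * g * d * (u * g)⁻¹ = u * (g * d * g⁻¹) * u⁻¹ by group, e, e4 _ (inv_mem hd), inv_inv])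
  have k2 : ∀ a, u * a ∈ 𝒟 → a * a = 1 := fun a ha => by
    have := e4 _ ha
    rw [← mul_assoc, e6, one_mul, mul_inv_rev, mul_left_inj] at this
    exact mul_eq_one_iff_eq_inv.2 this
  rcases hD _ (mul_mem e5 gK) (h.b9.mem_C_iff.2
    ⟨key _ (left_mem_D9 _ _) h.ginv.1, key _ (right_mem_D9 _ _) h.ginv.2⟩) with e7 | e7
  · exact h.t1 (k2 g e7)
  · have := k2 _ (mul_assoc u g _ ▸ e7)
    rw [show g * (t) * (g * (t)) = t * (t) * (t) by group, h.g4, one_mul] at this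
    exact h.t1 this

theorem eqT {k l : G} {a : S8} {m n : V → V} (h1 : B k a) (h2 : B l a) (h3 : Ac Q Φ k m)
    (h4 : Ac Q Φ l n) {u : V} (e : m u = n u) (e' : n u ≠ 0) : k = l :=
  (b.cases h1 h2).resolve_right fun e1 => e' ((by decide : ∀ u : V, u = -u → u = 0) _
    (e.symm.trans (h.act_uniq h3 (e1 ▸ h.ac_t.mul h4) u)))

variable (hx : Θ (v * z * v⁻¹) ω)
include hx

theorem exists_c : ∃ c e f, c * c = 1 ∧ c ∈ C1 (t) ∧ c ∉ K0 ∧ g ∈ K0 ∧ v ∈ K0 ∧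
    (∀ γ, γ * c * γ⁻¹ ≠ t) ∧ f ∈ K0 ∧ Θ f R5 ∧ e ∈ K0 ∧ Θ e Y5 := by
  obtain ⟨κ, z', g', v', e, f, hb, bz, bx, bg, bv, bf, θf, fX, eK, e5, θe⟩ := h.bar hx b.σ b.σs
  obtain ⟨s', s2, sD, sC, sf, sg, cD⟩ := (hb.main.resolve_left fun ⟨e⟩ => by
    have := Nat.card_congr e.toEquiv
    rw [card_A8, Nat.card_perm] at this
    simp [Nat.factorial] at this).2
  have hB := b.σ
  have D1 : 𝒟 ≤ hB.pre (D9 z' (κ ω5)) :=
    D9_le ⟨_, left_mem_D9 _ _, bz⟩ ⟨_, right_mem_D9 _ _, bx⟩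
  have D2 : D9 z' (κ ω5) ≤ hB.im 𝒟 := D9_le ⟨_, left_mem_D9 _ _, bz⟩ ⟨_, right_mem_D9 _ _, bx⟩
  have sD' : ∀ d ∈ D9 z' (κ ω5), Perm.sign d = 1 := fun d hd => sign_of_cube (k := 1) (hb.b9.cube hd)
  obtain ⟨s1, s3⟩ := hb.b9.mem_C_iff.1 sC
  have sC' : ∀ {s}, B s s' → s * z * s⁻¹ = z ∧ s * (x) * s⁻¹ = x := fun bs =>
    ⟨h.lift hB (n := 1) bs bz bz h.z3 h.z3 (mul_inv_eq_iff_eq_mul.2 s1),
      h.lift hB (n := 1) bs bx bx h.x3 h.x3 (mul_inv_eq_iff_eq_mul.2 s3)⟩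
  have sJ : ∀ {s}, B s s' → s ∈ N J := fun bs => h.ND_NJ (C_le_N _ (h.b9.mem_C_iff.2
    ((sC' bs).imp mul_inv_eq_iff_eq_mul.1 mul_inv_eq_iff_eq_mul.1)))
  obtain ⟨s, bs, m, a1, a2⟩ : ∃ s, B s s' ∧ ∃ m, Ac Q Φ s m ∧ ∀ u, m u = -lin mg u := by
    obtain ⟨s, bs⟩ := b.σs s'
    obtain ⟨-, F, F1, F2, F3⟩ := h.fmat' hx (hB.mem bf) θf
    obtain ⟨m, a1, a2⟩ := h.sim (ε := 1) (δ := 1) (μ := 1) (sJ bs) (by rw [pow_one, (sC' bs).1])
      (by rw [pow_one, (sC' bs).2]) (by simp) (by simp)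
    rcases m2 F F2 F3 m a2 ((b.cases (hB.mul bs bf) (hB.cast (hB.mul bf bs) sf.symm)).imp
      (fun e => h.act_uniq (a1.mul F1) (by rw [e]; exact F1.mul a1))
      fun e => h.act_uniq (a1.mul F1) (by rw [e]; exact h.ac_t.mul (F1.mul a1))) with e | e | e | e
    · exact absurd (h.bt hB D1 bs (Or.inl (h.CSt (h.toS (sJ bs) (sC' bs).1 a1 e) (hB.mem bs)))) sD
    · exact absurd (h.bt hB D1 bs (Or.inr (h.CSt (h.toS' (sJ bs) (sC' bs).1 a1 e)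
        (mul_mem (hB.mem bs) h.tK)))) sD
    · exact ⟨_, hB.Kmul bs (mem_zpowers _), _, h.ac_t.mul a1, fun u => by rw [e]⟩
    · exact ⟨s, bs, _, a1, e⟩
  have bc := hB.mul bs bg
  have ac : Ac Q Φ (s * g) fun u => u := by simpa only [a2, mg2, neg_neg] using a1.mul h.ac_g
  have cz : s * g * z * (s * g)⁻¹ = z⁻¹ := by
    rw [show s * g * z * (s * g)⁻¹ = s * (g * z * g⁻¹) * s⁻¹ by group, h.ginv.1, ← conj_inv, (sC' bs).1]
  have cJ := mul_mem (sJ bs) (h.MN h.gM)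
  have c2' : s' * g' * (s' * g') = 1 := by
    rw [mul_assoc, ← mul_assoc g', ← sg, mul_assoc s', hb.g2, mul_one, s2]
  have c2 : s * g * (s * g) = 1 := h.eqT b (hB.mul bc bc) (c2' ▸ hB.one) (ac.mul ac)
    (h.ac_S (one_mem _)) (u := (1, 0)) rfl (by decide)
  have cg : s * g * g = g * (s * g) := h.eqT b (hB.mul bc bg)
    (hB.cast (hB.mul bg bc) (by rw [← mul_assoc, sg])) (ac.mul h.ac_g) (h.ac_g.mul ac)
    (u := (1, 0)) rfl (by decide +kernel)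
  obtain ⟨π, hπ⟩ := cent9 hb.b9 s2 (fun e => sD (e ▸ one_mem _)) s1 s3
  have ss : Perm.sign s' = -1 := by rw [← hπ, sign_conj']; decide +kernel
  have sg' : Perm.sign g' = 1 := by
    simpa only [map_mul, sign_conj', Int.units_mul_self, one_mul, Perm.sign_inv, mul_right_comm
      (Perm.sign v')] using sD' _ hb.w8
  have sc : Perm.sign (s' * g') = -1 := by rw [map_mul, ss, sg', mul_one]
  have gK := (b.k0 bg).2 sg'
  have hD : ∀ k ∈ K0, k ∈ C 𝒟 → k ∈ 𝒟 ∨ k * (t) ∈ 𝒟 := fun k hk hk' => by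
    obtain ⟨k', bk⟩ := hB.ex (b.le hk)
    obtain ⟨d, hd, e⟩ := D2 ((cD k' (hb.b9.mem_C_iff.2 ((h.b9.mem_C_iff.1 hk').imp (hB.comm bk bz)
      (hB.comm bk bx)))).resolve_right fun e => by
        have := sD' _ e
        rw [map_mul, (b.k0 bk).1 hk, ss] at this
        exact absurd this (by decide))
    exact (b.cases bk e).imp (fun e => by rwa [e]) fun e => by
      rwa [e, h.ty hd, mul_assoc d, h.g4, mul_one]
  have i2 : ∀ q ∈ Q, q ^ 2 = q⁻¹ := fun q hq => by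
    rw [eq_inv_iff_mul_eq_one, ← pow_succ, h.Q3 q hq]
  have W27 := (h.card_W h.JS h.Jab h.cJ).1
  have n1 := h.nonconj b gK hD cg cz (by
    have := h.fix c2 (A := J ⊓ Q) (fun q hq w hw => ⟨h.nQW hq hw.2 hw.1, h.nSQ q (h.QS hq) w hw.2⟩)
      inf_le_right le_rfl fun q hq => mem_inf.2 ⟨h.cm_of_ac ac hq,
        mul_mem (ac q _ (h.co_ex hq).choose_spec).1 (inv_mem hq)⟩
    rw [h.cQ, W27] at this
    omega)
  have ct : t * (s * g) = s * g * (t) := (mem_C1.1 (hB.mem bc)).symm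
  have cz' : t * (s * g) * z * (t * (s * g))⁻¹ = z⁻¹ := by
    rw [show ∀ a c : G, a * c * z * (a * c)⁻¹ = a * (c * z * c⁻¹) * a⁻¹ from fun a c => by group, cz,
      ← conj_inv, h.tz]
  have n2 := h.nonconj b gK hD (c := t * (s * g)) (by rw [mul_assoc, cg]; group) cz' (by
    have := h.fix (c := t * (s * g)) (by
      rw [mul_assoc, ← mul_assoc (s * g), ← ct, mul_assoc (t), c2, mul_one, h.g4])
      (A := 𝒵) ((nrm_N _).mono (h.QS.trans h.SN)) (fun _ => h.ZQ') (Y := J ⊓ Q) inf_le_right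
      fun w hw => by
        have := h.dual (h.endo (cz'.trans h.zinv) (mul_mem h.tNJ cJ)) 1 (fun q hq => by
          obtain ⟨u, hu⟩ := h.co_ex hq
          simpa using h.co_eqv ((h.ac_t.mul ac) q u hu) (h.co_inv hu)) (m := 2) (by decide)
          (by decide) hw.2 hw.1
        rwa [i2 w hw.2] at this
    rw [h.cardZ, W27] at this
    omega)
  have o3 : ∀ {w w'}, B w w' → w * w = 1 → Perm.sign w' = -1 → ∃ ρ, ρ * e8 3 * ρ⁻¹ = w' :=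
    fun {w w'} bw w2 e => (odd_invol (hB.eq_of (hB.mul bw bw) hB.one w2) e).resolve_left
      fun ⟨ρ, e1⟩ => by
        obtain ⟨k, bk⟩ := b.σs (π * ρ⁻¹)
        have f := conj_mul_self w2 k
        have f1 : s * s * (t) = 1 := by rw [← c2, mul_assoc s g, ← cg]; group
        rcases b.cases bs (hB.cast (hB.conj bk bw) (by rw [← e1, ← hπ]; group)) with e2 | e2
        · rw [e2, f, one_mul] at f1
          exact h.t1 f1
        · have f2 := mem_C1.1 (hB.mem (hB.conj bk bw))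
          rw [e2, mul_assoc (t) _ (t * _), ← mul_assoc _ (t), f2, mul_assoc (t) _ (k * w * k⁻¹), f,
            mul_one, h.g4, one_mul] at f1
          exact h.t1 f1
  refine ⟨s * g, e, f, c2, hB.mem bc, fun e => absurd (sc.symm.trans ((b.k0 bc).1 e)) (by decide),
    gK, ?_, n1, (closure_le K0).2 (Set.pair_subset (b.of_odd (n := 1) (hB.mem bx) h.x3)
      (b.of_odd (n := 2) eK e5)) fX, θf, b.of_odd (n := 2) eK e5, θe⟩
  by_contra hv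
  obtain ⟨ρ, e1⟩ := o3 bv h.v2 (sign_ne.1 (mt (b.k0 bv).2 hv))
  obtain ⟨ρ', e2⟩ := o3 bc c2 sc
  obtain ⟨k, bk⟩ := b.σs (ρ' * ρ⁻¹)
  obtain ⟨γ, -, e3⟩ := h.vconj
  rcases b.cases (hB.cast (hB.conj bk bv) (by rw [← e1, ← e2]; group)) bc with e4 | e4
  exacts [n1 (γ * k⁻¹) (by rw [← e4, ← e3]; group), n2 (γ * k⁻¹) (by rw [← e4, ← e3]; group)]

theorem exists_G0 : ∃ (G0 : Subgroup G) (e f : G), G0.index = 2 ∧ G0 ⊓ C1 (t) = K0 ∧
    (∀ u ∈ G0, u * u = 1 → u ≠ 1 → ∃ γ, γ * u * γ⁻¹ = t) ∧ g ∈ K0 ∧ v ∈ K0 ∧ f ∈ K0 ∧ Θ f R5 ∧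
      e ∈ K0 ∧ Θ e Y5 := by
  have := Fact.mk Nat.prime_two
  obtain ⟨c, e, f, c2, cK, cK0, gK, vK, n1, r⟩ := h.exists_c b hx
  have iv : ∀ u ∈ K0, u * u = 1 → u ≠ 1 → ∃ γ, γ * u * γ⁻¹ = t := fun u hu u2 u1 => by
    by_cases e : u = t
    · exact ⟨1, by simpa using e⟩
    obtain ⟨k, -, e1⟩ := invol_cover b.r (fun a => b.σs a) b.le b.t2 b.t1 gK rfl hu vK u2 h.v2 u1
      (fun e => absurd (h.φ.eq_of h.Φv h.φ.one e) (by decide +kernel)) e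
      fun e => absurd (h.φ.eq_of h.Φv h.Φt e) (by decide +kernel)
    obtain ⟨γ, -, e3⟩ := h.vconj
    exact ⟨γ * k, by rw [← e3, ← e1]; group⟩
  have p2 : ∀ {u : G}, u * u = 1 → IsPGroup 2 (zpowers u) := fun e =>
    isPGroup_zpowers (k := 1) (by rwa [pow_one, pow_two])
  obtain ⟨P, hc, hP⟩ := exists_sylIn_ge (zpowers_le.2 cK) (p2 c2)
  have hP' := b.syl gK rfl hP
  obtain ⟨G0, -, i2, cG⟩ := transfer2 (Y := K0) hP' (hc (mem_zpowers c)) c2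
    (fun k hk => or_iff_not_imp_right.2 fun e => b.odd (hP.le hk) cK e cK0) fun γ _ _ e => by
      obtain ⟨δ, e1⟩ := iv _ e (conj_mul_self c2 γ)
        (conj_ne_one (fun e => cK0 (by rw [e]; exact one_mem _)) γ)
      exact n1 (δ * γ) (by rw [← e1]; group)
  have k0 : K0 ≤ G0 := gen3 b.r (fun a => b.σs a) b.le b.t2 (idx2_sq le_top i2 (mem_top g))
    fun k _ => idx2_cube le_top i2 (mem_top k)
  have k1 : G0 ⊓ C1 (t) = K0 := le_antisymm (fun k hk => by_contra fun e =>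
    cG ((mul_mem_cancel_left hk.1).1 (k0 (b.odd hk.2 cK e cK0)))) (le_inf k0 b.le)
  refine ⟨G0, e, f, relIndex_top_right G0 ▸ i2, k1, fun u hu u2 u1 => ?_, gK, vK, r⟩
  obtain ⟨γ, -, e1⟩ := hP'.exists_le_cj le_top (p2 u2)
  obtain ⟨δ, e2⟩ := iv (γ⁻¹ * u * γ⁻¹⁻¹) (k1.le ⟨(idx2_conj le_top i2 (mem_top _) (mem_top _)).2 hu,
    hP.le (by simpa using mem_cj.1 (e1 (mem_zpowers u)))⟩) (conj_mul_self u2 _) (conj_ne_one u1 _)
  exact ⟨δ * γ⁻¹, by rw [← e2]; group⟩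

end Hyp
end CfsgH3.Md
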