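import Cfsg.Agent.H3.MdG

/-! Automorphisms of the subgroup of index two, and the main theorem. -/

set_option autoImplicit false
set_option linter.unusedSectionVars false
set_option synthInstance.maxSize 4096

namespace CfsgH3.Md
open Subgroup CfsgH5 CfsgH6 CfsgFT CfsgH7 CfsgH7.F5 CfsgH8 Equiv X32

universe u
variable {G : Type u} [Group G]

/-- `b` is an injective endomorphism of `G0`. -/
structure Au (G0 : Subgroup G) (b : G → G) : Prop where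
  map : ∀ a ∈ G0, b a ∈ G0
  mul : ∀ a ∈ G0, ∀ c ∈ G0, b (a * c) = b a * b c
  inj : ∀ a ∈ G0, b a = 1 → a = 1

namespace Au
variable {G0 : Subgroup G} {b : G → G} (a : Au G0 b)
include a

theorem one : b 1 = 1 := by simpa using a.mul 1 (one_mem _) 1 (one_mem _)

theorem inv {k : G} (hk : k ∈ G0) : b k⁻¹ = (b k)⁻¹ :=
  eq_inv_of_mul_eq_one_left (by rw [← a.mul _ (inv_mem hk) _ hk, inv_mul_cancel, a.one])

theorem conj {k l : G} (hk : k ∈ G0) (hl : l ∈ G0) : b (k * l * k⁻¹) = b k * b l * (b k)⁻¹ := by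
  rw [a.mul _ (mul_mem hk hl) _ (inv_mem hk), a.mul _ hk _ hl, a.inv hk]

theorem cube {k : G} (hk : k ∈ G0) (e : k ^ 3 = 1) : b k ^ 3 = 1 := by
  rw [pow_three', ← a.mul _ hk _ hk, ← a.mul _ (mul_mem hk hk) _ hk, ← pow_three', e, a.one]

/-- the fixed points -/
def Fix : Subgroup G := sub (fun k => k ∈ G0 ∧ b k = k) ⟨⟨one_mem _, a.one⟩, fun k hk l hl =>
  ⟨mul_mem hk.1 (inv_mem hl.1), by rw [a.mul _ hk.1 _ (inv_mem hl.1), a.inv hl.1, hk.2, hl.2]⟩⟩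

theorem cj (hN : G0.Normal) (γ : G) : Au G0 fun k => γ * b k * γ⁻¹ :=
  ⟨fun k hk => hN.conj_mem _ (a.map k hk) γ, fun k hk l hl => by rw [a.mul k hk l hl, conj_mul],
    fun k hk e => a.inj k hk (conj_eq_one_iff.1 e)⟩

omit a in
theorem of_cj {γ : G} (e : ∃ δ, ∀ k ∈ G0, γ * b k * γ⁻¹ = δ * k * δ⁻¹) :
    ∃ δ, ∀ k ∈ G0, b k = δ * k * δ⁻¹ :=
  let ⟨δ, e⟩ := e
  ⟨γ⁻¹ * δ, fun k hk => by
    rw [show γ⁻¹ * δ * k * (γ⁻¹ * δ)⁻¹ = γ⁻¹ * (δ * k * δ⁻¹) * γ by group, ← e k hk]; group⟩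

end Au

variable [Finite G] {S J Q Q2 M0 L0 : Subgroup G} {z : G} {Φ : G → S6 → Prop} {Θ : G → S5 → Prop}

namespace Hyp
variable {g v p1 p2 : G} (h : Hyp S J Q Q2 M0 L0 z Φ Θ g v p1 p2)
include h

local notation "𝒵" => zpowers z
local notation "t" => g * g
local notation "x" => v * z * v⁻¹
local notation "𝒟" => D9 z (v * z * v⁻¹)

theorem genM {Y : Subgroup G} (hS : S ≤ Y) (hg : g ∈ Y) (hv : v ∈ Y) : M0 ≤ Y := fun m hm => by
  have key : ∀ m σ, Φ m σ → N9 σ → m ∈ Y := fun m σ e e' => by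
    obtain ⟨u, i, rfl⟩ := gen6b σ e' (h.φe e)
    exact (mul_mem_cancel_right (inv_mem (pow_mem hg i.val))).1 (hS ((h.ΦS (h.φ.mul e
      (h.φ.inv (h.φ.pow h.Φg i.val)))).2 (by simpa using p9_e6 u)))
  obtain ⟨σ, e⟩ := h.φ.ex hm
  rcases gen6a σ with e' | ⟨u, e'⟩
  · exact key m σ e e'
  · exact (mul_mem_cancel_left (mul_mem hv (hS (h.QS (h.co_std u).1)))).1
      (key _ _ (h.φ.mul (h.φ.mul h.Φv (h.co_std u).2) e) e')

variable {B : G → S8 → Prop} {K0 G0 : Subgroup G} (bb : Two (g * g) B K0)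
  (hx : Θ (v * z * v⁻¹) ω) (hG : K0 ⊔ M0 = G0) {b : G → G} (a : Au G0 b)
include bb hx hG a

section fix
variable (hf : ∀ k ∈ K0, b k = k)
include hf

theorem endoB : Endo J Q z b 1 ∧ ∀ q ∈ Q, b (cm (x) q) = cm ((x) ^ 1) (b q) := by
  have QG : Q ≤ G0 := (h.QS.trans h.SM).trans (hG ▸ le_sup_right)
  have KG : K0 ≤ G0 := hG ▸ le_sup_left
  have DK : ∀ d ∈ 𝒟, d ∈ K0 := fun d hd => bb.of_odd (n := 1) (h.DK hd) (h.b9.cube hd)
  have xK := DK _ (right_mem_D9 _ _)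
  have bz := hf z (DK _ (left_mem_D9 _ _))
  have m : ∀ q ∈ Q, b q ∈ Q := fun q hq => by
    refine h.memQ (Hyp0.CN ?_) (a.cube (QG hq) (h.Q3 q hq)) ?_
    · rw [← bz, ← a.mul _ (QG hq) _ (QG h.zQ), h.zc hq, a.mul _ (QG h.zQ) _ (QG hq)]
    · rw [← hf _ bb.tK, ← a.conj (KG bb.tK) (QG hq), ← a.mul _ (QG (h.nQ _ h.tN q hq)) _ (QG hq),
        hf _ (DK _ (mem_sup_left (h.tinv hq)))]
      exact h.ZQ' (h.tinv hq)
  have c : ∀ q ∈ Q, b (cm (x) q) = cm (x) (b q) := fun q hq => by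
    rw [cm, a.mul _ (QG (h.nSQ _ h.xS q hq)) _ (QG (inv_mem hq)), a.conj (KG xK) (QG hq), a.inv (QG hq),
      hf _ xK, cm]
  exact ⟨⟨m, fun q hq hj => h.J_of_cm (m q hq) (by
    rw [← c q hq, cm_eq_one.2 (h.Jab.comm h.xJ hj), a.one]; exact one_mem _),
    fun q hq r hr => a.mul q (QG hq) r (QG hr), by rwa [pow_one]⟩, by simpa only [pow_one] using c⟩

theorem fixAll {e : G} (eK : e ∈ K0) (θe : Θ e Y5) (gK : g ∈ K0) (vK : v ∈ K0)
    (hm : Act Q Φ b fun u => u) : ∀ k ∈ G0, b k = k := by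
  have QG : Q ≤ G0 := (h.QS.trans h.SM).trans (hG ▸ le_sup_right)
  have KG : K0 ≤ G0 := hG ▸ le_sup_left
  have DK : ∀ d ∈ 𝒟, d ∈ K0 := fun d hd => bb.of_odd (n := 1) (h.DK hd) (h.b9.cube hd)
  have xK := DK _ (right_mem_D9 _ _)
  have KF : K0 ≤ a.Fix := fun k hk => ⟨KG hk, hf k hk⟩
  have m := (h.endoB bb hx hG a hf).1.mapQ
  have dJ : ∀ q ∈ Q, b q * q⁻¹ ∈ J := fun q hq =>
    let ⟨u, hu⟩ := h.co_ex hq; h.co_eqv (hm q u hu) hu
  have QF : Q ≤ a.Fix := fun q hq => ⟨QG hq, by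
    have uQ := mul_mem (m q hq) (inv_mem hq)
    have e2 := pow_mem eK 2
    have f1 := dJ _ (h.nQ _ (h.LN (pow_mem (h.θ.mem θe) 2)) q hq)
    rw [a.conj (KG e2) (QG hq), hf _ e2, conj_inv, conj_mul] at f1
    have f2 : (e ^ 2)⁻¹ * (x) * (e ^ 2)⁻¹⁻¹ * (b q * q⁻¹) = b q * q⁻¹ * ((e ^ 2)⁻¹ * (x) * (e ^ 2)⁻¹⁻¹) :=
      comm_conj_of (by simpa only [inv_inv] using h.Jab.comm h.xJ f1)
    have f3 := comm_mul_of (h.Jab.comm (dJ q hq) h.xJ) f2.symm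
    have f4 := h.θ.mul hx (h.θ.conj (h.θ.inv (h.θ.pow θe 2)) hx)
    have f5 := bb.le (mul_mem xK (mul_mem (mul_mem (inv_mem e2) xK) (inv_mem (inv_mem e2))))
    have f6 := (h.Q2K hx (h.θ.kerm (h.θ.mul f4 f4) (by decide +kernel)) (mul_mem f5 f5)).resolve_left
      fun e => h.sq f4 (by decide +kernel) (by decide +kernel) (h.ZQ' e)
    have f7 : b q * q⁻¹ ∈ 𝒵 := h.CQt uQ (mem_C1.1 ((mul_mem_cancel_left (mem_C1.2
      (comm_mul_of f3 f3).symm)).1 (mem_C1.2 (h.Zc f6 uQ).symm))).symm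
    have f8 := hf _ (DK _ (mem_sup_left (h.tinv hq)))
    have f9 := h.nQ _ h.tN q hq
    rw [a.mul _ (QG f9) _ (QG hq), a.conj (KG bb.tK) (QG hq), hf _ bb.tK,
      ← inv_mul_cancel_right (b q) q, ← conj_mul, mem_C1_iff_conj'.1 (bb.le (DK _ (mem_sup_left f7))),
      ← mul_assoc, mul_left_inj, mul_assoc _ _ (b q * q⁻¹), h.Zc f7 f9, ← mul_assoc,
      mul_eq_right] at f8
    exact mul_inv_eq_one.1 (eq_one_of_sq_cube f8 (h.Z3 f7))⟩
  exact fun k hk => ((hG.ge.trans (sup_le KF (h.genM (h.supx h.xS h.xQ ▸ sup_le QF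
    (zpowers_le.2 (KF xK))) (KF gK) (KF vK)))) hk).2

end fix

theorem inner (i2 : G0.index = 2) (hK : G0 ⊓ C1 (t) = K0)
    (iv : ∀ u ∈ G0, u * u = 1 → u ≠ 1 → ∃ γ, γ * u * γ⁻¹ = t) {e f : G} (gK : g ∈ K0) (vK : v ∈ K0)
    (fK : f ∈ K0) (θf : Θ f R5) (eK : e ∈ K0) (θe : Θ e Y5) : ∃ γ, ∀ k ∈ G0, b k = γ * k * γ⁻¹ := by
  have hN := normal_of_index_eq_two i2
  have QG : Q ≤ G0 := (h.QS.trans h.SM).trans (hG ▸ le_sup_right)
  have KG : K0 ≤ G0 := hG ▸ le_sup_left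
  have tG := KG bb.tK
  have s3 : ∀ {b}, Au G0 b → (∀ k ∈ K0, b k = k) → ∃ γ, ∀ k ∈ G0, b k = γ * k * γ⁻¹ :=
    fun {b} a hf => by
      obtain ⟨e1, e2⟩ := h.endoB bb hx hG a hf
      obtain ⟨m, hm⟩ := h.act_ex e1
      obtain ⟨-, F, F1, F2, F3⟩ := h.fmat' hx (bb.le fK) θf
      rcases m5 F F2 F3 m (h.sim_of e1 e2 hm (by simp) (by simp)) (h.act_uniq
        (F := fun q => b (f * q * f⁻¹)) (fun q u hq => hm _ _ (F1 q u hq)) fun q u hq => by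
          simpa only [a.conj (KG fK) (QG hq.1), hf f fK] using F1 _ _ (hm q u hq)) with e3 | e3
      · exact ⟨1, fun k hk => by
          simpa using h.fixAll bb hx hG a hf eK θe gK vK (by rwa [funext e3] at hm) k hk⟩
      · exact Au.of_cj (γ := t) ⟨1, fun k hk => by
          simpa using h.fixAll bb hx hG (a.cj hN (t))
            (fun k hk => by rw [hf k hk]; exact mem_C1_iff_conj'.1 (bb.le hk)) eK θe gK vK
            (fun q u hq => by simpa only [e3, neg_neg] using h.ac_t _ _ (hm q u hq)) k hk⟩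
  have s2 : ∀ {b}, Au G0 b → b (t) = t → ∃ γ, ∀ k ∈ G0, b k = γ * k * γ⁻¹ := fun {b} a bt => by
    have r := bb.r
    have bK : ∀ k ∈ K0, b k ∈ K0 := fun k hk => hK.le ⟨a.map k (KG hk), mem_C1.2 (by
      rw [← bt, ← a.mul _ (KG hk) _ tG, mem_C1.1 (bb.le hk), a.mul _ tG _ (KG hk)])⟩
    have hR : Rl (⊤ : Subgroup A8) ⊥ fun c (c' : A8) => ∃ k, B k c ∧ B (b k) c' :=
      ⟨fun _ => mem_top _, fun {c} _ => by
        obtain ⟨k, hk⟩ := bb.σs c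
        obtain ⟨c', hc⟩ := r.ex (bK k (r.mem hk))
        exact ⟨c', k, hk, hc⟩,
      fun ⟨k, h1, h2⟩ ⟨l, h3, h4⟩ => ⟨_, r.mul h1 h3, by
        rw [a.mul _ (KG (r.mem h1)) _ (KG (r.mem h3))]; exact r.mul h2 h4⟩,
      fun ⟨k, h1, h2⟩ => by
        rw [mem_bot, r.ker h1, r.ker h2]
        refine ⟨fun e => ?_, fun e => ?_⟩ <;> rcases mem_zpowers_order_two' bb.t2 e with e | e
        · exact a.inj k (KG (r.mem h1)) e ▸ one_mem _
        · exact mz (mul_inv_eq_one.1 (a.inj _ (mul_mem (KG (r.mem h1)) (inv_mem tG)) (by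
            rw [a.mul _ (KG (r.mem h1)) _ (inv_mem tG), a.inv tG, e, bt, mul_inv_cancel])))
        · rw [e, a.one]; exact one_mem _
        · exact mz (e ▸ bt), bot_le⟩
    obtain ⟨π, hπ⟩ := aut8 (α := hR.hom.comp (topEquiv (G := A8)).symm.toMonoidHom)
      ((injective_iff_map_eq_one _).2 fun c e => hR.kerm (hR.hom_spec ⟨c, mem_top c⟩) e)
    obtain ⟨k0, bk⟩ := bb.σs π⁻¹
    have a' := a.cj hN k0
    refine Au.of_cj (s3 a' fun k hk => (gen3 r (fun c => bb.σs c) bb.le bb.t2 (Y := a'.Fix)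
      ⟨tG, by simpa only [bt] using mem_C1_iff_conj.1 (bb.σ.mem bk)⟩ (fun k hk k3 => ⟨KG hk, ?_⟩) hk).2)
    obtain ⟨c, hc⟩ := r.ex hk
    obtain ⟨c', hc'⟩ := r.ex (bK k hk)
    have e := hπ c
    rw [show (hR.hom.comp (topEquiv (G := A8)).symm.toMonoidHom) c = c' from
      hR.uniq (hR.hom_spec ⟨c, mem_top c⟩) ⟨k, hc, hc'⟩] at e
    exact odd_lift bb.σ bb.t2 bb.t1 (n := 1) (bb.σ.cast (bb.σ.conj bk hc') (by rw [e]; group)) hc
      (a'.cube (KG hk) k3) k3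
  obtain ⟨γ, e⟩ := iv _ (a.map _ tG) (by rw [← a.mul _ tG _ tG, h.g4, a.one]) fun e => h.t1 (a.inj _ tG e)
  exact Au.of_cj (s2 (a.cj hN γ) e)

end Hyp

omit [Finite G] in
theorem rl_quot {M K : Subgroup G} (hle : K ≤ M) [(K.subgroupOf M).Normal] {H : Type*} [Group H]
    (E : M ⧸ K.subgroupOf M ≃* H) : ∃ B : G → H → Prop, Rl M K B ∧ ∀ c, ∃ k, B k c :=
  ⟨_, rl_of_hom (E.toMonoidHom.comp (QuotientGroup.mk' _)) hle fun k => by simp [mem_subgroupOf],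
    fun c => let ⟨k, e⟩ := (E.surjective.comp (QuotientGroup.mk'_surjective _)) c; ⟨k, k.2, e⟩⟩

theorem Hyp0.main (h : Hyp0 S J Q Q2 M0 L0 z Φ Θ) (hM : McRec.{u}) :
    Nonempty (G ≃* Cfsg.Spor.McL) ∨ Nonempty (G ≃* MulAut Cfsg.Spor.McL) := by
  obtain ⟨Φ, g, v, p1, p2, h⟩ := h.exists_hyp
  obtain ⟨Θ, h, hx⟩ := h.exists_θ
  have hle : zpowers (g * g) ≤ C1 (g * g) := zpowers_le.2 h.tK
  have : ((zpowers (g * g)).subgroupOf (C1 (g * g))).Normal := (normal_subgroupOf_iff hle).2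
    fun u k hu hk => conj_mem_of_mem_N (Hyp0.CN (mem_C1.1 hk)) hu
  obtain ⟨B, h1, h2⟩ := rl_quot hle (MulEquiv.refl _)
  obtain ⟨κ, z', g', v', -, -, hb, -⟩ := h.bar hx h1 h2
  obtain ⟨s, hs⟩ := h.φs s6 (by decide +kernel)
  have he : 2 ∣ orderOf (s * (g * g) * s⁻¹ * (g * g)⁻¹) := by
    have f := h.φ.mul (h.φ.conj hs h.Φt) (h.φ.inv h.Φt)
    have := Fact.mk Nat.prime_two
    rw [← orderOf_eq_prime (p := 2) (x := s6 * t6 * s6⁻¹ * t6⁻¹) (by decide +kernel) (by decide +kernel)]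
    exact orderOf_dvd_of_pow_eq_one (h.φ.eq_of (h.φ.pow f _) h.φ.one (pow_orderOf_eq_one _))
  rcases hb.main with ⟨⟨E⟩⟩ | ⟨⟨E⟩, -⟩
  · obtain ⟨B, h1, h2⟩ := rl_quot hle E
    obtain ⟨e⟩ := mcl_of h1 h2 le_rfl h.g4 hM h.t1 h.gK rfl (top_inf_eq _) (mem_top s) he
    exact Or.inl ⟨topEquiv.symm.trans e⟩
  obtain ⟨B, h1, h2⟩ := rl_quot hle E
  have bb : Two (g * g) B (h1.pre (alternatingGroup (Fin 8))) :=
    ⟨h1, h2, h1.mem_pre, h1.pre_le _, h.g4, h.t1⟩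
  generalize h1.pre (alternatingGroup (Fin 8)) = K0 at bb
  obtain ⟨G0, e, f, i2, hK, iv, gK, vK, fK, θf, eK, θe⟩ := h.exists_G0 bb hx
  have MG := h.Mi G0 i2
  have k1 : K0 ⊔ M0 ≤ G0 := sup_le (hK ▸ inf_le_left) MG
  have mc := fun H hH hs => mcl_of bb.r (fun c => bb.σs c) bb.le h.g4 hM h.t1 gK rfl (H := H) hH hs he
  obtain ⟨e1⟩ := mc G0 hK (MG (h.φ.mem hs))
  obtain ⟨e2⟩ := mc (K0 ⊔ M0) (le_antisymm ((inf_le_inf_right _ k1).trans hK.le)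
    (le_inf le_sup_left bb.le)) (mem_sup_right (h.φ.mem hs))
  have hG := eq_of_le_of_card_eq k1 (Nat.card_congr (e2.trans e1.symm).toEquiv)
  have hN := normal_of_index_eq_two i2
  refine Or.inr ⟨(MulEquiv.ofBijective (MulAut.conjNormal (H := G0)) ⟨(injective_iff_map_eq_one _).2
    fun γ e => ?_, fun β => ?_⟩).trans (MulAut.congr e1)⟩
  · have f : ∀ k ∈ G0, γ * k * γ⁻¹ = k := fun k hk =>
      congrArg Subtype.val (DFunLike.congr_fun e (⟨k, hk⟩ : G0))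
    have f1 : γ ∈ C Q := mem_C.2 fun q hq =>
      (mul_inv_eq_iff_eq_mul.1 (f q (MG (h.SM (h.QS hq))))).symm
    have f2 := h.ZQ.le ⟨h.CQ f1, f1⟩
    obtain ⟨n, hn⟩ := exists_pow_of_mem_zpowers h.z3 f2
    have f3 := mul_inv_eq_iff_eq_mul.2 (mul_inv_eq_iff_eq_mul.1 (f g (MG h.gM))).symm
    rw [hn, ← conj_pow, h.ginv.1, inv_pow, ← hn] at f3
    exact eq_one_of_inv_eq (h.Z3 f2) f3
  · classical
    obtain ⟨γ, e⟩ := h.inner bb hx hG (b := fun k => if hk : k ∈ G0 then β ⟨k, hk⟩ else k)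
      ⟨fun k hk => by simp [hk], fun k hk l hl => by
        simp only [dif_pos hk, dif_pos hl, dif_pos (mul_mem hk hl), ← coe_mul, ← map_mul]; rfl,
        fun k hk e => by
          rw [dif_pos hk, OneMemClass.coe_eq_one, map_eq_one_iff _ β.injective] at e
          exact congrArg Subtype.val e⟩ i2 hK iv gK vK fK θf eK θe
    exact ⟨γ, MulEquiv.ext fun k => Subtype.ext ((e k k.2).symm.trans (dif_pos k.2))⟩

end CfsgH3.Md
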