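import Cfsg.Agent.H3.MdH
import Cfsg.Prelude.Def_Transfer

/-! The hypotheses of the 3-local characterization of the McLaughlin group. -/

set_option autoImplicit false
set_option linter.unusedSectionVars false
set_option synthInstance.maxSize 4096

namespace CfsgH3.Md
open Subgroup CfsgH5 CfsgH6 CfsgFT CfsgH7 CfsgH7.F5 CfsgH8 Equiv X32

universe u
variable {G : Type u} [Group G]

theorem Rl.comp {H H' : Type*} [Group H] [Group H'] {M K K' : Subgroup G} {R : G → H → Prop}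
    (h : Rl M K R) (f : H →* H') (h1 : K' ≤ M) (h2 : ∀ g a, R g a → (f a = 1 ↔ g ∈ K')) :
    Rl M K' fun g b => ∃ a, R g a ∧ f a = b where
  mem := fun ⟨_, e, _⟩ => h.mem e
  ex hg := let ⟨a, e⟩ := h.ex hg; ⟨_, a, e, rfl⟩
  mul := fun ⟨_, e1, e2⟩ ⟨_, e3, e4⟩ => ⟨_, h.mul e1 e3, e2 ▸ e4 ▸ map_mul f _ _⟩
  ker := fun ⟨a, e1, e2⟩ => e2 ▸ h2 _ a e1
  le := h1

/-- the subgroup generated by the 3-elements -/
abbrev O3 (Y : Subgroup G) : Subgroup G := closure {g : G | g ∈ Y ∧ ∃ k : ℕ, orderOf g = 3 ^ k}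

theorem O3_le (Y : Subgroup G) : O3 Y ≤ Y := (closure_le _).2 fun _ h => h.1

theorem nrm_O3 (Y : Subgroup G) : Nrm Y (O3 Y) := fun n hn _ ha =>
  (closure_le ((O3 Y).comap (MulAut.conj n).toMonoidHom)).2 (fun g hg =>
    subset_closure ⟨mul_mem (mul_mem hn hg.1) (inv_mem hn),
      hg.2.imp fun _ => ((MulAut.conj n).orderOf_eq g).trans⟩) ha

theorem mem_O3 {Y : Subgroup G} {g : G} (h : g ∈ Y) {k : ℕ} (e : g ^ 3 ^ k = 1) : g ∈ O3 Y :=
  let ⟨j, _, e⟩ := (Nat.dvd_prime_pow Nat.prime_three).1 (orderOf_dvd_of_pow_eq_one e)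
  subset_closure ⟨h, j, e⟩

theorem sl_invol : ∀ a : Matrix.SpecialLinearGroup (Fin 2) (ZMod 5), a * a = 1 →
    a = 1 ∨ a = sl25Z := by decide +kernel

theorem exists_ψ : ∃ ψ : Matrix.SpecialLinearGroup (Fin 2) (ZMod 5) →* A5, Function.Surjective ψ ∧
    ∀ a, ψ a = 1 ↔ a = 1 ∨ a = sl25Z := by
  obtain ⟨ψ, h1, h2, h3⟩ := sl25_exists_hom a5X_pow a5Y_pow (one_pow 2) (by simp) (by simp) a5XY_pow
  have hs : ψ.range = ⊤ := top_le_iff.1 (a5_closure.ge.trans ((closure_le _).2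
    (Set.pair_subset ⟨_, h1⟩ ⟨_, h2⟩)))
  have h4 := ψ.ker.card_mul_index
  rw [index_ker, hs, card_top, CfsgH7.card_A5, card_SL25] at h4
  have := Fact.mk Nat.prime_two
  have h5 : zpowers sl25Z = ψ.ker := eq_of_le_of_card_eq (zpowers_le.2 h3) (by
    rw [Nat.card_zpowers, orderOf_eq_prime sl25Z_pow (by decide)]; omega)
  refine ⟨ψ, MonoidHom.range_eq_top.1 hs, fun a => ⟨fun e =>
    mem_zpowers_order_two' (by decide) (h5.ge e), ?_⟩⟩
  rintro (rfl | rfl)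
  exacts [map_one _, h3]

theorem exists_hyp0 [Finite G] {S J Q : Subgroup G} (hS : SylIn 3 S ⊤) (hJS : J ≤ S) (hJ : Ab J)
    (J3 : ∀ a ∈ J, a ^ 3 = 1) (cJ : Nat.card J = 81) {B1 : G → alternatingGroup (Fin 6) → Prop}
    (b1 : Rl (O3 (N J)) J B1) (s1 : ∀ c, ∃ k, B1 k c) (hQ : Q = Op 3 (N (Z S)))
    (ex : Cfsg.IsExtraspecial 3 Q) (cQ : Nat.card Q = 243) (Q3 : ∀ a ∈ Q, a ^ 3 = 1)
    {B2 : G → Matrix.SpecialLinearGroup (Fin 2) (ZMod 5) → Prop} (b2 : Rl (O3 (N (Z S))) Q B2)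
    (s2 : ∀ c, ∃ k, B2 k c) (iii : ∀ x ∈ J, x ≠ 1 → C (Op 3 (C1 x)) ≤ Op 3 (C1 x)) :
    ∃ Q2 z Φ Θ, Hyp0 S J Q Q2 (O3 (N J)) (O3 (N (Z S))) z Φ Θ := by
  have := Fact.mk Nat.prime_three
  have SN : S ≤ N (Z S) := (Nrm.self S).Z.le_N
  have QS : Q ≤ S := hQ ▸ (hS.of_le SN le_top).Op_le Nat.prime_three
  have c3 : Nat.card (Z Q) = 3 := by
    rw [Z_eq_map_center, card_map_of_injective Subtype.val_injective, ex.2]
  obtain ⟨z, zS, z1, z3, zc⟩ := exists_pow_central Nat.prime_three hS.isPGroup hS.isPGroup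
    (Nrm.self S) fun e => by
      have := card_le_of_le (hJS.trans e.le)
      rw [cJ, card_bot] at this
      omega
  have h1 : Z S ≤ Z Q := le_inf (hQ ▸ le_Op (le_N _) (nrm_N _) (hS.isPGroup.to_le inf_le_left))
    (inf_le_right.trans (C_anti QS))
  have h2 : zpowers z ≤ Z S := zpowers_le.2 ⟨zS, mem_C.2 zc⟩
  have h3 : zpowers z = Z Q := eq_of_le_of_card_eq (h2.trans h1) (by
    rw [c3, Nat.card_zpowers, orderOf_eq_prime z3 z1])
  have h4 : Z S = zpowers z := le_antisymm (h1.trans h3.ge) h2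
  rw [h4] at hQ SN b2 ⊢
  have SL : S ≤ O3 (N (zpowers z)) := fun s hs =>
    let ⟨_, e⟩ := hS.isPGroup ⟨s, hs⟩; mem_O3 (SN hs) (congrArg Subtype.val e)
  obtain ⟨ψ, ψ1, ψ2⟩ := exists_ψ
  have ZZ : sl25Z * sl25Z = 1 := by decide
  exact ⟨b2.pre ψ.ker, z, fun g b => ∃ a, B1 g a ∧ (alternatingGroup (Fin 6)).subtype a = b,
    fun g b => ∃ a, B2 g a ∧ (A5.subtype.comp ψ) a = b,
    { syl := hS
      cS := by
        rw [(hS.of_le SL le_top).card_eq_pow Nat.prime_three, b2.card_all s2, cQ, card_SL25,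
          ← Nat.primeFactorsList_count_eq]
        simp
      JS := hJS
      Jab := hJ
      J3 := J3
      cJ := cJ
      z1 := z1
      z3 := z3
      ZS := h4
      Qop := hQ
      ZQ := h3.symm
      DQ := fun a ha b hb => by
        rw [h3, Z_eq_map_center, ← ex.1.2.2]
        exact ⟨_, commutator_mem_commutator (mem_top (⟨a, ha⟩ : Q)) (mem_top ⟨b, hb⟩), rfl⟩
      cQ := cQ
      Q3 := Q3
      MN := O3_le _
      Mn := nrm_O3 _
      M3 := fun _ hg _ => mem_O3 hg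
      Mi := fun Y hY => (closure_le _).2 fun g ⟨_, k, e⟩ =>
        let ⟨n, hn⟩ : Odd (3 ^ k) := Odd.pow (by decide)
        idx2_of_odd le_top (relIndex_top_right Y ▸ hY) (mem_top g) (hn ▸ e ▸ pow_orderOf_eq_one g)
      LC := (closure_le _).2 fun g ⟨hg, k, e⟩ => by
        obtain ⟨w, hw, w1, -, e1⟩ := exists_pow_central Nat.prime_three (isPGroup_zpowers (k := 1) z3)
          (isPGroup_zpowers (e ▸ pow_orderOf_eq_one g)) (nrm_zpowers_iff.2 hg) (by simpa using z1)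
        have := mem_C1.2 (e1 g (mem_zpowers g))
        rcases mem_zpowers_three z3 hw with rfl | rfl | rfl
        exacts [absurd rfl w1, this, C1_inv z ▸ this]
      Ln := nrm_O3 _
      SL := SL
      φ := b1.comp _ b1.le fun _ _ e => by rw [← b1.ker e]; simp
      φs := fun σ e => let ⟨k, hk⟩ := s1 ⟨σ, e⟩; ⟨k, _, hk, rfl⟩
      φe := fun ⟨a, _, e⟩ => e ▸ a.2
      θ := b2.comp _ (b2.pre_le _) fun _ _ e => by rw [b2.mem_pre e]; simp
      θs := fun σ e => by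
        obtain ⟨a, ha⟩ := ψ1 ⟨σ, e⟩
        obtain ⟨k, hk⟩ := s2 a
        exact ⟨k, a, hk, congrArg Subtype.val ha⟩
      θe := fun ⟨a, _, e⟩ => e ▸ (ψ a).2
      QQ := b2.le_pre _
      q2 := fun g ⟨a, ha, e⟩ k ⟨b, hb, e'⟩ h1 h2 => b2.kerm (b2.mul e e') (by
        rw [((ψ2 a).1 ha).resolve_left (mt (b2.ker e).1 h1),
          ((ψ2 b).1 hb).resolve_left (mt (b2.ker e').1 h2), ZZ])
      sq := fun ⟨a, e, e'⟩ h1 _ h2 => h1 (e' ▸ congrArg Subtype.val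
        ((ψ2 a).2 (sl_invol a ((b2.ker (b2.mul e e)).2 h2))))
      iii := iii }⟩

end CfsgH3.Md
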