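import Mathlib
import Cfsg.Agent.H3.A5Pres
import Cfsg.Agent.H3.FrobBasic

/-! Frobenius complements from fixed-point-free actions; `SL(2,5)` is a Frobenius complement. -/

set_option autoImplicit false

namespace CfsgH3

open MatrixGroups Cfsg

theorem frobCompl_semidirect {N H : Type*} [Group N] [Group H] (φ : H →* MulAut N) [Nontrivial N]
    [Nontrivial H] (hf : ∀ h : H, h ≠ 1 → ∀ n : N, φ h n = n → n = 1) :
    IsFrobeniusComplement (SemidirectProduct.inr : H →* N ⋊[φ] H).range := by
  rw [isFrobeniusComplement_iff]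
  have hmem : ∀ g : N ⋊[φ] H, g ∈ (SemidirectProduct.inr : H →* N ⋊[φ] H).range ↔ g.left = 1 := by
    intro g
    constructor
    · rintro ⟨h, rfl⟩; simp
    · intro hg
      exact ⟨g.right, by ext <;> simp [hg]⟩
  refine ⟨?_, ?_, ?_⟩
  · obtain ⟨h, hh⟩ := exists_ne (1 : H)
    intro hb
    have : (SemidirectProduct.inr h : N ⋊[φ] H) ∈ (⊥ : Subgroup (N ⋊[φ] H)) := hb ▸ ⟨h, rfl⟩
    rw [Subgroup.mem_bot] at this
    exact hh (by simpa using congrArg SemidirectProduct.right this)
  · obtain ⟨n, hn⟩ := exists_ne (1 : N)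
    intro ht
    have : (SemidirectProduct.inl n : N ⋊[φ] H) ∈ (SemidirectProduct.inr : H →* N ⋊[φ] H).range :=
      ht ▸ Subgroup.mem_top _
    rw [hmem] at this
    exact hn (by simpa using this)
  · rintro _ ⟨h, rfl⟩ h1 g hg
    rw [hmem] at hg ⊢
    have hh : h ≠ 1 := by rintro rfl; simp at h1
    apply hf h hh
    simp only [SemidirectProduct.mul_left, SemidirectProduct.inv_left, SemidirectProduct.inv_right,
      SemidirectProduct.left_inr, map_one, mul_one, SemidirectProduct.mul_right,
      SemidirectProduct.right_inr, map_mul, MulAut.mul_apply] at hg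
    rw [← map_mul, map_eq_one_iff _ (φ g.right⁻¹).injective, inv_mul_eq_one] at hg
    exact hg.symm

theorem sl25_sq_eq_one (g : SL(2, ZMod 5)) (hg : g ^ 2 = 1) : g = 1 ∨ g = sl25Z := by
  have key : ∀ a b c d : ZMod 5, a * d - b * c = 1 → a * a + b * c = 1 → a * b + b * d = 0 →
      c * a + d * c = 0 → c * b + d * d = 1 →
      (a = 1 ∧ b = 0 ∧ c = 0 ∧ d = 1) ∨ (a = 4 ∧ b = 0 ∧ c = 0 ∧ d = 4) := by decide
  have h0 := g.det_coe
  rw [Matrix.det_fin_two] at h0
  have h1 : (g.1 * g.1) = 1 := by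
    have := congrArg Subtype.val hg
    simpa [sq] using this
  have e00 := congrFun (congrFun h1 0) 0
  have e01 := congrFun (congrFun h1 0) 1
  have e10 := congrFun (congrFun h1 1) 0
  have e11 := congrFun (congrFun h1 1) 1
  simp only [Matrix.mul_apply, Fin.sum_univ_two, Matrix.one_apply_eq, ne_eq, zero_ne_one,
    not_false_eq_true, Matrix.one_apply_ne, one_ne_zero] at e00 e01 e10 e11
  rcases key _ _ _ _ h0 e00 e01 e10 e11 with ⟨h1, h2, h3, h4⟩ | ⟨h1, h2, h3, h4⟩
  · left
    ext i j; fin_cases i <;> fin_cases j <;> simp [h1, h2, h3, h4]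
  · right
    ext i j; fin_cases i <;> fin_cases j <;> simp [sl25Z, h1, h2, h3, h4]

/-- A homomorphism from `SL(2,5)` which is non-trivial on the centre is injective. -/
theorem sl25_injective {G : Type*} [Group G] (f : SL(2, ZMod 5) →* G) (hZ : f sl25Z ≠ 1) :
    Function.Injective f := by
  rw [← MonoidHom.ker_eq_bot_iff]
  have hXY : f sl25Z = (f sl25X * f sl25Y) ^ 2 := by rw [← map_mul, ← map_pow, sl25XY]
  have hx3 : (f sl25X) ^ 3 = 1 := by rw [← map_pow, sl25X_pow, map_one]
  have hy5 : (f sl25Y) ^ 5 = 1 := by rw [← map_pow, sl25Y_pow, map_one]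
  have hz2 : (f sl25Z) ^ 2 = 1 := by rw [← map_pow, sl25Z_pow, map_one]
  have hX : f sl25X ≠ 1 := by
    intro h
    rw [h, one_mul] at hXY
    apply hZ
    have h4 : (f sl25Y) ^ 4 = 1 := by rw [hXY, ← pow_mul] at hz2; exact hz2
    have : f sl25Y = 1 := by
      have : (f sl25Y) ^ 5 = (f sl25Y) ^ 4 * f sl25Y := pow_succ _ _
      rw [hy5, h4, one_mul] at this; exact this.symm
    rw [hXY, this, one_pow]
  have hY : f sl25Y ≠ 1 := by
    intro h
    rw [h, mul_one] at hXY
    apply hZ
    have h4 : (f sl25X) ^ 4 = 1 := by rw [hXY, ← pow_mul] at hz2; exact hz2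
    have : f sl25X = 1 := by
      have : (f sl25X) ^ 4 = (f sl25X) ^ 3 * f sl25X := pow_succ _ _
      rw [hx3, h4, one_mul] at this; exact this.symm
    rw [hXY, this, one_pow]
  have h3 : 3 ∣ Nat.card f.range := by
    have := Subgroup.orderOf_dvd_natCard f.range ⟨sl25X, rfl⟩
    rwa [orderOf_eq_prime hx3 hX] at this
  have h5 : 5 ∣ Nat.card f.range := by
    have := Subgroup.orderOf_dvd_natCard f.range ⟨sl25Y, rfl⟩
    rwa [orderOf_eq_prime hy5 hY] at this
  have h4 : 4 ∣ Nat.card f.range := by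
    have := Subgroup.orderOf_dvd_natCard f.range ⟨sl25X * sl25Y, rfl⟩
    have h : orderOf (f (sl25X * sl25Y)) = 2 ^ (1 + 1) := by
      apply orderOf_eq_prime_pow
      · rw [map_mul, pow_one, ← hXY]; exact hZ
      · rw [map_mul, show 2 ^ (1 + 1) = 2 * 2 by norm_num, pow_mul, ← hXY, hz2]
    rwa [h] at this
  have h120 := f.ker.card_mul_index
  rw [card_SL25, Subgroup.index_ker] at h120
  obtain ⟨k, hk⟩ : 60 ∣ Nat.card f.range := by omega
  rw [hk] at h120
  have hi : Nat.card f.ker ∣ 2 := Dvd.intro k (by nlinarith)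
  rcases (Nat.dvd_prime Nat.prime_two).1 hi with h | h
  · exact Subgroup.card_eq_one.1 h
  · exfalso
    have : Finite f.ker := inferInstance
    obtain ⟨g, hg⟩ := exists_prime_orderOf_dvd_card' (G := f.ker) 2 (by rw [h])
    have hg2 : (g : SL(2, ZMod 5)) ^ 2 = 1 := by
      have := pow_orderOf_eq_one g
      rw [hg] at this
      exact congrArg Subtype.val this
    rcases sl25_sq_eq_one _ hg2 with h1 | h1
    · have : g = 1 := Subtype.ext h1
      rw [this, orderOf_one] at hg; norm_num at hg
    · exact hZ (h1 ▸ g.2)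

/-- an element of `SL(2, F)` fixing a non-zero vector is unipotent -/
theorem sl2_pow_char_of_fixed {F : Type*} [Field F] (p : ℕ) [CharP F p] (A : SL(2, F))
    (v : Fin 2 → F) (hv : v ≠ 0) (h : A.1.mulVec v = v) : A ^ p = 1 := by
  have h0 := A.det_coe
  rw [Matrix.det_fin_two] at h0
  have hdet : (A.1 - 1).det = 0 := by
    rw [← Matrix.exists_mulVec_eq_zero_iff]
    exact ⟨v, hv, by rw [Matrix.sub_mulVec, h]; simp⟩
  rw [Matrix.det_fin_two] at hdet
  simp only [Matrix.sub_apply, Matrix.one_apply_eq, ne_eq, zero_ne_one, not_false_eq_true,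
    Matrix.one_apply_ne, sub_zero, one_ne_zero] at hdet
  have htr : A.1 0 0 + A.1 1 1 = 2 := by linear_combination h0 - hdet
  have hN : (A.1 - 1) * (A.1 - 1) = 0 := by
    ext i j
    fin_cases i <;> fin_cases j <;>
      simp [Matrix.mul_apply, Fin.sum_univ_two]
    · linear_combination (A.1 0 0) * htr - h0
    · linear_combination (A.1 0 1) * htr
    · linear_combination (A.1 1 0) * htr
    · linear_combination (A.1 1 1) * htr - h0
  have hpow : ∀ n : ℕ, A.1 ^ n = 1 + (n : F) • (A.1 - 1) := by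
    intro n
    induction n with
    | zero => simp
    | succ n ih =>
      have : A.1 = 1 + (A.1 - 1) := by simp
      rw [pow_succ, ih]
      nth_rewrite 2 [this]
      simp only [add_mul, mul_add, one_mul, mul_one, smul_mul_assoc, hN, smul_zero, add_zero,
        Nat.cast_add, Nat.cast_one, add_smul, one_smul]
      abel
  apply Subtype.ext
  rw [Matrix.SpecialLinearGroup.coe_pow, hpow, CharP.cast_eq_zero]
  simp

instance factPrimeElevenH3 : Fact (Nat.Prime 11) := ⟨by norm_num⟩

/-- element of order 3 of `SL(2,11)` -/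
def sl211X : SL(2, ZMod 11) := ⟨!![7, 1; 9, 3], by decide⟩
/-- element of order 5 of `SL(2,11)` -/
def sl211Y : SL(2, ZMod 11) := ⟨!![3, 0; 0, 4], by decide⟩
/-- element of order 2 of `SL(2,11)` -/
def sl211Z : SL(2, ZMod 11) := ⟨!![10, 0; 0, 10], by decide⟩

/-- A distributive action on an additive group, as a homomorphism to `MulAut (Multiplicative V)` -/
def toMulAutMultiplicative (G V : Type*) [Group G] [AddGroup V] [DistribMulAction G V] :
    G →* MulAut (Multiplicative V) where
  toFun g := AddEquiv.toMultiplicative (DistribMulAction.toAddEquiv V g)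
  map_one' := by ext; simp
  map_mul' g h := by ext; simp [mul_smul]

theorem sl25_isFrobeniusComplement :
    ∃ (L : Type) (_ : Group L) (_ : Finite L) (H : Subgroup L),
      IsFrobeniusComplement H ∧ Nonempty (H ≃* SL(2, ZMod 5)) := by
  obtain ⟨f, -, -, hz⟩ := sl25_exists_hom (x := sl211X) (y := sl211Y) (z := sl211Z)
    (by decide) (by decide) (by decide) (by decide) (by decide) (by decide)
  have hinj := sl25_injective f (by rw [hz]; decide)
  let φ : SL(2, ZMod 5) →* MulAut (Multiplicative (Fin 2 → ZMod 11)) :=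
    (toMulAutMultiplicative SL(2, ZMod 11) (Fin 2 → ZMod 11)).comp f
  have : Nontrivial SL(2, ZMod 5) := ⟨sl25Z, 1, by decide⟩
  refine ⟨Multiplicative (Fin 2 → ZMod 11) ⋊[φ] SL(2, ZMod 5), inferInstance, ?_, _,
    frobCompl_semidirect φ ?_, ⟨(MonoidHom.ofInjective SemidirectProduct.inr_injective).symm⟩⟩
  · exact Finite.of_equiv _ SemidirectProduct.equivProd.symm
  · intro h hh n hn
    by_contra hn1
    have h11 := sl2_pow_char_of_fixed 11 (f h) n.toAdd hn1 hn
    have h120 : (f h) ^ 120 = 1 := by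
      rw [← map_pow, ← card_SL25, pow_card_eq_one', map_one]
    have : f h = 1 := by
      have e : (f h) ^ 121 = (f h) ^ 120 * f h := pow_succ _ _
      rw [show 121 = 11 * 11 by norm_num, pow_mul, h11, one_pow, h120, one_mul] at e
      exact e.symm
    exact hh (hinj (by rw [this, map_one]))

end CfsgH3
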