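import Mathlib
import Cfsg.Agent.H3.SL25Frob
import Cfsg.Agent.L.Char5

/-!
# A non-solvable group of order 120 with quaternion Sylow 2-subgroups is `SL(2,5)`
-/

set_option autoImplicit false

namespace CfsgH3

open MulAction
open scoped MatrixGroups

theorem solvable_of_normal_quotient {G : Type*} [Group G] (N : Subgroup G) [N.Normal]
    (h1 : Group.IsSolvable N) (h2 : Group.IsSolvable (G ⧸ N)) : Group.IsSolvable G :=
  Group.isSolvable_of_ker_le_range N.subtype (QuotientGroup.mk' N) (by simp)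

theorem card_orbit_subgroup {G Ω : Type*} [Group G] [MulAction G Ω] (L : Subgroup G) (b : Ω) :
    (orbit L b).ncard * Nat.card ↥(L ⊓ stabilizer G b) = Nat.card L := by
  have h1 := (stabilizer L b).index_mul_card
  rw [index_stabilizer] at h1
  rw [← h1]
  congr 1
  rw [← Nat.card_congr (Subgroup.subgroupOfEquivOfLe
    (inf_le_left : L ⊓ stabilizer G b ≤ L)).toEquiv, Subgroup.inf_subgroupOf_left]
  rfl

theorem exists_sylow_mem {G : Type*} [Group G] {p n : ℕ} [Fact p.Prime] {g : G}
    (hg : g ^ p ^ n = 1) : ∃ S : Sylow p G, g ∈ S := by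
  have : IsPGroup p (Subgroup.zpowers g) := by
    rintro ⟨_, i, rfl⟩
    exact ⟨n, Subtype.ext (by
      change (g ^ i) ^ p ^ n = 1
      rw [← zpow_natCast, ← zpow_mul, mul_comm, zpow_mul, zpow_natCast, hg, one_zpow])⟩
  obtain ⟨S, hS⟩ := this.exists_le_sylow
  exact ⟨S, hS (Subgroup.mem_zpowers g)⟩

theorem sl25_of_card_120 (G : Type*) [Group G] [Finite G] (hc : Nat.card G = 120)
    (hns : ¬ Group.IsSolvable G)
    (hQ : ∀ P : Sylow 2 G, Nonempty ((P : Subgroup G) ≃* QuaternionGroup 2)) :
    Nonempty (G ≃* SL(2, ZMod 5)) := by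
  classical
  have : Fact (Nat.Prime 5) := ⟨by norm_num⟩
  have : Fact (Nat.Prime 3) := ⟨by norm_num⟩
  have hP5 : ∀ P : Sylow 5 G, Nat.card P = 5 := fun P => by
    rw [Sylow.card_eq_multiplicity, hc, show (120 : ℕ) = 5 ^ 1 * 24 by norm_num,
      Nat.factorization_mul (by norm_num) (by norm_num), Nat.Prime.factorization_pow (by norm_num)]
    simp [Nat.factorization_eq_zero_of_not_dvd (show ¬ 5 ∣ 24 by norm_num)]
  obtain ⟨a⟩ : Nonempty (Sylow 5 G) := inferInstance
  have hia : (a : Subgroup G).index = 24 := by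
    have := (a : Subgroup G).index_mul_card
    rw [hP5, hc] at this
    omega
  have h6 : Nat.card (Sylow 5 G) = 6 := by
    have h1 := card_sylow_modEq_one 5 G
    have h2 := a.card_dvd_index
    rw [hia] at h2
    have h3 : Nat.card (Sylow 5 G) ≠ 1 := by
      intro h
      have := (Nat.card_eq_one_iff_unique.1 h).1
      have := a.normal_of_subsingleton
      refine hns (solvable_of_normal_quotient (a : Subgroup G)
        (CfsgL.burnside_pq' (p := 5) (q := 2) (a := 1) (b := 0) (by norm_num) (by norm_num)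
          (by simp [hP5]))
        (CfsgL.burnside_pq' (p := 2) (q := 3) (a := 3) (b := 1) (by norm_num) (by norm_num) hia))
    have h4 := Nat.le_of_dvd (by norm_num) h2
    unfold Nat.ModEq at h1
    interval_cases (Nat.card (Sylow 5 G)) <;> omega
  have hst : ∀ c : Sylow 5 G, Nat.card (stabilizer G c) = 20 := fun c => by
    have := (stabilizer G c).index_mul_card
    rw [index_stabilizer_of_transitive, h6, hc] at this
    omega
  have hq8 : ∀ s t : QuaternionGroup 2, s ≠ 1 → t ^ 2 = 1 → t = 1 ∨ t = s ∨ t = s ^ 2 := by decide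
  have hq8' : ∀ s : QuaternionGroup 2, s ^ 4 = 1 := by decide
  have hinv : ∀ t : G, t ^ 2 = 1 → ∀ c : Sylow 5 G, t • c = c := by
    intro t ht c
    obtain ⟨S, hS⟩ := exists_sylow_mem (p := 2) (n := 1) (by simpa using ht)
    obtain ⟨e⟩ := hQ S
    have h8 : Nat.card S = 8 := by
      rw [Nat.card_congr e.toEquiv, Nat.card_eq_fintype_card, QuaternionGroup.card]
    have h1 := card_orbit_subgroup (S : Subgroup G) c
    have h2 : (orbit (S : Subgroup G) c).ncard ≤ 6 := h6 ▸ Set.ncard_le_card _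
    have h3 : (S : Subgroup G) ⊓ stabilizer G c ≠ ⊥ := by
      intro h
      rw [h, Subgroup.card_bot, h8] at h1
      omega
    obtain ⟨⟨s, hs, hsc⟩, hs1⟩ := Subgroup.ne_bot_iff_exists_ne_one.1 h3
    rcases hq8 (e ⟨s, hs⟩) (e ⟨t, hS⟩) (fun h => hs1 (Subtype.ext
      (congrArg (fun x : S => (x : G)) ((map_eq_one_iff e e.injective).1 h)))) (by
        rw [← map_pow, map_eq_one_iff e e.injective]; exact Subtype.ext ht) with h | h | h
    · have : t = 1 := congrArg (fun x : S => (x : G)) ((map_eq_one_iff e e.injective).1 h)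
      rw [this, one_smul]
    · have : t = s := congrArg (fun x : S => (x : G)) (e.injective h)
      rw [this]; exact hsc
    · rw [← map_pow] at h
      have : t = s ^ 2 := congrArg (fun x : S => (x : G)) (e.injective h)
      rw [this]; exact (stabilizer G c).pow_mem hsc 2
  have horb : ∀ (L : Subgroup G), (a : Subgroup G) ≤ L → L ≤ stabilizer G a → ∀ b, b ≠ a →
      orbit L b = {a}ᶜ := by
    intro L h1 h2 b hb
    have h3 : orbit L b ⊆ {a}ᶜ := by
      rintro _ ⟨g, rfl⟩ h
      exact hb (smul_left_cancel (g : G) (h.trans (h2 g.2).symm))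
    have h4 : orbit (a : Subgroup G) b ⊆ orbit L b := by
      rintro _ ⟨g, rfl⟩
      exact ⟨⟨g, h1 g.2⟩, rfl⟩
    have h5 := card_orbit_subgroup (a : Subgroup G) b
    rw [hP5] at h5
    have h7 : (orbit (a : Subgroup G) b).ncard ≠ 1 := by
      intro h
      obtain ⟨c, hc⟩ := Set.ncard_eq_one.1 h
      have : b ∈ fixedPoints (a : Subgroup G) (Sylow 5 G) := fun g => by
        have h1 := mem_orbit b g
        have h2 := mem_orbit_self (M := (a : Subgroup G)) b
        rw [hc] at h1 h2
        exact h1.trans h2.symm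
      rw [a.2.sylow_mem_fixedPoints_iff] at this
      exact hb (Sylow.ext (a.3 b.2 this))
    have h8 := ((Nat.dvd_prime (by norm_num)).1 (Dvd.intro _ h5)).resolve_left h7
    refine Set.eq_of_subset_of_ncard_le h3 ?_
    rw [Set.ncard_compl, h6, Set.ncard_singleton]
    exact h8.ge.trans (Set.ncard_le_ncard h4)
  have hale : (a : Subgroup G) ≤ stabilizer G a := fun g hg =>
    Sylow.smul_eq_iff_mem_normalizer.2 (Subgroup.le_normalizer hg)
  have hH : ∀ b, b ≠ a → Nat.card ↥(stabilizer G a ⊓ stabilizer G b) = 4 := by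
    intro b hb
    have := card_orbit_subgroup (stabilizer G a) b
    rw [horb _ hale le_rfl b hb, Set.ncard_compl, h6, Set.ncard_singleton, hst] at this
    omega
  obtain ⟨x, hx⟩ := exists_prime_orderOf_dvd_card' (G := G) 3 (by rw [hc]; norm_num)
  have hxa : ∀ c : Sylow 5 G, x • c ≠ c := fun c h => by
    have := Subgroup.orderOf_dvd_natCard (stabilizer G c) h
    rw [hx, hst] at this
    omega
  let L := (toPermHom G (Sylow 5 G)).ker
  have hL : ∀ g, g ∈ L ↔ ∀ c : Sylow 5 G, g • c = c := fun g => Equiv.Perm.ext_iff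
  have hL2 : Nat.card L ∣ 2 := by
    have h1 : Nat.card L ∣ 4 := hH _ (hxa a) ▸ Subgroup.card_dvd_of_le
      (fun g hg => ⟨(hL g).1 hg _, (hL g).1 hg _⟩)
    have h2 : Nat.card L ≠ 4 := by
      intro h
      have h3 := L.index_mul_card
      rw [h, hc] at h3
      have : IsZGroup (G ⧸ L) := IsZGroup.of_squarefree (by
        rw [show Nat.card (G ⧸ L) = 30 by change L.index = 30; omega]; decide +kernel)
      exact hns (solvable_of_normal_quotient L
        (CfsgL.burnside_pq' (p := 2) (q := 2) (a := 2) (b := 0) (by norm_num) (by norm_num)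
          (by simp [h])) inferInstance)
    have h4 := Nat.le_of_dvd (by norm_num) h1
    interval_cases (Nat.card L) <;> omega
  obtain ⟨z, hz⟩ := exists_prime_orderOf_dvd_card' (G := G) 2 (by rw [hc]; norm_num)
  have hz2 : z ^ 2 = 1 := hz ▸ pow_orderOf_eq_one z
  have hz1 : z ≠ 1 := by rintro rfl; simp at hz
  have hLz : Subgroup.zpowers z = L := Subgroup.eq_of_le_of_card_ge
    (Subgroup.zpowers_le.2 ((hL z).2 (hinv z hz2))) (by
      rw [Nat.card_zpowers, hz]; exact Nat.le_of_dvd two_pos hL2)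
  have huniq : ∀ t ∈ L, t ≠ 1 → t = z := by
    intro t ht ht1
    rw [← hLz, mem_zpowers_iff_mem_range_orderOf, hz] at ht
    obtain ⟨i, hi, rfl⟩ := Finset.mem_image.1 ht
    have : i < 2 := Finset.mem_range.1 hi
    interval_cases i
    · simp at ht1
    · simp
  have hzc : ∀ g : G, z * g = g * z := by
    intro g
    have := huniq (g * z * g⁻¹) ((inferInstance : L.Normal).conj_mem z
      ((hL z).2 (hinv z hz2)) g) (by simpa using hz1)
    exact (mul_inv_eq_iff_eq_mul.1 this).symm
  have hx2 : x⁻¹ • a ≠ a := fun h => hxa a (inv_smul_eq_iff.1 h).symm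
  obtain ⟨⟨y, hy⟩, hyb⟩ : x⁻¹ • a ∈ orbit (a : Subgroup G) (x • a) := by
    rw [horb _ le_rfl hale _ (hxa a)]; exact hx2
  change y • x • a = x⁻¹ • a at hyb
  have hya : y • a = a := hale hy
  have e1 : (x * y) • a = x • a := by rw [mul_smul, hya]
  have e2 : (x * y) • x • a = a := by rw [mul_smul, hyb, smul_inv_smul]
  have hg2 : (x * y) ^ 2 ∈ stabilizer G a ⊓ stabilizer G (x • a) :=
    ⟨by change _ • a = a; rw [pow_two, mul_smul, e1, e2],
      by change _ • x • a = x • a; rw [pow_two, mul_smul, e2, e1]⟩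
  have hg8 : (x * y) ^ 2 ^ 3 = 1 := by
    have := pow_card_eq_one' (x := (⟨_, hg2⟩ : ↥(stabilizer G a ⊓ stabilizer G (x • a))))
    rw [hH _ (hxa a)] at this
    have := congrArg Subtype.val this
    simpa [← pow_mul] using this
  have hg4 : ((x * y) ^ 2) ^ 2 = 1 := by
    obtain ⟨S, hS⟩ := exists_sylow_mem hg8
    obtain ⟨e⟩ := hQ S
    have := hq8' (e ⟨_, hS⟩)
    rw [← map_pow, map_eq_one_iff e e.injective] at this
    have := congrArg Subtype.val this
    simpa [← pow_mul] using this
  have hxy : (x * y) ^ 2 = z := huniq _ ((hL _).2 (hinv _ hg4)) fun h =>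
    hxa a (by rw [← e1, hinv _ h])
  have hy5 : y ^ 5 = 1 := by
    have := pow_card_eq_one' (x := (⟨y, hy⟩ : (a : Subgroup G)))
    rw [hP5] at this
    exact congrArg Subtype.val this
  obtain ⟨f, -, -, hf⟩ := sl25_exists_hom (hx ▸ pow_orderOf_eq_one x) hy5 hz2 (hzc x) (hzc y) hxy
  have hfi := sl25_injective f (hf ▸ hz1)
  exact ⟨(MulEquiv.ofBijective f ((Nat.bijective_iff_injective_and_card f).2
    ⟨hfi, by rw [card_SL25, hc]⟩)).symm⟩

end CfsgH3
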