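import Mathlib
import Cfsg.Agent.H3.Deg18
import Cfsg.Agent.H3.SL25Rec
import Cfsg.Agent.H7.Mazurov
import Cfsg.Agent.H8.PGroupBasic

/-!
# Groups with Sylow numbers `18, 136, 153`
-/

set_option autoImplicit false

namespace CfsgH3

open Cfsg MulAction
open scoped MatrixGroups Pointwise

section
variable {G Ω : Type*} [Group G] [MulAction G Ω] [Finite G] [Finite Ω]

theorem Zt.card_sylow_two (Z : Zt G Ω) (hΩ : Nat.card Ω = 18) {a b : Ω} (hb : b ≠ a)
    (hd : Nat.card (st2 G a b) = 8 ∨ Nat.card (st2 G a b) = 16) : Nat.card (Sylow 2 G) = 153 := by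
  have hK : Nat.card (Z.K a) = 17 := by have := Z.card_K hb; omega
  obtain ⟨-, hcyc⟩ := Z.st2_dvd_of_prime hb (by norm_num) hK
  have hG := Z.card_eq hb
  rw [hΩ, hK] at hG
  have hp : IsPGroup 2 (st2 G a b) := by
    rcases hd with h | h
    · exact IsPGroup.of_card (n := 3) h
    · exact IsPGroup.of_card (n := 4) h
  obtain ⟨S, hS⟩ := hp.exists_le_sylow
  have hSc : Nat.card S = 2 * Nat.card (st2 G a b) := by
    rw [Sylow.card_eq_multiplicity, hG]
    rcases hd with h | h <;> rw [h]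
    · rw [show 18 * (17 * 8) = 2 ^ 4 * 153 by norm_num,
        Nat.factorization_mul_of_coprime (by norm_num), Nat.Prime.factorization_pow Nat.prime_two]
      simp [Nat.factorization_eq_zero_of_not_dvd]
    · rw [show 18 * (17 * 16) = 2 ^ 5 * 153 by norm_num,
        Nat.factorization_mul_of_coprime (by norm_num), Nat.Prime.factorization_pow Nat.prime_two]
      simp [Nat.factorization_eq_zero_of_not_dvd]
  have hd0 : 0 < Nat.card (st2 G a b) := Nat.card_pos
  have hsq : ∀ g ∈ S, g ^ 2 ∈ st2 G a b := by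
    intro g hg
    have h1 : ((st2 G a b).subgroupOf S).index = 2 := by
      have h2 := ((st2 G a b).subgroupOf S).index_mul_card
      rw [Nat.card_congr (Subgroup.subgroupOfEquivOfLe hS).toEquiv, hSc] at h2
      exact Nat.eq_of_mul_eq_mul_right hd0 h2
    exact Subgroup.sq_mem_of_index_two h1 ⟨g, hg⟩
  obtain ⟨h, hh⟩ := hcyc.exists_ofOrder_eq_natCard
  have hh2 : (h : G) ^ 2 ≠ 1 := by
    intro e
    have h1 : orderOf h ∣ 2 := orderOf_dvd_of_pow_eq_one (Subtype.ext e)
    have := Nat.le_of_dvd two_pos h1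
    omega
  have hN : IsPGroup 2 (Subgroup.normalizer (S : Set G)) := by
    rintro ⟨r, hr⟩
    have h1 : r * h ^ 2 * r⁻¹ ∈ st2 G a b := by
      rw [← conj_pow]
      exact hsq _ ((Subgroup.mem_normalizer_iff.1 hr _).1 (hS h.2))
    have h2 : r * h ^ 2 * r⁻¹ ≠ 1 := by simpa using hh2
    have h3 := Z.fix_cases hb.symm h1 h2 (c := r • a) (by
      rw [mul_smul, inv_smul_smul, mul_smul, (pow_mem h.2 2).1])
    have h4 := Z.fix_cases hb.symm h1 h2 (c := r • b) (by
      rw [mul_smul, inv_smul_smul, mul_smul, (pow_mem h.2 2).2])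
    have h5 : r • a ≠ r • b := by simpa using hb.symm
    have h6 : r ^ 2 ∈ st2 G a b := by
      rw [mem_st2, sq, mul_smul, mul_smul]
      rcases h3 with h3 | h3 <;> rcases h4 with h4 | h4
      · exact absurd (h3.trans h4.symm) h5
      · simp [h3, h4]
      · simp [h3, h4]
      · exact absurd (h3.trans h4.symm) h5
    obtain ⟨k, hk⟩ := hp ⟨_, h6⟩
    refine ⟨k + 1, Subtype.ext ?_⟩
    have := congrArg Subtype.val hk
    simp only [SubmonoidClass.mk_pow, OneMemClass.coe_one] at this ⊢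
    rw [pow_succ', pow_mul, this]
  rw [S.card_eq_index_normalizer, S.is_maximal' hN Subgroup.le_normalizer]
  have h1 := (S : Subgroup G).index_mul_card
  rw [hSc, hG] at h1
  exact Nat.eq_of_mul_eq_mul_right hd0 (by linarith)

theorem Zt.card_sylow_three (Z : Zt G Ω) (hΩ : Nat.card Ω = 18) {a b : Ω} (hb : b ≠ a)
    (hd : Nat.card (st2 G a b) = 8 ∨ Nat.card (st2 G a b) = 16) {x : G} (hx : orderOf x = 9) :
    136 ≤ Nat.card (Sylow 3 G) := by
  have : Fact (Nat.Prime 3) := ⟨Nat.prime_three⟩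
  have hK : Nat.card (Z.K a) = 17 := by have := Z.card_K hb; omega
  have hG := Z.card_eq hb
  have hst := Z.card_stabilizer hb
  rw [hΩ, hK] at hG
  rw [hK] at hst
  let R : Sylow 3 G := Sylow.ofCard (Subgroup.zpowers x) (by
    rw [Nat.card_zpowers, hx, hG]
    rcases hd with h | h <;> rw [h]
    · rw [show 18 * (17 * 8) = 3 ^ 2 * 272 by norm_num,
        Nat.factorization_mul_of_coprime (by norm_num), Nat.Prime.factorization_pow Nat.prime_three]
      simp [Nat.factorization_eq_zero_of_not_dvd]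
    · rw [show 18 * (17 * 16) = 3 ^ 2 * 544 by norm_num,
        Nat.factorization_mul_of_coprime (by norm_num), Nat.Prime.factorization_pow Nat.prime_three]
      simp [Nat.factorization_eq_zero_of_not_dvd])
  have hfix : ∀ y : G, orderOf y = 9 → y • a ≠ a := fun y hy h => by
    have h1 := Subgroup.orderOf_dvd_natCard (stabilizer G a) h
    rw [hy, hst] at h1
    rcases hd with h | h <;> rw [h] at h1 <;> omega
  have hx2 : orderOf (x ^ 2) = 9 := by rw [orderOf_pow' _ two_ne_zero, hx]; rfl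
  set N := Subgroup.normalizer (Subgroup.zpowers x : Set G) with hN
  let φ : ↥(N ⊓ stabilizer G a) →* MulAut (Subgroup.zpowers x) :=
    (Subgroup.zpowers x).normalizerMonoidHom.comp (Subgroup.inclusion inf_le_left)
  have hφ : Function.Injective φ := (injective_iff_map_eq_one _).2 fun t ht => by
    have h1 := congrArg Subtype.val (DFunLike.congr_fun ht ⟨x, Subgroup.mem_zpowers x⟩)
    have h2 : (t : G) * x = x * t := mul_inv_eq_iff_eq_mul.1 h1
    have h3 : (t : G) • a = a := t.2.2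
    refine Subtype.ext (Z.three t a (x • a) (x • x • a) (hfix x hx).symm ?_ ?_ h3 ?_ ?_)
    · simpa using (hfix x hx).symm
    · rw [← mul_smul, ← sq]; exact (hfix _ hx2).symm
    · rw [← mul_smul, h2, mul_smul, h3]
    · rw [← mul_smul, h2, mul_smul, ← mul_smul _ x a, h2, mul_smul, h3]
  have h1 := Subgroup.card_dvd_of_injective φ hφ
  rw [IsCyclic.card_mulAut, Nat.card_zpowers, hx, show Nat.totient 9 = 6 by decide] at h1
  have h2 := Subgroup.card_dvd_of_le (inf_le_right : N ⊓ stabilizer G a ≤ _)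
  rw [hst] at h2
  have h3 : Nat.card ↥(N ⊓ stabilizer G a) ≤ 2 := by
    have h4 := Nat.le_of_dvd (by norm_num) h1
    generalize Nat.card ↥(N ⊓ stabilizer G a) = m at h1 h2 h4
    rcases hd with h | h <;> rw [h] at h2 <;> interval_cases m <;> omega
  have h4 := card_orbit_subgroup N a
  have h5 : (orbit N a).ncard ≤ 18 := by
    rw [← hΩ, ← Set.ncard_univ]; exact Set.ncard_le_ncard (Set.subset_univ _)
  have h6 : Nat.card N ≤ 36 := by nlinarith
  have h7 : Nat.card (Sylow 3 G) = N.index := R.card_eq_index_normalizer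
  have h8 := N.index_mul_card
  have h9 := card_sylow_modEq_one 3 G
  have h10 : Nat.card (Subgroup.zpowers x) ∣ Nat.card N :=
    Subgroup.card_dvd_of_le Subgroup.le_normalizer
  rw [Nat.card_zpowers, hx] at h10
  obtain ⟨m, hm⟩ := h10
  rw [h7] at h9 ⊢
  rw [hG, hm] at h8
  have h11 : m ≤ 4 := by omega
  unfold Nat.ModEq at h9
  rcases hd with h | h <;> rw [h] at h8 <;> interval_cases m <;> omega

end

variable {G : Type*} [Group G] [Finite G]

theorem zt_sylow {p : ℕ} [hp : Fact p.Prime] (h : Nat.card (Sylow p G) = p + 1) :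
    Zt (toPermHom G (Sylow p G)).range (Sylow p G) := by
  classical
  set π := (toPermHom G (Sylow p G)).rangeRestrict with hπ
  have hs : ∀ (g : G) (c : Sylow p G), π g • c = g • c := fun _ _ => rfl
  have hsurj : Function.Surjective π := MonoidHom.rangeRestrict_surjective _
  have hmove : ∀ a b : Sylow p G, b ≠ a → ∃ x ∈ a, x • b ≠ b := by
    intro a b hb
    by_contra hcon
    push Not at hcon
    have h1 : b ∈ fixedPoints (a : Subgroup G) (Sylow p G) := fun x => hcon x x.2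
    rw [a.2.sylow_mem_fixedPoints_iff] at h1
    exact hb (Sylow.ext (a.is_maximal' b.2 h1))
  have hfix : ∀ (a : Sylow p G), ∀ x ∈ a, x • a = a := fun a x hx =>
    Sylow.smul_eq_iff_mem_normalizer.2 (Subgroup.le_normalizer hx)
  have horb : ∀ a b : Sylow p G, b ≠ a → ∀ x ∈ a, x • b ≠ b →
      ∀ c, c ≠ a → ∃ k : ℕ, x ^ k • b = c := by
    intro a b hb x hx hxb c hc
    have h1 : IsPGroup p (Subgroup.zpowers x) := a.2.to_le (Subgroup.zpowers_le.2 hx)
    obtain ⟨n, hn⟩ := h1.card_orbit b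
    have h2 : orbit (Subgroup.zpowers x) b ⊆ {a}ᶜ := by
      rintro _ ⟨y, rfl⟩ e
      have h3 : (y : G) • b = (y : G) • a := by
        rw [hfix a y (Subgroup.zpowers_le.2 hx y.2)]; exact e
      exact hb (smul_left_cancel _ h3)
    have h3 : ({a}ᶜ : Set (Sylow p G)).ncard = p := by
      have := Set.ncard_add_ncard_compl ({a} : Set (Sylow p G))
      rw [Set.ncard_singleton, h] at this
      omega
    have h4 : n ≠ 0 := by
      rintro rfl
      rw [pow_zero, Nat.card_eq_one_iff_unique] at hn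
      exact hxb (congrArg Subtype.val (hn.1.elim ⟨_, mem_orbit b ⟨x, Subgroup.mem_zpowers x⟩⟩
        ⟨_, mem_orbit_self b⟩))
    have h5 : orbit (Subgroup.zpowers x) b = {a}ᶜ := Set.eq_of_subset_of_ncard_le h2 (by
      rw [h3]
      change p ≤ Nat.card _
      rw [hn]
      exact Nat.le_self_pow h4 p)
    have h6 : c ∈ orbit (Subgroup.zpowers x) b := h5 ▸ hc
    obtain ⟨⟨y, hy⟩, e⟩ := h6
    obtain ⟨k, rfl⟩ := (mem_powers_iff_mem_zpowers.2 hy : y ∈ Submonoid.powers x)
    exact ⟨k, e⟩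
  constructor
  · intro a b c d hab hcd
    obtain ⟨g, rfl⟩ := exists_smul_eq G a c
    obtain ⟨x, hx, hxb⟩ := hmove a b hab.symm
    obtain ⟨k, hk⟩ := horb a b hab.symm x hx hxb (g⁻¹ • d) (by
      rw [Ne, inv_smul_eq_iff]; exact hcd.symm)
    exact ⟨π (g * x ^ k), by rw [hs, mul_smul, hfix a _ (pow_mem hx k)],
      by rw [hs, mul_smul, hk, smul_inv_smul]⟩
  · intro g a b c hab hbc hac h1 h2 h3
    obtain ⟨g, rfl⟩ := hsurj g
    rw [hs] at h1 h2 h3
    obtain ⟨x, hx, hxb⟩ := hmove a b hab.symm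
    obtain ⟨k, hk⟩ := horb a b hab.symm x hx hxb c hac.symm
    have hy : x ^ k • b ≠ b := by rw [hk]; exact hbc.symm
    have hya : x ^ k ∈ a := pow_mem hx k
    generalize x ^ k = y at hk hy hya
    have hw : y⁻¹ * (g * y * g⁻¹) ∈ a :=
      mul_mem (inv_mem hya) ((Subgroup.mem_normalizer_iff.1
        (Sylow.smul_eq_iff_mem_normalizer.1 h1) y).1 hya)
    have hwb : (y⁻¹ * (g * y * g⁻¹)) • b = b := by
      rw [mul_smul, mul_smul, mul_smul, inv_smul_eq_iff.2 h2.symm, hk, h3, ← hk, inv_smul_smul]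
    have hw' : ∀ e : Sylow p G, (y⁻¹ * (g * y * g⁻¹)) • e = e := by
      intro e
      by_cases he : e = a
      · rw [he, hfix a _ hw]
      by_contra hcon
      obtain ⟨j, hj⟩ := horb a e he _ hw hcon b hab.symm
      have h4 : (y⁻¹ * (g * y * g⁻¹)) ^ j • b = b := (pow_mem (show _ ∈ stabilizer G b from hwb) j)
      rw [← h4, smul_left_cancel_iff] at hj
      exact hcon (hj ▸ hwb)
    have h4 : ∀ j : ℕ, g • y ^ j • b = y ^ j • b := by
      intro j
      induction j with
      | zero => simpa using h2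
      | succ j ih =>
        have h5 := hw' (y ^ j • b)
        rw [mul_smul, inv_smul_eq_iff, mul_smul, mul_smul, inv_smul_eq_iff.2 ih.symm] at h5
        rw [pow_succ', mul_smul, h5]
    refine Subtype.ext (Equiv.ext fun e => ?_)
    change g • e = e
    by_cases he : e = a
    · rw [he, h1]
    · obtain ⟨j, rfl⟩ := horb a b hab.symm y hya hy e he
      exact h4 j

theorem le_normalizer_of_card_le {X : Type*} [Group X] (π : G →* X) (hπ : Function.Surjective π)
    {p : ℕ} [Fact p.Prime] (h : Nat.card (Sylow p G) ≤ Nat.card (Sylow p X)) (S : Sylow p G)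
    {k : G} (hk : π k = 1) : k • S = S := by
  have h1 := bijective_of_surjective_of_card_le (Sylow.mapSurjective_surjective hπ p) h
  apply h1.1
  apply Sylow.ext
  rw [Sylow.coe_mapSurjective, Sylow.coe_mapSurjective]
  ext x
  constructor
  · rintro ⟨_, ⟨y, hy, rfl⟩, rfl⟩
    exact ⟨y, hy, by simp [hk]⟩
  · rintro ⟨y, hy, rfl⟩
    exact ⟨_, ⟨y, hy, rfl⟩, by simp [hk]⟩

theorem sylow_le_normalizer {p q : ℕ} [hp : Fact p.Prime] [Fact q.Prime] (P : Sylow q G)
    (U : Sylow p G) (hU : ∀ u ∈ U, u • P = P) (hc : Nat.card (Sylow p G) < q ^ 2)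
    (hq : ¬ q ≡ 1 [MOD p]) : ¬ q ∣ Nat.card (Sylow p G) := by
  let O : SubMulAction (U : Subgroup G) (Sylow p G) :=
    ⟨orbit (P : Subgroup G) U, by
      rintro u _ ⟨x, rfl⟩
      refine ⟨⟨u * x * (u : G)⁻¹, (Subgroup.mem_normalizer_iff.1
        (Sylow.smul_eq_iff_mem_normalizer.1 (hU u u.2)) x).1 x.2⟩, ?_⟩
      change ((u : G) * x * (u : G)⁻¹) • U = (u : G) • (x : G) • U
      rw [mul_smul, mul_smul, Sylow.smul_eq_iff_mem_normalizer.2
        (Subgroup.le_normalizer (inv_mem u.2))]⟩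
  have h1 := U.2.card_modEq_card_fixedPoints O
  have h2 : Nat.card (fixedPoints (U : Subgroup G) O) = 1 := by
    rw [Nat.card_eq_one_iff_exists]
    refine ⟨⟨⟨U, mem_orbit_self U⟩, fun u => Subtype.ext
      (Sylow.smul_eq_iff_mem_normalizer.2 (Subgroup.le_normalizer u.2))⟩, fun V => ?_⟩
    have h3 : V.1.1 ∈ fixedPoints (U : Subgroup G) (Sylow p G) := fun u =>
      congrArg Subtype.val (V.2 u)
    rw [U.2.sylow_mem_fixedPoints_iff] at h3
    exact Subtype.ext (Subtype.ext (Sylow.ext (U.is_maximal' V.1.1.2 h3)))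
  obtain ⟨n, hn⟩ := P.2.card_orbit U
  have h3 : Nat.card O = q ^ n := hn
  have h4 : Nat.card O ≤ Nat.card (Sylow p G) :=
    Nat.card_le_card_of_injective _ Subtype.val_injective
  rw [h2, h3] at h1
  have h5 : n < 2 := (Nat.pow_lt_pow_iff_right (Fact.out : q.Prime).one_lt).1 (by omega)
  have h6 : n = 0 := by
    interval_cases n
    · rfl
    · exact absurd (by simpa using h1) hq
  rw [h6, pow_zero, Nat.card_eq_one_iff_unique] at hn
  have h7 : (P : Subgroup G) ≤ Subgroup.normalizer (U : Set G) := fun x hx =>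
    Sylow.smul_eq_iff_mem_normalizer.1 (congrArg Subtype.val
      (hn.1.elim ⟨_, mem_orbit U ⟨x, hx⟩⟩ ⟨_, mem_orbit_self U⟩))
  rw [U.card_eq_index_normalizer]
  exact fun h => P.not_dvd_index (h.trans (Subgroup.index_dvd_of_le h7))

theorem eq_bot_of_normalizes_sylow (hZ : Subgroup.center G = ⊥) (K : Subgroup G) [hK : K.Normal]
    (h : ∀ (p : ℕ), p.Prime → p ∣ Nat.card G → ∀ S : Sylow p G, ∀ k ∈ K, k • S = S) : K = ⊥ := by
  by_contra hb
  have : Nontrivial K := (Subgroup.nontrivial_iff_ne_bot K).2 hb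
  obtain ⟨p, hp, hpK⟩ := Nat.exists_prime_and_dvd (Finite.one_lt_card (α := K)).ne'
  have := Fact.mk hp
  have hpG := hpK.trans K.card_subgroup_dvd_card
  obtain ⟨y, hy⟩ := exists_prime_orderOf_dvd_card' p hpK
  obtain ⟨T, hT⟩ := exists_sylow_mem (G := G) (p := p) (n := 1) (g := y) (by
    rw [pow_one, ← hy, ← Subgroup.coe_pow, pow_orderOf_eq_one]; rfl)
  obtain ⟨z, hzK, hz1, hz⟩ := CfsgH8.exists_mem_center_of_normal T.2 (K.subgroupOf T) (by
    intro e
    have h1 : (⟨y, hT⟩ : T) ∈ K.subgroupOf T := y.2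
    rw [e, Subgroup.mem_bot] at h1
    rw [show y = 1 from Subtype.ext (Subtype.mk.inj h1), orderOf_one] at hy
    exact hp.one_lt.ne hy)
  have hzK' : (z : G) ∈ K := hzK
  have h1 : Subgroup.centralizer {(z : G)} = ⊤ := CfsgH7.eq_top_of_sylow_le _ fun q hq hqG => by
    have := Fact.mk hq
    by_cases hpq : q = p
    · subst hpq
      exact ⟨T, fun t ht => Subgroup.mem_centralizer_singleton_iff.2
        (congrArg Subtype.val (Subgroup.mem_center_iff.1 hz ⟨t, ht⟩))⟩
    obtain ⟨S⟩ : Nonempty (Sylow q G) := inferInstance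
    refine ⟨S, fun t ht => Subgroup.mem_centralizer_singleton_iff.2 ?_⟩
    have h2 : t * z * t⁻¹ ∈ T := by
      have h3 : IsPGroup p (Subgroup.zpowers (t * z * t⁻¹)) := by
        obtain ⟨n, hn⟩ := IsPGroup.iff_orderOf.1 T.2 z
        refine IsPGroup.of_card (n := n) ?_
        rw [Nat.card_zpowers, ← hn, ← Subgroup.orderOf_coe]
        simpa using (MulAut.conj t).orderOf_eq (z : G)
      have h4 := h3.inf_normalizer_sylow T
      have h5 : t * z * t⁻¹ ∈ Subgroup.zpowers (t * z * t⁻¹) ⊓ Subgroup.normalizer (T : Set G) :=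
        ⟨Subgroup.mem_zpowers _,
          Sylow.smul_eq_iff_mem_normalizer.1 (h p hp hpG T _ (hK.conj_mem _ hzK' t))⟩
      rw [h4] at h5
      exact h5.2
    have h3 : t * z * t⁻¹ * (z : G)⁻¹ ∈ (T : Subgroup G) ⊓ S :=
      Subgroup.mem_inf.2 ⟨mul_mem h2 (inv_mem z.2), by
      have h4 := (Subgroup.mem_normalizer_iff.1
        (Sylow.smul_eq_iff_mem_normalizer.1 (h q hq hqG S _ hzK')) t⁻¹).1 (inv_mem ht)
      have h5 := mul_mem ht h4
      simpa only [mul_assoc] using h5⟩
    rw [disjoint_iff.1 (IsPGroup.disjoint_of_ne p q (Ne.symm hpq) _ _ T.2 S.2), Subgroup.mem_bot,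
      mul_inv_eq_one, mul_inv_eq_iff_eq_mul] at h3
    exact h3
  apply hz1
  have h2 : (z : G) ∈ Subgroup.center G := Subgroup.mem_center_iff.2 fun g =>
    Subgroup.mem_centralizer_singleton_iff.1 (h1 ▸ Subgroup.mem_top g)
  rw [hZ] at h2
  exact Subtype.ext h2

theorem sylow_numbers_seventeen (hZ : Subgroup.center G = ⊥)
    (hNS : {c : ℕ | ∃ r : ℕ, r.Prime ∧ r ∣ Nat.card G ∧ c = Nat.card (Sylow r G)} =
      ({18, 136, 153} : Set ℕ)) {F : Type*} [Field F] [Fintype F] (hF : Fintype.card F = 17) :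
    Nonempty (G ≃* PSL(2, F)) ∨
      Nonempty (G ≃* GL (Fin 2) F ⧸ Subgroup.center (GL (Fin 2) F)) := by
  have hn : ∀ r : ℕ, r.Prime → r ∣ Nat.card G → (Nat.card (Sylow r G) = 18 ∧ r ∣ 17) ∨
      (Nat.card (Sylow r G) = 136 ∧ r ∣ 135) ∨ (Nat.card (Sylow r G) = 153 ∧ r ∣ 152) := by
    intro r hr hd
    have := Fact.mk hr
    have h1 : Nat.card (Sylow r G) ∈ ({18, 136, 153} : Set ℕ) := hNS ▸ ⟨r, hr, hd, rfl⟩
    have h2 := (Nat.modEq_iff_dvd' Nat.card_pos).1 (card_sylow_modEq_one r G).symm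
    rcases h1 with h | h | h <;> rw [h] at h2 ⊢ <;> simp [h2]
  have : Fact (Nat.Prime 17) := ⟨by norm_num⟩
  have : Fact (Nat.Prime 3) := ⟨Nat.prime_three⟩
  have h17 : Nat.card (Sylow 17 G) = 18 := by
    obtain ⟨r, hr, hd, h⟩ : 18 ∈ {c : ℕ | ∃ r : ℕ, r.Prime ∧ r ∣ Nat.card G ∧
      c = Nat.card (Sylow r G)} := by rw [hNS]; simp
    have h1 : r ∣ 17 := by rcases hn r hr hd with h2 | h2 | h2 <;> omega
    obtain rfl := (Nat.prime_dvd_prime_iff_eq hr (by norm_num)).1 h1
    exact h.symm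
  have Z := zt_sylow (G := G) (p := 17) h17
  set π := (toPermHom G (Sylow 17 G)).rangeRestrict with hπ
  have hsurj : Function.Surjective π := MonoidHom.rangeRestrict_surjective _
  have : Nontrivial (Sylow 17 G) := Finite.one_lt_card_iff_nontrivial.1 (by omega)
  obtain ⟨b, a, hb⟩ := exists_pair_ne (Sylow 17 G)
  obtain ⟨hd, ⟨x, hx⟩, hiso⟩ := Z.eighteen h17 hb F hF
  have h2 := Z.card_sylow_two h17 hb hd
  have h3 := Z.card_sylow_three h17 hb hd hx
  have hK : Nat.card (Z.K a) = 17 := by have := Z.card_K hb; omega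
  have hX := Z.card_eq hb
  rw [h17, hK] at hX
  have hker : ∀ k, π k = 1 → ∀ S : Sylow 17 G, k • S = S := fun k hk S =>
    Equiv.congr_fun (congrArg Subtype.val hk) S
  have hp : ∀ p : ℕ, p.Prime → ¬ p ∣ Nat.card (toPermHom G (Sylow 17 G)).range →
      Nat.card (Sylow p G) < 17 ^ 2 → ¬ 17 ≡ 1 [MOD p] → ¬ 17 ∣ Nat.card (Sylow p G) := by
    intro p hp h4 h5 h6
    have := Fact.mk hp
    obtain ⟨U⟩ : Nonempty (Sylow p G) := inferInstance
    refine sylow_le_normalizer a U (fun u hu => hker u ?_ a) h5 h6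
    obtain ⟨n, hn⟩ := U.2 ⟨u, hu⟩
    have h7 : (π u) ^ p ^ n = 1 := by
      rw [← map_pow, show u ^ p ^ n = 1 from congrArg Subtype.val hn, map_one]
    exact orderOf_eq_one_iff.1 (Nat.eq_one_of_dvd_coprimes
      (((Nat.Prime.coprime_iff_not_dvd hp).2 h4).pow_left n) (orderOf_dvd_of_pow_eq_one h7)
      (orderOf_dvd_natCard _))
  have hbot : π.ker = ⊥ := eq_bot_of_normalizes_sylow hZ _ fun p hp' hpG S k hk => by
    have := Fact.mk hp'
    rcases hn p hp' hpG with ⟨h4, h5⟩ | ⟨h4, h5⟩ | ⟨h4, h5⟩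
    · obtain rfl := (Nat.prime_dvd_prime_iff_eq hp' (by norm_num)).1 h5
      exact hker k hk S
    · rcases (hp'.dvd_mul (m := 3 ^ 3) (n := 5)).1 h5 with h6 | h6
      · obtain rfl := (Nat.prime_dvd_prime_iff_eq hp' Nat.prime_three).1 (hp'.dvd_of_dvd_pow h6)
        exact le_normalizer_of_card_le π hsurj (h4 ▸ h3) S hk
      · obtain rfl := (Nat.prime_dvd_prime_iff_eq hp' Nat.prime_five).1 h6
        exact absurd (by rw [h4]; norm_num) (hp 5 hp' (by
          rw [hX]; rcases hd with h | h <;> rw [h] <;> norm_num) (by omega) (by decide))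
    · rcases (hp'.dvd_mul (m := 2 ^ 3) (n := 19)).1 h5 with h6 | h6
      · obtain rfl := (Nat.prime_dvd_prime_iff_eq hp' Nat.prime_two).1 (hp'.dvd_of_dvd_pow h6)
        exact le_normalizer_of_card_le π hsurj (h4.trans h2.symm).le S hk
      · obtain rfl := (Nat.prime_dvd_prime_iff_eq hp' (by norm_num)).1 h6
        exact absurd (by rw [h4]; norm_num) (hp 19 hp' (by
          rw [hX]; rcases hd with h | h <;> rw [h] <;> norm_num) (by omega) (by decide))
  have e := MulEquiv.ofBijective π ⟨(MonoidHom.ker_eq_bot_iff π).1 hbot, hsurj⟩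
  exact hiso.imp (fun h => h.map e.trans) fun h => h.map e.trans

end CfsgH3
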